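import Mathlib

/-! Rank one data in characteristic two, and the configuration of a doubly transitive group whose point stabilisers
have such a normal subgroup. -/

set_option autoImplicit false

namespace Cfsg.Agent.H5.TA

/-- Data of `L₂(q)` (`i = 1`), `Sz(q)` (`i = 2`) or `U₃(q)` (`i = 3`), `q = 2 ^ m`, on a subgroup `N`. -/
structure R0 {G : Type*} [Group G] (N : Subgroup G) (F K : Type) [Field F] [Field K] (m i : ℕ) where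
  S : Subgroup G
  T : Subgroup G
  w : G
  ζ : F → G
  ω : G → K
  ψ : G → K
  ν : K → F
  ι : F →+* K
  θ : K →+* K
  cardF : Nat.card F = 2 ^ m
  hm : 2 ≤ m
  finK : Finite K
  S_le : S ≤ N
  T_le : T ≤ N
  w_mem : w ∈ N
  ζ_add : ∀ x y, ζ (x + y) = ζ x * ζ y
  ζ_inj : Function.Injective ζ
  ζ_mem : ∀ x, ζ x ∈ S
  ζ_comm : ∀ x, ∀ s ∈ S, ζ x * s = s * ζ x
  ω_mul : ∀ s ∈ S, ∀ s' ∈ S, ω (s * s') = ω s + ω s'
  ω_ker : ∀ s ∈ S, ω s = 0 ↔ ∃ x, s = ζ x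
  sq : ∀ s ∈ S, s * s = ζ (ν (ω s))
  hν : ∀ a, ι (ν a) = a * θ a
  T_norm : ∀ t ∈ T, ∀ s ∈ S, t * s * t⁻¹ ∈ S
  ω_conj : ∀ t ∈ T, ∀ s ∈ S, ω (t * s * t⁻¹) = ψ t * ω s
  ζ_conj : ∀ t ∈ T, ∀ x, t * ζ x * t⁻¹ = ζ (ν (ψ t) * x)
  ψ_mul : ∀ t ∈ T, ∀ t' ∈ T, ψ (t * t') = ψ t * ψ t'
  ψ_ne : ∀ t ∈ T, ψ t ≠ 0
  ψ_inj : ∀ t ∈ T, ψ t = 1 → t = 1
  χ_surj : ∀ c, c ≠ 0 → ∃ t ∈ T, ν (ψ t) = c
  w_norm : ∀ t ∈ T, w * t * w⁻¹ ∈ T
  bruhat : ∀ g ∈ N, (∃ s ∈ S, ∃ t ∈ T, g = s * t) ∨ ∃ s ∈ S, ∃ s' ∈ S, ∃ t ∈ T, g = s * w * (s' * t)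
  ti : ∀ s ∈ S, ∀ s' ∈ S, ∀ t ∈ T, w * s * w⁻¹ = s' * t → s = 1
  gen : ∀ M : Subgroup G, S ≤ M → (∀ s ∈ S, w * s * w⁻¹ ∈ M) → N ≤ M
  typ : (i = 1 ∧ (∀ s ∈ S, ω s = 0) ∧ Function.Surjective ι ∧ ∀ a, θ a = a) ∨
    (i = 2 ∧ Odd m ∧ (∀ a, ∃ s ∈ S, ω s = a) ∧ Function.Surjective ι ∧ ∀ a, θ (θ a) = a ^ 2) ∨
    (i = 3 ∧ (∀ a, ∃ s ∈ S, ω s = a) ∧ Nat.card K = (2 ^ m) ^ 2 ∧ (∀ a, θ a = a ^ 2 ^ m) ∧
      ∃ t ∈ T, ψ t ≠ 1 ∧ ν (ψ t) = 1)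

variable {G G' : Type*} [Group G] [Group G'] {N : Subgroup G} {F K : Type} [Field F] [Field K] {m i : ℕ}

/-- Transport along an injective homomorphism. -/
noncomputable def R0.map (R : R0 N F K m i) (f : G →* G') (hf : Function.Injective f) : R0 (N.map f) F K m i :=
  have e : ∀ x, Function.invFun f (f x) = x := Function.leftInverse_invFun hf
  { S := R.S.map f
    T := R.T.map f
    w := f R.w
    ζ := fun x => f (R.ζ x)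
    ω := fun g => R.ω (Function.invFun f g)
    ψ := fun g => R.ψ (Function.invFun f g)
    ν := R.ν
    ι := R.ι
    θ := R.θ
    cardF := R.cardF
    hm := R.hm
    finK := R.finK
    S_le := Subgroup.map_mono R.S_le
    T_le := Subgroup.map_mono R.T_le
    w_mem := ⟨_, R.w_mem, rfl⟩
    ζ_add := fun x y => by rw [R.ζ_add, map_mul]
    ζ_inj := hf.comp R.ζ_inj
    ζ_mem := fun x => ⟨_, R.ζ_mem x, rfl⟩
    ζ_comm := by
      rintro x _ ⟨s, hs, rfl⟩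
      rw [← map_mul, R.ζ_comm x s hs, map_mul]
    ω_mul := by
      rintro _ ⟨s, hs, rfl⟩ _ ⟨s', hs', rfl⟩
      rw [← map_mul, e, e, e, R.ω_mul s hs s' hs']
    ω_ker := by
      rintro _ ⟨s, hs, rfl⟩
      rw [e, R.ω_ker s hs]
      exact exists_congr fun x => hf.eq_iff.symm
    sq := by
      rintro _ ⟨s, hs, rfl⟩
      rw [← map_mul, e, R.sq s hs]
    hν := R.hν
    T_norm := by
      rintro _ ⟨t, ht, rfl⟩ _ ⟨s, hs, rfl⟩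
      exact ⟨_, R.T_norm t ht s hs, by simp⟩
    ω_conj := by
      rintro _ ⟨t, ht, rfl⟩ _ ⟨s, hs, rfl⟩
      rw [← map_inv, ← map_mul, ← map_mul, e, e, e, R.ω_conj t ht s hs]
    ζ_conj := by
      rintro _ ⟨t, ht, rfl⟩ x
      rw [← map_inv, ← map_mul, ← map_mul, e, R.ζ_conj t ht]
    ψ_mul := by
      rintro _ ⟨t, ht, rfl⟩ _ ⟨t', ht', rfl⟩
      rw [← map_mul, e, e, e, R.ψ_mul t ht t' ht']
    ψ_ne := by
      rintro _ ⟨t, ht, rfl⟩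
      rw [e]; exact R.ψ_ne t ht
    ψ_inj := by
      rintro _ ⟨t, ht, rfl⟩ h
      rw [e] at h
      rw [R.ψ_inj t ht h, map_one]
    χ_surj := fun c hc => by
      obtain ⟨t, ht, h⟩ := R.χ_surj c hc
      exact ⟨_, ⟨t, ht, rfl⟩, by rw [e, h]⟩
    w_norm := by
      rintro _ ⟨t, ht, rfl⟩
      exact ⟨_, R.w_norm t ht, by simp⟩
    bruhat := by
      rintro _ ⟨g, hg, rfl⟩
      rcases R.bruhat g hg with ⟨s, hs, t, ht, rfl⟩ | ⟨s, hs, s', hs', t, ht, rfl⟩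
      · exact Or.inl ⟨_, ⟨s, hs, rfl⟩, _, ⟨t, ht, rfl⟩, by simp⟩
      · exact Or.inr ⟨_, ⟨s, hs, rfl⟩, _, ⟨s', hs', rfl⟩, _, ⟨t, ht, rfl⟩, by simp⟩
    ti := by
      rintro _ ⟨s, hs, rfl⟩ _ ⟨s', hs', rfl⟩ _ ⟨t, ht, rfl⟩ h
      rw [R.ti s hs s' hs' t ht (hf (by simpa using h)), map_one]
    gen := fun M h1 h2 => Subgroup.map_le_iff_le_comap.2 (R.gen _ (Subgroup.map_le_iff_le_comap.1 h1)
      fun s hs => by simpa using h2 _ ⟨s, hs, rfl⟩)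
    typ := by
      have k : (∀ a, ∃ s ∈ R.S, R.ω s = a) → ∀ a, ∃ s ∈ R.S.map f, R.ω (Function.invFun f s) = a := fun h a => by
        obtain ⟨s, hs, h⟩ := h a
        exact ⟨_, ⟨s, hs, rfl⟩, by rw [e, h]⟩
      rcases R.typ with ⟨h1, h2, h3⟩ | ⟨h1, h2, h3, h4⟩ | ⟨h1, h2, h3, h4, t, ht, h5⟩
      · refine Or.inl ⟨h1, ?_, h3⟩
        rintro _ ⟨s, hs, rfl⟩
        rw [e, h2 s hs]
      · exact Or.inr (Or.inl ⟨h1, h2, k h3, h4⟩)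
      · exact Or.inr (Or.inr ⟨h1, k h2, h3, h4, _, ⟨t, ht, rfl⟩, by rwa [e]⟩) }

/-- Transport from an isomorphic group. -/
theorem R0.of_equiv {X : Type*} [Group X] (R : R0 (⊤ : Subgroup X) F K m i) (e : N ≃* X) :
    Nonempty (R0 N F K m i) := by
  have h : (⊤ : Subgroup X).map (N.subtype.comp e.symm.toMonoidHom) = N := by
    ext g
    constructor
    · rintro ⟨x, -, rfl⟩
      exact (e.symm x).2
    · exact fun hg => ⟨e ⟨g, hg⟩, trivial, by simp⟩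
  exact ⟨h ▸ R.map _ (N.subtype_injective.comp e.symm.injective)⟩

/-- A faithful doubly transitive action with an equivariant family of rank one subgroups of the stabilisers. -/
structure Cfg (G Ω : Type*) [Group G] [MulAction G Ω] (F K : Type) [Field F] [Field K] (m i : ℕ) where
  N : Ω → Subgroup G
  two : ∀ a b c d : Ω, a ≠ b → c ≠ d → ∃ g : G, g • a = c ∧ g • b = d
  faith : ∀ g : G, (∀ x : Ω, g • x = x) → g = 1
  fix : ∀ x, ∀ n ∈ N x, n • x = x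
  eqv : ∀ (g : G) x, ∀ n ∈ N x, g * n * g⁻¹ ∈ N (g • x)
  loc : ∀ x, Nonempty (R0 (N x) F K m i)

/-- The involutions of a subgroup. -/
def Iv (N : Subgroup G) (t : G) : Prop := t ∈ N ∧ t ≠ 1 ∧ t * t = 1

/-- A normal subgroup acting regularly. -/
def HasReg (G Ω : Type*) [Group G] [MulAction G Ω] : Prop :=
  ∃ R : Subgroup G, R.Normal ∧ (∀ x y : Ω, ∃ r ∈ R, r • x = y) ∧ ∀ x : Ω, ∀ r ∈ R, r • x = x → r = 1

end Cfsg.Agent.H5.TA
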