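import Cfsg.Agent.H5.TB1

/-! S2208, case IV.1. -/

set_option autoImplicit false
set_option linter.unusedSectionVars false

namespace Cfsg.Agent.H5.TA

open Subgroup MulAction

theorem odd_of_fix {α : Type*} [Finite α] (f : α → α) (hf : ∀ x, f (f x) = x) :
    Odd (Nat.card α) ↔ Odd (Nat.card {x // f x = x}) := by
  classical
  haveI := Fintype.ofFinite α
  have := Equiv.Perm.card_fixedPoints_modEq (p := 2) (n := 1) (f := f) (funext hf)
  rw [← Nat.card_eq_fintype_card, ← Nat.card_eq_fintype_card] at this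
  rw [Nat.odd_iff, Nat.odd_iff, this]
  rfl

variable {G : Type*} [Group G] {F K : Type} [Field F] [Field K] {m i : ℕ}
  [Finite G] {Ω : Type*} [Finite Ω] [MulAction G Ω] (C : Cfg G Ω F K m i)

theorem Cfg.exists_sw {a b : Ω} (hab : a ≠ b) : ∃ d, Sw C a b d := by
  obtain ⟨t, ht⟩ := C.exists_iv a
  obtain ⟨x, hx⟩ := C.exists_move ht.2.1
  obtain ⟨g, h1, h2⟩ := C.two x (t • x) a b hx.symm hab
  exact ⟨_, Sw.conj C ⟨⟨a, ht⟩, rfl⟩ h1 h2⟩

theorem card_iv_Z {N : Subgroup G} (R : R0 N F K m i) :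
    Nat.card {u // Iv N u ∧ Commute u (R.ζ 1)} = 2 ^ m - 1 := by
  rw [← R.cardF, ← Nat.card_units]
  symm
  refine Nat.card_congr (Equiv.ofBijective (fun x => ⟨R.ζ x, R.iv_ζ x.ne_zero, R.ζ_comm _ _ (R.ζ_mem 1)⟩) ⟨?_, ?_⟩)
  · exact fun x y e => Units.ext (R.ζ_inj (congrArg Subtype.val e))
  · rintro ⟨u, hu, h⟩
    obtain ⟨x, rfl⟩ := R.iv_mem_Z_of_comm hu (R.ζ_mem 1) (R.iv_ζ one_ne_zero).2.1 h
    exact ⟨Units.mk0 x (mt R.ζ_eq_one.2 hu.2.1), rfl⟩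

theorem pieceIV1 (hF : ∀ a b t, Iv (C.N a) t → t • b = b → t ∈ C.N b) {a b : Ω} {t : G} (hab : a ≠ b)
    (ht : Iv (C.N a) t) (htb : t ∈ C.N b) (hZ : ∀ u, Iv (C.N a) u → Commute u t → u • b = b)
    (hn : ∃ u, Iv (C.N a) u ∧ u ∈ C.N b ∧ ¬ Commute t u) : False := by
  have R0 := (C.loc a).some
  have cj : ∀ {g x y : G}, Commute (g * x * g⁻¹) (g * y * g⁻¹) ↔ Commute x y := fun {g x y} => by
    rw [Commute, SemiconjBy, conj_mul, conj_mul, mul_left_inj, mul_right_inj]; rfl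
  have P0 : ∀ v, Iv (C.N a) v → v ∈ C.N b → (∀ u, Iv (C.N a) u → Commute u v → u ∈ C.N b) ∧
      ∃ u, Iv (C.N a) u ∧ u ∈ C.N b ∧ ¬ Commute v u := fun v hv hvb => by
    by_cases k : Commute t v
    · obtain ⟨u, h1, h2, h3⟩ := hn
      exact ⟨fun u hu e => hF a b u hu (hZ u hu (R0.comm_trans hu hv ht e k.symm)),
        u, h1, h2, fun e => h3 (R0.comm_trans ht hv h1 k e)⟩
    refine ⟨fun u hu e => ?_, t, ht, htb, fun e => k e.symm⟩
    obtain ⟨j, e1⟩ := dih_odd ht.2.2 hv.2.2 (R0.odd_prod ht hv k)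
    have ga := pow_mem (mul_mem ht.1 hv.1) j
    have gb := pow_mem (mul_mem htb hvb) j
    generalize (t * v) ^ j = g at e1 ga gb
    have hu' := C.iv_conj (C.fix a _ (inv_mem ga)) hu
    have := hF a b _ hu' (hZ _ hu' (by rw [e1]; simpa using (cj (g := g⁻¹)).2 e))
    rwa [mul_mem_cancel_right (inv_mem (inv_mem gb)), mul_mem_cancel_left (inv_mem gb)] at this
  have P : ∀ x y v, x ≠ y → Iv (C.N x) v → v ∈ C.N y → (∀ u, Iv (C.N x) u → Commute u v → u ∈ C.N y) ∧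
      ∃ u, Iv (C.N x) u ∧ u ∈ C.N y ∧ ¬ Commute v u := fun x y v hxy hv hvy => by
    obtain ⟨g, rfl, rfl⟩ := C.two a b x y hab hxy
    obtain ⟨v, rfl⟩ := (MulAut.conj g).surjective v
    have iv : ∀ {u}, Iv (C.N (g • a)) (g * u * g⁻¹) → Iv (C.N a) u := fun hu => by
      simpa [mul_assoc] using C.iv_conj (inv_smul_smul g a) hu
    obtain ⟨h1, u, h2, h3, h4⟩ := P0 v (iv hv) (C.eqv_iff.1 hvy)
    refine ⟨fun u hu e => ?_, _, C.iv_conj rfl h2, C.eqv _ _ _ h3, mt cj.1 h4⟩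
    obtain ⟨u, rfl⟩ := (MulAut.conj g).surjective u
    exact C.eqv _ _ _ (h1 u (iv hu) (cj.1 e))
  have sq : ∀ {d : G}, d * d = 1 → ∀ x, d * (d * x * d⁻¹) * d⁻¹ = x := fun {d} hd x => by
    rw [inv_eq_of_mul_eq_one_right hd]; simp only [mul_assoc, hd, mul_one]; rw [← mul_assoc, hd, one_mul]
  obtain ⟨d, hd⟩ := C.exists_sw hab
  have odd : Odd (Nat.card {u // Iv (C.N a) u ∧ u ∈ C.N b}) := by
    rw [odd_of_fix (α := {u // Iv (C.N a) u ∧ u ∈ C.N b}) (fun u => ⟨t * u.1 * t⁻¹, C.iv_conj (C.fix a t ht.1) u.2.1, C.eqv' (C.fix b t htb) u.2.2⟩)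
      fun u => Subtype.ext (sq ht.2.2 _)]
    obtain ⟨R, rfl⟩ := C.exists_at ht
    have : Odd (2 ^ m - 1) := Nat.Even.sub_odd Nat.one_le_two_pow
      ((Nat.even_pow' (by have := R.hm; omega)).2 even_two) odd_one
    convert this using 1
    rw [← card_iv_Z R]
    exact Nat.card_congr ⟨fun u => ⟨u.1.1, u.1.2.1, (mul_inv_eq_iff_eq_mul.1 (congrArg Subtype.val u.2)).symm⟩,
      fun u => ⟨⟨u.1, u.2.1, (P0 _ ht htb).1 _ u.2.1 u.2.2⟩, Subtype.ext (mul_inv_eq_iff_eq_mul.2 u.2.2.symm)⟩,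
      fun _ => rfl, fun _ => rfl⟩
  obtain ⟨⟨z, hz, hzb⟩, e⟩ := odd_fix (α := {u // Iv (C.N a) u ∧ u ∈ C.N b})
    (fun u => ⟨d * u.1 * d⁻¹, u.2.1.conj (C.eqv' (hd.symm C).2 u.2.2), C.eqv' hd.2 u.2.1.1⟩)
    (fun u => Subtype.ext (sq hd.sq _)) odd
  have cm : Commute d z := mul_inv_eq_iff_eq_mul.1 (congrArg Subtype.val e)
  have inv : ∀ {g : G}, Commute g z → ∀ x : Ω, z • x = x → z • g • x = g • x := fun hg x hx => by
    rw [← mul_smul, ← hg.eq, mul_smul, hx]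
  have even : 2 ∣ Nat.card {x : Ω // z • x = x} := by
    by_contra k
    obtain ⟨⟨x, hx⟩, e⟩ := odd_fix (α := {x : Ω // z • x = x}) (fun x => ⟨d • x.1, inv cm _ x.2⟩)
      (fun x => Subtype.ext (by simp only; rw [← mul_smul, hd.sq, one_smul]))
      (Nat.not_even_iff_odd.1 (mt even_iff_two_dvd.1 k))
    have e : d • x = x := congrArg Subtype.val e
    obtain ⟨y, hy⟩ := hd.1
    have ne : x ≠ a := fun k => hab (by rw [← hd.2, ← k, e])
    exact hab ((C.fix a d ((P x a z ne ⟨hF a x z hz hx, hz.2⟩ hz.1).1 d ⟨hF y x d hy e, hy.2⟩ cm)).symm.trans hd.2)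
  obtain ⟨R, rfl⟩ := C.exists_at hz
  letI : MulAction R.S {x : Ω // R.ζ 1 • x = x} :=
    { smul := fun s x => ⟨(s : G) • x.1, inv (R.ζ_comm 1 s s.2).symm _ x.2⟩
      one_smul := fun x => Subtype.ext (one_smul G x.1)
      mul_smul := fun s s' x => Subtype.ext (mul_smul (s : G) s' x.1) }
  obtain ⟨⟨y, hy⟩, k, ne⟩ := R.isPGroup_S.exists_fixed_point_of_prime_dvd_card_of_fixed_point _ even
    (a := ⟨a, C.fix a _ hz.1⟩) fun s => Subtype.ext (C.fix a _ (R.S_le s.2))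
  have ne : a ≠ y := fun e => ne (Subtype.ext e)
  obtain ⟨u, h1, h2, h3⟩ := (P a y _ ne hz (hF a y _ hz hy)).2
  obtain ⟨n, hn, e⟩ := C.exists_move' ne
  exact e (R.G1 (M := stabilizer G y) (fun s hs => congrArg Subtype.val (k ⟨s, hs⟩)) (C.fix y u h2) (le_Nm h1.1)
    (fun e => h3 (R.ζ_comm 1 u (R.Z_le (R.iv_mem_Z h1 e)))) hn)

end Cfsg.Agent.H5.TA
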