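import Cfsg.Agent.H1.URc

/-! Rank 3 actions of unitary groups: irreducibility of the point stabiliser. -/

set_option autoImplicit false
set_option linter.unusedSectionVars false

namespace Cfsg.Agent.H5.UI

open Cfsg.Agent.H1 Cfsg.Agent.H1.UR
open Module H5 Matrix
open scoped Classical

variable {F : Type*} [Field F] {σ : F →+* F} {E : Type*} [AddCommGroup E] [Module F E]
  [FiniteDimensional F E] {B : Sesq σ E} (hB : IsEps B 1) [Fintype F] [Fintype E] {q : ℕ} (hU : UF σ q)
variable {X : Type*} [MulAction (SUb B) X] [Fintype X] {adj : X → X → Prop} {ω : X}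

include hB hU in
theorem exists_iso_pair {y : E} (y0 : y ≠ 0) (hy : B y y = 0) : ∃ u, B u u = 0 ∧ B u y = 1 := by
  obtain ⟨w, hw⟩ := UR.exists_pair hB y0
  obtain ⟨a, ha⟩ := exists_iso_adjust hB hU hy (y := w) (by simp [hw])
  exact ⟨_, ha, by simp [hw, hy]⟩

include hB hU in
theorem exists_drop {L : Submodule F E} (hL : L ≤ perp B L) (j : ℕ) (hj : j ≤ finrank F L) :
    ∃ g : SUb B, finrank F (UR.im g L ⊓ L : Submodule F E) + j = finrank F L := by
  induction j with
  | zero => exact ⟨1, by rw [UR.im_one, inf_idem, add_zero]⟩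
  | succ j ih =>
    obtain ⟨g, hg⟩ := ih (by omega)
    obtain ⟨y, hy, y0⟩ := Submodule.exists_mem_ne_zero_of_ne_bot (p := UR.im g L ⊓ L)
      (fun e => by rw [e, finrank_bot] at hg; omega)
    obtain ⟨u, ui, hu⟩ := exists_iso_pair hB hU y0 (hL hy.2 y hy.2)
    obtain ⟨c, c0, hc⟩ := hU.exists_trace_zero
    have hg' : UR.im g L ≤ perp B (UR.im g L) := by rw [← UR.im_perp, UR.im_le_iff]; exact hL
    have hyu : B y u = 1 := by rw [hB.herm, hu, map_one]
    refine ⟨ut hB u c * g, ?_⟩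
    have e1 : UR.im (ut hB u c * g) L ⊓ L = (UR.im g L ⊓ L) ⊓ perp B (F ∙ u) := by
      ext v
      rw [UR.im_mul, Submodule.mem_inf, UR.mem_im, UR.ut_inv hB ui hc,
        ut_apply hB ui (by rw [map_neg, hc]), Submodule.mem_inf, mem_perp_one]
      refine ⟨fun h => ?_, fun h => ⟨by simpa [h.2] using h.1.1, h.1.2⟩⟩
      have h1 : B v u = 0 := by simpa [hu, hL h.2 y hy.2, c0] using hg' h.1 y hy.1
      exact ⟨⟨by simpa [h1] using h.1, h.2⟩, h1⟩
    have e2 : y ∉ (UR.im g L ⊓ L) ⊓ perp B (F ∙ u) := fun h => by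
      simpa [hyu] using mem_perp_one.1 h.2
    have e3 : (UR.im g L ⊓ L) ⊓ perp B (F ∙ u) ⊔ F ∙ y = UR.im g L ⊓ L := by
      refine le_antisymm (sup_le inf_le_left ((Submodule.span_singleton_le_iff_mem _ _).2 hy)) fun v hv => ?_
      refine Submodule.mem_sup.2 ⟨v - B v u • y, ⟨Submodule.sub_mem _ hv (Submodule.smul_mem _ _ hy),
        mem_perp_one.2 (by simp [hyu])⟩, B v u • y,
        Submodule.smul_mem _ _ (Submodule.mem_span_singleton_self y), by abel⟩
    have := finrank_sup_single e2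
    rw [e3] at this
    rw [e1]; omega

include hB hU in
theorem not_ti_big (h : UR.Sit B adj ω) {L : Submodule F E} (hL : L ≤ perp B L) (h3 : 3 ≤ finrank F L)
    (hH : ∀ g : SUb B, g • ω = ω → ∀ v ∈ L, suAct B g v ∈ L) : False := by
  have s1 : ∀ g : SUb B, g • ω = ω → UR.im g L = L := fun g e => UR.im_eq_of_mapsTo (hH g e) rfl
  obtain ⟨g₁, e₁⟩ := exists_drop hB hU hL 1 (by omega)
  obtain ⟨g₂, e₂⟩ := exists_drop hB hU hL 2 (by omega)
  obtain ⟨g₃, e₃⟩ := exists_drop hB hU hL 3 (by omega)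
  have key : ∀ a g g' : SUb B, a • ω = ω → a • g • ω = g' • ω →
      finrank F (UR.im g L ⊓ L : Submodule F E) = finrank F (UR.im g' L ⊓ L : Submodule F E) :=
    fun a g g' e e' => by
      have f1 := s1 a e
      have f2 := s1 (g'⁻¹ * (a * g)) (by rw [mul_smul, mul_smul, e', inv_smul_smul])
      rw [← UR.finrank_im a, UR.im_inf, f1, ← UR.im_mul, ← mul_inv_cancel_left g' (a * g), UR.im_mul, f2]
  have ne : ∀ (g : SUb B) (j : ℕ),
      finrank F (UR.im g L ⊓ L : Submodule F E) + (j + 1) = finrank F L → ω ≠ g • ω :=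
    fun g j e e' => by
      rw [s1 g e'.symm, inf_idem] at e
      omega
  rcases h.rk.three ω (ne g₁ 0 e₁) (ne g₂ 1 e₂) (ne g₃ 2 e₃) with ⟨a, e, e'⟩ | ⟨a, e, e'⟩ | ⟨a, e, e'⟩ <;>
    have := key a _ _ e e' <;> omega

include hB hU in
theorem not_ti (h : UR.Sit B adj ω) (hn : 6 ≤ finrank F E) (ho : UR.O2 B ω) {L : Submodule F E}
    (hL : L ≤ perp B L) (L0 : L ≠ ⊥) (hH : ∀ g : SUb B, g • ω = ω → ∀ v ∈ L, suAct B g v ∈ L) : False := by
  by_cases h3 : 3 ≤ finrank F L
  · exact not_ti_big hB hU h hL h3 hH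
  obtain ⟨C, hC⟩ := Submodule.exists_isCompl L
  have d1 := hB.finrank_perp L
  have d2 := Submodule.finrank_add_eq_of_isCompl hC
  have d3 := Submodule.finrank_sup_add_finrank_inf_eq C (perp B L)
  have d4 := Submodule.finrank_le (C ⊔ perp B L)
  obtain ⟨b, hb, b0, bi⟩ := exists_iso_vec hB hU (C ⊓ perp B L) (by omega)
  obtain ⟨a, ha, a0⟩ := Submodule.exists_mem_ne_zero_of_ne_bot L0
  obtain ⟨c, ci, hc⟩ := exists_iso_pair hB hU a0 (hL ha a ha)
  have c1 : c ∉ perp B L := fun e => by simpa [hc] using e a ha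
  exact ho.vec (· ∈ L) (· ∈ perp B L) (fun g e c _ v hv => L.smul_mem c (hH g e v hv))
    (fun g e c _ v hv => (perp B L).smul_mem c (UR.mapsTo_perp (hH g e) v hv)) a0 b0
    (fun e : c = 0 => c1 (e ▸ Submodule.zero_mem _)) (hL ha a ha) bi ci ha
    (fun e => b0 (Submodule.disjoint_def.1 hC.disjoint b e hb.1)) (fun e => c1 (hL e)) hb.2 c1

include hB hU in
theorem not_aniso (h : UR.Sit B adj ω) (hn : 3 ≤ finrank F E) (hq : 3 ≤ q) {v : E} (hv : B v v ≠ 0)
    (hH : ∀ g : SUb B, g • ω = ω → suAct B g v ∈ F ∙ v) : False := by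
  have v0 : v ≠ 0 := by rintro rfl; simp at hv
  have real := hB.herm_self v
  have nm : ∀ (g : SUb B) (c : F) (w : E), B w w = B v v → c • w = suAct B g v → c * σ c = 1 :=
    fun g c w hw e => by
      have := suAct_pres g v v
      rw [← e] at this
      simp only [map_smul, LinearMap.map_smulₛₗ, LinearMap.smul_apply, smul_eq_mul, hw] at this
      exact mul_right_cancel₀ hv (by linear_combination this)
  have key : ∀ a g g' : SUb B, a • ω = ω → a • g • ω = g' • ω →
      B (suAct B g v) v * σ (B (suAct B g v) v) = B (suAct B g' v) v * σ (B (suAct B g' v) v) :=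
    fun a g g' e e' => by
      obtain ⟨c, hc⟩ := Submodule.mem_span_singleton.1 (hH a e)
      obtain ⟨d, hd⟩ := Submodule.mem_span_singleton.1
        (hH (g'⁻¹ * (a * g)) (by rw [mul_smul, mul_smul, e', inv_smul_smul]))
      have n1 := nm a c v rfl hc
      have n2 := nm _ d v rfl hd
      have e1 : suAct B a (suAct B g v) = d • suAct B g' v := by
        rw [← map_smul, hd, ← UR.sa_mul, ← UR.sa_mul, mul_inv_cancel_left]
      rw [← suAct_pres a (suAct B g v) v, e1, ← hc]
      simp only [map_smul, LinearMap.map_smulₛₗ, LinearMap.smul_apply, smul_eq_mul, map_mul, hB.invol]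
      linear_combination (B (suAct B g' v) v * σ (B (suAct B g' v) v)) * (c * σ c) * n2 +
        (B (suAct B g' v) v * σ (B (suAct B g' v) v)) * n1
  have dis : Disjoint (F ∙ v) (perp B (F ∙ v)) := Submodule.disjoint_def.2 fun x hx hx' => by
    obtain ⟨c, rfl⟩ := Submodule.mem_span_singleton.1 hx
    have := mem_perp_one.1 hx'
    simp only [map_smul, LinearMap.smul_apply, smul_eq_mul, mul_eq_zero, hv, or_false] at this
    rw [this, zero_smul]
  have d1 := hB.finrank_perp (F ∙ v)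
  rw [finrank_span_singleton v0] at d1
  obtain ⟨x, hx, x0, xi⟩ := exists_iso_vec hB hU (perp B (F ∙ v)) (by omega)
  obtain ⟨x', hx', xi', xx⟩ := H1.exists_hyp hB hU dis hx x0 xi
  rw [mem_perp_one] at hx hx'
  have ex : ∀ c : F, σ c = c → ∃ g : SUb B,
      B (suAct B g v) v * σ (B (suAct B g v) v) = c ∧ ω ≠ g • ω := fun c hc => by
    obtain ⟨y, hy⟩ := hU.norm_surj hc
    obtain ⟨t, ht⟩ := hU.trace_surj (c := B v v - c / B v v) (by rw [map_sub, map_div₀, real, hc])
    have hw : B ((y / B v v) • v + x' + t • x) ((y / B v v) • v + x' + t • x) = B v v := by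
      simp only [map_add, map_smul, LinearMap.map_smulₛₗ, LinearMap.smul_apply, LinearMap.add_apply,
        smul_eq_mul, hx, hx', hB.refl hx, hB.refl hx', xi, xi', xx, hB.herm x' x, map_one, map_div₀, real]
      field_simp at ht ⊢
      linear_combination hy - ht
    have w1 : B ((y / B v v) • v + x' + t • x) v = y := by simp [hx, hx', hv]
    have w2 : B ((y / B v v) • v + x' + t • x) x = 1 := by simp [hB.refl hx, xx, xi]
    generalize (y / B v v) • v + x' + t • x = w at hw w1 w2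
    have w0 : w ≠ 0 := by rintro rfl; simp at w2
    obtain ⟨e, e1, e2⟩ := witt (hU.good hB) (hU.good hB) rfl (v := fun _ : Unit => v) (v' := fun _ => w)
      (linearIndependent_unique_iff.2 v0) (linearIndependent_unique_iff.2 w0) fun _ _ => hw
    obtain ⟨g, hg⟩ := UR.su_adjust hB hU ⟨e, e1⟩ xi xi' xx
    have f1 := hg (F ∙ v) (Or.inr (Or.inr fun s hs => by
      obtain ⟨c, rfl⟩ := Submodule.mem_span_singleton.1 hs
      simp [hB.refl hx, hB.refl hx']))
    rw [Submodule.map_span, Set.image_singleton, show isoAct B ⟨e, e1⟩ v = w from e2 ()] at f1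
    obtain ⟨d, hd⟩ := Submodule.mem_span_singleton.1
      (f1 ▸ UR.app_mem_im.2 (Submodule.mem_span_singleton_self v) : suAct B g v ∈ F ∙ w)
    have n1 := nm g d w hw hd
    refine ⟨g, ?_, fun e' => ?_⟩
    · rw [← hd]
      simp only [map_smul, LinearMap.smul_apply, smul_eq_mul, map_mul, w1]
      linear_combination (y * σ y) * n1 + hy
    · obtain ⟨s, hs⟩ := Submodule.mem_span_singleton.1 (hH g e'.symm)
      have := congrArg (fun z => B z x) (hd.trans hs.symm)
      simp only [map_smul, LinearMap.smul_apply, smul_eq_mul, w2, hB.refl hx, mul_one, mul_zero] at this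
      simp [this] at n1
  have cf := hU.card_fixed
  rw [Nat.card_eq_fintype_card] at cf
  obtain ⟨c₁, c₂, c₃, n1, n2, n3⟩ := (Fintype.two_lt_card_iff (α := {x : F // σ x = x})).1 (by omega)
  obtain ⟨g₁, e₁, f₁⟩ := ex _ c₁.2
  obtain ⟨g₂, e₂, f₂⟩ := ex _ c₂.2
  obtain ⟨g₃, e₃, f₃⟩ := ex _ c₃.2
  rcases h.rk.three ω f₁ f₂ f₃ with ⟨a, e, e'⟩ | ⟨a, e, e'⟩ | ⟨a, e, e'⟩ <;> have := key a _ _ e e'
  · exact n1 (Subtype.ext (by rw [← e₁, this, e₂]))
  · exact n2 (Subtype.ext (by rw [← e₁, this, e₃]))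
  · exact n3 (Subtype.ext (by rw [← e₂, this, e₃]))

include hB hU in
theorem not_one (h : UR.Sit B adj ω) (hn : 3 ≤ finrank F E) (hq : 3 ≤ q) {U : Submodule F E}
    (h1 : finrank F U = 1) (hd : U ⊓ perp B U = ⊥)
    (hH : ∀ g : SUb B, g • ω = ω → ∀ v ∈ U, suAct B g v ∈ U) : False := by
  obtain ⟨v, hv, v0⟩ := Submodule.exists_mem_ne_zero_of_ne_bot (p := U)
    (fun e => by rw [e, finrank_bot] at h1; omega)
  obtain rfl : (F ∙ v) = U := Submodule.eq_of_le_of_finrank_eq
    ((Submodule.span_singleton_le_iff_mem _ _).2 hv) (by rw [h1, finrank_span_singleton v0])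
  exact not_aniso hB hU h hn hq
    (fun e => v0 ((Submodule.eq_bot_iff _).1 hd v ⟨hv, mem_perp_one.2 e⟩)) fun g e => hH g e v hv

include hB hU in
theorem Sit.irr (hs : UR.Sit B adj ω) (hn : 6 ≤ finrank F E) (hq : 3 ≤ q) (ho : UR.O2 B ω) :
    UR.Irr B ω := fun U hH => by
  by_contra hc
  push Not at hc
  have hH' : ∀ g : SUb B, g • ω = ω → ∀ v ∈ perp B U, suAct B g v ∈ perp B U :=
    fun g e => UR.mapsTo_perp (hH g e)
  have hd : U ⊓ perp B U = ⊥ := by
    by_contra L0
    exact not_ti hB hU hs hn ho (L := U ⊓ perp B U) (fun x hx y hy => hx.2 y hy.1) L0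
      fun g e v hv => ⟨hH g e v hv.1, hH' g e v hv.2⟩
  have d1 := hB.finrank_perp U
  have d2 : finrank F U ≠ 0 := fun e => hc.1 (Submodule.finrank_eq_zero.1 e)
  have d3 : finrank F U ≠ finrank F E := fun e => hc.2 (Submodule.eq_top_of_finrank_eq e)
  by_cases h1 : finrank F U = 1
  · exact not_one hB hU hs (by omega) hq h1 hd hH
  by_cases h2 : finrank F (perp B U) = 1
  · exact not_one hB hU hs (by omega) hq h2 (by rw [hB.perp_perp, inf_comm, hd]) hH'
  obtain ⟨a, ha, a0, ai⟩ := exists_iso_vec hB hU U (by omega)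
  obtain ⟨b, hb, b0, bi⟩ := exists_iso_vec hB hU (perp B U) (by omega)
  have b1 : b ∉ U := fun e => b0 ((Submodule.eq_bot_iff _).1 hd b ⟨e, hb⟩)
  have c1 : a + b ∉ U := fun e => b1 ((U.add_mem_iff_right ha).1 e)
  exact ho.vec (· ∈ U) (· ∈ perp B U) (fun g e c _ v hv => U.smul_mem c (hH g e v hv))
    (fun g e c _ v hv => (perp B U).smul_mem c (hH' g e v hv)) a0 b0
    (fun e : a + b = 0 => c1 (e ▸ U.zero_mem)) ai bi (by simp [ai, bi, hb a ha, hB.refl (hb a ha)]) ha b1 c1 hb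
    fun e => a0 ((Submodule.eq_bot_iff _).1 hd a ⟨ha, ((perp B U).add_mem_iff_left hb).1 e⟩)

end Cfsg.Agent.H5.UI
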