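import Cfsg.Agent.H5.UT1

/-! Rank 3 actions of unitary groups: point stabilisers containing full transvection groups. -/

set_option autoImplicit false
set_option linter.unusedSectionVars false

namespace Cfsg.Agent.H5.UT

open Cfsg.Agent.H1 Cfsg.Agent.H1.UR
open Module H5 Matrix
open scoped Classical

variable {F : Type*} [Field F] {σ : F →+* F} {E : Type*} [AddCommGroup E] [Module F E]
  [FiniteDimensional F E] {B : Sesq σ E} {hB : IsEps B 1} [Fintype F] [Fintype E] {q : ℕ} (hU : UF σ q)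
variable {X : Type*} [MulAction (SUb B) X] [Fintype X] {adj : X → X → Prop} {ω : X} {u y : E}

theorem SS.line (hu : SS hB ω u) (hy : SS hB ω y) (h : B y u = 1) {s t : F}
    (hi : B (s • u + t • y) (s • u + t • y) = 0) : XX hB ω (s • u + t • y) := by
  by_cases t0 : t = 0
  · simpa [t0] using hu.2.2.smul hB hu.2.1 s
  have st : σ t ≠ 0 := (map_ne_zero σ).2 t0
  have hc : σ (s / t) = -(s / t) := by
    simp only [map_add, map_smul, LinearMap.map_smulₛₗ, LinearMap.add_apply, LinearMap.smul_apply, smul_eq_mul,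
      hu.2.1, hy.2.1, h, hB.herm y u, map_one] at hi
    rw [map_div₀]
    field_simp
    linear_combination hi
  have := ((hy.map (hu.2.2 _ hc)).smul t0).2.2
  rwa [ut_apply hB hu.2.1 hc, h, mul_one, smul_add, smul_smul, mul_div_cancel₀ _ t0, add_comm] at this

include hU in
theorem SS.scale {x : X} (hu : SS hB ω u) (hy : SS hB ω y) (hu' : SS hB x u) (hy' : SS hB x y) (h : B y u = 1)
    {a : F} (ha : σ a = a) (a0 : a ≠ 0) : ∃ g : SUb B, g • ω = ω ∧ g • x = x ∧ suAct B g u = a • u ∧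
      ∀ z, B z u = 0 → ∃ κ : F, suAct B g z = z + κ • u := by
  obtain ⟨g, hg, h1, h2⟩ := exists_scale hB hU (MulAction.stabilizer _ ω ⊓ MulAction.stabilizer _ x) hu.2.1
    hy.2.1 h (fun s t c hi hc => ⟨hu.line hy h hi c hc, hu'.line hy' h hi c hc⟩) ha a0
  refine ⟨g, hg.1, hg.2, h1, fun z hz => ⟨B z y * (a - 1), ?_⟩⟩
  have := h2 (z - B z y • u) (by simp [hz, hu.2.1]) (by simp [hB.herm y u, h])
  rw [map_sub, map_smul, h1] at this
  linear_combination (norm := module) this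

include hU in
theorem SS.A_real (hu : SS hB ω u) (hy : SS hB ω y) (h : B y u = 1) {a : E} (ha : a ∈ (uD hB hu.2.1).A ω)
    {r : F} (hr : σ r = r) : r • a ∈ (uD hB hu.2.1).A ω := by
  by_cases r0 : r = 0
  · rw [r0, zero_smul]; exact zero_mem _
  obtain ⟨g, g1, -, g2, g3⟩ := hu.scale hU hy hu hy h hr r0
  obtain ⟨κ, hκ⟩ := g3 a (uA_perp hB _ ha)
  have := uA_conj hB hu.2.1 g2 r0 ha
  rw [g1, hκ, hr, smul_add, smul_smul] at this
  simpa using sub_mem this (smul_mem_uA hB hu.2.1 ω (r * κ))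

include hU in
theorem SS.A_sub (hq : 3 ≤ q) (hu : SS hB ω u) (hy : SS hB ω y) (h : B y u = 1) {z : E} (hz : SS hB ω z)
    (h' : B z u = 1) : z - y ∈ (uD hB hu.2.1).A ω := by
  obtain ⟨μ, h1, h2⟩ := ei_move hB hu.2.1 (hz.2.1.trans hy.2.1.symm) (h'.trans h.symm) (by simp [h'])
  rw [h', inv_one, one_smul] at h1 h2
  obtain ⟨r, hr, r0, r1⟩ := exists_three hU hq
  obtain ⟨g, g1, g2, g3, g4⟩ := hu.scale hU hy (x := ei hB (y - z) u μ • ω)
    (by simpa only [ei_fix hB h1] using (SS_conj hB (ei hB (y - z) u μ)).2 hu)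
    (by simpa only [h2] using (SS_conj hB (ei hB (y - z) u μ)).2 hz) h hr r0
  obtain ⟨κ, hκ⟩ := g4 _ h1.perp
  obtain ⟨h3, h4⟩ := ei_conj_e hB g3 r0 h1
  have h5 := (uD hB hu.2.1).sub_mem_A (ω := ω) h3 h1 (by
    change ei hB _ _ _ • ω = ei hB _ _ _ • ω
    rw [← g2, ← mul_smul, h4, mul_smul, g1])
  have h6 := hu.A_real hU hy h (sub_mem h5 (smul_mem_uA hB hu.2.1 ω (r * κ))) (r := (1 - r)⁻¹)
    (by rw [map_inv₀, map_sub, map_one, hr])
  convert h6 using 1
  rw [hκ, hr]
  have := sub_ne_zero.2 r1.symm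
  match_scalars <;> field_simp <;> ring

theorem SS.of_A (hu : SS hB ω u) (hy : SS hB ω y) (h : B y u = 1) {a : E} (ha : a ∈ (uD hB hu.2.1).A ω)
    (hi : B (y + a) (y + a) = 0) : SS hB ω (y + a) := by
  have h1 : Adm B a u (-B y a) := ⟨hu.2.1, uA_perp hB _ ha, by
    simp only [map_add, LinearMap.add_apply, hy.2.1, hB.herm y a] at hi
    rw [map_neg]; linear_combination -hi⟩
  simpa [ei_apply hB h1, h] using hy.map (hu.2.2.fix hB hu.2.1 ha h1)

include hU in
theorem SS.swap (hq : 3 ≤ q) (hu : SS hB ω u) (hy : SS hB ω y) (h : B y u = 1) {a : E}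
    (ha : a ∈ (uD hB hu.2.1).A ω) (hay : B a y = 0) {μ : F} (hμ : μ + σ μ = B a a) (μ0 : μ ≠ 0) :
    μ⁻¹ • a ∈ (uD hB hy.2.1).A ω := by
  have h' : B u y = 1 := by rw [hB.herm, h, map_one]
  have au := uA_perp hB _ ha
  have h1 := hu.of_A hy h (sub_mem ha (smul_mem_uA hB hu.2.1 ω μ)) (by
    simp [hu.2.1, hy.2.1, h, h', au, hay, hB.refl au, hB.refl hay]; linear_combination -hμ)
  have h2 := hy.A_sub hU hq hu h' (h1.smul (inv_ne_zero (neg_ne_zero.2 μ0))) (by simp [hy.2.1, hay, h', μ0])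
  convert neg_mem (add_mem h2 (smul_mem_uA hB hy.2.1 ω μ⁻¹)) using 1
  match_scalars <;> field_simp <;> ring

include hU in
theorem SS.aniso (hq : 3 ≤ q) (hu : SS hB ω u) (hy : SS hB ω y) (h : B y u = 1) {a : E}
    (ha : a ∈ (uD hB hu.2.1).A ω) (hay : B a y = 0) (h0 : B a a ≠ 0) (κ : F) :
    κ • a ∈ (uD hB hu.2.1).A ω := by
  have h' : B u y = 1 := by rw [hB.herm, h, map_one]
  obtain ⟨μ, hμ⟩ := hU.trace_surj (hB.herm_self a)
  have μ0 : μ ≠ 0 := by rintro rfl; exact h0 (by simpa using hμ)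
  have h1 := hu.swap hU hq hy h ha hay (μ := μ) (by rw [hμ, add_comm]) μ0
  have h2 : B (μ⁻¹ • a) (μ⁻¹ • a) ≠ 0 := by simp [μ0, h0]
  have h3 : ∀ ν, ν + σ ν = B (μ⁻¹ • a) (μ⁻¹ • a) → (μ * ν)⁻¹ • a ∈ (uD hB hu.2.1).A ω := fun ν hν => by
    have := hy.swap hU hq hu h' h1 (by simp [uA_perp hB _ ha]) hν (by rintro rfl; exact h2 (by simpa using hν.symm))
    rwa [smul_smul, ← _root_.mul_inv_rev] at this
  obtain ⟨ρ, hρ, h4⟩ : ∃ ρ, σ ρ ≠ ρ ∧ ρ • a ∈ (uD hB hu.2.1).A ω := by
    obtain ⟨ν, hν⟩ := hU.trace_surj (hB.herm_self (μ⁻¹ • a))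
    obtain ⟨ε, ε0, hε⟩ := hU.exists_trace_zero
    by_contra hn
    push Not at hn
    have e1 := of_not_not (mt (hn _) (not_not.2 (h3 ν (by rw [hν, add_comm]))))
    have e2 := of_not_not (mt (hn _) (not_not.2 (h3 (ν + ε) (by rw [hν, map_add, hε]; ring))))
    rw [map_inv₀, _root_.inv_inj, map_mul] at e1 e2
    rw [map_add, hε] at e2
    exact h0 (mul_left_cancel₀ ε0 (by linear_combination ε * hμ + e1 - e2))
  have d0 : ρ - σ ρ ≠ 0 := sub_ne_zero.2 hρ.symm
  have d1 : σ ρ - ρ ≠ 0 := sub_ne_zero.2 hρ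
  convert add_mem (hu.A_real hU hy h h4 (r := (κ - σ κ) / (ρ - σ ρ)) (by
    rw [map_div₀, map_sub, map_sub, hB.invol, hB.invol]; field_simp; ring))
    (hu.A_real hU hy h ha (r := (ρ * σ κ - σ ρ * κ) / (ρ - σ ρ)) (by
      simp only [map_div₀, map_sub, map_mul, hB.invol]; field_simp; ring)) using 1
  match_scalars; field_simp; ring

include hU in
theorem SS.span (ho : UR.O2 B ω) (hi : UR.Irr B ω) (hu : SS hB ω u) (hy : SS hB ω y) (h : B y u = 1) :
    Submodule.span F {z | SS hB ω z ∧ B z u ≠ 0} = ⊤ := by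
  set U := Submodule.span F {z | SS hB ω z ∧ B z u ≠ 0}
  by_contra hn
  have h' : B u y = 1 := by rw [hB.herm, h, map_one]
  obtain ⟨c, c0, hc⟩ := hU.exists_trace_zero
  have m : ∀ {z}, SS hB ω z → B z u ≠ 0 → z ∈ U := fun h1 h2 => Submodule.subset_span ⟨h1, h2⟩
  have cov : ∀ {s}, SS hB ω s → s ∈ U ∨ s ∈ perp B U := fun {s} hs => by
    by_cases h1 : B s u = 0
    · refine or_iff_not_imp_right.2 fun h2 => ?_
      rw [mem_perp_span] at h2
      push Not at h2
      obtain ⟨z, ⟨z1, z2⟩, z3⟩ := h2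
      have h3 := hs.map (z1.2.2 c hc)
      rw [ut_apply hB z1.2.1 hc] at h3
      exact (U.add_mem_iff_left (U.smul_mem _ (m z1 z2))).1 (m h3 (by simp [h1, c0, z2, z3]))
    · exact Or.inl (m hs h1)
  have my := m hy (by simp [h])
  have mu : u ∈ U := (cov hu).resolve_right fun e => by simpa [h'] using e y my
  obtain ⟨s, hs, s1⟩ : ∃ s, SS hB ω s ∧ s ∉ U := by
    by_contra hc
    push Not at hc
    rcases hi (Submodule.span F {z | SS hB ω z}) (fun g e v hv =>
      (Submodule.span_le.2 (fun z hz => Submodule.subset_span (SS.map hz e)) : _ ≤ Submodule.comap (suAct B g)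
        (Submodule.span F {z | SS hB ω z})) hv) with e | e
    · exact hu.1 ((Submodule.eq_bot_iff _).1 e u (Submodule.subset_span hu))
    · exact hn (top_le_iff.1 (e ▸ Submodule.span_le.2 hc))
  have s2 := (cov hs).resolve_left s1
  obtain ⟨g, g1, g2⟩ := hi.exists_opp' hB hu.1 hs.1
  have t0 := (hu.map g1).smul (inv_ne_zero g2)
  have t1 : B ((B (suAct B g u) s)⁻¹ • suAct B g u) s = 1 := by simp [g2]
  generalize (B (suAct B g u) s)⁻¹ • suAct B g u = t at t0 t1
  have t1' : B s t = 1 := by rw [hB.herm, t1, map_one]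
  have t2 := (cov t0).resolve_left fun e => by simpa [t1'] using s2 t e
  obtain ⟨θ, hθ⟩ := hU.exists_trace_one
  have ma : u + θ • y ∈ U := U.add_mem mu (U.smul_mem _ my)
  have mb : s - θ • t ∈ perp B U := Submodule.sub_mem _ s2 (Submodule.smul_mem _ _ t2)
  have na : B (u + θ • y) (u + θ • y) = 1 := by simp [hu.2.1, hy.2.1, h, h']; linear_combination hθ
  have nb : B (s - θ • t) (s - θ • t) = -1 := by simp [hs.2.1, t0.2.1, t1, t1']; linear_combination -hθ
  have pa : B (u + θ • y) y = 1 := by simp [hy.2.1, h']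
  have pb : B t (s - θ • t) = 1 := by simp [t0.2.1, t1]
  generalize u + θ • y = a at ma na pa
  generalize s - θ • t = b at mb nb pb
  have c1 : a + b ∉ U := fun e => by simpa [t2 a ma, pb] using t2 _ e
  have c2 : a + b ∉ perp B U := fun e => by simpa [mb y my, pa] using e y my
  refine ho.vec (SS hB ω) (fun v => ∃ s s', SS hB ω s ∧ SS hB ω s' ∧ v = s + s')
    (fun g e c c0 v hv => (hv.map e).smul c0) (fun g e c c0 v ⟨s, s', h1, h2, h3⟩ =>
      ⟨_, _, (h1.map e).smul c0, (h2.map e).smul c0, by rw [h3, map_add, smul_add]⟩) (b := u + s) hu.1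
    (fun e => by simpa [h', s2 y my] using congrArg (fun z => B z y) e)
    (fun e : a + b = 0 => c1 (e ▸ U.zero_mem)) hu.2.1 (by simp [hu.2.1, hs.2.1, s2 u mu, hB.refl (s2 u mu)])
    (by simp [na, nb, mb a ma, hB.refl (mb a ma)]) hu (fun e => ?_) (fun e => (cov e).elim c1 c2)
    ⟨u, s, hu, hs, rfl⟩ ?_
  · rcases cov e with e | e
    · exact s1 ((U.add_mem_iff_right mu).1 e)
    · simpa [h', s2 y my] using e y my
  · have key : ∀ s s', SS hB ω s → s ∈ U → s' ∈ perp B U → a + b = s + s' → False := fun s s' h1 h2 h3 e => by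
      have e1 : s - a ∈ perp B U := by
        rw [show s - a = b - s' by linear_combination (norm := module) -e]
        exact Submodule.sub_mem _ mb h3
      have e2 := e1 s h2
      have e3 := e1 a ma
      simp only [map_sub, LinearMap.sub_apply, h1.2.1, na, zero_sub, neg_eq_zero] at e2 e3
      simp [hB.refl e2] at e3
    rintro ⟨s, s', h1, h2, e⟩
    rcases cov h1 with m1 | m1 <;> rcases cov h2 with m2 | m2
    · exact c1 (e ▸ U.add_mem m1 m2)
    · exact key s s' h1 m1 m2 e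
    · exact key s' s h2 m2 m1 (e.trans (add_comm _ _))
    · exact c2 (e ▸ Submodule.add_mem _ m1 m2)

include hU in
theorem SS.iso (hs : UR.Sit B adj ω) (ho : UR.O2 B ω) (hi : UR.Irr B ω) (hq : 3 ≤ q) (hu : SS hB ω u)
    (hy : SS hB ω y) (h : B y u = 1) {a : E} (ha : a ∈ (uD hB hu.2.1).A ω) (hay : B a y = 0) : B a a = 0 := by
  by_contra h0
  have h' : B u y = 1 := by rw [hB.herm, h, map_one]
  have sub : ∀ (κ : F) {b : E}, b ∈ (uD hB hu.2.1).A ω → κ • b ∈ (uD hB hu.2.1).A ω := fun κ b hb => by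
    have m := sub_mem hb (smul_mem_uA hB hu.2.1 ω (B b y))
    have p : B (b - B b y • u) y = 0 := by simp [h']
    suffices κ • (b - B b y • u) ∈ (uD hB hu.2.1).A ω by
      convert add_mem this (smul_mem_uA hB hu.2.1 ω (κ * B b y)) using 1
      module
    generalize b - B b y • u = b at m p
    by_cases b0 : B b b = 0
    swap
    · exact hu.aniso hU hq hy h m p b0 κ
    obtain ⟨k, hk, k1⟩ : ∃ k, σ k = k ∧ B (b + k • a) (b + k • a) ≠ 0 := by
      obtain ⟨r, hr, r0, r1⟩ := exists_three hU hq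
      by_contra hn
      push Not at hn
      have e1 := hn 1 (map_one σ)
      have e2 := hn r hr
      simp only [map_add, map_smul, LinearMap.map_smulₛₗ, LinearMap.add_apply, LinearMap.smul_apply,
        smul_eq_mul, b0, hr, map_one] at e1 e2
      exact h0 (mul_left_cancel₀ (mul_ne_zero r0 (sub_ne_zero.2 r1)) (by linear_combination e2 - r * e1))
    convert sub_mem (hu.aniso hU hq hy h (add_mem m (hu.A_real hU hy h ha hk)) (by simp [p, hay]) k1 κ)
      (hu.aniso hU hq hy h ha hay h0 (κ * k)) using 1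
    module
  let W : Submodule F E :=
    { carrier := {x | x - B x u • y ∈ (uD hB hu.2.1).A ω}
      add_mem' := fun {x x'} hx hx' => by
        change _ ∈ (uD hB hu.2.1).A ω
        convert ((uD hB hu.2.1).A ω).add_mem hx hx' using 1
        simp only [map_add, LinearMap.add_apply]; module
      zero_mem' := by simp
      smul_mem' := fun c x hx => by
        change _ ∈ (uD hB hu.2.1).A ω
        convert sub c hx using 1
        simp only [map_smul, LinearMap.smul_apply, smul_eq_mul]; module }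
  have hW : ⊤ ≤ W := hu.span hU ho hi hy h ▸ Submodule.span_le.2 fun z ⟨z1, z2⟩ => by
    have := sub (B z u) (hu.A_sub hU hq hy h (z1.smul (inv_ne_zero z2)) (by simp [z2]))
    rwa [smul_sub, smul_inv_smul₀ z2] at this
  refine hs.not_Q hB hU hi hu.1 hu.2.1 fun b μ hb => hu.2.2.fix hB hu.2.1 ?_ hb
  have : b - B b u • y ∈ (uD hB hu.2.1).A ω := hW Submodule.mem_top
  simpa [hb.perp] using this

variable (hB) in
include hU in
theorem T3 (hs : UR.Sit B adj ω) (ho : UR.O2 B ω) (hi : UR.Irr B ω) (hn : 6 ≤ finrank F E) (hq : 3 ≤ q) {u : E}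
    (u0 : u ≠ 0) (hu : B u u = 0) (hω : XX hB ω u)
    (_h : ∀ v c, v ≠ 0 → B v v = 0 → c ≠ 0 → σ c = -c → ut hB v c • ω = ω → XX hB ω v) : False := by
  have su : SS hB ω u := ⟨u0, hu, hω⟩
  obtain ⟨y, hy, h⟩ : ∃ y, SS hB ω y ∧ B y u = 1 := by
    obtain ⟨g, g1, g2⟩ := hi.exists_opp' hB u0 u0
    exact ⟨_, (su.map g1).smul (inv_ne_zero g2), by simp [g2]⟩
  have h' : B u y = 1 := by rw [hB.herm, h, map_one]
  have nrm : ∀ x, x - B x u • y ∈ (uD hB hu).A ω → B x x = B x u * σ (B x y) + σ (B x u) * B x y := fun x hx => by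
    have := su.iso hU hs ho hi hq hy h (sub_mem hx (smul_mem_uA hB hu ω (B x y))) (by simp [hy.2.1, h'])
    simp only [map_sub, map_smul, LinearMap.map_smulₛₗ, LinearMap.sub_apply, LinearMap.smul_apply, smul_eq_mul,
      hu, hy.2.1, h, h', hB.herm x u, hB.herm x y] at this
    linear_combination this
  let V : AddSubgroup E :=
    { carrier := {x | σ (B x u) = B x u ∧ σ (B x y) = -B x y ∧ x - B x u • y ∈ (uD hB hu).A ω}
      add_mem' := fun {x x'} hx hx' => ⟨by simp [hx.1, hx'.1], by simp [hx.2.1, hx'.2.1, add_comm], by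
        convert add_mem hx.2.2 hx'.2.2 using 1
        simp only [map_add, LinearMap.add_apply]; module⟩
      zero_mem' := by simp
      neg_mem' := fun {x} hx => ⟨by simp [hx.1], by simp [hx.2.1], by
        convert neg_mem hx.2.2 using 1
        simp only [map_neg, LinearMap.neg_apply]; module⟩ }
  have mV : ∀ z, SS hB ω z → B z u = 1 → z ∈ V := fun z z1 z2 => by
    have m : z - B z u • y ∈ (uD hB hu).A ω := by simpa [z2] using su.A_sub hU hq hy h z1 z2
    have := nrm z m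
    rw [z1.2.1, z2, map_one] at this
    exact ⟨by rw [z2, map_one], by linear_combination -this, m⟩
  have sp : ∀ w, w ≠ 0 → ∃ z, SS hB ω z ∧ B z u = 1 ∧ B z w ≠ 0 := fun w w0 => by
    by_contra hc
    push Not at hc
    refine w0 (hB.nondeg w fun v => (mem_perp_span.2 fun z ⟨z1, z2⟩ => hB.refl ?_ :
      w ∈ perp B (Submodule.span F {z | SS hB ω z ∧ B z u ≠ 0})) v (su.span hU ho hi hy h ▸ Submodule.mem_top))
    simpa [z2] using hc _ (z1.smul (inv_ne_zero z2)) (by simp [z2])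
  have hV : SubF B V := ⟨fun r hr x hx => ⟨by simp [hr, hx.1], by simp [hr, hx.2.1], by
      convert su.A_real hU hy h hx.2.2 hr using 1
      simp only [map_smul, LinearMap.smul_apply, smul_eq_mul]; module⟩,
    fun x hx => by rw [nrm x hx.2.2, hx.1, hx.2.1]; ring, fun w hw => by
      by_contra w0
      obtain ⟨z, z1, z2, z3⟩ := sp w w0
      exact z3 (hw z (mV z z1 z2))⟩
  obtain ⟨c, c0, hc⟩ := hU.exists_trace_zero
  have tv : ∀ {z x : E} {c : F}, z ∈ V → x ∈ V → σ c = -c → x + (c * B x z) • z ∈ V := fun hz hx hc =>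
    V.add_mem hx (hV.real _ (by rw [map_mul, hc, hV.skew hB hx hz, neg_mul_neg]) _ hz)
  have to1 : ∀ v, SS hB ω v → B v u ≠ 0 → ∃ κ : F, ∃ x ∈ V, v = κ • x := fun v hv v1 =>
    ⟨_, _, mV _ (hv.smul (inv_ne_zero v1)) (by simp [v1]), (smul_inv_smul₀ v1 v).symm⟩
  have of1 : ∀ x ∈ V, B x u ≠ 0 → SS hB ω x := fun x hx x1 => by
    have m := hV.real (B x u)⁻¹ (by rw [map_inv₀, hx.1]) x hx
    have e : y + ((B x u)⁻¹ • x - B ((B x u)⁻¹ • x) u • y) = (B x u)⁻¹ • x := by simp [x1]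
    have := su.of_A hy h m.2.2 (by rw [e]; exact hV.alt _ m)
    rw [e] at this
    simpa [x1] using this.smul x1
  refine hV.false hB hU hs hn hq fun v => ⟨fun hv => ⟨hv.1, ?_⟩, ?_⟩
  · by_cases v1 : B v u = 0
    swap
    · exact to1 v hv v1
    obtain ⟨z, z1, z2, z3⟩ := sp v hv.1
    obtain ⟨κ, x, hx, e⟩ := to1 _ (hv.map (z1.2.2 c hc)) (by
      rw [ut_apply hB z1.2.1 hc]; simpa [v1, z2, c0] using fun e => z3 (hB.refl e))
    have hc' : σ (-c) = - -c := by rw [map_neg, hc]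
    refine ⟨κ, _, tv (mV z z1 z2) hx hc', ?_⟩
    rw [← ut_apply hB z1.2.1 hc', ← map_smul, ← e, ← UR.ut_inv hB z1.2.1 hc, UR.sa_inv_app]
  · rintro ⟨v0, κ, x, hx, rfl⟩
    refine SS.smul ?_ (left_ne_zero_of_smul v0)
    by_cases x1 : B x u = 0
    swap
    · exact of1 x hx x1
    obtain ⟨z, z1, z2, z3⟩ := sp x (right_ne_zero_of_smul v0)
    have := of1 _ (tv (mV z z1 z2) hx hc) (by simpa [x1, z2, c0] using fun e => z3 (hB.refl e))
    rwa [← ut_apply hB z1.2.1 hc, ← z1.2.2 c hc, SS_conj] at this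

end Cfsg.Agent.H5.UT
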