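import Cfsg.Agent.H5.CovA
import Cfsg.Agent.H5.SU3Pt
import Cfsg.Agent.H5.SU3Inv
import Cfsg.Agent.H5.Semi
import Cfsg.Agent.H5.Cyc
import Cfsg.Agent.H1.SUGen

/-! Coverings of `SU_4(q)` by two classes of subgroups. -/

set_option autoImplicit false

namespace Cfsg.Agent.H5

open Subgroup Module Polynomial H1

variable {F : Type*} [Field F] {σ : F →+* F} {q : ℕ} {V : Type*} [AddCommGroup V] [Module F V]
  [FiniteDimensional F V] {G : Type*} [Group G] {B : Sesq σ V} {ε : F}

theorem commute_aeval_left {A : Type*} [Ring A] [Algebra F A] {g s : A} (h : Commute g s) (p : F[X]) :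
    Commute (aeval g p) s := by
  induction p using Polynomial.induction_on' with
  | add p r hp hr => rw [map_add]; exact hp.add_left hr
  | monomial n a => rw [aeval_monomial]; exact (Algebra.commute_algebraMap_left _ _).mul_left (h.pow_left n)

theorem IsEps.two_mul_le (hB : IsEps B ε) {W : Submodule F V} (h : W ≤ perp B W) :
    2 * finrank F W ≤ finrank F V := by
  have := hB.finrank_perp W
  have := Submodule.finrank_mono h
  omega

theorem exists_eigen_of_le_one {W : Submodule F V} (h : finrank F W ≤ 1) {v y : V}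
    (hv : v ∈ W) (h0 : v ≠ 0) (hJ : y ∈ W) : ∃ c : F, y = c • v := by
  have : F ∙ v = W := Submodule.eq_of_le_of_finrank_le
    ((Submodule.span_singleton_le_iff_mem _ _).2 hv) (by rwa [finrank_span_singleton h0])
  rw [← this] at hJ
  obtain ⟨c, hc⟩ := Submodule.mem_span_singleton.1 hJ
  exact ⟨c, hc.symm⟩

theorem Pres.det_norm (hB : IsEps B ε) {g : End F V} (hg : Pres B g) :
    LinearMap.det g * σ (LinearMap.det g) = 1 := by
  rw [← hB.det_adj, mul_comm, ← map_mul, show hB.adj g * g = 1 from LinearMap.ext fun u =>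
    hB.ext_left fun v => by rw [End.mul_apply, hB.adj_left, hg, End.one_apply], map_one]

theorem Pres.commute_adj (hB : IsEps B ε) {g J : End F V} (hg : Pres B g) (h : Commute g J) :
    Commute g (hB.adj J) := LinearMap.ext fun u => hB.ext_left fun v => by
  obtain ⟨v, rfl⟩ := hg.surjective hB v
  rw [End.mul_apply, End.mul_apply, hg, hB.adj_left, hB.adj_left, ← End.mul_apply J, ← h.eq,
    End.mul_apply, hg]

omit [FiniteDimensional F V] in
theorem iso_ker_sub_pow {J S U : End F V} (hS : ∀ u v, B (S u) v = B u (J v))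
    (hS' : ∀ u v, B (J u) v = B u (S v)) (hc : Commute J S) {e : ℕ}
    (hU : (J ^ (e * e) - J) * U = 1) (h1 : Commute U (S - J ^ e)) :
    LinearMap.ker (S - J ^ e) ≤ perp B (LinearMap.ker (S - J ^ e)) := by
  have inv : ∀ {A : End F V}, Commute A (S - J ^ e) → ∀ y ∈ LinearMap.ker (S - J ^ e),
      A y ∈ LinearMap.ker (S - J ^ e) := fun {A} hA y hy => by
    rw [LinearMap.mem_ker, ← End.mul_apply, ← hA.eq, End.mul_apply, LinearMap.mem_ker.1 hy, map_zero]
  have eq : ∀ y ∈ LinearMap.ker (S - J ^ e), S y = (J ^ e) y := fun y hy => sub_eq_zero.1 hy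
  have pw : ∀ (i : ℕ) u, ∀ y ∈ LinearMap.ker (S - J ^ e), B ((J ^ i) u) y = B u ((J ^ (e * i)) y) := by
    intro i
    induction i with
    | zero => simp
    | succ i ih =>
      intro u y hy
      rw [pow_succ', End.mul_apply, hS', eq y hy, ih _ _ (inv ((hc.sub_right ((Commute.refl J).pow_right e)).pow_left e) y hy),
        ← End.mul_apply, ← pow_add, mul_add, mul_one]
  intro x hx y hy
  have := pw e x _ (inv h1 y hy)
  rw [← eq x hx, hS, eq_comm, ← sub_eq_zero, ← map_sub, ← LinearMap.sub_apply, ← End.mul_apply, hU] at this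
  exact this

variable [Fintype F]

theorem UF.exists_half (h : UF σ q) (hB : IsEps B ε) {g : End F V} (hg : Pres B g)
    (hd : ∀ f, Irreducible f → f ∣ g.charpoly → 2 ∣ f.natDegree) :
    ∃ W : Submodule F V, (∀ w ∈ W, g w ∈ W) ∧ W ≤ perp B W ∧ 2 * finrank F W = finrank F V := by
  obtain ⟨m, m1, m2, m3⟩ := exists_irr_natDegree F (d := 2) (by omega)
  obtain ⟨p, hp⟩ := exists_aeval_root m2 g.charpoly_monic.ne_zero g.aeval_self_charpoly (m3 ▸ hd)
  set J := aeval g p
  have := Fact.mk m2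
  have := H4.finite_adjoinRoot m2.ne_zero
  have : Finite (AdjoinRoot m) := Module.finite_of_finite F
  have := Fintype.ofFinite (AdjoinRoot m)
  set θ := AdjoinRoot.root m
  have hm : m = X ^ 2 + C (m.coeff 1) * X + C (m.coeff 0) := by
    rw [m1.as_sum, m3]; simp [Finset.sum_range_succ]; ring
  have k0 : ∀ {P Q : F[X]}, aeval θ P = aeval θ Q → aeval J P = aeval J Q := fun {P Q} e => by
    rw [← sub_eq_zero, ← map_sub] at e ⊢
    obtain ⟨c, hc⟩ := AdjoinRoot.mk_eq_zero.1 ((AdjoinRoot.aeval_eq _).symm.trans e)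
    rw [hc, map_mul, hp, zero_mul]
  have k1 : ∀ {P : F[X]}, aeval θ P ≠ 0 → ∃ r : F[X], aeval J P * aeval J r = 1 := fun {P} e => by
    obtain ⟨r, hr⟩ := AdjoinRoot.mk_surjective (aeval θ P)⁻¹
    refine ⟨r, ?_⟩
    rw [← map_mul, k0 (Q := 1) (by rw [map_mul, AdjoinRoot.aeval_eq r, hr, mul_inv_cancel₀ e, map_one]),
      map_one]
  obtain ⟨τ, τ1, τ2⟩ := h.exists_sigmaK (AdjoinRoot m)
  have t4 : θ ^ q ^ 4 = θ := by
    have := FiniteField.pow_card θ
    rwa [Module.card_eq_pow_finrank (K := F), H4.finrank_adjoinRoot, m3, h.card, ← pow_mul] at this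
  have t2 : θ ^ q ^ 2 ≠ θ := fun e => by
    obtain ⟨c, hc⟩ := mem_range_of_pow_card (F := F) _ (h.card ▸ e)
    have : m.IsRoot c := (algebraMap F (AdjoinRoot m)).injective (by
      rw [← aeval_algebraMap_apply_eq_algebraMap_eval, hc, AdjoinRoot.aeval_eq, AdjoinRoot.mk_self,
        map_zero])
    have := natDegree_eq_of_degree_eq_some (n := 1) (degree_eq_one_of_irreducible_of_root m2 this)
    omega
  have r0 : θ ^ 2 + algebraMap F _ (m.coeff 1) * θ + algebraMap F _ (m.coeff 0) = 0 := by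
    have : aeval θ m = 0 := by rw [AdjoinRoot.aeval_eq, AdjoinRoot.mk_self]
    simpa using (congrArg (aeval θ) hm).symm.trans this
  have r1 := congrArg τ r0
  have r3 := congrArg (fun x => τ (τ x)) r1
  simp only [map_add, map_mul, map_pow, map_zero, τ2, h.invol] at r1 r3
  have t3 : τ (τ (τ θ)) - τ θ ≠ 0 := by
    rw [← map_sub, _root_.map_ne_zero, τ1, τ1, ← pow_mul, ← sq, sub_ne_zero]; exact t2
  have e3 : τ (τ (τ θ)) = θ ^ q ^ 3 := by simp only [τ1, ← pow_mul]; congr 1; ring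
  have s1 : τ θ + τ (τ (τ θ)) = -algebraMap F _ (σ (m.coeff 1)) :=
    mul_left_cancel₀ t3 (by linear_combination r3 - r1)
  have s2 : τ θ * τ (τ (τ θ)) = algebraMap F _ (σ (m.coeff 0)) := by
    linear_combination τ θ * s1 - r1
  rw [e3, τ1] at s1 s2 t3
  replace s1 := k0 (P := X ^ q + X ^ q ^ 3) (Q := -C (σ (m.coeff 1))) (by simpa using s1)
  replace s2 := k0 (P := X ^ q * X ^ q ^ 3) (Q := C (σ (m.coeff 0))) (by simpa using s2)
  obtain ⟨r, hr⟩ := k1 (P := X ^ q ^ 3 - X ^ q) (by simpa using t3)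
  obtain ⟨u, hu⟩ := k1 (P := X ^ (q * q) - X) (by simpa [sub_eq_zero, ← sq] using t2)
  have hu' := hu
  rw [← k0 (P := X ^ (q ^ 3 * q ^ 3) - X) (by
    simp only [map_sub, map_pow, aeval_X]
    rw [show q ^ 3 * q ^ 3 = q ^ 4 * (q * q) by ring, pow_mul, t4])] at hu'
  simp only [map_add, map_sub, map_mul, map_pow, aeval_X, map_neg, aeval_C,
    Algebra.algebraMap_eq_smul_one] at s1 s2 hr hu hu'
  set S := hB.adj J
  have cg : Commute g J := mul_aeval_comm g p
  have cS : Commute g S := hg.commute_adj hB cg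
  have cJ : Commute J S := commute_aeval_left cS p
  have ca : ∀ (r : F[X]) (e : ℕ), Commute (aeval J r) (S - J ^ e) := fun r e =>
    commute_aeval_left (cJ.sub_right ((Commute.refl J).pow_right e)) r
  have hS : S * S + σ (m.coeff 1) • S + σ (m.coeff 0) • 1 = 0 := LinearMap.ext fun x =>
    hB.nondeg _ fun y => by
      have : aeval J m y = 0 := by rw [hp]; rfl
      rw [hm] at this
      have := congrArg (B x) this
      simpa [S, hB.adj_left, h.invol, sq] using this
  have z1 : (S - J ^ q) * (S - J ^ q ^ 3) = 0 := by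
    rw [← hS, ← s2, ← neg_neg (σ (m.coeff 1) • S), ← mul_one S, ← mul_smul_comm, mul_one, ← mul_neg,
      ← s1, sub_mul, mul_sub, mul_sub, (cJ.pow_left q).eq]
    noncomm_ring
  have z2 : (S - J ^ q ^ 3) * (S - J ^ q) = 0 := by
    rw [← z1]
    exact (((Commute.refl S).sub_right (cJ.pow_left _).symm).sub_left
      ((cJ.pow_left _).sub_right ((Commute.refl J).pow_pow _ _))).eq
  have i1 := iso_ker_sub_pow (S := S) (hB.adj_left J) (fun u v => (hB.adj_right J u v).symm) cJ hu (ca u q)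
  have i2 := iso_ker_sub_pow (S := S) (hB.adj_left J) (fun u v => (hB.adj_right J u v).symm) cJ hu' (ca u _)
  have top : ⊤ ≤ LinearMap.ker (S - J ^ q) ⊔ LinearMap.ker (S - J ^ q ^ 3) := fun x _ => by
    have : x = (S - J ^ q) (aeval J r x) - (S - J ^ q ^ 3) (aeval J r x) := by
      rw [← LinearMap.sub_apply, sub_sub_sub_cancel_left, ← End.mul_apply, hr]; rfl
    rw [this]
    exact sub_mem (Submodule.mem_sup_right (LinearMap.congr_fun z2 _))
      (Submodule.mem_sup_left (LinearMap.congr_fun z1 _))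
  have d1 := hB.two_mul_le i1
  have d2 := hB.two_mul_le i2
  have d3 := Submodule.finrank_mono top
  have d4 := Submodule.finrank_add_le_finrank_add_finrank (LinearMap.ker (S - J ^ q))
    (LinearMap.ker (S - J ^ q ^ 3))
  rw [finrank_top] at d3
  refine ⟨_, fun w hw => ?_, i1, by omega⟩
  rw [LinearMap.mem_ker, ← End.mul_apply, ← (cS.sub_right (cg.pow_right q)).eq, End.mul_apply,
    LinearMap.mem_ker.1 hw, map_zero]

theorem UF.exists_eigen_two (h : UF σ q) (hB : IsEps B ε) (hd : finrank F V = 2) {g : End F V}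
    (hg : Pres B g) : ∃ v, v ≠ 0 ∧ ∃ c : F, g v = c • v := by
  refine (eigen_or_noroot g).elim id fun hr => ?_
  obtain ⟨W, h1, -, h2⟩ := h.exists_half hB hg fun f hf hd => by
    have := factor_natDegree g.charpoly_monic.ne_zero hr hf hd
    rw [LinearMap.charpoly_natDegree] at this
    omega
  obtain ⟨v, hv, h0⟩ := W.exists_mem_ne_zero_of_ne_bot (by rintro rfl; simp [hd] at h2)
  exact ⟨v, h0, exists_eigen_of_le_one (by omega) hv h0 (h1 v hv)⟩

omit [Fintype F] [FiniteDimensional F V] in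
theorem aniso_eigen (hB : IsEps B ε) {g : End F V} {e w : V} {l μ a : F} (he : B e e = 0)
    (hwe : B w e = 0) (hw : B w w ≠ 0) (ge : g e = l • e) (gw : g w = μ • w + a • e) (hne : μ ≠ l) :
    ∃ v, B v v ≠ 0 ∧ ∃ c : F, g v = c • v := by
  refine ⟨w + (a / (μ - l)) • e, by simpa [he, hwe, hB.refl hwe] using hw, μ, ?_⟩
  rw [map_add, map_smul, ge, gw]
  have := sub_ne_zero.2 hne
  match_scalars <;> field_simp <;> ring

omit [Fintype F] in
theorem finrank_sup_two {e w : V} (he : e ≠ 0) (hw : w ∉ F ∙ e) :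
    finrank F ↥((F ∙ e) ⊔ F ∙ w) = 2 := by
  have h1 := finrank_sup_span_le (F ∙ e) w
  have h2 := Submodule.finrank_lt_finrank_of_lt (s := F ∙ e) (t := (F ∙ e) ⊔ F ∙ w)
    (lt_of_le_of_ne le_sup_left fun h => hw (h ▸ Submodule.mem_sup_right
      (Submodule.mem_span_singleton_self w)))
  rw [finrank_span_singleton he] at h1 h2
  omega

theorem UF.su4_cases (h : UF σ q) (hB : IsEps B 1) (hd : finrank F V = 4) {g : End F V}
    (hg : Pres B g) : (∃ v, B v v ≠ 0 ∧ ∃ c : F, g v = c • v) ∨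
      ∃ W : Submodule F V, (∀ w ∈ W, g w ∈ W) ∧ W ≤ perp B W ∧ finrank F W = 2 := by
  refine or_iff_not_imp_left.2 fun hn => ?_
  rcases eigen_or_noroot g with ⟨e, e0, l, ge⟩ | hr
  swap
  · obtain ⟨W, h1, h2, h3⟩ := h.exists_half hB hg fun f hf hd => by
      have := factor_natDegree g.charpoly_monic.ne_zero hr hf hd
      rw [LinearMap.charpoly_natDegree] at this
      omega
    exact ⟨W, h1, h2, by omega⟩
  have ee : B e e = 0 := by_contra fun h => hn ⟨e, h, l, ge⟩
  obtain ⟨f, -, ff, fe⟩ := exists_hyp hB h (W := ⊥) disjoint_bot_left (e := e) (fun _ h => by simp_all) e0 ee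
  have ef : B e f = 1 := by rw [hB.herm, fe, map_one]
  obtain ⟨d1, d2⟩ := disjoint_sup_hyp hB (W := ⊥) disjoint_bot_left (e := e) (f := f)
    (fun _ h => by simp_all) (fun _ h => by simp_all) ee ff (by simp [fe])
  rw [bot_sup_eq] at d1 d2
  set W := perp B ((F ∙ e) ⊔ F ∙ f)
  have hW : ∀ {w}, w ∈ W ↔ B w e = 0 ∧ B w f = 0 := by
    simp [W, perp_sup, mem_perp_span]
  have dW : finrank F W = 2 := by
    have := hB.finrank_perp ((F ∙ e) ⊔ F ∙ f)
    rw [finrank_bot] at d2
    change finrank F W + _ = _ at this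
    omega
  have l0 : l ≠ 0 := fun l0 => e0 (hB.injective_of_pres hg (by simp [ge, l0]))
  have pe : ∀ w : W, B (g w) e = 0 := fun w => by
    have := hg w e
    rwa [ge, (hW.1 w.2).1, LinearMap.map_smulₛₗ, smul_eq_mul, mul_eq_zero,
      or_iff_right ((_root_.map_ne_zero σ).2 l0)] at this
  let g' : End F W := (g ∘ₗ W.subtype - ((B.flip f) ∘ₗ g ∘ₗ W.subtype).smulRight e).codRestrict W
    fun w => hW.2 ⟨by simp [pe, ee], by simp [ef]⟩
  have g1 : ∀ w : W, g w = g' w + B (g w) f • e := fun w => by simp [g']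
  have g2 : Pres (res B W) g' := fun u v => by
    rw [res_apply, res_apply, ← hg u v, g1 u, g1 v]
    simp [ee, (hW.1 (g' u).2).1, hB.refl (hW.1 (g' v).2).1]
  have hB' : IsEps (res B W) 1 := hB.restrict_perp d1
  have an : ∀ (w : W) (μ : F), B w w ≠ 0 → g' w = μ • w → μ = l := fun w μ hw hμ => by_contra fun hne =>
    hn (aniso_eigen hB ee (hW.1 w.2).1 hw ge (by rw [g1, hμ]; rfl) hne)
  obtain ⟨w, w0, ww, μ, hμ⟩ : ∃ w : W, w ≠ 0 ∧ B w w = 0 ∧ ∃ μ : F, g' w = μ • w := by
    obtain ⟨w, w0, μ, hμ⟩ := h.exists_eigen_two hB' dW g2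
    by_cases ww : B w w = 0
    · exact ⟨w, w0, ww, μ, hμ⟩
    have c1 := single_disjoint (B := res B W) ww
    have c2 := hB'.finrank_perp (F ∙ w)
    rw [finrank_span_singleton w0, dW] at c2
    obtain ⟨x, hx, x0⟩ := (perp (res B W) (F ∙ w)).exists_mem_ne_zero_of_ne_bot (by
      intro e; rw [e, finrank_bot] at c2; omega)
    obtain ⟨ν, hν⟩ := exists_eigen_of_le_one (by omega) hx x0 (g2.map_perp hB' (span_inv hμ) x hx)
    have xx := (hB'.restrict_perp c1).aniso_of_finrank_one (by omega) (w := ⟨x, hx⟩) (by simpa)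
    obtain ⟨y, -, y0, yy⟩ := exists_iso_vec hB' h ⊤ (by simp [dW])
    refine ⟨y, y0, yy, l, ?_⟩
    obtain ⟨⟨_, ha⟩, ⟨b, hb⟩, rfl⟩ := exists_add_of_isCompl (hB'.isCompl_perp c1) y
    obtain ⟨a, rfl⟩ := Submodule.mem_span_singleton.1 ha
    obtain ⟨c, rfl⟩ := exists_eigen_of_le_one (by omega) hx x0 hb
    simp only [map_add, map_smul, hμ, hν, an w μ ww hμ, an x ν xx hν]
    module
  have we := (hW.1 w.2).1
  refine ⟨(F ∙ e) ⊔ F ∙ (w : V), fun x hx => ?_, ?_, finrank_sup_two e0 fun hw => ?_⟩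
  · obtain ⟨a, ha, b, hb, rfl⟩ := Submodule.mem_sup.1 hx
    obtain ⟨b, rfl⟩ := Submodule.mem_span_singleton.1 hb
    rw [map_add, map_smul, g1, hμ]
    exact add_mem (Submodule.mem_sup_left (span_inv ge a ha)) (Submodule.smul_mem _ _ (add_mem
      (Submodule.mem_sup_right (Submodule.smul_mem _ _ (Submodule.mem_span_singleton_self _)))
      (Submodule.mem_sup_left (Submodule.smul_mem _ _ (Submodule.mem_span_singleton_self _)))))
  · simp [perp_sup, mem_perp_span, ee, ww, we, hB.refl we]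
  · obtain ⟨a, ha⟩ := Submodule.mem_span_singleton.1 hw
    have := (hW.1 w.2).2
    rw [← ha, map_smul, LinearMap.smul_apply, ef, smul_eq_mul, mul_one] at this
    exact w0 (Subtype.ext (by simp [← ha, this]))

omit [Fintype F] in
theorem LG.move_of {act : G →* End F V} (L : LG act fun f => Pres B f ∧ LinearMap.det f = 1)
    (hB : IsEps B ε) {U U' : Submodule F V} {z : End F V} (hz : Pres B z) (h : U.map z = U')
    (hU : ∀ δ, δ * σ δ = 1 → ∃ y, Pres B y ∧ LinearMap.det y = δ ∧ ∀ u ∈ U', y u ∈ U') :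
    ∃ x, U.map (act x) = U' := by
  have n := hz.det_norm hB
  obtain ⟨y, y1, y2, y3⟩ := hU (σ (LinearMap.det z)) (by rw [hB.invol, mul_comm, n])
  obtain ⟨x, hx⟩ := L.surj (y * z) ⟨fun u v => (y1 _ _).trans (hz u v), by rw [map_mul, y2, mul_comm, n]⟩
  refine ⟨x, ?_⟩
  rw [hx, End.mul_eq_comp, Submodule.map_comp, h]
  refine le_antisymm (by rintro _ ⟨u, hu, rfl⟩; exact y3 u hu) fun u hu => ?_
  exact ⟨_, symm_mem_of_mapsTo (hB.toIsom y y1).1 y3 u hu, (hB.toIsom y y1).1.apply_symm_apply u⟩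

theorem LG.move_aniso {act : G →* End F V} (L : LG act fun f => Pres B f ∧ LinearMap.det f = 1)
    (h : UF σ q) (hB : IsEps B 1) {v v' : V} (hv : B v v ≠ 0) (hv' : B v' v' ≠ 0) :
    ∃ x, (F ∙ v).map (act x) = F ∙ v' := by
  obtain ⟨a, ha⟩ := h.exists_smul_unit hB.herm hv (hB.herm_self v')
  have a0 : a • v ≠ 0 := fun e => hv' (by simp [← ha, e])
  have v0 : v' ≠ 0 := fun e => hv' (by simp [e])
  obtain ⟨z, z1, z2⟩ := witt (h.good hB) (h.good hB) rfl (v := fun _ : Unit => a • v) (v' := fun _ => v')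
    (linearIndependent_unique_iff.2 a0) (linearIndependent_unique_iff.2 v0) fun _ _ => ha.symm
  refine L.move_of hB (z := z) z1 ?_ fun δ hδ => ⟨LinearMap.transvection (((δ - 1) / B v' v') • B.flip v') v',
    fun x y => ?_, by simp; field_simp; ring, span_inv (c := δ) ?_⟩
  · rw [← Submodule.span_singleton_smul_eq (r := a) (left_ne_zero_of_smul a0).isUnit, Submodule.map_span,
      Set.image_singleton]
    exact congrArg (F ∙ ·) (z2 ())
  · simp [LinearMap.transvection.apply, hB.herm_self, hB.herm y v']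
    field_simp
    linear_combination (B x v' * σ (B y v')) * hδ
  · simp [LinearMap.transvection.apply, hv', sub_smul]

theorem LG.stab_aniso_ne {act : G →* End F V} (L : LG act fun f => Pres B f ∧ LinearMap.det f = 1)
    (h : UF σ q) (hB : IsEps B 1) (hd : 2 ≤ finrank F V) :
    ∃ v, B v v ≠ 0 ∧ stabSub act (F ∙ v) ≠ ⊤ := by
  have key : ∀ {W : Submodule F V}, Disjoint W (perp B W) → finrank F W ≠ 0 → ∃ w ∈ W, B w w ≠ 0 :=
    fun {W} h1 h2 => h.exists_aniso fun h3 => h2 (by rw [h1.eq_bot_of_le h3, finrank_bot])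
  obtain ⟨v, -, hv⟩ := key (W := ⊤) (by simp [hB.perp_top]) (by rw [finrank_top]; omega)
  have := hB.finrank_perp (F ∙ v)
  have := finrank_span_le (F := F) v
  obtain ⟨w, h1, hw⟩ := key (hB.disjoint_perp_perp (single_disjoint hv)) (by omega)
  obtain ⟨x, hx⟩ := L.move_aniso h hB hv hw
  obtain ⟨y, hy, e⟩ : w ∈ (F ∙ v).map (act x) := hx ▸ Submodule.mem_span_singleton_self w
  exact ⟨v, hv, stab_ne_top hy (g := x) fun h2 => hw (h1 w (e ▸ h2))⟩

theorem LG.conj_aniso {act : G →* End F V} (L : LG act fun f => Pres B f ∧ LinearMap.det f = 1)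
    (h : UF σ q) (hB : IsEps B 1) {e : V} (he : B e e ≠ 0) {g : G}
    (hg : ∃ v, B v v ≠ 0 ∧ ∃ c : F, act g v = c • v) : ∃ x, x * g * x⁻¹ ∈ stabSub act (F ∙ e) := by
  obtain ⟨v, hv, c, hc⟩ := hg
  obtain ⟨x, hx⟩ := L.move_aniso h hB hv he
  exact ⟨x, conj_mem_stab (span_inv hc) hx⟩

theorem UF.cov_su4 {act : G →* End F V} (L : LG act fun f => Pres B f ∧ LinearMap.det f = 1)
    (h : UF σ q) (hB : IsEps B 1) (hd : finrank F V = 4) : Cov2 (G ⧸ center G) := by
  obtain ⟨e, he, hH⟩ := L.stab_aniso_ne h hB (by omega)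
  by_cases hU : ∃ U : Submodule F V, U ≤ perp B U ∧ finrank F U = 2
  swap
  · exact cov_quot hH hH (L.center_le_stab _) (L.center_le_stab _) fun g =>
      ((h.su4_cases hB hd (L.mem g).1).elim (L.conj_aniso h hB he)
        fun ⟨W, _, hW⟩ => absurd ⟨W, hW⟩ hU).imp fun _ => .inl
  obtain ⟨U, U1, U2⟩ := hU
  obtain ⟨a, ha, a0⟩ := U.exists_mem_ne_zero_of_ne_bot (by rintro rfl; simp at U2)
  have aa := U1 ha a ha
  obtain ⟨b, -, bb, ba⟩ := exists_hyp hB h (W := ⊥) disjoint_bot_left (e := a) (fun _ h => by simp_all) a0 aa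
  have ab : B a b = 1 := by rw [hB.herm, ba, map_one]
  obtain ⟨c, c0, hc⟩ := h.exists_trace_zero
  obtain ⟨t, ht⟩ := L.surj (suAct B (ut hB b c)) ⟨suAct_pres _, suAct_det _⟩
  refine cov_quot (K := stabSub act U) hH (stab_ne_top ha (g := t) fun h1 => ?_) (L.center_le_stab _)
    (L.center_le_stab _) fun g => (h.su4_cases hB hd (L.mem g).1).elim
      (fun hg => (L.conj_aniso h hB he hg).imp fun _ => .inl) ?_
  · have := U1 h1 a ha
    rw [ht, ut_apply hB bb hc] at this
    simp [aa, ab, ba, c0] at this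
  rintro ⟨W, W1, W2, W3⟩
  obtain ⟨φ⟩ := FiniteDimensional.nonempty_linearEquiv_of_finrank_eq (W3.trans U2.symm)
  obtain ⟨z, z1, z2⟩ := witt_submodule (h.good hB) (h.good hB) rfl (U.subtype ∘ₗ φ.toLinearMap)
    (U.injective_subtype.comp φ.injective) fun x y => (U1 (φ x).2 _ (φ y).2).trans (W2 x.2 _ y.2).symm
  obtain ⟨x, hx⟩ := L.move_of hB (U := W) (U' := U) (z := z) z1 (le_antisymm
    (by rintro _ ⟨u, hu, rfl⟩; exact (z2 ⟨u, hu⟩).symm ▸ (φ _).2)
    fun u hu => ⟨_, (φ.symm ⟨u, hu⟩).2, (z2 _).trans (by simp)⟩) fun δ hδ => by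
      obtain ⟨l, l0, hl⟩ := h.hilbert90 hδ
      have s0 := (_root_.map_ne_zero σ).2 l0
      refine ⟨LinearMap.transvection (((σ l)⁻¹ - 1) • B.flip a) b *
        LinearMap.transvection ((l - 1) • B.flip b) a, fun x y => ?_, ?_, fun u hu => ?_⟩
      · simp [LinearMap.transvection.apply, aa, bb, ab, ba, hB.herm y a, hB.herm y b, h.invol]
        field_simp
        ring
      · simp [ab, ba]
        field_simp
        linear_combination hl
      · simpa [LinearMap.transvection.apply, aa, U1 hu a ha] using add_mem hu (U.smul_mem _ ha)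
  exact ⟨x, .inr (conj_mem_stab W1 hx)⟩

theorem UF.lg_su (h : UF σ q) (n : ℕ) : LG (V := Fin n → F)
    ((Matrix.toLinAlgEquiv' (R := F) (n := Fin n)).toMonoidHom.comp (((Units.coeHom _).comp
      Matrix.SpecialLinearGroup.toGL).comp (Cfsg.SU n F q).subtype))
    fun f => Pres (stdU (Fin n) σ) f ∧ LinearMap.det f = 1 := by
  refine ⟨fun g => ⟨h.su_pres g, (LinearMap.det_toLin' _).trans g.1.2⟩, fun f hf => ?_, fun z hz => ?_⟩
  · obtain ⟨x, hx⟩ := h.exists_su ((h.isEps_std _).toIsom f hf.1) hf.2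
    exact ⟨x, LinearMap.ext hx⟩
  · obtain ⟨c, hc⟩ := h.mem_center_SU.1 hz
    refine ⟨c, ?_⟩
    change Matrix.toLin' z.1.1 = _
    rw [hc, map_smul, Matrix.toLin'_one]; rfl

end Cfsg.Agent.H5
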