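import Cfsg.Agent.H5.Gen2Sp
import Cfsg.Agent.H5.Nil
import Cfsg.Agent.H4.SLConj
import Cfsg.Agent.H4.RegU
import Cfsg.Agent.H1.SLT

/-! Groups covered by the conjugates of two proper subgroups: the framework, and `SL_n`, `n ≤ 4`. -/

set_option autoImplicit false

namespace Cfsg.Agent.H5

open Subgroup Module Polynomial H1

/-- The group is the union of the conjugates of two proper subgroups. -/
def Cov2 (G : Type*) [Group G] : Prop :=
  ∃ H K : Subgroup G, H ≠ ⊤ ∧ K ≠ ⊤ ∧ ∀ g : G, ∃ x : G, x * g * x⁻¹ ∈ H ∨ x * g * x⁻¹ ∈ K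

theorem cov_quot {G : Type*} [Group G] {H K : Subgroup G} (hH : H ≠ ⊤) (hK : K ≠ ⊤)
    (zH : center G ≤ H) (zK : center G ≤ K)
    (h : ∀ g : G, ∃ x : G, x * g * x⁻¹ ∈ H ∨ x * g * x⁻¹ ∈ K) : Cov2 (G ⧸ center G) := by
  have key : ∀ {L : Subgroup G}, L ≠ ⊤ → center G ≤ L → L.map (QuotientGroup.mk' (center G)) ≠ ⊤ :=
    fun {L} hL zL e => hL (by
      rw [← comap_map_eq_self (f := QuotientGroup.mk' (center G)) (H := L)
        (by rwa [QuotientGroup.ker_mk']), e, comap_top])
  refine ⟨_, _, key hH zH, key hK zK, fun g => ?_⟩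
  obtain ⟨g, rfl⟩ := QuotientGroup.mk'_surjective _ g
  obtain ⟨x, hx⟩ := h g
  refine ⟨QuotientGroup.mk' _ x, ?_⟩
  rw [← map_inv, ← map_mul, ← map_mul]
  exact hx.imp (mem_map_of_mem _) (mem_map_of_mem _)

variable {F : Type*} [Field F] {V : Type*} [AddCommGroup V] [Module F V] {G : Type*} [Group G]

/-- `G` acts as the group of all endomorphisms with the property `P`, its centre by scalars. -/
structure LG (act : G →* End F V) (P : End F V → Prop) : Prop where
  mem : ∀ g, P (act g)
  surj : ∀ f, P f → ∃ g, act g = f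
  cen : ∀ z ∈ center G, ∃ c : F, act z = c • 1

/-- The stabiliser of a subspace. -/
def stabSub [FiniteDimensional F V] (act : G →* End F V) (U : Submodule F V) : Subgroup G where
  carrier := {g | ∀ v ∈ U, act g v ∈ U}
  mul_mem' := fun {a b} ha hb v hv => by rw [act_mul_apply]; exact ha _ (hb v hv)
  one_mem' := fun v hv => by simpa using hv
  inv_mem' := fun {a} ha => symm_mem_of_mapsTo (LinearEquiv.ofLinearMap (act a) (act a⁻¹)
    (LinearMap.ext (act_apply_inv act a)) (LinearMap.ext (act_inv_apply act a))) ha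

theorem LG.center_le_stab [FiniteDimensional F V] {act : G →* End F V} {P : End F V → Prop}
    (h : LG act P) (U : Submodule F V) : center G ≤ stabSub act U := fun z hz v hv => by
  obtain ⟨c, hc⟩ := h.cen z hz
  rw [hc]; exact U.smul_mem c hv

theorem conj_mem_stab [FiniteDimensional F V] {act : G →* End F V} {U U' : Submodule F V} {g x : G}
    (hg : ∀ v ∈ U, act g v ∈ U) (hx : U.map (act x) = U') : x * g * x⁻¹ ∈ stabSub act U' := by
  subst hx
  rintro _ ⟨v, hv, rfl⟩
  rw [act_mul_apply, act_inv_apply, act_mul_apply]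
  exact ⟨_, hg v hv, rfl⟩

/-- The elements that shift `J` by a scalar from `S`. -/
def shiftSub (act : G →* End F V) (J : End F V) (S : AddSubgroup F) : Subgroup G where
  carrier := {g | ∃ c ∈ S, act g * J = (J + c • 1) * act g}
  mul_mem' := by
    rintro a b ⟨c, hc, ha⟩ ⟨d, hd, hb⟩
    refine ⟨c + d, add_mem hc hd, ?_⟩
    rw [map_mul, mul_assoc, hb, ← mul_assoc, mul_add, ha, ← mul_assoc, add_smul]
    simp [add_mul, add_assoc]
  one_mem' := ⟨0, zero_mem _, by simp⟩
  inv_mem' := by
    rintro a ⟨c, hc, ha⟩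
    refine ⟨-c, neg_mem hc, LinearMap.ext fun v => ?_⟩
    have := congrArg (act a⁻¹) (LinearMap.congr_fun ha (act a⁻¹ v))
    simp only [End.mul_apply, act_inv_apply, act_apply_inv, LinearMap.add_apply, LinearMap.smul_apply,
      End.one_apply, map_add, map_smul] at this ⊢
    rw [this]; simp

theorem LG.center_le_shift {act : G →* End F V} {P : End F V → Prop} (h : LG act P) (J : End F V)
    (S : AddSubgroup F) : center G ≤ shiftSub act J S := fun z hz => by
  obtain ⟨c, hc⟩ := h.cen z hz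
  exact ⟨0, zero_mem _, by simp [hc]⟩

theorem conj_mem_shift {act : G →* End F V} {J J' : End F V} {S : AddSubgroup F} {g x : G} {c : F}
    (hc : c ∈ S) (hg : act g * J = (J + c • 1) * act g) (hx : act x * J = J' * act x) :
    x * g * x⁻¹ ∈ shiftSub act J' S := by
  refine ⟨c, hc, LinearMap.ext fun v => ?_⟩
  obtain ⟨w, rfl⟩ : ∃ w, act x w = v := ⟨_, act_apply_inv act x v⟩
  have h1 := LinearMap.congr_fun hx
  have h2 := LinearMap.congr_fun hg
  simp only [End.mul_apply, LinearMap.add_apply, LinearMap.smul_apply, End.one_apply] at h1 h2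
  simp only [End.mul_apply, act_mul_apply, ← h1, act_inv_apply, h2, map_add, map_smul,
    LinearMap.add_apply, LinearMap.smul_apply, End.one_apply]

theorem shift_ne_top [FiniteDimensional F V] {act : G →* End F V} {J : End F V} {S : AddSubgroup F}
    (hJ : ∀ v (c : F), J v = c • v → v = 0) (hd : S = ⊥ ∨ 3 ≤ finrank F V) {g : G} {w : V}
    {f : V → F} (hg : ∀ x, act g x = x + f x • w) (hw : w ≠ 0) {x₀ : V} (h0 : f x₀ ≠ 0) :
    shiftSub act J S ≠ ⊤ := fun e => by
  obtain ⟨c, hc, h⟩ : g ∈ shiftSub act J S := e ▸ mem_top g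
  have h1 : ∀ x, c • x = (f (J x) - c * f x) • w - f x • J w := fun x => by
    have := LinearMap.congr_fun h x
    simp only [End.mul_apply, LinearMap.add_apply, LinearMap.smul_apply, End.one_apply, hg, map_add,
      map_smul] at this
    linear_combination (norm := module) -this
  have h2 : c = 0 := by
    rcases hd with rfl | hd
    · exact hc
    by_contra h2
    have : (⊤ : Submodule F V) ≤ (F ∙ w) ⊔ F ∙ J w := fun x _ => by
      rw [← Submodule.smul_mem_iff _ h2, h1]
      exact sub_mem (Submodule.mem_sup_left (Submodule.smul_mem _ _ (Submodule.mem_span_singleton_self _)))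
        (Submodule.mem_sup_right (Submodule.smul_mem _ _ (Submodule.mem_span_singleton_self _)))
    have h3 := Submodule.finrank_mono this
    have h4 := finrank_sup_span_le (F ∙ w) (J w)
    have h5 := finrank_span_le (F := F) w
    rw [finrank_top] at h3
    omega
  refine hw (hJ w ((f x₀)⁻¹ * f (J x₀)) ?_)
  have := h1 x₀
  rw [h2, zero_smul, zero_mul, sub_zero, eq_comm, sub_eq_zero] at this
  rw [mul_smul, this, inv_smul_smul₀ h0]

theorem no_eigen_of_irr {J : End F V} {m : F[X]} (hm : Irreducible m) (hd : 2 ≤ m.natDegree)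
    (hJ : aeval J m = 0) (v : V) (c : F) (h : J v = c • v) : v = 0 := by
  by_contra hv
  have := End.aeval_apply_of_hasEigenvector (p := m) (f := J) (μ := c) ⟨End.mem_eigenspace_iff.2 h, hv⟩
  rw [hJ, LinearMap.zero_apply, eq_comm, smul_eq_zero, or_iff_left hv] at this
  have := degree_eq_one_of_irreducible_of_root hm this
  rw [natDegree_eq_of_degree_eq_some (n := 1) this] at hd
  omega

theorem exists_irr_natDegree (F : Type*) [Field F] [Finite F] {d : ℕ} (hd : d ≠ 0) :
    ∃ m : F[X], m.Monic ∧ Irreducible m ∧ m.natDegree = d := by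
  obtain ⟨K, _, _, _, hK⟩ := exists_ext F hd
  have : FiniteDimensional F K := Module.Finite.of_finite
  obtain ⟨a, ha⟩ := Field.exists_primitive_element F K
  exact ⟨minpoly F a, minpoly.monic (.of_finite F a), minpoly.irreducible (.of_finite F a),
    ((Field.primitive_element_iff_minpoly_natDegree_eq F a).1 ha).trans hK⟩

theorem exists_dvd_comp [Finite F] {m f : F[X]} (hm : Irreducible m) (hf : Irreducible f)
    (h : m.natDegree ∣ f.natDegree) : ∃ p, f ∣ aeval p m := by
  have := Fact.mk hm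
  have := Fact.mk hf
  have := H4.finite_adjoinRoot hf.ne_zero
  have : Finite (AdjoinRoot f) := Module.finite_of_finite F
  obtain ⟨φ⟩ := FiniteField.nonempty_algHom_of_finrank_dvd (F := F) (K := AdjoinRoot m)
    (L := AdjoinRoot f) (by rwa [H4.finrank_adjoinRoot, H4.finrank_adjoinRoot])
  obtain ⟨p, hp⟩ := AdjoinRoot.mk_surjective (φ (AdjoinRoot.root m))
  refine ⟨p, AdjoinRoot.mk_eq_zero.1 ?_⟩
  have := aeval_algHom_apply (AdjoinRoot.mkₐ f) p m
  rw [AdjoinRoot.coe_mkₐ, hp, aeval_algHom_apply, AdjoinRoot.aeval_eq, AdjoinRoot.mk_self,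
    map_zero] at this
  exact this.symm

theorem exists_dvd_comp_pow [Finite F] {m : F[X]} (hm : Irreducible m) (χ : F[X]) : χ ≠ 0 →
    (∀ f, Irreducible f → f ∣ χ → m.natDegree ∣ f.natDegree) → ∃ p N, χ ∣ aeval p m ^ N := by
  induction χ using WfDvdMonoid.induction_on_irreducible with
  | zero => simp
  | unit u hu => exact fun _ _ => ⟨0, 0, hu.dvd⟩
  | mul χ f h0 hf ih =>
    intro _ h
    obtain ⟨p, N, hp⟩ := ih h0 fun g hg hd => h g hg (hd.mul_left _)
    by_cases hd : f ∣ χ
    · exact ⟨p, N + N, by rw [pow_add]; exact mul_dvd_mul (hd.trans hp) hp⟩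
    obtain ⟨r, hr⟩ := exists_dvd_comp hm hf (h f hf (dvd_mul_right _ _))
    have hc := (hf.coprime_iff_not_dvd).2 hd
    obtain ⟨a, b, hab⟩ := hc
    have key : ∀ {s t k : F[X]}, k ∣ s - t → k ∣ aeval s m - aeval t m := fun {s t k} h => by
      have := Polynomial.sub_dvd_eval_sub s t (m.map (algebraMap F F[X]))
      rw [eval_map_algebraMap, eval_map_algebraMap] at this
      exact h.trans this
    have h1 : f ∣ aeval (r * (b * χ) + p * (a * f)) m := by
      have := key (s := r * (b * χ) + p * (a * f)) (t := r) (k := f)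
        ⟨p * a - r * a, by linear_combination r * hab⟩
      simpa using dvd_add this hr
    have h2 : χ ∣ aeval (r * (b * χ) + p * (a * f)) m ^ N := by
      have := key (s := r * (b * χ) + p * (a * f)) (t := p) (k := χ)
        ⟨r * b - p * b, by linear_combination p * hab⟩
      have := this.trans (sub_dvd_pow_sub_pow _ _ N)
      simpa using dvd_add this hp
    exact ⟨_, N + 1, by rw [pow_succ']; exact mul_dvd_mul h1 h2⟩

/-- A root of `m` among the polynomials in `g`. -/
theorem exists_aeval_root [Finite F] {A : Type*} [Ring A] [Algebra F A] {g : A} {m χ : F[X]}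
    (hm : Irreducible m) (h0 : χ ≠ 0) (hg : aeval g χ = 0)
    (h : ∀ f, Irreducible f → f ∣ χ → m.natDegree ∣ f.natDegree) :
    ∃ p : F[X], aeval (aeval g p) m = 0 := by
  have := Fintype.ofFinite F
  obtain ⟨p, N, hp⟩ := exists_dvd_comp_pow hm χ h0 h
  have key : ∀ k : ℕ, aeval (p ^ Fintype.card F ^ k) m = aeval p m ^ Fintype.card F ^ k := fun k => by
    induction k with
    | zero => simp
    | succ k ih =>
      rw [pow_succ, pow_mul, pow_mul, ← ih]
      exact aeval_algHom_apply (FiniteField.frobeniusAlgHom F F[X]) _ m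
  refine ⟨p ^ Fintype.card F ^ N, ?_⟩
  rw [aeval_algHom_apply, key]
  obtain ⟨c, hc⟩ := hp.trans (pow_dvd_pow _ (Nat.lt_pow_self (Fintype.one_lt_card (α := F))).le)
  rw [hc, map_mul, hg, zero_mul]

theorem mul_aeval_comm {A : Type*} [Ring A] [Algebra F A] (g : A) (p : F[X]) :
    g * aeval g p = aeval g p * g := by
  have := congrArg (aeval g) (mul_comm X p)
  rwa [map_mul, map_mul, aeval_X] at this

theorem sim_of_irr [FiniteDimensional F V] {J J' : End F V} {m : F[X]} (hm : m.Monic)
    (hm' : Irreducible m) (h : aeval J m = 0) (h' : aeval J' m = 0) : H4.Sim J J' := by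
  have key : ∀ {J : End F V}, aeval J m = 0 → ∃ k, H4.HasType J (Multiset.replicate k (m, 1)) ∧
      finrank F V = k * m.natDegree := fun {J} h => by
    obtain ⟨s, hs⟩ := H4.exists_hasType J
    have : s = Multiset.replicate s.card (m, 1) := Multiset.eq_replicate.2 ⟨rfl, fun y hy => by
      have h1 := hs.snd_eq_one hm'.squarefree h y hy
      have h2 := (hs.aeval_eq_zero_iff m).1 h y hy
      rw [h1, pow_one] at h2
      exact Prod.ext (eq_of_monic_of_associated (hs.good y hy).1 hm
        ((hs.good y hy).2.1.associated_of_dvd hm' h2)) h1⟩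
    refine ⟨s.card, this ▸ hs, ?_⟩
    rw [hs.finrank_eq, this]; simp [H4.size]
  obtain ⟨k, h1, h2⟩ := key h
  obtain ⟨l, h3, h4⟩ := key h'
  obtain rfl : k = l := Nat.eq_of_mul_eq_mul_right hm'.natDegree_pos (h2.symm.trans h4)
  exact h1.sim h3

theorem factor_natDegree {χ f : F[X]} (h0 : χ ≠ 0) (hr : ∀ c, ¬ χ.IsRoot c) (hf : Irreducible f)
    (hd : f ∣ χ) : 2 ≤ f.natDegree ∧ f.natDegree ≤ χ.natDegree ∧ f.natDegree + 1 ≠ χ.natDegree := by
  have key : ∀ g, g ∣ χ → g.natDegree ≠ 1 := fun g hg e => by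
    obtain ⟨c, hc⟩ := exists_root_of_degree_eq_one
      ((degree_eq_iff_natDegree_eq_of_pos one_pos).2 e)
    exact hr c (hc.dvd hg)
  have h1 := key f hd
  have h2 := hf.natDegree_pos
  refine ⟨by omega, natDegree_le_of_dvd hd h0, fun e => ?_⟩
  obtain ⟨g, rfl⟩ := hd
  rw [natDegree_mul (left_ne_zero_of_mul h0) (right_ne_zero_of_mul h0)] at e
  exact key g (dvd_mul_left _ _) (by omega)

theorem eigen_or_noroot [FiniteDimensional F V] (g : End F V) :
    (∃ v, v ≠ 0 ∧ ∃ c : F, g v = c • v) ∨ ∀ c, ¬ g.charpoly.IsRoot c := by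
  refine or_iff_not_imp_right.2 fun h => ?_
  push Not at h
  obtain ⟨c, hc⟩ := h
  obtain ⟨v, hv⟩ := ((End.hasEigenvalue_iff_isRoot_charpoly g c).2 hc).exists_hasEigenvector
  exact ⟨v, hv.2, c, hv.apply_eq_smul⟩

theorem span_inv {g : End F V} {v : V} {c : F} (h : g v = c • v) : ∀ w ∈ F ∙ v, g w ∈ F ∙ v := by
  intro w hw
  obtain ⟨a, rfl⟩ := Submodule.mem_span_singleton.1 hw
  rw [map_smul, h]
  exact Submodule.smul_mem _ _ (Submodule.smul_mem _ _ (Submodule.mem_span_singleton_self _))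

theorem stab_ne_top [FiniteDimensional F V] {act : G →* End F V} {U : Submodule F V} {g : G} {v : V}
    (hv : v ∈ U) (h : act g v ∉ U) : stabSub act U ≠ ⊤ := fun e =>
  h ((e ▸ mem_top g : g ∈ stabSub act U) v hv)

theorem cov_SL [Finite F] [FiniteDimensional F V] {act : G →* End F V}
    (h : LG act fun f => LinearMap.det f = 1) (h2 : 2 ≤ finrank F V) (h4 : finrank F V ≤ 4) :
    Cov2 (G ⧸ center G) := by
  have mv : ∀ {v v' : V}, v ≠ 0 → v' ≠ 0 → ∃ g, act g v = v' := fun hv hv' => by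
    obtain ⟨g, hg⟩ := exists_move_one (F := F) h2 hv hv'
    obtain ⟨x, hx⟩ := h.surj (slAct g) (by
      have := congrArg Units.val g.2
      rwa [LinearEquiv.coe_det] at this)
    exact ⟨x, hx ▸ hg⟩
  have : Nontrivial V := nontrivial_of_finrank_pos (R := F) (by omega)
  obtain ⟨e, he⟩ := exists_ne (0 : V)
  obtain ⟨y, -, hy⟩ := exists_not_mem_of_finrank_lt (S := F ∙ e) (T := ⊤) (by
    have := finrank_span_le (F := F) e
    rw [finrank_top]; omega)
  have hH : stabSub act (F ∙ e) ≠ ⊤ := by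
    obtain ⟨g, hg⟩ := mv he (show y ≠ 0 from fun e => hy (e ▸ zero_mem _))
    exact stab_ne_top (Submodule.mem_span_singleton_self e) (hg ▸ hy)
  have eig : ∀ g, (∃ v, v ≠ 0 ∧ ∃ c : F, act g v = c • v) → ∃ x, x * g * x⁻¹ ∈ stabSub act (F ∙ e) := by
    rintro g ⟨v, hv, c, hc⟩
    obtain ⟨x, hx⟩ := mv hv he
    exact ⟨x, conj_mem_stab (span_inv hc) (by rw [Submodule.map_span, Set.image_singleton, hx])⟩
  obtain ⟨m, m1, m2, m3⟩ := exists_irr_natDegree F (d := if finrank F V = 3 then 3 else 2)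
    (by split_ifs <;> omega)
  have root : ∀ g : End F V, (∀ c, ¬ g.charpoly.IsRoot c) → ∃ p : F[X], aeval (aeval g p) m = 0 :=
    fun g hg => exists_aeval_root m2 g.charpoly_monic.ne_zero g.aeval_self_charpoly fun f hf hd => by
      have := factor_natDegree g.charpoly_monic.ne_zero hg hf hd
      rw [LinearMap.charpoly_natDegree] at this
      rw [m3]; split_ifs <;> omega
  by_cases hJ : ∃ J : End F V, aeval J m = 0
  swap
  · exact cov_quot hH hH (h.center_le_stab _) (h.center_le_stab _) fun g =>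
      ((eigen_or_noroot (act g)).elim (eig g) fun hg => absurd ⟨_, (root _ hg).choose_spec⟩ hJ).imp
        fun _ => .inl
  obtain ⟨J, hJ⟩ := hJ
  obtain ⟨f, f1, f2⟩ := sep_vec _ y hy
  obtain ⟨t, ht⟩ := h.surj (LinearMap.transvection f e) (by
    simp [f2 e (Submodule.mem_span_singleton_self e)])
  refine cov_quot hH (shift_ne_top (S := ⊥) (g := t) (f := f) (x₀ := y)
    (no_eigen_of_irr m2 (by rw [m3]; split_ifs <;> omega) hJ) (.inl rfl)
    (fun x => by rw [ht]; rfl) he (by simp [f1])) (h.center_le_stab _) (h.center_le_shift _ _)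
    fun g => ((eigen_or_noroot (act g)).elim (fun hg => (eig g hg).imp fun _ => .inl) fun hg => ?_)
  obtain ⟨p, hp⟩ := root _ hg
  obtain ⟨z, hz⟩ := sim_of_irr m1 m2 hp hJ
  obtain ⟨s, hs⟩ := H4.exists_hasType (aeval (act g) p)
  obtain ⟨y, hy⟩ := Multiset.exists_mem_of_ne_zero (hs.ne_zero (by omega))
  obtain ⟨c, c1, c2⟩ := hs.exists_commute_det hy (LinearMap.det (z : End F V))⁻¹
  obtain ⟨x, hx⟩ := h.surj (z * c) (by
    rw [map_mul, c2, hs.snd_eq_one m2.squarefree hp y hy, pow_one,
      mul_inv_cancel₀ (LinearEquiv.isUnit_det' z).ne_zero])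
  refine ⟨x, .inr (conj_mem_shift (J := aeval (act g) p) (zero_mem _) ?_ ?_)⟩
  · simpa using mul_aeval_comm (act g) p
  · rw [hx, mul_assoc, c1, ← mul_assoc, ← mul_assoc]
    congr 1
    exact LinearMap.ext hz

theorem cov_PSL [Finite F] {n : ℕ} (h2 : 2 ≤ n) (h4 : n ≤ 4) :
    Cov2 (Matrix.ProjectiveSpecialLinearGroup (Fin n) F) := by
  refine cov_SL (act := (Matrix.toLinAlgEquiv' (R := F) (n := Fin n)).toMonoidHom.comp
    ((Units.coeHom _).comp Matrix.SpecialLinearGroup.toGL)) ⟨fun g => ?_, fun f hf => ?_, fun z hz => ?_⟩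
    (by simpa) (by simpa)
  · exact (LinearMap.det_toLin' _).trans g.2
  · exact ⟨⟨LinearMap.toMatrix' f, by simpa⟩, Matrix.toLin'_toMatrix' f⟩
  · obtain ⟨r, -, hr⟩ := Matrix.SpecialLinearGroup.mem_center_iff.1 hz
    refine ⟨r, ?_⟩
    change Matrix.toLin' z.1 = _
    rw [← hr]
    ext i j
    simp [Matrix.diagonal, Pi.single_apply, eq_comm]

end Cfsg.Agent.H5
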