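import Cfsg.Agent.H5.Gen2
import Cfsg.Agent.H5.Gen2Sp
import Cfsg.Agent.H5.UModel
import Cfsg.Agent.H5.PronX
import Cfsg.Agent.H6.CSU4
import Cfsg.Agent.H4.GenT2
import Cfsg.Agent.H6.FieldGen

/-! Two generators for the special unitary groups. -/

set_option autoImplicit false

namespace Cfsg.Agent.H5

open Subgroup Module Polynomial H1 H6 H6.OF

variable {F : Type*} [Field F] {σ : F →+* F} {q : ℕ}

theorem isUnit_smul_root_sub {χ : F[X]} {c : F} (hc : c ≠ 0) (h : χ.eval c⁻¹ ≠ 0) :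
    IsUnit (c • AdjoinRoot.root χ - 1) := by
  obtain ⟨g, hg⟩ := X_sub_C_dvd_sub_C_eval (p := χ) (a := c⁻¹)
  have := congrArg (AdjoinRoot.mk χ) hg
  simp only [map_sub, map_mul, AdjoinRoot.mk_self, AdjoinRoot.mk_C, AdjoinRoot.mk_X] at this
  have a1 : AdjoinRoot.of χ c * AdjoinRoot.of χ c⁻¹ = 1 := by rw [← map_mul, mul_inv_cancel₀ hc, map_one]
  have a2 : AdjoinRoot.of χ (χ.eval c⁻¹) * AdjoinRoot.of χ (χ.eval c⁻¹)⁻¹ = 1 := by
    rw [← map_mul, mul_inv_cancel₀ h, map_one]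
  refine IsUnit.of_mul_eq_one (-AdjoinRoot.of χ c⁻¹ * AdjoinRoot.mk χ g * AdjoinRoot.of χ (χ.eval c⁻¹)⁻¹) ?_
  rw [Algebra.smul_def, AdjoinRoot.algebraMap_eq]
  linear_combination a2 + AdjoinRoot.of χ (χ.eval c⁻¹)⁻¹ * this -
    AdjoinRoot.root χ * AdjoinRoot.mk χ g * AdjoinRoot.of χ (χ.eval c⁻¹)⁻¹ * a1

theorem eq_top_of_root [Finite F] {χ : F[X]} {c θ : F} (hc : c ≠ 0) (hθ : H4.Gens θ) {f : ℤ[X]} {k : ℕ}
    (h : χ ∣ (aeval (C c * X) f - C θ) ^ k) {A : AddSubgroup (AdjoinRoot χ)}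
    (hA : ∀ w ∈ A, c • (AdjoinRoot.root χ * w) ∈ A) {y : AdjoinRoot χ} (hy : IsUnit y) (h1 : y ∈ A) (w : AdjoinRoot χ) :
    w ∈ A := by
  obtain ⟨p, hp⟩ := CharP.exists F
  have : Fact p.Prime := ⟨CharP.char_is_prime F p⟩
  let M : Subring (AdjoinRoot χ) :=
    { carrier := {z | ∀ w ∈ A, z * w ∈ A}
      mul_mem' := fun a b w h => mul_assoc _ _ w ▸ a _ (b w h)
      one_mem' := fun w h => (one_mul w).symm ▸ h
      add_mem' := fun a b w h => (add_mul _ _ w).symm ▸ add_mem (a w h) (b w h)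
      zero_mem' := fun w _ => (zero_mul w).symm ▸ zero_mem A
      neg_mem' := fun a w h => (neg_mul _ w).symm ▸ neg_mem (a w h) }
  have a1 : AdjoinRoot.mk χ (C c * X) ∈ M := fun w h => by simpa [Algebra.smul_def, mul_assoc] using hA w h
  have a2 : ∀ t, AdjoinRoot.of χ t ∈ M := fun t => (hθ (M.comap (AdjoinRoot.of χ)) (H4.mem_subring_of_pow p (e := k) (by
    have : CharP F[X] p := inferInstance
    have b1 := AdjoinRoot.mk_eq_zero.2 (h.trans (pow_dvd_pow _ (Nat.lt_pow_self (Fact.out : p.Prime).one_lt).le))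
    rw [sub_pow_char_pow, map_sub, sub_eq_zero, map_pow, map_pow, AdjoinRoot.mk_C] at b1
    rw [Subring.mem_comap, map_pow, ← b1]
    refine pow_mem ?_ _
    rw [map_aeval_eq_aeval_map (φ := RingHom.id ℤ) (ψ := AdjoinRoot.mk χ) (RingHom.ext_int _ _), Polynomial.map_id]
    exact (Algebra.adjoin_le_iff (S := subalgebraOfSubring M)).2 (Set.singleton_subset_iff.2 a1)
      (aeval_mem_adjoin_singleton _ _)))).ge (Subring.mem_top t)
  have a3 : ∀ g, AdjoinRoot.mk χ g ∈ M := fun g => by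
    induction g using Polynomial.induction_on with
    | C t => exact a2 t
    | add _ _ a b => exact map_add (AdjoinRoot.mk χ) _ _ ▸ add_mem a b
    | monomial n t h =>
      rw [show C t * X ^ (n + 1) = C t * X ^ n * (C c⁻¹ * (C c * X)) by
        rw [← mul_assoc (C c⁻¹), ← C_mul, inv_mul_cancel₀ hc, C_1, one_mul, pow_succ, mul_assoc], map_mul, map_mul _ (C c⁻¹)]
      exact mul_mem h (mul_mem (a2 _) a1)
  obtain ⟨g, hg⟩ := AdjoinRoot.mk_surjective (w * (hy.unit⁻¹).1)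
  simpa [hg, mul_assoc] using a3 g y h1

theorem UF.twoGen_of_poly [Fintype F] (h : UF σ q) {χ : F[X]} (hχ : χ.Monic) (hd : χ.natDegree ≠ 0)
    (h0 : χ.coeff 0 ≠ 0) (hs : pstar σ χ = χ) {ζ θ : F} (hζ : ζ ≠ 0)
    (h1 : ζ * (σ ζ)⁻¹ * ((-1) ^ χ.natDegree * χ.coeff 0) = 1) (h2 : χ.eval ζ ≠ 0) (h3 : χ.eval (σ ζ)⁻¹ ≠ 0)
    (hθ : H4.Gens θ) {f : ℤ[X]} {k : ℕ} (h4 : χ ∣ (aeval (C (σ ζ) * X) f - C θ) ^ k) :
    TwoGen (Cfsg.SU (χ.natDegree + 2) F q) := by
  have := hχ.finite_adjoinRoot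
  obtain ⟨B₀, b0, g, hg⟩ := h.exists_form_mulX hχ h0 hs
  let B₁ := (prodForm (oneU σ) (oneU σ)).comp (LinearEquiv.prodComm F F F : F × F →ₗ[F] F × F)
  have b1 : ∀ x y, B₁ x y = x.2 * σ y.1 + x.1 * σ y.2 := fun _ _ => rfl
  have b2 : IsEps B₁ 1 := ⟨h.invol, fun u v => by simp [b1, h.invol, mul_comm, add_comm],
    fun u hu => Prod.ext (by simpa [b1] using hu (0, 1)) (by simpa [b1] using hu (1, 0))⟩
  have hB := b2.prod b0
  obtain ⟨φ⟩ := exists_suEquiv h hB (n := χ.natDegree + 2) (by simp [finrank_adjoinRoot hχ, add_comm])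
  refine TwoGen.of_surj ?_ (f := φ.symm.toMonoidHom) φ.symm.surjective
  have hσ : σ ζ ≠ 0 := (map_ne_zero σ).2 hζ
  obtain ⟨c, c1, c2⟩ := h.exists_trace_zero
  let a : SUb (prodForm B₁ B₀) := ⟨Isom.prod (b2.toIsom ((ζ • 1 : End F F).prodMap ((σ ζ)⁻¹ • 1)) fun u v => by
    simp [b1, h.invol]; field_simp) g, by
      change LinearMap.det (((ζ • 1 : End F F).prodMap ((σ ζ)⁻¹ • 1 : End F F)).prodMap (g.1 : End F (AdjoinRoot χ))) = (1 : F)
      rw [LinearMap.det_prodMap, LinearMap.det_prodMap, hg, (H4.mulX χ).det_eq_sign_charpoly_coeff, H4.charpoly_mulX hχ,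
        finrank_adjoinRoot hχ]
      simpa using h1⟩
  let n : SUb (prodForm B₁ B₀) := ⟨Isom.prod (b2.toIsom ((c • 1 : End F F).prodMap (-c⁻¹ • 1) ∘ₗ
    (LinearEquiv.prodComm F F F : F × F →ₗ[F] F × F)) fun u v => by
    simp [b1, c2]; field_simp; ring) 1, by
      change LinearMap.det (((c • 1 : End F F).prodMap (-c⁻¹ • 1 : End F F) ∘ₗ
        (LinearEquiv.prodComm F F F : F × F →ₗ[F] F × F)).prodMap (1 : End F (AdjoinRoot χ))) = (1 : F)
      rw [LinearMap.det_prodMap, ← LinearMap.det_toMatrix (Basis.finTwoProd F), Matrix.det_fin_two]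
      simp [LinearMap.toMatrix_apply, c1]⟩
  have a1 : ∀ v, jB h hB a • v = ((ζ * v.1.1, (σ ζ)⁻¹ * v.1.2), AdjoinRoot.root χ * v.2) := fun v =>
    Prod.ext rfl (LinearMap.congr_fun hg v.2)
  have n1 : ∀ v, jB h hB n • v = ((c * v.1.2, -c⁻¹ * v.1.1), v.2) := fun v =>
    (Isom.prod_apply _ (1 : Isom B₀) v).trans (Prod.ext rfl rfl)
  clear_value a n
  have a2 : ∀ v, (jB h hB n * jB h hB a * (jB h hB n)⁻¹) • v =
      (((σ ζ)⁻¹ * v.1.1, ζ * v.1.2), AdjoinRoot.root χ * v.2) := fun v => by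
    obtain ⟨v, rfl⟩ := (MulAction.toPerm (jB h hB n)).surjective v
    rw [MulAction.toPerm_apply, mul_smul, inv_smul_smul, mul_smul, a1, n1, n1, mul_left_comm c, mul_left_comm (-c⁻¹)]
  obtain ⟨α, hα⟩ := (ofSU h hB).ex (0, 1)
  have u1 : Adm (prodForm B₁ B₀) (0, 1) ((1, 0), 0) (-α) := ⟨by simp [b1], by simp, by
    rw [map_neg]; linear_combination -(ofSU_Λ _ _).1 hα⟩
  refine ⟨a, ei hB (0, 1) ((1, 0), 0) (-α) * n, su_eq_top hB h _ fun x e μ hx => ?_⟩
  rw [← mem_map_iff_mem (jB_inj (hU := h) (hB := hB)), (jB_ei hx).2]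
  refine rad_of_two (e := ((1, 0), 0)) (f := ((0, 1), 0)) (ζ := ζ) (ζ' := (σ ζ)⁻¹) (a := jB h hB a) (n := jB h hB n)
    hB.nondeg (by simp [ofSU_Λ, b1])
    (by simp [ofSU_Λ, b1]) (by simp [ofSU_B, b1]) hζ (inv_ne_zero hσ) c1 (by simp [a1]) (by simp [a2])
    (U_ext fun v => by rw [mul_smul (jB h hB a), mul_smul _ (jB h hB a) v, a1, a2, a2, a1, mul_left_comm ζ (σ ζ)⁻¹,
      mul_left_comm ζ (σ ζ)⁻¹]) (by simp [n1])
    ⟨_, (jB_ei u1).1, (jB_ei u1).2⟩ (mem_map_of_mem _ (subset_closure (by simp)))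
    (by rw [← map_mul]; exact mem_map_of_mem _ (subset_closure (by simp))) (fun A A1 A2 v v1 v2 => ?_)
    (fun β hβ => ?_) e _ _ (jB_ei hx).1
  · have := eq_top_of_root hσ hθ h4 (A := A.comap (AddMonoidHom.inr _ _))
      (fun w hw => by simpa [a1, ofSU_σ, Prod.mk_zero_zero] using A1 _ hw)
      ((isUnit_smul_root_sub (inv_ne_zero hζ) (by rwa [inv_inv])).neg.mul (isUnit_smul_root_sub hσ h3))
      (by
        rw [AddSubgroup.mem_comap]
        convert A2 using 1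
        simp [a1, a2, ofSU_σ, h.invol, Algebra.smul_def, Prod.mk_zero_zero]
        ring) v.2
    rwa [show v = (0, v.2) from Prod.ext (Prod.ext (by simpa [ofSU_B, b1] using v2) (by simpa [ofSU_B, b1] using v1)) rfl]
  · obtain ⟨y, rfl⟩ := su_min hβ
    have : Nontrivial (AdjoinRoot χ) := (finrank_pos_iff (R := F)).1 (by rw [finrank_adjoinRoot hχ]; omega)
    obtain ⟨w, hw⟩ := not_forall.1 fun e => one_ne_zero (b0.nondeg 1 e)
    refine ⟨(0, (y / B₀ 1 w) • 1), (0, w), by simp [ofSU_B], by simp [ofSU_B], by simp [ofSU_B], by simp [ofSU_B], ?_⟩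
    rw [ofSU_B, ofSU_B, hB.herm _ (0, w)]
    simp [ofSU_η, hw]

theorem pstar_X_pow_sub_C {k : ℕ} (hk : k ≠ 0) {δ : F} (h : δ * σ δ = 1) :
    pstar σ (X ^ k - C δ) = X ^ k - C δ := by
  have h0 : δ ≠ 0 := left_ne_zero_of_mul_eq_one h
  rw [pstar_eq (by simp [hk.symm, h0]), Polynomial.map_sub, Polynomial.map_pow, map_X, map_C, sub_eq_add_neg _ (C (σ δ)),
    ← C_neg, reverse_add_C, ← one_mul (X ^ k), reverse_mul_X_pow, ← C_1, reverse_C]
  simp only [one_mul, C_1, coeff_add, coeff_X_pow, hk.symm, if_false, coeff_neg, coeff_C_zero, zero_add, map_neg,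
    natDegree_X_pow, eq_inv_of_mul_eq_one_right h, inv_neg, inv_inv, coeff_sub, zero_sub]
  have : C δ * C δ⁻¹ = 1 := by rw [← C_mul, mul_inv_cancel₀ h0, C_1]
  linear_combination X ^ k * this

theorem exists_aeval_pair {x y : F} (hx : Function.Surjective (aeval x : ℤ[X] → F))
    (hy : Function.Surjective (aeval y : ℤ[X] → F)) (h : ∀ φ : F →+* F, φ x ≠ y) (θ : F) :
    ∃ f : ℤ[X], aeval x f = θ ∧ aeval y f = θ := by
  obtain ⟨f, f1, f2⟩ : ∃ f : ℤ[X], aeval x f = 0 ∧ aeval y f ≠ 0 := by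
    by_contra! e
    exact h ((aeval x : ℤ[X] →ₐ[ℤ] F).toRingHom.liftOfSurjective hx ⟨(aeval y : ℤ[X] →ₐ[ℤ] F).toRingHom, e⟩) (by
      simpa using (aeval x : ℤ[X] →ₐ[ℤ] F).toRingHom.liftOfSurjective_comp_apply hx
        ⟨(aeval y : ℤ[X] →ₐ[ℤ] F).toRingHom, e⟩ X)
  obtain ⟨g, g1⟩ := hx θ
  obtain ⟨k, k1⟩ := hy ((θ - aeval y g) / aeval y f)
  exact ⟨g + f * k, by simp [f1, g1], by simp [k1, mul_div_cancel₀ _ f2]⟩

theorem UF.twoGen_su [Fintype F] (h : UF σ q) {n : ℕ} (h1 : n = 0 → q ≠ 2) : TwoGen (Cfsg.SU (n + 3) F q) := by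
  have m1 : ∀ (a : F) k, ((X - C a) ^ k).Monic := fun a k => (monic_X_sub_C a).pow k
  have p1 : ∀ {δ : F}, δ * σ δ = 1 → ∀ k, pstar σ ((X - C δ) ^ k) = (X - C δ) ^ k := fun e k => by
    rw [pstar_pow, ← pow_one X, pstar_X_pow_sub_C one_ne_zero e]
  obtain ⟨ξ, x0, x1⟩ := H4.exists_prim (F := F)
  have hq := h.two_le
  by_cases h2 : q = 2
  · subst h2
    obtain ⟨t2, x2, -⟩ := field_four h.card x0 x1
    have x3 : ξ ^ 3 = 1 := by linear_combination (ξ - 1) * x2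
    have x4 : ξ ≠ 1 := fun e => by rw [e] at x2; exact one_ne_zero (by linear_combination x2 - t2)
    have x5 : (ξ ^ 2)⁻¹ = ξ := inv_eq_of_mul_eq_one_right (by linear_combination x3)
    have c2 : (2 : F[X]) = 0 := by simpa only [map_ofNat, map_zero] using congrArg C t2
    have c3 : (C ξ) ^ 2 + C ξ + 1 = 0 := by simpa using congrArg C x2
    obtain _ | _ | n := n
    · exact absurd rfl (h1 rfl)
    · have x6 : ξ - ξ ^ 2 ≠ 0 := fun e => x4 (mul_left_cancel₀ x0 (by linear_combination -e))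
      have := h.twoGen_of_poly (m1 (ξ ^ 2) 2) (by simp [-map_pow]) (by simp [coeff_zero_eq_eval_zero, x0])
        (p1 (by rw [h.apply]; linear_combination (ξ ^ 3 + 1) * x3) 2) x0
        (by simp [h.apply, x5, coeff_zero_eq_eval_zero]; linear_combination (ξ ^ 3 + 1) * x3) (by simpa using x6)
        (by simpa [h.apply, x5] using x6) (H4.gens_of_prim x1) (f := X) (k := 2) (pow_dvd_pow_of_dvd ⟨C ξ ^ 2, by
          simp only [aeval_X, h.apply, map_pow]; linear_combination C ξ * (C ξ - 1) * c3⟩ 2)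
      rwa [natDegree_pow, natDegree_X_sub_C] at this
    · have d1 : ((X - C 1) ^ n * (X ^ 3 - C ξ) : F[X]).natDegree = n + 3 := by
        rw [(m1 1 n).natDegree_mul (monic_X_pow_sub_C ξ three_ne_zero)]; simp [-map_one]
      have x6 : ((X - C 1) ^ n * (X ^ 3 - C ξ) : F[X]).eval ξ ≠ 0 := by simp [x3, sub_eq_zero, x4, x4.symm]
      have := h.twoGen_of_poly ((m1 1 n).mul (monic_X_pow_sub_C ξ three_ne_zero)) (by omega)
        (by simp [coeff_zero_eq_eval_zero, x0]) (by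
          rw [pstar_mul, p1 (by simp), pstar_X_pow_sub_C three_ne_zero (by rw [h.apply]; linear_combination x3)]) x0
        (by
          rw [d1, show (-1 : F) = 1 by linear_combination -t2]
          simp [h.apply, x5, coeff_zero_eq_eval_zero, show (-1 : F) = 1 by linear_combination -t2]
          linear_combination -x3 - t2) x6 (by rwa [h.apply, x5])
        (fun A hA => H4.gens_of_prim x1 A (by simpa [← pow_mul, pow_succ' ξ 3, x3] using pow_mem hA 2) : H4.Gens (ξ ^ 2))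
        (f := X ^ 7 + X ^ 4 + X ^ 3 + X + 1) (k := n + 1) (((mul_dvd_mul (pow_dvd_pow _ n.le_succ)
          (dvd_pow_self _ n.add_one_ne_zero)).trans (mul_pow _ _ _).symm.dvd).trans (pow_dvd_pow_of_dvd
            ⟨C ξ ^ 2 * (X ^ 3 + X ^ 2 + X) + 1, by
              simp only [aeval_X, h.apply, map_pow, map_add, map_one]
              generalize C ξ = w at c3
              generalize (X : F[X]) = x
              clear * - c2 c3
              grind⟩ _))
      rwa [d1] at this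
  · have x2 : σ ξ ≠ 0 := (map_ne_zero σ).2 x0
    have x3 : ∀ {N}, 0 < N → N + 1 < q ^ 2 → ξ ^ N ≠ 1 := fun a b e =>
      absurd (card_le_of_pow_eq_one x1 a e) (by rw [h.card]; omega)
    obtain ⟨r, rfl⟩ : ∃ r, q = r + 3 := ⟨q - 3, by omega⟩
    have x4 : ξ ≠ 1 := by simpa using x3 one_pos (by nlinarith)
    have x5 : ξ / σ ξ * σ (ξ / σ ξ) = 1 := by rw [map_div₀, h.invol]; field_simp
    have x6 : ξ / σ ξ ≠ 1 := fun e => x3 (N := r + 2) r.succ.succ_pos (by nlinarith) (mul_left_cancel₀ x0 (by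
      rw [div_eq_one_iff_eq x2, h.apply] at e; linear_combination -e))
    have x7 : σ ξ ≠ ξ / σ ξ := fun e => x3 (N := r + 1) r.succ_pos (by nlinarith) (mul_left_cancel₀ (pow_ne_zero 2 x0) (by
      have := congrArg σ ((eq_div_iff x2).1 e)
      rw [map_mul, h.invol, h.apply] at this; linear_combination -this))
    have x8 : ξ⁻¹ ≠ ξ / σ ξ := fun e => x3 (N := r + 1) r.succ_pos (by nlinarith) (mul_left_cancel₀ (pow_ne_zero 2 x0) (by
      rw [eq_div_iff x2, inv_mul_eq_iff_eq_mul₀ x0, h.apply] at e; linear_combination e))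
    obtain ⟨f, f1, f2⟩ := exists_aeval_pair (x := ξ) (fun t => by
      by_cases a : t = 0
      · exact ⟨0, by simp [a]⟩
      · exact (x1 t a).elim fun k e => ⟨X ^ k, by simp [e]⟩) ((aeval_surj_or (ξ * (ξ / σ ξ))).resolve_right (by
      rintro ⟨s, d, s1, s2, s3, s4⟩
      obtain ⟨s, rfl⟩ : ∃ t, s = t + 1 := ⟨s - 1, by omega⟩
      have := (Nat.pow_le_pow_iff_left two_ne_zero).1 ((Nat.pow_le_pow_right s.succ_pos s2).trans (h.card ▸ s3).ge)
      refine x3 (N := (r + 1) * s) (Nat.mul_pos r.succ_pos (by omega)) (by nlinarith) ?_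
      rw [h.apply, show ξ * (ξ / ξ ^ (r + 3)) = (ξ ^ (r + 1))⁻¹ by field_simp; ring, pow_succ _ s,
        mul_eq_right₀ (inv_ne_zero (pow_ne_zero _ x0)), inv_pow, inv_eq_one] at s4
      rwa [pow_mul])) (fun φ e => x6 (by
        have a1 : ∀ x, φ x * σ x = x * x := fun x => by
          by_cases a : x = 0
          · simp [a]
          obtain ⟨k, rfl⟩ := x1 x a
          rw [map_pow, map_pow, ← mul_pow, e, mul_assoc, div_mul_cancel₀ _ x2, mul_pow]
        have a2 := a1 (ξ + 1)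
        rw [map_add, map_add, map_one, map_one] at a2
        rw [div_eq_one_iff_eq x2, ← sub_eq_zero, ← mul_self_eq_zero]
        linear_combination σ ξ * a2 - (σ ξ + 1) * a1 ξ)) ξ
    have d1 : ((X - C 1) ^ n * (X - C (ξ / σ ξ)) : F[X]).natDegree = n + 1 := by
      rw [(m1 1 n).natDegree_mul (monic_X_sub_C _)]; simp [-map_one]
    have := h.twoGen_of_poly ((m1 1 n).mul (monic_X_sub_C (ξ / σ ξ))) (by omega)
      (by simp [coeff_zero_eq_eval_zero, x0]) (by rw [pstar_mul, p1 (by simp), ← pow_one (X - C (ξ / σ ξ)), p1 x5]) x2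
      (by
        rw [d1, h.invol]
        simp [coeff_zero_eq_eval_zero, pow_succ]
        rw [← mul_assoc (_ ^ n), ← mul_pow]
        simp only [neg_mul_neg, one_mul, one_pow]
        field_simp)
      (by simp [sub_eq_zero, x7, map_eq_one_iff σ σ.injective, x4]) (by simp [h.invol, sub_eq_zero, x8, x4]) (H4.gens_of_prim x1) (f := f)
      (k := n + 1) (((mul_dvd_mul (pow_dvd_pow _ n.le_succ) (dvd_pow_self _ n.add_one_ne_zero)).trans
        (mul_pow _ _ _).symm.dvd).trans (pow_dvd_pow_of_dvd ((isCoprime_X_sub_C_of_isUnit_sub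
          (sub_ne_zero.2 x6.symm).isUnit).mul_dvd (dvd_iff_isRoot.2 ?_) (dvd_iff_isRoot.2 ?_)) _))
    · rwa [d1] at this
    all_goals
      rw [IsRoot, eval_sub, eval_C, ← coe_evalRingHom, map_aeval_eq_aeval_map (φ := RingHom.id ℤ) (RingHom.ext_int _ _)]
      simp [h.invol, f1, f2]

end Cfsg.Agent.H5
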