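import Cfsg.Agent.H5.OrthE

/-! Elements of orthogonal groups as products of two involutions with equal ranks. -/

set_option autoImplicit false

namespace Cfsg.Agent.H5

open Module Polynomial Function

universe u v w

variable {F : Type w} [Field F]
variable {V : Type u} [AddCommGroup V] [Module F V]

/-- Skew-adjoint endomorphisms. -/
def Skew (B : Bil F V) (c : End F V) : Prop := ∀ x y, B (c x) y = -B x (c y)

theorem Skew.sq_adj {B : Bil F V} {c : End F V} (hc : Skew B c) (x y : V) :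
    B ((c * c) x) y = B x ((c * c) y) := by
  rw [End.mul_apply, hc, hc, neg_neg, End.mul_apply]

theorem aeval_sq_comm (c : End F V) (f : F[X]) (x : V) : aeval (c * c) f (c x) = c (aeval (c * c) f x) :=
  (H4.intertwine_aeval (f := c * c) (g := c * c) c (fun _ => rfl) f x).symm

theorem aeval_divX (s : End F V) (f : F[X]) (x : V) : aeval s f x = f.coeff 0 • x + s (aeval s f.divX x) := by
  conv_lhs => rw [← f.X_mul_divX_add, map_add, map_mul, aeval_X, aeval_C, Algebra.algebraMap_eq_smul_one, add_comm]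
  rfl

theorem Skew.cyc_perp {B : Bil F V} (hB : IsEps B 1) (h2 : (2 : F) ≠ 0) {c : End F V} (hc : Skew B c) {v : V} :
    ∀ x ∈ cyc (c * c) v, ∀ y ∈ cyc (c * c) v, B x (c y) = 0 := by
  have key : ∀ f : F[X], B (aeval (c * c) f v) (c v) = 0 := fun f => by
    have h1 := hc (aeval (c * c) f v) v
    rw [← aeval_sq_comm, aeval_adj hc.sq_adj, hB.comm] at h1
    exact mul_left_cancel₀ h2 (by linear_combination h1)
  rintro _ ⟨a, rfl⟩ _ ⟨b, rfl⟩
  have := key (b * a)
  rwa [map_mul, End.mul_apply, aeval_adj hc.sq_adj, aeval_sq_comm] at this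

theorem Skew.cyc_cross {B : Bil F V} {c : End F V} (hc : Skew B c) {v w : V}
    (h : ∀ x ∈ cyc (c * c) v, B x w = 0) : ∀ x ∈ cyc (c * c) v, ∀ y ∈ cyc (c * c) w, B x y = 0 := by
  rintro x hx _ ⟨b, rfl⟩
  exact (aeval_adj hc.sq_adj b x w).symm.trans (h _ (aeval_mem_cyc b hx))

theorem Skew.pow {B : Bil F V} {c : End F V} (hc : Skew B c) (j : ℕ) (x y : V) :
    B ((c ^ j) x) y = (-1) ^ j * B x ((c ^ j) y) := by
  induction j generalizing y with
  | zero => simp
  | succ j ih => rw [pow_succ', End.mul_apply, hc, ih, ← End.mul_apply, ← pow_succ, ← pow_succ']; ring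

theorem Skew.disjoint_layMap {C : Type*} [AddCommGroup C] [Module F C] {B : Bil F V} (hB : IsEps B 1)
    {c : End F V} (hc : Skew B c) {ι : C →ₗ[F] V} {d : ℕ} (hN : ∀ a, (c ^ (d + 1)) (ι a) = 0)
    (hβ : ∀ a, (∀ a', B ((c ^ d) (ι a)) (ι a') = 0) → a = 0) :
    Disjoint (LinearMap.range (layMap c ι (d + 1))) (perp B (LinearMap.range (layMap c ι (d + 1)))) := by
  rw [Submodule.disjoint_def]
  intro x hx hx'
  have key : ∀ j ≤ d + 1, ∃ a, x = (c ^ j) (layMap c ι (d + 1) a) := by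
    intro j
    induction j with
    | zero => obtain ⟨a, rfl⟩ := hx; exact fun _ => ⟨a, rfl⟩
    | succ j ih =>
      intro hj
      obtain ⟨a, rfl⟩ := ih (by omega)
      obtain ⟨k, rfl⟩ : ∃ k, d = k + j := ⟨d - j, by omega⟩
      have h0 : a 0 = 0 := hβ _ fun a' => by
        have h1 := hB.refl (hx' _ (pow_mem_range_layMap hN k _ (mem_range_layMap hN a')))
        rw [hc.pow, ← End.mul_apply, ← pow_add, pow_layMap' hN] at h1
        exact hB.refl (by simpa using h1)
      exact ⟨fun j => a (j + 1), by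
        rw [layMap_tail hN a, h0, map_zero, zero_add, ← End.mul_apply, ← pow_succ]⟩
  obtain ⟨a, rfl⟩ := key _ le_rfl
  exact pow_layMap hN a

theorem cyc_key {B : Bil F V} {s : End F V} (hs : ∀ u v, B (s u) v = B u (s v)) {π : F[X]} (hπ : Irreducible π)
    {k : ℕ} {v : V} (h1 : aeval s (π ^ (k + 1)) v = 0) (h2 : B (aeval s (π ^ k) v) v ≠ 0) :
    ∀ a ∈ cyc s v, (∀ r ∈ cyc s v, B a r = 0) → a = 0 := by
  rintro _ ⟨f, rfl⟩ ha
  by_contra h0
  change aeval s f v ≠ 0 at h0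
  obtain ⟨j, f₀, h3, rfl⟩ := WfDvdMonoid.max_power_factor (show f ≠ 0 by rintro rfl; simp at h0) hπ
  obtain ⟨i, rfl⟩ : ∃ i, k = i + j := ⟨k - j, by
    by_contra h4
    obtain ⟨i, rfl⟩ : ∃ i, j = i + (k + 1) := ⟨j - (k + 1), by omega⟩
    rw [pow_add, mul_right_comm, map_mul, End.mul_apply, h1, map_zero] at h0
    exact h0 rfl⟩
  obtain ⟨α, β, h4⟩ := hπ.coprime_iff_not_dvd.2 h3
  refine h2 ?_
  have := ha _ (aeval_mem_cyc (β * π ^ i) (self_mem_cyc _ v))
  rw [← aeval_adj hs] at this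
  rw [show π ^ (i + j) = α * π ^ (i + j + 1) + β * π ^ i * (π ^ j * f₀) by
    linear_combination (-π ^ (i + j)) * h4, map_add, map_mul, LinearMap.add_apply, End.mul_apply, h1,
    map_zero, zero_add, map_mul]
  exact this

theorem exists_self_ne {B : Bil F V} (h2 : (2 : F) ≠ 0) (hs : ∀ x y, B x y = B y x) {x y : V} (h : B x y ≠ 0)
    {U : Submodule F V} (hx : x ∈ U) (hy : y ∈ U) : ∃ v ∈ U, B v v ≠ 0 := by
  by_contra! H
  have := H (x + y) (add_mem hx hy)
  simp only [map_add, LinearMap.add_apply, H x hx, H y hy, hs y x] at this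
  exact h (mul_left_cancel₀ h2 (by linear_combination this))

variable [FiniteDimensional F V]

theorem exists_cyc_gen {B : Bil F V} (hB : IsEps B 1) (h2 : (2 : F) ≠ 0) [Nontrivial V] {s : End F V}
    (hs : ∀ u v, B (s u) v = B u (s v)) : ∃ (π h : F[X]) (k : ℕ) (v : V), Irreducible π ∧ ¬ π ∣ h ∧
      aeval s (π ^ (k + 1) * h) = 0 ∧ aeval s (π ^ (k + 1)) v = 0 ∧ B (aeval s (π ^ k) v) v ≠ 0 := by
  have hI : IsIntegral F s := Algebra.IsIntegral.isIntegral _
  obtain ⟨π, hπ, h1⟩ := WfDvdMonoid.exists_irreducible_factor (minpoly.not_isUnit F s) (minpoly.ne_zero hI)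
  obtain ⟨k, h, h3, h4⟩ := WfDvdMonoid.max_power_factor (minpoly.ne_zero hI) hπ
  obtain ⟨k, rfl⟩ : ∃ j, k = j + 1 := ⟨k - 1, by
    rcases k with _ | k
    · exact absurd (by simpa [h4] using h1) h3
    · rfl⟩
  have h5 : aeval s (h * (π ^ k * h)) ≠ 0 := fun h5 => by
    have h6 := minpoly.dvd F _ h5
    rw [h4, mul_comm h, mul_dvd_mul_iff_right (by rintro rfl; simp at h3), pow_succ,
      mul_dvd_mul_iff_left (pow_ne_zero _ hπ.ne_zero)] at h6
    exact h3 h6
  obtain ⟨x, hx⟩ := not_forall.1 (mt LinearMap.ext h5)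
  obtain ⟨y, hy⟩ := not_forall.1 (mt (hB.nondeg _) hx)
  obtain ⟨v, -, hv⟩ := exists_self_ne (B := B.comp (aeval s (h * (π ^ k * h)))) h2
    (fun x y => by simp only [LinearMap.comp_apply]; rw [aeval_adj hs, hB.comm]) hy (U := ⊤) trivial trivial
  refine ⟨π, h, k, aeval s h v, hπ, h3, by rw [← h4, minpoly.aeval],
    by rw [← End.mul_apply, ← map_mul, ← h4, minpoly.aeval]; rfl, ?_⟩
  rw [← aeval_adj hs]
  simpa only [map_mul, End.mul_apply, LinearMap.comp_apply] using hv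

section rank

variable {B : Bil F V} (hB : IsEps B 1) {W : Submodule F V} (hW : Disjoint W (perp B W))

theorem rk_glue_add (a : Isom (res B W)) (b : Isom (res B (perp B W))) :
    rk (glueHom hB hW (a, b)) = rk a + rk b := by
  have h1 : LinearMap.range (1 - ((glueHom hB hW (a, b)).1 : End F V)) =
      (LinearMap.range (1 - (a.1 : End F W))).map W.subtype ⊔
        (LinearMap.range (1 - (b.1 : End F (perp B W)))).map (perp B W).subtype := by
    refine le_antisymm ?_ (sup_le ?_ ?_)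
    · rintro _ ⟨v, rfl⟩
      obtain ⟨x, y, rfl⟩ := exists_add_of_isCompl (hB.isCompl_perp hW) v
      exact Submodule.mem_sup.2 ⟨_, ⟨_, ⟨x, rfl⟩, rfl⟩, _, ⟨_, ⟨y, rfl⟩, rfl⟩, by
        simp [glueHom_left, glueHom_right]; abel⟩
    · rintro _ ⟨_, ⟨x, rfl⟩, rfl⟩
      exact ⟨x, by simp [glueHom_left]⟩
    · rintro _ ⟨_, ⟨x, rfl⟩, rfl⟩
      exact ⟨x, by simp [glueHom_right]⟩
  have h3 := Submodule.finrank_sup_add_finrank_inf_eq ((LinearMap.range (1 - (a.1 : End F W))).map W.subtype)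
    ((LinearMap.range (1 - (b.1 : End F (perp B W)))).map (perp B W).subtype)
  rw [disjoint_iff.1 (hW.mono (Submodule.map_subtype_le _ _) (Submodule.map_subtype_le _ _)), finrank_bot,
    Submodule.finrank_map_subtype_eq, Submodule.finrank_map_subtype_eq] at h3
  rw [rk, h1, rk, rk, ← h3, add_zero]

omit [FiniteDimensional F V] in
theorem invol_apply {s : Isom B} (hs : s * s = 1) (x : V) : s.1 (s.1 x) = x :=
  congrArg (fun t : Isom B => t.1 x) hs

theorem rk_neg (h2 : (2 : F) ≠ 0) {s : Isom B} (hs : s * s = 1) : rk (negI B * s) + rk s = finrank F V := by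
  rw [← LinearMap.finrank_range_add_finrank_ker (1 - (s.1 : End F V)), add_comm, rk, rk]
  refine congrArg (fun U : Submodule F V => _ + finrank F U) (le_antisymm ?_ fun x hx => ⟨(2 : F)⁻¹ • x, ?_⟩)
  · rintro _ ⟨x, rfl⟩
    simp [negI_apply, invol_apply hs, add_comm]
  · have : s.1 x = x := (sub_eq_zero.1 hx).symm
    simp [negI_apply, this, ← two_smul F x, smul_smul, h2]

theorem rk_conj {s t : Isom B} (e : V ≃ₗ[F] V) (h : ∀ x, t.1 (e x) = e (s.1 x)) : rk t = rk s :=
  rk_ext (e : V →ₗ[F] V) e.injective h fun v => ⟨e.symm v, 0, map_zero _, by simp⟩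

/-- The involution with `-1`-eigenspace `W`. -/
noncomputable def rM : Isom B := glueHom hB hW (negI _, 1)

theorem rM_left {x : V} (hx : x ∈ W) : (rM hB hW).1 x = -x := glueHom_left hB hW _ ⟨x, hx⟩

theorem rM_right {x : V} (hx : x ∈ perp B W) : (rM hB hW).1 x = x := glueHom_right hB hW _ ⟨x, hx⟩

theorem rk_negI (h2 : (2 : F) ≠ 0) : rk (negI B) = finrank F V := by
  have := rk_neg (B := B) h2 (s := 1) (mul_one _)
  rwa [mul_one, show rk (1 : Isom B) = 0 from Submodule.finrank_eq_zero.2 (LinearMap.range_eq_bot.2 (sub_self _)),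
    add_zero] at this

theorem rk_rM (h2 : (2 : F) ≠ 0) : rk (rM hB hW) = finrank F W := by rw [rM, rk_glue, rk_negI h2]

end rank

/-- There is an involution anticommuting with `c`, with eigenspaces of nearly equal dimension. -/
def AC (B : Bil F V) (c : End F V) : Prop := ∃ s : Isom B, s * s = 1 ∧ (∀ x, s.1 (c x) = -c (s.1 x)) ∧
  2 * rk s ≤ finrank F V + 1 ∧ finrank F V ≤ 2 * rk s + 1

theorem AC.glue {B : Bil F V} (hB : IsEps B 1) (h2 : (2 : F) ≠ 0) {c : End F V} {W : Submodule F V}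
    (hW : Disjoint W (perp B W)) (a₁ : ∀ x ∈ W, c x ∈ W) (a₂ : ∀ x ∈ perp B W, c x ∈ perp B W)
    (h₁ : AC (res B W) (c.restrict a₁)) (h₂ : AC (res B (perp B W)) (c.restrict a₂)) : AC B c := by
  have hd := hB.finrank_perp W
  have key : ∀ (s : Isom (res B W)) (t : Isom (res B (perp B W))), s * s = 1 → t * t = 1 →
      (∀ x, s.1 (c.restrict a₁ x) = -c.restrict a₁ (s.1 x)) →
      (∀ x, t.1 (c.restrict a₂ x) = -c.restrict a₂ (t.1 x)) → 2 * (rk s + rk t) ≤ finrank F V + 1 →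
      finrank F V ≤ 2 * (rk s + rk t) + 1 → AC B c := fun s t hs ht hs' ht' b1 b2 => by
    refine ⟨glueHom hB hW (s, t), by rw [← map_mul, Prod.mk_mul_mk, hs, ht]; exact map_one _, fun v => ?_,
      by rwa [rk_glue_add], by rwa [rk_glue_add]⟩
    obtain ⟨x, y, rfl⟩ := exists_add_of_isCompl (hB.isCompl_perp hW) v
    have e1 := (glueHom_left hB hW (s, t) _).trans (congrArg Subtype.val (hs' x))
    have e2 := (glueHom_right hB hW (s, t) _).trans (congrArg Subtype.val (ht' y))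
    simp only [LinearMap.coe_restrict_apply, NegMemClass.coe_neg] at e1 e2
    simp only [map_add, glueHom_left, glueHom_right, e1, e2, neg_add]
  obtain ⟨s, s1, s2, s3, s4⟩ := h₁
  obtain ⟨t, t1, t2, t3, t4⟩ := h₂
  have h3 := rk_neg h2 t1
  by_cases h : (finrank F W ≤ 2 * rk s ↔ 2 * rk t ≤ finrank F (perp B W))
  · exact key s t s1 t1 s2 t2 (by omega) (by omega)
  · refine key s (negI _ * t) s1 (Subtype.ext (LinearEquiv.ext fun x => ?_)) s2 (fun x => ?_) (by omega) (by omega)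
    · simpa [negI_apply] using invol_apply t1 x
    · simp [negI_apply, t2]

theorem ac_of_piece {B : Bil F V} (hB : IsEps B 1) (h2 : (2 : F) ≠ 0) {c : End F V} {M P : Submodule F V}
    (hW : Disjoint (M ⊔ P) (perp B (M ⊔ P))) (hMP : ∀ x ∈ M, ∀ y ∈ P, B x y = 0) (hM : ∀ x ∈ M, c x ∈ P)
    (hP : ∀ x ∈ P, c x ∈ M) {v w : V} (h1 : M ≤ F ∙ v ⊔ P.map c) (h3 : P ≤ F ∙ w ⊔ M.map c)
    (a : ∀ x ∈ M ⊔ P, c x ∈ M ⊔ P) : AC (res B (M ⊔ P)) (c.restrict a) := by
  have dM : Disjoint M (perp B M) := Submodule.disjoint_def.2 fun x hx hx' =>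
    Submodule.disjoint_def.1 hW x (Submodule.mem_sup_left hx) (by rw [perp_sup]; exact ⟨hx', hMP x hx⟩)
  have pM : P ≤ perp B M := fun y hy x hx => hB.refl (hMP x hx y hy)
  have e : ∀ x ∈ M, ∀ y ∈ P, (rM hB dM).1 (x + y) = -x + y := fun x hx y hy => by
    rw [map_add, rM_left hB dM hx, rM_right hB dM (pM hy)]
  have inv : ∀ x ∈ M ⊔ P, (rM hB dM).1 x ∈ M ⊔ P := fun z hz => by
    obtain ⟨x, hx, y, hy, rfl⟩ := Submodule.mem_sup.1 hz
    rw [e x hx y hy]
    exact Submodule.add_mem_sup (neg_mem hx) hy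
  have hr : rk (Isom.restrict (rM hB dM) _ inv) = finrank F M := by
    rw [← rk_rM hB dM h2]
    refine (rk_ext (M ⊔ P).subtype Subtype.val_injective (fun _ => rfl) fun v => ?_).symm
    obtain ⟨x, y, rfl⟩ := exists_add_of_isCompl (hB.isCompl_perp dM) v
    exact ⟨⟨x, Submodule.mem_sup_left x.2⟩, y, rM_right hB dM y.2, rfl⟩
  have h4 := Submodule.finrank_sup_add_finrank_inf_eq M P
  rw [disjoint_iff.1 (dM.mono_right pM), finrank_bot] at h4
  have bd : ∀ {M P : Submodule F V} {v : V}, M ≤ F ∙ v ⊔ P.map c → finrank F M ≤ finrank F P + 1 :=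
    fun {M P v} h => by
      have := (Submodule.finrank_mono h).trans (Submodule.finrank_add_le_finrank_add_finrank _ _)
      have h4 := finrank_span_le_card (R := F) ({v} : Set V)
      have := Submodule.finrank_map_le c P
      simp only [Set.toFinset_singleton, Finset.card_singleton] at h4
      omega
  have h5 := bd h1
  have h6 := bd h3
  refine ⟨Isom.restrict (rM hB dM) _ inv, Subtype.ext (LinearEquiv.ext fun ⟨z, hz⟩ => Subtype.ext ?_),
    fun ⟨z, hz⟩ => Subtype.ext ?_, by omega, by omega⟩ <;> obtain ⟨x, hx, y, hy, rfl⟩ := Submodule.mem_sup.1 hz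
  · change (rM hB dM).1 ((rM hB dM).1 (x + y)) = x + y
    rw [e x hx y hy, e _ (neg_mem hx) y hy, neg_neg]
  · change (rM hB dM).1 (c (x + y)) = -c ((rM hB dM).1 (x + y))
    rw [e x hx y hy, map_add, add_comm, e _ (hP y hy) _ (hM x hx)]
    simp

theorem Skew.exists_piece {B : Bil F V} (hB : IsEps B 1) (h2 : (2 : F) ≠ 0) [Nontrivial V] {c : End F V}
    (hc : Skew B c) : ∃ (W : Submodule F V) (a : ∀ x ∈ W, c x ∈ W), W ≠ ⊥ ∧ Disjoint W (perp B W) ∧
      AC (res B W) (c.restrict a) := by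
  obtain ⟨π, h, k, v, hπ, h1, h3, h4, h5⟩ := exists_cyc_gen hB h2 hc.sq_adj
  have hk := cyc_key hc.sq_adj hπ h4 h5
  have hv0 : v ≠ 0 := by rintro rfl; simp at h5
  have sw : ∀ v w : V, ∀ x ∈ cyc (c * c) v ⊔ (cyc (c * c) w).map c, c x ∈ (cyc (c * c) v).map c ⊔ cyc (c * c) w :=
    fun v w x hx => by
      obtain ⟨a, ha, _, ⟨b, hb, rfl⟩, rfl⟩ := Submodule.mem_sup.1 hx
      rw [map_add]
      exact Submodule.add_mem_sup ⟨a, ha, rfl⟩ (apply_mem_cyc hb)
  have bd : ∀ v w : V, cyc (c * c) v ⊔ (cyc (c * c) w).map c ≤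
      F ∙ v ⊔ ((cyc (c * c) v).map c ⊔ cyc (c * c) w).map c := fun v w => by
    refine sup_le ?_ (le_sup_of_le_right (Submodule.map_mono le_sup_right))
    rintro _ ⟨f, rfl⟩
    exact Submodule.mem_sup.2 ⟨f.coeff 0 • v, Submodule.smul_mem _ _ (Submodule.mem_span_singleton_self v), _,
      ⟨_, Submodule.mem_sup_left ⟨_, ⟨f.divX, rfl⟩, rfl⟩, rfl⟩, (aeval_divX (c * c) f v).symm⟩
  have key : ∀ w, (∀ x ∈ cyc (c * c) v, B x w = 0) → ∀ W, W = (cyc (c * c) v ⊔ (cyc (c * c) w).map c) ⊔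
      ((cyc (c * c) v).map c ⊔ cyc (c * c) w) → Disjoint W (perp B W) →
      ∃ (W : Submodule F V) (a : ∀ x ∈ W, c x ∈ W), W ≠ ⊥ ∧ Disjoint W (perp B W) ∧
        AC (res B W) (c.restrict a) := by
    rintro w hw _ rfl hW
    have s2 := sw w v
    have b2 := bd w v
    rw [sup_comm (cyc _ w), sup_comm (Submodule.map c (cyc _ w))] at s2 b2
    refine ⟨_, fun x hx => ?_, (Submodule.ne_bot_iff _).2 ⟨v, Submodule.mem_sup_left (Submodule.mem_sup_left
      (self_mem_cyc _ v)), hv0⟩, hW, ac_of_piece hB h2 hW (fun x hx y hy => ?_) (sw v w) s2 (bd v w) b2 _⟩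
    · obtain ⟨a, ha, b, hb, rfl⟩ := Submodule.mem_sup.1 hx
      rw [map_add, add_comm]
      exact Submodule.add_mem_sup (s2 b hb) (sw v w a ha)
    · obtain ⟨a, ha, _, ⟨b, hb, rfl⟩, rfl⟩ := Submodule.mem_sup.1 hx
      obtain ⟨_, ⟨a', ha', rfl⟩, b', hb', rfl⟩ := Submodule.mem_sup.1 hy
      have e1 := hc.cyc_cross hw _ (apply_mem_cyc ha') b hb
      rw [End.mul_apply, hc, neg_eq_zero, hB.comm] at e1
      simp [hc.cyc_perp hB h2 a ha a' ha', hc.cyc_cross hw a ha b' hb', e1,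
        hB.refl (hc.cyc_perp hB h2 b' hb' b hb)]
  by_cases H : ∀ m ∈ cyc (c * c) v, c (c m) = 0 → c m = 0
  · refine key 0 (by simp) _ rfl (Submodule.disjoint_def.2 fun x hx hx' => ?_)
    have z : cyc (c * c) (0 : V) = ⊥ := eq_bot_iff.2 (cyc_le (zero_mem _) (by simp))
    simp only [z, Submodule.map_bot, sup_bot_eq] at hx hx'
    obtain ⟨a, ha, _, ⟨b, hb, rfl⟩, rfl⟩ := Submodule.mem_sup.1 hx
    have e1 : a = 0 := hk a ha fun r hr => by
      simpa [hB.refl (hc.cyc_perp hB h2 r hr b hb)] using hx' r (Submodule.mem_sup_left hr)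
    rw [e1, zero_add] at hx' ⊢
    refine H b hb (hk _ (apply_mem_cyc hb) fun r hr => ?_)
    rw [hc, hx' _ (Submodule.mem_sup_right ⟨r, hr, rfl⟩), neg_zero]
  push Not at H
  obtain ⟨m, m1, m2, m3⟩ := H
  have hX : π ∣ X := by
    by_contra hX
    obtain ⟨α, β, e⟩ := (hπ.coprime_iff_not_dvd.2 hX).pow_left (m := k + 1)
    obtain ⟨f, rfl⟩ := mem_cyc.1 m1
    have := congrArg (fun p => aeval (c * c) p (aeval (c * c) f v)) e
    simp only [map_add, map_mul, LinearMap.add_apply, End.mul_apply, aeval_X, m2, map_one, End.one_apply,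
      H4.aeval_comm_apply _ _ f, h4, map_zero, add_zero] at this
    exact m3 (by rw [← this, map_zero])
  obtain ⟨ε, hε⟩ := hX
  obtain ⟨ε, ε0, rfl⟩ := isUnit_iff.1 ((irreducible_X.isUnit_or_isUnit hε).resolve_left hπ.not_isUnit)
  have e0 : ∀ j x, ((c * c) ^ j) x = ε ^ j • aeval (c * c) (π ^ j) x := fun j x => by
    have := congrArg (fun p => aeval (c * c) (p ^ j) x) hε
    simpa [mul_pow, Algebra.algebraMap_eq_smul_one, _root_.smul_pow] using this
  have e1 : ∀ x, aeval (c * c) (π ^ (k + 1)) x = 0 → (c ^ (2 * k + 1 + 1)) x = 0 := fun x hx => by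
    rw [show 2 * k + 1 + 1 = 2 * (k + 1) by ring, pow_mul, sq, e0, hx, smul_zero]
  have e2 : ∀ x, (c ^ (2 * k + 1)) x = c (((c * c) ^ k) x) := fun x => by rw [pow_succ', pow_mul, sq]; rfl
  have e3 : B (((c * c) ^ k) v) v ≠ 0 := by
    rw [e0, map_smul, LinearMap.smul_apply]; exact mul_ne_zero (pow_ne_zero _ ε0.ne_zero) h5
  have e4 : ∀ x, ((c * c) ^ k) x ∈ cyc (c * c) x := fun x => ⟨X ^ k, by simp⟩
  have e5 : ∀ x, c (c x) = 0 → ∀ f : F[X], B x (aeval (c * c) f v) = f.coeff 0 * B x v := fun x hx f => by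
    rw [aeval_divX, map_add, ← hc.sq_adj, End.mul_apply, hx]; simp
  have e6 : c (c (((c * c) ^ k) v)) = 0 := by rw [← e2, ← End.mul_apply, ← pow_succ', e1 v h4]
  have e7 : (c ^ (2 * k + 1)) v ≠ 0 := fun h0 => m3 (by
    rw [sub_eq_zero.1 (hk (m - (B m v / B (((c * c) ^ k) v) v) • ((c * c) ^ k) v)
      (sub_mem m1 (Submodule.smul_mem _ _ (e4 v))) (by
        rintro _ ⟨f, rfl⟩
        change B _ (aeval (c * c) f v) = 0
        rw [map_sub, map_smul, LinearMap.sub_apply, LinearMap.smul_apply, e5 _ m2, e5 _ e6, smul_eq_mul]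
        field_simp
        ring)), map_smul, ← e2, h0, smul_zero])
  obtain ⟨w, w1, w2⟩ := exists_perp_ne hB (U := cyc (c * c) v) (z := (c ^ (2 * k + 1)) v) fun hz =>
    e7 (hk _ hz fun r hr => by rw [e2]; exact hB.refl (hc.cyc_perp hB h2 r hr _ (e4 v)))
  obtain ⟨α, β, e⟩ := (hπ.coprime_iff_not_dvd.2 h1).pow_left (m := k + 1)
  have w3 : aeval (c * c) (π ^ (k + 1)) (aeval (c * c) (β * h) w) = 0 := by
    rw [← End.mul_apply, ← map_mul, mul_left_comm, map_mul, h3, mul_zero, LinearMap.zero_apply]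
  have w4 : B ((c ^ (2 * k + 1)) v) (aeval (c * c) (β * h) w) ≠ 0 := by
    rw [← aeval_adj hc.sq_adj, eq_sub_of_add_eq' e, map_sub, map_one, map_mul, LinearMap.sub_apply, End.mul_apply,
      e2, aeval_sq_comm, e0, map_smul (aeval _ _), H4.aeval_comm_apply, h4]
    simpa [e2, e0] using w2
  have w5 : ∀ x ∈ cyc (c * c) v, B x (aeval (c * c) (β * h) w) = 0 := fun x hx => by
    rw [← aeval_adj hc.sq_adj, w1 _ (aeval_mem_cyc _ hx)]
  generalize aeval (c * c) (β * h) w = w at w3 w4 w5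
  let ι := (LinearMap.toSpanSingleton F V v).coprod (LinearMap.toSpanSingleton F V w)
  have hN : ∀ a, (c ^ (2 * k + 1 + 1)) (ι a) = 0 := fun a => by simp [ι, e1 v h4, e1 w w3]
  have f1 : ∀ x, B ((c ^ (2 * k + 1)) x) x = 0 := fun x => by
    rw [e2]; exact hB.refl (hc.cyc_perp hB h2 _ (self_mem_cyc _ x) _ (e4 x))
  have f2 : B ((c ^ (2 * k + 1)) w) v ≠ 0 := by
    rw [hc.pow, hB.comm]; simpa using w4
  have i1 := nil_mem_range_layMap hN
  have i2 : ∀ x ∈ LinearMap.range (layMap c ι (2 * k + 1 + 1)),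
      cyc (c * c) x ≤ LinearMap.range (layMap c ι (2 * k + 1 + 1)) ∧
      (cyc (c * c) x).map c ≤ LinearMap.range (layMap c ι (2 * k + 1 + 1)) := fun x hx => by
    have := cyc_le (s := c * c) hx fun y hy => i1 _ (i1 y hy)
    exact ⟨this, by rintro _ ⟨y, hy, rfl⟩; exact i1 y (this hy)⟩
  have i3 := i2 v (by simpa [ι] using mem_range_layMap hN (1, 0))
  have i4 := i2 w (by simpa [ι] using mem_range_layMap hN (0, 1))
  refine key w w5 _ (le_antisymm (range_layMap_le (fun a => Submodule.add_mem_sup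
    (Submodule.mem_sup_left (Submodule.smul_mem _ _ (self_mem_cyc _ v)))
    (Submodule.mem_sup_right (Submodule.smul_mem _ _ (self_mem_cyc _ w)))) fun x hx => ?_)
    (sup_le (sup_le i3.1 i4.2) (sup_le i3.2 i4.1))) (hc.disjoint_layMap hB hN fun a ha => Prod.ext ?_ ?_)
  · obtain ⟨a, ha, b, hb, rfl⟩ := Submodule.mem_sup.1 hx
    rw [map_add, add_comm]
    exact Submodule.add_mem_sup (sup_comm (cyc (c * c) v) _ ▸ sw w v b (sup_comm (cyc (c * c) w) _ ▸ hb)) (sw v w a ha)
  · simpa [ι, f1, w4] using ha (0, 1)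
  · simpa [ι, f1, f2] using ha (1, 0)

theorem ac_of_skew (h2 : (2 : F) ≠ 0) (n : ℕ) : ∀ (V : Type u) [AddCommGroup V] [Module F V] [FiniteDimensional F V]
    (B : Bil F V) (c : End F V), IsEps B 1 → Skew B c → finrank F V = n → AC B c := by
  induction n using Nat.strong_induction_on with | _ n ih =>
  intro V _ _ _ B c hB hc hd
  cases subsingleton_or_nontrivial V
  · have := Submodule.finrank_le (LinearMap.range (1 - ((1 : Isom B).1 : End F V)))
    have := finrank_zero_of_subsingleton (R := F) (M := V)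
    exact ⟨1, mul_one _, fun _ => Subsingleton.elim _ _, by unfold rk; omega, by omega⟩
  obtain ⟨W, a1, h1, d1, h3⟩ := hc.exists_piece hB h2
  have a2 : ∀ x ∈ perp B W, c x ∈ perp B W := fun x hx y hy => by rw [hc, hx _ (a1 y hy), neg_zero]
  have h4 := hB.finrank_perp W
  have h5 := mt Submodule.finrank_eq_zero.1 h1
  exact AC.glue hB h2 d1 a1 a2 h3 (ih _ (by omega) _ _ _ (hB.restrict_perp d1) (fun x y => hc x y) rfl)

theorem exists_invol_cay {B : Bil F V} (hB : IsEps B 1) (h2 : (2 : F) ≠ 0) (g : Isom B)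
    (hg : ∀ v, g.1 v = -v → v = 0) : ∃ s : Isom B, s * s = 1 ∧ s * g * (s * g) = 1 ∧ rk (s * g) = rk s ∧
      2 * rk s ≤ finrank F V + 1 ∧ finrank F V ≤ 2 * rk s + 1 := by
  have hi : Injective ((g.1 : End F V) + 1 : End F V) := (injective_iff_map_eq_zero _).2 fun v hv =>
    hg v (eq_neg_of_add_eq_zero_left hv)
  let e := LinearEquiv.ofInjectiveEndo _ hi
  have he : ∀ x, e x = g.1 x + x := fun _ => rfl
  obtain ⟨s, s1, s2, s3⟩ := ac_of_skew h2 _ V B (((g.1 : End F V) - 1) ∘ₗ (e.symm : End F V)) hB (fun x y => by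
    obtain ⟨x, rfl⟩ := e.surjective x
    obtain ⟨y, rfl⟩ := e.surjective y
    simp only [LinearMap.comp_apply, LinearEquiv.coe_coe, e.symm_apply_apply]
    simp [he, Isom.apply_apply]
    ring) rfl
  have k1 : ∀ x, e (s.1 (g.1 x)) = s.1 (e x) := fun x => by
    obtain ⟨y, hy⟩ := e.surjective (s.1 (e x))
    have := s2 (e x)
    simp only [LinearMap.comp_apply, LinearEquiv.coe_coe, e.symm_apply_apply, ← hy] at this
    rw [← hy]
    simp only [he, map_add, LinearMap.sub_apply, LinearEquiv.coe_coe, End.one_apply, map_sub] at this hy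
    congr 1
    refine smul_right_injective _ h2 ?_
    linear_combination (norm := module) this - hy
  have k2 : ∀ x, g.1 (s.1 (g.1 x)) = s.1 x := fun x => by
    have := k1 x
    rwa [he, he, map_add, add_comm, add_right_inj] at this
  refine ⟨s, s1, Subtype.ext (LinearEquiv.ext fun x => ?_), (rk_conj e fun x => ?_).symm, s3⟩
  · change s.1 (g.1 (s.1 (g.1 x))) = x
    rw [k2, invol_apply s1]
  · exact (k1 x).symm

theorem exists_invol_pair [Fintype F] [DecidableEq F] {B : Bil F V} (hB : IsEps B 1) (h2 : (2 : F) ≠ 0)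
    (h3 : 3 ≤ finrank F V) (g : Isom B) (hg : Even (rk g)) :
    ∃ s t : Isom B, s * s = 1 ∧ t * t = 1 ∧ s * t = g ∧ rk s = rk t := by
  obtain ⟨W, hW, a, b, rfl, ⟨k, hk⟩, hb⟩ := exists_fit hB g (c := -1) (by simp)
  obtain ⟨s, s1, s2, s3, s4, s5⟩ := exists_invol_cay (hB.restrict hW) h2 (negI _ * a) fun v hv => by
    have h1 : a.1 v = v := neg_injective hv
    have : ∀ j, (((a.1 : End F W) - (-1 : F) • 1) ^ j) v = (2 : F) ^ j • v := fun j => by
      induction j with
      | zero => simp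
      | succ j ih => rw [pow_succ', End.mul_apply, ih, pow_succ, mul_smul]; simp [h1, two_smul]
    have h4 := this k
    rw [hk] at h4
    exact (smul_eq_zero.1 h4.symm).resolve_left (pow_ne_zero _ h2)
  obtain ⟨t, t1, t2, t3, -⟩ := exists_invol_cay (hB.restrict_perp hW) h2 b (by simpa using hb)
  have e1 : s * a = negI _ * (s * (negI _ * a)) :=
    Subtype.ext (LinearEquiv.ext fun x => by simp [negI_apply])
  have e2 : s * a * (s * a) = 1 := by
    rw [← s2]; exact Subtype.ext (LinearEquiv.ext fun x => by simp [negI_apply])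
  have e3 := rk_neg h2 s2
  rw [← e1] at e3
  have e4 : glueHom hB hW (s, t) * glueHom hB hW (s * a, t * b) = glueHom hB hW (a, b) := by
    rw [← map_mul, Prod.mk_mul_mk, ← mul_assoc, ← mul_assoc, s1, t1, one_mul, one_mul]
  have e5 := (even_rk_mul hB h2 h3 _ _).1 (e4 ▸ hg)
  refine ⟨_, _, by rw [← map_mul, Prod.mk_mul_mk, s1, t1]; exact map_one _,
    by rw [← map_mul, Prod.mk_mul_mk, e2, t2]; exact map_one _, e4, ?_⟩
  simp only [rk_glue_add, Nat.even_iff] at e5 ⊢
  omega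

end Cfsg.Agent.H5
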