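import Cfsg.Agent.H5.OreO1

/-! Products of two conjugate involutions as commutators in odd-dimensional `Ω`. -/

set_option autoImplicit false

namespace Cfsg.Agent.H5

open Module Polynomial Function

universe u v w

variable {F : Type w} [Field F]
variable {V : Type u} [AddCommGroup V] [Module F V] {B : Bil F V}

/-- The `-1`-eigenspace of an involution. -/
abbrev mS (s : Isom B) : Submodule F V := LinearMap.range (1 - (s.1 : End F V))

theorem isom_ext {s t : Isom B} (h : ∀ x, s.1 x = t.1 x) : s = t := Subtype.ext (LinearEquiv.ext h)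

theorem isom_mul_apply (s t : Isom B) (x : V) : (s * t).1 x = s.1 (t.1 x) := rfl

theorem invol_adj {s : Isom B} (hs : s * s = 1) (x y : V) : B (s.1 x) y = B x (s.1 y) := by
  rw [← s.2 x (s.1 y), invol_apply hs]

theorem mem_mS (h2 : (2 : F) ≠ 0) {s : Isom B} (hs : s * s = 1) {x : V} : x ∈ mS s ↔ s.1 x = -x := by
  refine ⟨?_, fun h => ⟨(2 : F)⁻¹ • x, by simp [h, ← two_smul F x, smul_smul, h2]⟩⟩
  rintro ⟨x, rfl⟩
  simp [invol_apply hs]

theorem mem_perp_mS (hB : IsEps B 1) {s : Isom B} (hs : s * s = 1) {x : V} : x ∈ perp B (mS s) ↔ s.1 x = x := by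
  refine ⟨fun h => hB.ext_left fun v => ?_, ?_⟩
  · have := h _ ⟨v, rfl⟩
    simp only [LinearMap.sub_apply, End.one_apply, map_sub, LinearEquiv.coe_coe, ← invol_adj hs] at this
    exact (sub_eq_zero.1 this).symm
  · rintro h _ ⟨v, rfl⟩
    simp [← invol_adj hs, h]

theorem disjoint_mS (hB : IsEps B 1) (h2 : (2 : F) ≠ 0) {s : Isom B} (hs : s * s = 1) :
    Disjoint (mS s) (perp B (mS s)) := Submodule.disjoint_def.2 fun x h1 h3 => by
  rw [mem_mS h2 hs] at h1
  rw [mem_perp_mS hB hs] at h3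
  exact smul_right_injective _ h2 (by linear_combination (norm := module) h1 - h3)

theorem rf_perp (hB : IsEps B 1) (h2 : (2 : F) ≠ 0) {a x : V} (h : B x a = 0) : (hB.rf h2 a).1 x = x := by
  simp [hB.rf_apply, h]

theorem rf_self (hB : IsEps B 1) (h2 : (2 : F) ≠ 0) {a : V} (h : B a a ≠ 0) : (hB.rf h2 a).1 a = -a := by
  rw [hB.rf_apply, mul_div_cancel_right₀ _ h, two_smul]; abel

theorem rf_sq (hB : IsEps B 1) (h2 : (2 : F) ≠ 0) (a : V) : hB.rf h2 a * hB.rf h2 a = 1 := isom_ext fun x => by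
  by_cases h : B a a = 0
  · simp [isom_mul_apply, hB.rf_apply, h]
  · rw [isom_mul_apply, hB.rf_apply _ _ x, map_sub, map_smul, rf_self hB h2 h, hB.rf_apply]; simp

theorem rf_comm (hB : IsEps B 1) (h2 : (2 : F) ≠ 0) {y : Isom B} {a : V} {ε : F} (hε : ε * ε = 1)
    (h : y.1 a = ε • a) : y * hB.rf h2 a = hB.rf h2 a * y := isom_ext fun x => by
  have h1 : B (y.1 x) a = ε * B x a := by
    rw [← y.2 x a, h, map_smul, smul_eq_mul, ← mul_assoc, hε, one_mul]
  simp only [isom_mul_apply, hB.rf_apply, map_sub, map_smul, h, h1, smul_smul]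
  congr 2; ring

theorem negI_comm (y : Isom B) : negI B * y = y * negI B := isom_ext fun x => by simp [negI_apply, isom_mul_apply]

variable [FiniteDimensional F V]

theorem rk_rf (hB : IsEps B 1) (h2 : (2 : F) ≠ 0) {a : V} (h : B a a ≠ 0) : rk (hB.rf h2 a) = 1 := by
  rw [← finrank_span_singleton (K := F) (show a ≠ 0 by rintro rfl; simp at h)]
  refine congrArg (fun U : Submodule F V => finrank F U) (le_antisymm ?_ ((Submodule.span_singleton_le_iff_mem _ _).2
    ((mem_mS h2 (rf_sq hB h2 a)).2 (rf_self hB h2 h))))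
  rintro _ ⟨x, rfl⟩
  simpa [hB.rf_apply] using Submodule.smul_mem _ _ (Submodule.mem_span_singleton_self a)

theorem exists_isom_vec (hB : IsEps B 1) (h2 : (2 : F) ≠ 0) {x y : V} (h : B x x = B y y) (h0 : x = 0 ↔ y = 0) :
    ∃ c : Isom B, c.1 x = y := by
  by_cases hx : x = 0
  · exact ⟨1, by rw [hx, h0.1 hx]; rfl⟩
  obtain ⟨g, hg⟩ := H6.witt_vec (qf_nondeg hB h2) hx (mt h0.2 hx) h.symm
  exact ⟨⟨g.1, (isom_eq_og hB h2).ge g.2⟩, hg⟩

theorem comm_of_inv (hB : IsEps B 1) (h2 : (2 : F) ≠ 0) {s t y : Isom B} (hs : s * s = 1) (ht : t * t = 1)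
    (h1 : ∀ x ∈ mS s, y.1 x ∈ mS t) (h3 : ∀ x ∈ perp B (mS s), y.1 x ∈ perp B (mS t)) : y * s = t * y :=
  isom_ext fun v => by
    obtain ⟨x, z, rfl⟩ := exists_add_of_isCompl (hB.isCompl_perp (disjoint_mS hB h2 hs)) v
    simp only [isom_mul_apply, map_add, (mem_mS h2 hs).1 x.2, (mem_perp_mS hB hs).1 z.2, map_neg,
      (mem_mS h2 ht).1 (h1 _ x.2), (mem_perp_mS hB ht).1 (h3 _ z.2)]

theorem exists_fit_vec (hB : IsEps B 1) (h2 : (2 : F) ≠ 0) {s t : Isom B} (hs : s * s = 1) (hc : IsConj s t) {a : V}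
    (h1 : B (s.1 a) a = B (t.1 a) a) (h3 : s.1 a = a ↔ t.1 a = a) (h4 : s.1 a = -a ↔ t.1 a = -a) :
    ∃ y : Isom B, y * s = t * y ∧ y.1 a = a := by
  obtain ⟨y, hy⟩ := isConj_iff.1 hc
  replace hy := mul_inv_eq_iff_eq_mul.1 hy
  obtain ⟨b, rfl⟩ := y.1.surjective a
  have e1 : t.1 (y.1 b) = y.1 (s.1 b) := (congrArg (fun k : Isom B => k.1 b) hy).symm
  rw [e1, y.2] at h1
  rw [e1, y.1.injective.eq_iff] at h3
  rw [e1, ← map_neg y.1, y.1.injective.eq_iff, map_neg] at h4
  have h5 := y.2 b b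
  generalize hab : y.1 b = a at h1 h3 h4 h5 ⊢
  have d := disjoint_mS hB h2 hs
  have m1 : ∀ x, x - s.1 x ∈ mS s := fun x => ⟨x, rfl⟩
  have m2 : ∀ x, x + s.1 x ∈ perp B (mS s) := fun x => (mem_perp_mS hB hs).2 (by simp [invol_apply hs, add_comm])
  obtain ⟨c, hc⟩ := exists_isom_vec (hB.restrict d) h2 (x := ⟨_, m1 a⟩) (y := ⟨_, m1 b⟩)
    (by simp [res_apply, s.2 _ _, hB.comm _ (s.1 _), h1, h5])
    (by simp only [Subtype.ext_iff, ZeroMemClass.coe_zero, sub_eq_zero, eq_comm (b := s.1 _), h3])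
  obtain ⟨c', hc'⟩ := exists_isom_vec (hB.restrict_perp d) h2 (x := ⟨_, m2 a⟩) (y := ⟨_, m2 b⟩)
    (by simp [res_apply, s.2 _ _, hB.comm _ (s.1 _), h1, h5])
    (by simp only [Subtype.ext_iff, ZeroMemClass.coe_zero, add_comm _ (s.1 _), add_eq_zero_iff_eq_neg, h4])
  have e2 : glueHom hB d (c, c') * s = s * glueHom hB d (c, c') := comm_of_inv hB h2 hs hs
    (fun x hx => (glueHom_left hB d _ ⟨x, hx⟩).symm ▸ Subtype.property _)
    (fun x hx => (glueHom_right hB d _ ⟨x, hx⟩).symm ▸ Subtype.property _)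
  have e3 := (glueHom_left hB d (c, c') _).trans (congrArg Subtype.val hc)
  have e4 := (glueHom_right hB d (c, c') _).trans (congrArg Subtype.val hc')
  simp only [map_sub, map_add] at e3 e4
  refine ⟨y * glueHom hB d (c, c'), by rw [mul_assoc, e2, ← mul_assoc, hy, mul_assoc], ?_⟩
  rw [isom_mul_apply, ← hab]
  exact congrArg _ (smul_right_injective _ h2 (by rw [hab]; linear_combination (norm := module) e3 + e4))

theorem exists_rad_value [Fintype F] (h2 : (2 : F) ≠ 0) {C : Bil F V} (hs : ∀ x y, C x y = C y x) :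
    ∃ W : Submodule F V, IsEps (res C W) 1 ∧ finrank F W + finrank F (LinearMap.ker C) = finrank F V := by
  obtain ⟨W, hW⟩ := Submodule.exists_isCompl (LinearMap.ker C)
  refine ⟨W, ⟨fun _ => rfl, fun u v => by simpa [res_apply] using hs v u, fun u hu => Subtype.ext
    (Submodule.disjoint_def.1 hW.disjoint _ (LinearMap.ext fun v => ?_) u.2)⟩,
    Submodule.finrank_add_eq_of_isCompl hW.symm⟩
  obtain ⟨x, y, rfl⟩ := exists_add_of_isCompl hW v
  rw [map_add, hs, LinearMap.mem_ker.1 x.2]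
  simpa [res_apply] using hu y

theorem finrank_ker_perp_le (hB : IsEps B 1) (p : V) : finrank F (LinearMap.ker (res B (perp B (F ∙ p)))) ≤ 1 := by
  have h4 := finrank_span_le_card (R := F) ({p} : Set V)
  simp only [Set.toFinset_singleton, Finset.card_singleton] at h4
  rw [← Submodule.finrank_map_subtype_eq]
  refine (Submodule.finrank_mono ?_).trans h4
  rintro _ ⟨x, hx, rfl⟩
  exact (hB.perp_perp (F ∙ p)).le fun w hw => LinearMap.congr_fun hx ⟨w, hw⟩

theorem finrank_perp_ge (hB : IsEps B 1) (p : V) : finrank F V ≤ finrank F (perp B (F ∙ p)) + 1 := by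
  have h4 := finrank_span_le_card (R := F) ({p} : Set V)
  have := hB.finrank_perp (F ∙ p)
  simp only [Set.toFinset_singleton, Finset.card_singleton] at h4
  omega

variable [Fintype F]

theorem exists_perp_value (hB : IsEps B 1) (h2 : (2 : F) ≠ 0) (hd : 4 ≤ finrank F V) (p : V) (c : F) :
    ∃ b, B b p = 0 ∧ B b b = c := by
  obtain ⟨W, h1, h3⟩ := exists_rad_value h2 (C := res B (perp B (F ∙ p))) fun x y => hB.comm _ _
  have := finrank_ker_perp_le hB p
  have := finrank_perp_ge hB p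
  obtain ⟨b, hb⟩ := exists_value h1 h2 (by omega) c
  exact ⟨b, b.1.2 p (Submodule.mem_span_singleton_self p), hb⟩

theorem exists_eigen_perp (hB : IsEps B 1) (h2 : (2 : F) ≠ 0) (hd : 7 ≤ finrank F V) {s : Isom B} (hs : s * s = 1)
    (a : V) (c : F) : ∃ (b : V) (ε : F), ε * ε = 1 ∧ s.1 b = ε • b ∧ B b a = 0 ∧ B b b = c := by
  have d := disjoint_mS hB h2 hs
  have h1 := hB.finrank_perp (mS s)
  obtain ⟨x, y, rfl⟩ := exists_add_of_isCompl (hB.isCompl_perp d) a
  by_cases h : 4 ≤ finrank F (mS s)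
  · obtain ⟨b, h3, h4⟩ := exists_perp_value (hB.restrict d) h2 h x c
    exact ⟨b, -1, by simp, by simpa using (mem_mS h2 hs).1 b.2, by
      rw [map_add, hB.refl (y.2 _ b.2), add_zero]; exact h3, h4⟩
  · obtain ⟨b, h3, h4⟩ := exists_perp_value (hB.restrict_perp d) h2 (by omega) y c
    exact ⟨b, 1, by simp, by simpa using (mem_perp_mS hB hs).1 b.2, by
      rw [map_add, b.2 _ x.2, zero_add]; exact h3, h4⟩

variable [DecidableEq F]

theorem th_invol (hB : IsEps B 1) (h2 : (2 : F) ≠ 0) {s : Isom B} (hs : s * s = 1) :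
    th s = H6.discr (res B (mS s)) := by
  have d := disjoint_mS hB h2 hs
  rw [← th_negI (hB.restrict d) h2]
  refine th_ext (mS s).subtype Subtype.val_injective (fun x => (mem_mS h2 hs).1 x.2) (fun v => ?_) fun _ _ => rfl
  obtain ⟨x, y, rfl⟩ := exists_add_of_isCompl (hB.isCompl_perp d) v
  exact ⟨x, y, (mem_perp_mS hB hs).1 y.2, rfl⟩

theorem isConj_invol (hB : IsEps B 1) (h2 : (2 : F) ≠ 0) {s t : Isom B} (hs : s * s = 1) (ht : t * t = 1)
    (h1 : rk s = rk t) (h3 : th s = th t) : IsConj s t := by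
  have d := disjoint_mS hB h2 hs
  have d' := disjoint_mS hB h2 ht
  rw [th_invol hB h2 hs, th_invol hB h2 ht] at h3
  obtain ⟨e, he⟩ := exists_isometry_symm (hB.restrict d) (hB.restrict d') h2 h1 h3
  obtain ⟨e', he'⟩ := exists_isometry_symm (hB.restrict_perp d) (hB.restrict_perp d') h2 (by
    have := hB.finrank_perp (mS s)
    have := hB.finrank_perp (mS t)
    replace h1 : finrank F (mS s) = finrank F (mS t) := h1
    omega) (by
    have := (discr_split hB d).symm.trans (discr_split hB d')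
    rw [h3] at this
    exact mul_left_cancel₀ (by rcases discr_cases (hB.restrict d') h2 with h | h <;> simp [h]) this)
  let y : Isom B := ⟨_, glue_pres hB hB (hB.isCompl_perp d) (hB.isCompl_perp d') le_rfl le_rfl e e' he he'⟩
  exact isConj_iff.2 ⟨y, mul_inv_eq_iff_eq_mul.2 (comm_of_inv hB h2 hs ht
    (fun x hx => (glue_left (hB.isCompl_perp d) (hB.isCompl_perp d') e e' ⟨x, hx⟩).symm ▸ Subtype.property _)
    (fun x hx => (glue_right (hB.isCompl_perp d) (hB.isCompl_perp d') e e' ⟨x, hx⟩).symm ▸ Subtype.property _))⟩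

/-- A commutator of two elements of `Ω`. -/
def CmO (g : Isom B) : Prop := ∃ x ∈ commutator (Isom B), ∃ y ∈ commutator (Isom B), g = x * y * x⁻¹ * y⁻¹

section

variable (hB : IsEps B 1) (h2 : (2 : F) ≠ 0) (hd : 7 ≤ finrank F V) (ho : Odd (finrank F V))
include hB h2 hd

theorem exists_kappa : ∃ κ : F, κ ≠ 0 ∧ ∀ a, quadraticChar F (B a a) = quadraticChar F κ →
    th (hB.rf h2 a) = -th (negI B) := by
  obtain ⟨ν, h0, h1, -⟩ := exists_nonsq' (F := F) h2
  obtain ⟨b, hb⟩ := exists_value hB h2 (by omega) 1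
  have key : ∀ a, B a a ≠ 0 → th (hB.rf h2 a) * th (hB.rf h2 b) = quadraticChar F (B a a) := fun a ha => by
    rw [← th_mul hB h2 (by omega), (rf_mul_rf hB h2 (by omega) ha (by simp [hb])).2, hb, map_one, mul_one]
  have k2 : ∀ κ : F, κ ≠ 0 → ∀ a, quadraticChar F (B a a) = quadraticChar F κ →
      th (hB.rf h2 a) * th (hB.rf h2 b) = quadraticChar F κ := fun κ hκ a ha => by
    rw [key a, ha]
    intro h
    rw [h, quadraticChar_zero, eq_comm, quadraticChar_eq_zero_iff] at ha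
    exact hκ ha
  rcases th_cases hB h2 (by omega) (hB.rf h2 b) with h | h <;> rcases th_cases hB h2 (by omega) (negI B) with h' | h'
  · exact ⟨ν, h0, fun a ha => by simpa [h, h', h1] using k2 ν h0 a ha⟩
  · exact ⟨1, one_ne_zero, fun a ha => by simpa [h, h'] using k2 1 one_ne_zero a ha⟩
  · exact ⟨1, one_ne_zero, fun a ha => by simpa [h, h', neg_eq_iff_eq_neg] using k2 1 one_ne_zero a ha⟩
  · exact ⟨ν, h0, fun a ha => by simpa [h, h', h1] using k2 ν h0 a ha⟩

include ho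

theorem exists_mem_comm {r : Isom B} (h1 : rk r = 1) (h3 : th r = -th (negI B)) (y : Isom B) :
    ∃ z : Isom B, (z = 1 ∨ z = negI B) ∧ (z * y ∈ commutator (Isom B) ∨ z * y * r ∈ commutator (Isom B)) := by
  have h4 : 3 ≤ finrank F V := by omega
  have h5 : ¬ Even (rk (negI B)) := by rwa [rk_negI h2, Nat.not_even_iff_odd]
  simp only [or_and_right, exists_or, exists_eq_left, one_mul]
  simp only [mem_comm_iff hB h2 h4, even_rk_mul hB h2 h4, th_mul hB h2 h4,
    h1, h3, h5]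
  by_cases h6 : Even (rk y) <;> rcases th_cases hB h2 h4 y with h | h <;>
    rcases th_cases hB h2 h4 (negI B) with h' | h' <;> simp [h6, h, h']

theorem cmO_of_fit {κ : F} (h0 : κ ≠ 0) (hκ : ∀ a, quadraticChar F (B a a) = quadraticChar F κ →
    th (hB.rf h2 a) = -th (negI B)) {s t y : Isom B} (hs : s * s = 1) {a : V} (h1 : y * s = t * y) (h3 : y.1 a = a)
    (h4 : quadraticChar F (B a a) = quadraticChar F κ) : CmO (s * t) := by
  have ha : B a a ≠ 0 := fun h => by
    rw [h, quadraticChar_zero, eq_comm, quadraticChar_eq_zero_iff] at h4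
    exact h0 h4
  obtain ⟨b, ε, b1, b2, b3, b4⟩ := exists_eigen_perp hB h2 hd hs a κ
  have c1 := rf_comm hB h2 b1 b2
  have c2 := rf_comm hB h2 (y := y) (ε := 1) (mul_one _) (by simpa using h3)
  have c3 := rf_comm hB h2 (y := hB.rf h2 b) (a := a) (ε := 1) (mul_one _) (by simpa using rf_perp hB h2 (hB.refl b3))
  obtain ⟨y, hy, h1, c2⟩ : ∃ y ∈ commutator (Isom B), y * s = t * y ∧ y * hB.rf h2 a = hB.rf h2 a * y := by
    have cz : ∀ z, z = 1 ∨ z = negI B → ∀ {y s t : Isom B}, y * s = t * y → z * y * s = t * (z * y) := by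
      rintro _ (rfl | rfl) y s t h
      · simpa using h
      · rw [mul_assoc, h, ← mul_assoc, negI_comm, mul_assoc]
    obtain ⟨z, hz, h | h⟩ := exists_mem_comm hB h2 hd ho (rk_rf hB h2 (b4 ▸ h0)) (hκ b (by rw [b4])) y
    · exact ⟨_, h, cz z hz h1, cz z hz c2⟩
    · exact ⟨_, h, by rw [mul_assoc, ← c1, ← mul_assoc, cz z hz h1, mul_assoc],
        by rw [mul_assoc, c3, ← mul_assoc, cz z hz c2, mul_assoc]⟩
  have ht : t = y * s * y⁻¹ := by rw [h1, mul_inv_cancel_right]
  have key : ∀ z, z = 1 ∨ z = negI B → ∀ r, y * r = r * y → s * t = z * s * r * y * (z * s * r)⁻¹ * y⁻¹ := by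
    intro z hz r hr
    have : z * s * r * y * (z * s * r)⁻¹ = z * (s * y * s) * z⁻¹ := by
      rw [mul_assoc _ r, ← hr, show z * s * (y * r) * (z * s * r)⁻¹ = z * (s * y * s⁻¹) * z⁻¹ by group,
        inv_eq_of_mul_eq_one_right hs]
    rw [this, ht]
    rcases hz with rfl | rfl
    · group
    · rw [negI_comm]; group
  obtain ⟨z, hz, h | h⟩ := exists_mem_comm hB h2 hd ho (rk_rf hB h2 ha) (hκ a h4) s
  · exact ⟨_, h, y, hy, by simpa using key z hz 1 (by simp)⟩
  · exact ⟨_, h, y, hy, key z hz _ c2⟩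

end

end Cfsg.Agent.H5
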