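import Cfsg.Agent.H5.OreO2

/-! Vectors with prescribed values of two quadratic forms. -/

set_option autoImplicit false

namespace Cfsg.Agent.H5

open Module Polynomial Function

universe u v w

variable {F : Type w} [Field F] [Fintype F]
variable {V : Type u} [AddCommGroup V] [Module F V] [FiniteDimensional F V]

theorem exists_common_zero (C C' : Bil F V) (hd : 5 ≤ finrank F V) : ∃ e, e ≠ 0 ∧ C e e = 0 ∧ C' e e = 0 := by
  classical
  obtain ⟨p, hp, _, -⟩ := char_data F
  let b := finBasis F V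
  let f : Bil F V → MvPolynomial (Fin (finrank F V)) F := fun C =>
    ∑ i, ∑ j, MvPolynomial.C (C (b i) (b j)) * (.X i * .X j)
  have h1 : ∀ C, (f C).totalDegree ≤ 2 := fun C =>
    MvPolynomial.totalDegree_finsetSum_le fun i _ => MvPolynomial.totalDegree_finsetSum_le fun j _ =>
      (MvPolynomial.totalDegree_mul _ _).trans (by
        simpa using (MvPolynomial.totalDegree_mul (.X i) (.X j : MvPolynomial _ F)).trans (by simp))
  have h3 : ∀ C x, MvPolynomial.eval x (f C) = C (b.equivFun.symm x) (b.equivFun.symm x) := fun C x => by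
    simp only [f, map_sum, map_mul, MvPolynomial.eval_C, MvPolynomial.eval_X, Basis.equivFun_symm_apply, map_smul,
      LinearMap.sum_apply, LinearMap.smul_apply, smul_eq_mul, Finset.mul_sum]
    rw [Finset.sum_comm]
    exact Finset.sum_congr rfl fun i _ => Finset.sum_congr rfl fun j _ => by ring
  have h4 := char_dvd_card_solutions_of_add_lt p (f₁ := f C) (f₂ := f C') (by
    have := h1 C; have := h1 C'; rw [Fintype.card_fin]; omega)
  by_contra! H
  rw [Fintype.card_eq_one_iff.2 ⟨⟨0, by rw [h3, h3]; simp⟩, fun x => Subtype.ext (by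
    by_contra hx
    exact H _ (b.equivFun.symm.map_ne_zero_iff.2 hx) (h3 _ _ ▸ x.2.1) (h3 _ _ ▸ x.2.2))⟩] at h4
  exact hp.out.one_lt.ne' (Nat.dvd_one.1 h4)

theorem exists_value_ne (h2 : (2 : F) ≠ 0) {C : Bil F V} (hs : ∀ x y, C x y = C y x)
    (hd : finrank F (LinearMap.ker C) + 3 ≤ finrank F V) {l : V →ₗ[F] F} {x : V} (hx : l x ≠ 0) (c : F) :
    ∃ u, C u u = c ∧ l u ≠ 0 := by
  obtain ⟨W, h1, h3⟩ := exists_rad_value h2 hs
  by_contra! H
  by_cases hc : c = 0
  · obtain ⟨a, ha⟩ := exists_value h1 h2 (by omega) 1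
    obtain ⟨b, b1, b2⟩ := exists_orth_value h1 h2 (by omega) (a := a) (by simp [ha]) (-1)
    rw [res_apply] at ha b1 b2
    have f1 : C (a + b) (a + b) = c := by simp [ha, b1, b2, hs a b, hc]
    have f2 : C (a + b) a = 1 := by simp [ha, b1]
    generalize (a : V) + b = f at f1 f2
    have key : ∀ x, C f x ≠ 0 → l x = 0 := fun x hx => by
      simpa [H f f1] using H (x - (C x x / (2 * C f x)) • f) (by
        simp only [map_sub, map_smul, LinearMap.sub_apply, LinearMap.smul_apply, smul_eq_mul, f1, hc, hs x f]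
        field_simp
        ring)
    by_cases h : C f x = 0
    · exact hx (by simpa [key a (by simp [f2])] using key (x + a) (by simp [f2, h]))
    · exact hx (key x h)
  obtain ⟨⟨u, -⟩, hu : C u u = c⟩ := exists_value h1 h2 (by omega) c
  have k1 : ∀ x, C u x = 0 → l x ≠ 0 → C x x = -c := fun x h3 h4 => by
    by_contra h5
    have h6 : c + C x x ≠ 0 := fun h => h5 (by linear_combination h)
    have := H (u - (2 * c / (c + C x x)) • (u + x)) (by
      simp only [map_sub, map_smul, map_add, LinearMap.sub_apply, LinearMap.smul_apply, LinearMap.add_apply,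
        smul_eq_mul, hu, h3, hs x u]
      field_simp
      ring)
    simp [H u hu, h2, hc, h6, h4] at this
  obtain ⟨x, x1, x2⟩ : ∃ x, C u x = 0 ∧ l x ≠ 0 := ⟨x - (C u x / c) • u, by simp [hu, hc], by simp [H u hu, hx]⟩
  have k2 : ∀ k, C u k = 0 → l k = 0 → C k k = 0 ∧ C k x = 0 := fun k h3 h4 => by
    have e1 := k1 (x + k) (by simp [x1, h3]) (by simp [x2, h4])
    have e2 := k1 (x - k) (by simp [x1, h3]) (by simp [x2, h4])
    simp only [map_sub, map_add, LinearMap.sub_apply, LinearMap.add_apply, k1 x x1 x2, hs x k] at e1 e2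
    exact ⟨mul_left_cancel₀ h2 (by linear_combination e1 + e2),
      mul_left_cancel₀ (mul_ne_zero h2 h2) (by linear_combination e1 - e2)⟩
  have k3 : LinearMap.ker ((C u).prod l) ≤ LinearMap.ker C := fun k hk => LinearMap.ext fun v => by
    obtain ⟨h3, h4⟩ : C u k = 0 ∧ l k = 0 := Prod.mk_eq_zero.1 hk
    have e1 : C u (v - (C u v / c) • u - (l v / l x) • x) = 0 := by simp [hu, hc, x1]
    have e2 : l (v - (C u v / c) • u - (l v / l x) • x) = 0 := by simp [H u hu, x2]
    have e3 : C k v = C k (v - (C u v / c) • u - (l v / l x) • x) := by simp [hs k u, h3, (k2 k h3 h4).2]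
    rw [e3]
    generalize v - (C u v / c) • u - (l v / l x) • x = v at e1 e2
    have e4 := (k2 (k + v) (by rw [map_add, h3, e1, add_zero]) (by rw [map_add, h4, e2, add_zero])).1
    simp only [map_add, LinearMap.add_apply, (k2 k h3 h4).1, (k2 _ e1 e2).1, hs v k] at e4
    exact mul_left_cancel₀ h2 (by simp only [LinearMap.zero_apply]; linear_combination e4)
  have h5 := Submodule.finrank_mono k3
  have h6 := ((C u).prod l).finrank_range_add_finrank_ker
  have h7 := Submodule.finrank_le (LinearMap.range ((C u).prod l))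
  rw [finrank_prod, finrank_self] at h7
  omega

variable {B : Bil F V}

omit [Fintype F] in
theorem ker_comp_eq (hB : IsEps B 1) (S : End F V) : LinearMap.ker (B.comp S) = LinearMap.ker S :=
  Submodule.ext fun x => ⟨fun h => hB.nondeg _ fun v => LinearMap.congr_fun h v, fun h => by
    rw [LinearMap.mem_ker, LinearMap.comp_apply, LinearMap.mem_ker.1 h, map_zero]⟩

theorem exists_two_values (hB : IsEps B 1) (h2 : (2 : F) ≠ 0) (hd : 6 ≤ finrank F V) {S T : End F V}
    (hS : ∀ x y, B (S x) y = B x (S y)) (hT : ∀ x y, B (T x) y = B x (T y)) (h1 : ∀ x, S (T x) = -T (S x))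
    (h3 : ∀ x, S (S x) + T (T x) = (4 : F) • x) (h4 : ∀ x, S x = 0 → B x x = 0)
    (h5 : ∀ μ : F, μ * μ = 4 → 2 * finrank F (LinearMap.ker (S - μ • 1)) ≤ finrank F V) (c : F) :
    ∃ w, B (S w) w = 0 ∧ B w w = c := by
  have sy : ∀ x y, B (S x) y = B (S y) x := fun x y => by rw [hS, hB.comm]
  have key : ∀ e u, B e e = 0 → B (S e) e = 0 → B (S e) u = 0 → B (S u) u = 0 → B e u ≠ 0 →
      ∃ w, B (S w) w = 0 ∧ B w w = c := fun e u e1 e2 e3 e4 e5 =>
    ⟨u + ((c - B u u) / (2 * B e u)) • e, by simp [e2, e3, e4, sy u e], by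
      simp only [map_add, map_smul, LinearMap.add_apply, LinearMap.smul_apply, smul_eq_mul, e1, hB.comm u e]
      field_simp
      ring⟩
  by_cases hi : ∃ e, e ≠ 0 ∧ S e = 0
  · obtain ⟨e, e1, e2⟩ := hi
    obtain ⟨x, hx⟩ := not_forall.1 (mt (hB.nondeg e) e1)
    have d1 := hB.finrank_perp (LinearMap.ker S)
    have d2 := Submodule.finrank_mono (show LinearMap.ker S ≤ perp B (LinearMap.ker S) from fun x hx y hy => by
      by_contra h
      obtain ⟨v, hv, hv'⟩ := exists_self_ne h2 hB.comm h hx hy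
      exact hv' (h4 v hv))
    obtain ⟨u, u1, u2⟩ := exists_value_ne h2 (C := B.comp S) sy (by rw [ker_comp_eq hB]; omega) hx 0
    exact key e u (h4 e e2) (by simp [e2]) (by simp [e2]) u1 u2
  push Not at hi
  have k2 : ∀ e, B e e = 0 → B (S e) e = 0 → e ∉ F ∙ S e → ∃ w, B (S w) w = 0 ∧ B w w = c := fun e e1 e2 e3 => by
    obtain ⟨x, x1, x2⟩ := exists_perp_ne hB e3
    have d1 := finrank_perp_ge hB (S e)
    have d2 : finrank F (LinearMap.ker (res (B.comp S) (perp B (F ∙ S e)))) ≤ 1 := by
      have h4 := finrank_span_le_card (R := F) ({e} : Set V)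
      simp only [Set.toFinset_singleton, Finset.card_singleton] at h4
      rw [← Submodule.finrank_map_subtype_eq]
      refine (Submodule.finrank_mono ?_).trans h4
      rintro _ ⟨x, hx, rfl⟩
      obtain ⟨t, ht⟩ := Submodule.mem_span_singleton.1 ((hB.perp_perp (F ∙ S e)).le
        (show S x ∈ _ from fun w hw => LinearMap.congr_fun hx ⟨w, hw⟩))
      refine Submodule.mem_span_singleton.2 ⟨t, sub_eq_zero.1 ?_⟩
      by_contra h
      exact hi _ h (by simp [ht])
    obtain ⟨u, u1, u2⟩ := exists_value_ne h2 (C := res (B.comp S) (perp B (F ∙ S e))) (fun x y => sy x y) (by omega)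
      (l := (B e).comp (perp B (F ∙ S e)).subtype) (x := ⟨x, fun w hw => hB.refl (x1 w hw)⟩) x2 0
    exact key e u e1 e2 (hB.refl (u.2 _ (Submodule.mem_span_singleton_self _))) u1 u2
  obtain ⟨e, e0, e1, e2⟩ := exists_common_zero B (B.comp S) (by omega)
  by_cases e3 : e ∈ F ∙ S e
  swap
  · exact k2 e e1 e2 e3
  obtain ⟨μ, h0, hμ⟩ : ∃ μ : F, μ ≠ 0 ∧ S e = μ • e := by
    obtain ⟨t, ht⟩ := Submodule.mem_span_singleton.1 e3
    have : t ≠ 0 := by rintro rfl; exact e0 (by simpa using ht.symm)
    exact ⟨t⁻¹, inv_ne_zero this, by rw [eq_inv_smul_iff₀ this, ht]⟩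
  have t1 : T (T e) = (4 - μ * μ) • e := by
    have := h3 e
    rw [hμ, map_smul, hμ] at this
    linear_combination (norm := module) this
  by_cases e4 : T e = 0
  · have m1 : μ * μ = 4 := by
      rw [e4, map_zero, eq_comm, smul_eq_zero] at t1
      exact (sub_eq_zero.1 (t1.resolve_right e0)).symm
    obtain ⟨x, hx⟩ := not_forall.1 (mt (hB.nondeg e) e0)
    have d1 := h5 μ m1
    obtain ⟨u, u1, u2⟩ := exists_value_ne h2 (C := B.comp (S - μ • 1)) (fun x y => by simp [sy x y, hB.comm x y])
      (by rw [ker_comp_eq hB]; omega) hx (-μ * c)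
    simp only [LinearMap.comp_apply, LinearMap.sub_apply, map_sub, LinearMap.smul_apply, map_smul, End.one_apply,
      smul_eq_mul] at u1
    refine ⟨u - (B (S u) u / (2 * μ * B e u)) • e, ?_, ?_⟩ <;>
      simp only [map_sub, map_smul, LinearMap.sub_apply, LinearMap.smul_apply, smul_eq_mul, e1, hB.comm u e, hμ,
        sy u e] <;> field_simp
    · ring
    · linear_combination -4 * μ * (B e u) ^ 2 * u1
  · have t2 : S (T e) = -μ • T e := by rw [h1, hμ, map_smul, neg_smul]
    have t3 : B (T e) (T e) = 0 := by rw [hT, t1]; simp [e1]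
    have t4 : B e (T e) = 0 := by
      have := hS e (T e)
      rw [hμ, t2] at this
      simp only [map_smul, LinearMap.smul_apply, smul_eq_mul] at this
      exact mul_left_cancel₀ (mul_ne_zero h2 h0) (by linear_combination this)
    refine k2 (e + T e) (by simp [e1, t3, t4, hB.refl t4]) (by simp [e1, t3, t4, hB.refl t4, hμ, t2]) fun h => ?_
    obtain ⟨t, ht⟩ := Submodule.mem_span_singleton.1 h
    have h6 := congrArg S ht
    simp only [map_add, map_smul, hμ, t2] at ht h6
    have h7 : (2 * (t * μ - 1) * μ) • e = 0 := by linear_combination (norm := module) h6 + μ • ht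
    have h8 : (2 * (t * μ + 1) * μ) • T e = 0 := by linear_combination (norm := module) h6 - μ • ht
    simp only [smul_eq_zero, e0, e4, or_false, mul_eq_zero, h2, h0, false_or] at h7 h8
    exact h2 (by linear_combination h8 - h7)

end Cfsg.Agent.H5
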