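import Cfsg.Agent.H5.OreO3

/-! Ore's conjecture for odd-dimensional orthogonal groups. -/

set_option autoImplicit false

namespace Cfsg.Agent.H5

open Module Polynomial Function

universe u v w

variable {F : Type w} [Field F]
variable {V : Type u} [AddCommGroup V] [Module F V] [FiniteDimensional F V] {B : Bil F V}

theorem exists_vec_nil (hB : IsEps B 1) (h2 : (2 : F) ≠ 0) {S : End F V} (hS : ∀ x y, B (S x) y = B x (S y)) {x : V}
    (h1 : S (S (S x)) = 0) (h3 : S (S x) ≠ 0) (c : F) : ∃ a, B (S a) a = 0 ∧ B a a = c ∧ B (S a) (S a) ≠ 0 := by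
  classical
  have hc := isCompl_kerP S 0 (N := finrank F V + 3) (by omega)
  simp only [kerP, ranP, zero_smul, sub_zero] at hc
  have hx : (S ^ (finrank F V + 3)) x = 0 := by simp [pow_succ, h1]
  generalize finrank F V + 3 = N at hc hx
  have H : ∃ d, ∀ x, (S ^ N) x = 0 → (S ^ d) x = 0 := ⟨N, fun _ h => h⟩
  obtain ⟨e, he⟩ : ∃ e, Nat.find H = e + 3 := Nat.exists_eq_add_of_le' (by
    by_contra h
    obtain ⟨i, hi⟩ := Nat.exists_eq_add_of_le' (show Nat.find H ≤ 2 by omega)
    exact h3 (by rw [← End.mul_apply, ← sq, hi, pow_add, End.mul_apply, Nat.find_spec H x hx, map_zero]))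
  have h4 := Nat.find_spec H
  have h5 := Nat.find_min H (show e + 2 < _ by omega)
  rw [he] at h4
  push Not at h5
  obtain ⟨y, y1, y2⟩ := h5
  obtain ⟨z, hz⟩ := not_forall.1 (mt (hB.nondeg _) y2)
  obtain ⟨z, ⟨_, z', rfl⟩, rfl⟩ := exists_add_of_isCompl hc z
  rw [map_add, ← pow_adj hS N, ← End.mul_apply (S ^ N), ← pow_add, add_comm N, pow_add _ _ N, End.mul_apply, y1,
    map_zero, map_zero, LinearMap.zero_apply, add_zero] at hz
  obtain ⟨u, u1, u2⟩ := exists_self_ne (B := B.comp (S ^ (e + 2))) h2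
    (fun x y => by simp only [LinearMap.comp_apply]; rw [pow_adj hS, hB.comm]) hz (U := LinearMap.ker (S ^ N)) y1 z.2
  have b : ∀ m j, B ((S ^ j) ((S ^ m) u)) ((S ^ m) u) = B ((S ^ (m + j + m)) u) u := fun m j => by
    rw [← pow_adj hS m]; simp [pow_add]
  have b0 : ∀ j, e + 3 ≤ j → B ((S ^ j) u) u = 0 := fun j hj => by
    obtain ⟨i, rfl⟩ := Nat.exists_eq_add_of_le' hj
    rw [pow_add, End.mul_apply, h4 u u1]; simp
  obtain ⟨m, rfl | rfl⟩ := e.even_or_odd'
  · have c2 : B ((S ^ 2) ((S ^ m) u)) ((S ^ m) u) ≠ 0 := by rwa [b, show m + 2 + m = 2 * m + 2 by ring]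
    have c3 := fun j (hj : 3 ≤ j) => (b m j).trans (b0 _ (by omega))
    generalize (S ^ m) u = v at c2 c3
    have c4 := c3 4 (by omega)
    have c5 := c3 5 (by omega)
    have c6 := c3 6 (by omega)
    replace c3 := c3 3 le_rfl
    simp only [pow_succ, pow_zero, one_mul, End.mul_apply] at c2 c3 c4 c5 c6
    obtain ⟨y, hy⟩ : ∃ y, B (S v) v + 2 * y * B (S (S v)) v = 0 := ⟨-B (S v) v / (2 * B (S (S v)) v), by
      field_simp; ring⟩
    obtain ⟨z, hz⟩ : ∃ z, B v v + 2 * y * B (S v) v + (y ^ 2 + 2 * z) * B (S (S v)) v = c :=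
      ⟨((c - B v v - 2 * y * B (S v) v) / B (S (S v)) v - y ^ 2) / 2, by field_simp; ring⟩
    refine ⟨v + y • S v + z • S (S v), ?_, ?_, ?_⟩ <;>
      simp only [map_add, map_smul, LinearMap.add_apply, LinearMap.smul_apply, smul_eq_mul, ← hS, c3, c4, c5, c6]
    · linear_combination hy
    · linear_combination hz
    · simpa using c2
  · have c2 : B ((S ^ 3) ((S ^ m) u)) ((S ^ m) u) ≠ 0 := by rwa [b, show m + 3 + m = 2 * m + 1 + 2 by ring]
    have c3 := fun j (hj : 4 ≤ j) => (b m j).trans (b0 _ (by omega))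
    generalize (S ^ m) u = v at c2 c3
    have c5 := c3 5 (by omega)
    have c6 := c3 6 (by omega)
    have c7 := c3 7 (by omega)
    have c8 := c3 8 (by omega)
    replace c3 := c3 4 le_rfl
    simp only [pow_succ, pow_zero, one_mul, End.mul_apply] at c2 c3 c5 c6 c7 c8
    obtain ⟨y, hy⟩ : ∃ y, B (S (S v)) v + 2 * y * B (S (S (S v))) v = 1 :=
      ⟨(1 - B (S (S v)) v) / (2 * B (S (S (S v))) v), by field_simp; ring⟩
    obtain ⟨z, hz⟩ : ∃ z, B (S v) v + 2 * y * B (S (S v)) v + (y ^ 2 + 2 * z) * B (S (S (S v))) v = 0 :=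
      ⟨((-B (S v) v - 2 * y * B (S (S v)) v) / B (S (S (S v))) v - y ^ 2) / 2, by field_simp; ring⟩
    obtain ⟨w, hw⟩ : ∃ w, B v v + 2 * y * B (S v) v + (y ^ 2 + 2 * z) * B (S (S v)) v +
        (2 * w + 2 * y * z) * B (S (S (S v))) v = c :=
      ⟨((c - B v v - 2 * y * B (S v) v - (y ^ 2 + 2 * z) * B (S (S v)) v) / B (S (S (S v))) v - 2 * y * z) / 2, by
        field_simp; ring⟩
    refine ⟨v + y • S v + z • S (S v) + w • S (S (S v)), ?_, ?_, ?_⟩ <;>
      simp only [map_add, map_smul, LinearMap.add_apply, LinearMap.smul_apply, smul_eq_mul, ← hS, c3, c5, c6, c7, c8]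
    · linear_combination hz
    · linear_combination hw
    · exact fun h => one_ne_zero (by linear_combination h - hy)

theorem even_finrank_ker (hB : IsEps B 1) (h2 : (2 : F) ≠ 0) {S T : End F V}
    (hS : ∀ x y, B (S x) y = B x (S y)) (hT : ∀ x y, B (T x) y = B x (T y)) (h1 : ∀ x, S (T x) = -T (S x))
    (h3 : ∀ x, S (S x) + T (T x) = (4 : F) • x) (h4 : ∀ x, S x = 0 → B x x = 0)
    (h5 : ∀ x, S (S (S x)) = 0 → S (S x) = 0) : Even (finrank F (LinearMap.ker S)) := by
  have p1 : perp B (LinearMap.ker S) = LinearMap.range S := by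
    rw [← hB.perp_perp (LinearMap.range S)]
    congr 1
    refine Submodule.ext fun x => ⟨?_, fun h => hB.nondeg _ fun v => by rw [hS, h _ ⟨v, rfl⟩]⟩
    rintro h _ ⟨v, rfl⟩
    rw [← hS, LinearMap.mem_ker.1 h, map_zero, LinearMap.zero_apply]
  have p2 : ∀ x, S x = 0 → ∃ y, S y = x := fun x hx => p1.le (show x ∈ _ from fun y hy => by
    by_contra h
    obtain ⟨v, hv, hv'⟩ := exists_self_ne h2 hB.comm h (U := LinearMap.ker S) hx hy
    exact hv' (h4 v hv))
  have p3 : LinearMap.ker S ≤ LinearMap.ker (S * S) := fun x hx => by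
    rw [LinearMap.mem_ker, End.mul_apply, LinearMap.mem_ker.1 hx, map_zero]
  have e1 := even_rank_of_alt (B := res ((B.comp T).compl₂ S) (LinearMap.ker (S * S))) fun x => by
    have := hS (T x) x
    rw [h1, map_neg, LinearMap.neg_apply, hT, hB.comm] at this
    exact mul_left_cancel₀ h2 (by simp only [res_apply, LinearMap.compl₂_apply, LinearMap.comp_apply]
                                  linear_combination -this)
  have e2 := (S.domRestrict (LinearMap.ker (S * S))).finrank_range_add_finrank_ker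
  rw [LinearMap.ker_domRestrict, show LinearMap.range (S.domRestrict (LinearMap.ker (S * S))) = LinearMap.ker S from
    Submodule.ext fun x => ⟨by rintro ⟨y, rfl⟩; exact y.2, fun hx => by
      obtain ⟨y, rfl⟩ := p2 x hx
      exact ⟨⟨y, hx⟩, rfl⟩⟩] at e2
  rw [show LinearMap.ker (res ((B.comp T).compl₂ S) (LinearMap.ker (S * S))) =
      (LinearMap.ker S).comap (LinearMap.ker (S * S)).subtype from Submodule.ext fun x => ⟨fun hx => ?_, fun hx => ?_⟩,
    ← e2] at e1
  · simpa using e1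
  · have hx2 : S (S x) = 0 := x.2
    obtain ⟨y, hy⟩ : T x ∈ LinearMap.range S := p1.le fun k hk => by
      obtain ⟨y, rfl⟩ := p2 k hk
      exact LinearMap.congr_fun hx ⟨y, hk⟩
    have e3 := h5 y (by rw [hy, h1, map_neg, h1, hx2]; simp)
    rw [hy, h1, neg_eq_zero] at e3
    have e4 := h3 (S x)
    rw [hx2, e3, map_zero, map_zero, add_zero, eq_comm, smul_eq_zero] at e4
    exact e4.resolve_left (by rw [show (4 : F) = 2 * 2 by norm_num]; exact mul_ne_zero h2 h2)
  · refine LinearMap.ext fun y => ?_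
    change B (T x) (S y) = 0
    rw [← hS, h1, show S x = 0 from hx]; simp

theorem two_mul_finrank_eigen (hB : IsEps B 1) (h2 : (2 : F) ≠ 0) {s t : Isom B} (hs : s * s = 1) (ht : t * t = 1)
    (h : rk s = rk t) (μ : F) (hμ : μ * μ = 4) :
    2 * finrank F (LinearMap.ker ((s.1 : End F V) - (t.1 : End F V) - μ • 1)) ≤ finrank F V := by
  have key : ∀ {s t : Isom B}, s * s = 1 → t * t = 1 → rk s = rk t → ∀ U : Submodule F V,
      (∀ x ∈ U, s.1 x - t.1 x = (2 : F) • x) → 2 * finrank F U ≤ finrank F V := fun {s t} hs ht h U hU => by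
    have h8 : (8 : F) ≠ 0 := by rw [show (8 : F) = 2 ^ 3 by norm_num]; exact pow_ne_zero _ h2
    have d1 := Submodule.finrank_add_finrank_le_of_disjoint (s := U) (t := mS s)
      (Submodule.disjoint_def.2 fun x h1 h3 => by
        rw [mem_mS h2 hs] at h3
        have e1 := hU x h1
        have e2 := congrArg t.1 e1
        simp only [h3, map_sub, map_neg, map_smul, invol_apply ht] at e1 e2
        exact smul_right_injective _ h8 (by linear_combination (norm := module) e2 - (3 : F) • e1))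
    have d2 := Submodule.finrank_add_finrank_le_of_disjoint (s := U) (t := perp B (mS t))
      (Submodule.disjoint_def.2 fun x h1 h3 => by
        rw [mem_perp_mS hB ht] at h3
        have e1 := hU x h1
        have e2 := congrArg s.1 e1
        simp only [h3, map_sub, map_smul, invol_apply hs] at e1 e2
        exact smul_right_injective _ h8 (by linear_combination (norm := module) -e2 - (3 : F) • e1))
    have d3 := hB.finrank_perp (mS t)
    replace h : finrank F (mS s) = finrank F (mS t) := h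
    omega
  rcases mul_self_eq_mul_self_iff.1 (show μ * μ = 2 * 2 by rw [hμ]; norm_num) with rfl | rfl
  · exact key hs ht h _ fun x hx => sub_eq_zero.1 hx
  · exact key ht hs h.symm _ fun x hx => by
      have : s.1 x - t.1 x - (-2 : F) • x = 0 := hx
      linear_combination (norm := module) -this

variable [Fintype F] [DecidableEq F]

omit [DecidableEq F] in
theorem exists_binary (h2 : (2 : F) ≠ 0) {a b : F} (ha : a ≠ 0) (hb : b ≠ 0) (c : F) :
    ∃ x y : F, a * x ^ 2 + b * y ^ 2 = c := by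
  obtain ⟨x, y, h⟩ := FiniteField.exists_root_sum_quadratic (f := C a * X ^ 2) (g := C b * X ^ 2 - C c)
    (by compute_degree!) (by compute_degree!) (FiniteField.odd_card_of_char_ne_two (ringChar_ne_two h2))
  exact ⟨x, y, by simp at h; linear_combination h⟩

theorem cmO_of_conj (hB : IsEps B 1) (h2 : (2 : F) ≠ 0) (hd : 7 ≤ finrank F V) (ho : Odd (finrank F V))
    {s t : Isom B} (hs : s * s = 1) (ht : t * t = 1) (hc : IsConj s t) (he : Even (rk (s * t))) : CmO (s * t) := by
  obtain ⟨κ, h0, hκ⟩ := exists_kappa hB h2 hd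
  have main : ∀ {s t : Isom B}, s * s = 1 → IsConj s t → ∀ a, B a a = κ → B (s.1 a) a = B (t.1 a) a →
      (s.1 a = a ↔ t.1 a = a) → (s.1 a = -a ↔ t.1 a = -a) → CmO (s * t) := fun hs hc a h1 h3 h4 h5 => by
    obtain ⟨y, y1, y2⟩ := exists_fit_vec hB h2 hs hc h3 h4 h5
    exact cmO_of_fit hB h2 hd ho h0 hκ hs y1 y2 (by rw [h1])
  have ST : ∀ {V : Type u} [AddCommGroup V] [Module F V] [FiniteDimensional F V] {B : Bil F V} {s t : Isom B},
      s * s = 1 → t * t = 1 → ∀ S T : End F V, S = s.1 - t.1 → T = s.1 + t.1 → (∀ x y, B (S x) y = B x (S y)) ∧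
      (∀ x y, B (T x) y = B x (T y)) ∧ (∀ x, S (T x) = -T (S x)) ∧ ∀ x, S (S x) + T (T x) = (4 : F) • x := by
    rintro V _ _ _ B s t hs ht _ _ rfl rfl
    refine ⟨fun x y => ?_, fun x y => ?_, fun x => ?_, fun x => ?_⟩ <;>
      simp only [LinearMap.sub_apply, LinearMap.add_apply, map_sub, map_add, LinearEquiv.coe_coe, invol_adj hs,
        invol_adj ht, invol_apply hs, invol_apply ht] <;> module
  obtain ⟨s1, s2, s3, s4⟩ := ST hs ht _ _ rfl rfl
  by_cases H : ∀ x, ((s.1 : End F V) - (t.1 : End F V)) x = 0 → B x x = 0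
  · have h5 := mt (even_finrank_ker hB h2 s1 s2 s3 s4 H) (by
      have := (1 - ((s * t).1 : End F V)).finrank_range_add_finrank_ker
      rw [show LinearMap.ker (1 - ((s * t).1 : End F V)) = LinearMap.ker ((s.1 : End F V) - (t.1 : End F V)) from
        Submodule.ext fun x => by
          simp only [LinearMap.mem_ker, LinearMap.sub_apply, sub_eq_zero, End.one_apply, LinearEquiv.coe_coe,
            isom_mul_apply]
          exact ⟨fun h => by rw [h, invol_apply hs, ← h], fun h => by rw [← h, invol_apply hs]⟩] at this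
      rw [Nat.even_iff, rk] at he
      rw [Nat.odd_iff] at ho
      rw [Nat.even_iff]
      omega)
    push Not at h5
    obtain ⟨x, x1, x2⟩ := h5
    obtain ⟨a, a1, a2, a3⟩ := exists_vec_nil hB h2 s1 x1 x2 κ
    simp only [LinearMap.sub_apply, map_sub, LinearEquiv.coe_coe, s.2 _ _, t.2 _ _, sub_eq_zero,
      hB.comm (t.1 a) (s.1 a)] at a1 a3
    refine main hs hc a a2 a1 (iff_of_false (fun h => a3 ?_) fun h => a3 ?_)
      (iff_of_false (fun h => a3 ?_) fun h => a3 ?_) <;>
      simp only [h, map_neg, LinearMap.neg_apply, hB.comm a (t.1 a)] at a1 ⊢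
    · linear_combination 2 * a1
    · linear_combination -2 * a1
    · linear_combination -2 * a1
    · linear_combination 2 * a1
  obtain ⟨a, ε, e1, a1, a2, a3⟩ : ∃ (a : V) (ε : F), ε * ε = 1 ∧ s.1 a = ε • a ∧ t.1 a = ε • a ∧ B a a ≠ 0 := by
    by_contra! H'
    refine H fun x hx => ?_
    replace hx : s.1 x = t.1 x := sub_eq_zero.1 hx
    have e1 := H' (x + s.1 x) 1 (mul_one _) (by simp [invol_apply hs, add_comm]) (by
      simp [hx, invol_apply ht, add_comm])
    have e2 := H' (x - s.1 x) (-1) (by simp) (by simp [invol_apply hs]) (by simp [hx, invol_apply ht])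
    simp only [map_sub, map_add, LinearMap.sub_apply, LinearMap.add_apply, s.2 _ _] at e1 e2
    exact mul_left_cancel₀ (mul_ne_zero h2 h2) (by linear_combination e1 + e2)
  obtain ⟨y, y1, y2⟩ := exists_fit_vec hB h2 hs hc (a := a) (by rw [a1, a2]) (by rw [a1, a2]) (by rw [a1, a2])
  by_cases hχ : quadraticChar F (B a a) = quadraticChar F κ
  · exact cmO_of_fit hB h2 hd ho h0 hκ hs y1 y2 hχ
  by_cases H : ∃ k, B k a = 0 ∧ s.1 k = t.1 k ∧ B k k ≠ 0
  · obtain ⟨k, k1, k2, k3⟩ := H
    obtain ⟨x, z, h⟩ := exists_binary h2 a3 k3 κ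
    have h5 : s.1 (x • a + z • k) = t.1 (x • a + z • k) := by simp [a1, a2, k2]
    exact main hs hc (x • a + z • k) (by simp [k1, hB.refl k1]; linear_combination h) (by rw [h5]) (by rw [h5])
      (by rw [h5])
  push Not at H
  obtain ⟨d1, d2⟩ := hB.finrank_perp_span a3
  have pp : ∀ {y : Isom B} {ε : F}, y.1 a = ε • a → ∀ x ∈ perp B (F ∙ a), y.1 x ∈ perp B (F ∙ a) := fun h =>
    Isom.map_perp' _ fun x hx => by
      obtain ⟨c, rfl⟩ := Submodule.mem_span_singleton.1 hx
      rw [map_smul, h]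
      exact Submodule.smul_mem _ _ (Submodule.smul_mem _ _ (Submodule.mem_span_singleton_self a))
  have hs' : Isom.restrict s _ (pp a1) * Isom.restrict s _ (pp a1) = 1 :=
    isom_ext fun x => Subtype.ext (invol_apply hs x)
  have ht' : Isom.restrict t _ (pp a2) * Isom.restrict t _ (pp a2) = 1 :=
    isom_ext fun x => Subtype.ext (invol_apply ht x)
  obtain ⟨s1, s2, s3, s4⟩ := ST hs' ht' _ _ rfl rfl
  obtain ⟨⟨w, w0⟩, w1, w2⟩ := exists_two_values (hB.restrict_perp d1) h2 (by omega) s1 s2 s3 s4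
    (fun x hx => H x (x.2 a (Submodule.mem_span_singleton_self a)) (sub_eq_zero.1 (congrArg Subtype.val hx)))
    (two_mul_finrank_eigen (hB.restrict_perp d1) h2 hs' ht' (rk_conj (Isom.restrict y _
      (pp (y2.trans (one_smul F a).symm))).1 fun x =>
        Subtype.ext (congrArg (fun k : Isom B => k.1 x) y1).symm).symm) (B a a)
  replace w1 : B (s.1 w - t.1 w) w = 0 := w1
  replace w2 : B w w = B a a := w2
  rw [map_sub, LinearMap.sub_apply, sub_eq_zero] at w1
  obtain ⟨x, z, h⟩ := exists_binary h2 a3 a3 κ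
  have hx : x ≠ 0 ∧ z ≠ 0 := by
    constructor <;> rintro rfl <;> refine hχ ?_ <;> rw [← h] at h0 ⊢ <;>
      simp only [ne_eq, OfNat.ofNat_ne_zero, not_false_eq_true, zero_pow, mul_zero, zero_add, add_zero, mul_eq_zero,
        not_or, pow_eq_zero_iff] at h0 ⊢ <;> rw [map_mul, quadraticChar_sq_one' h0.2, mul_one]
  have pa : ∀ x ∈ perp B (F ∙ a), B x a = 0 := fun x hx => hx a (Submodule.mem_span_singleton_self a)
  have fin : ∀ {s t : Isom B} {ε : F}, s * s = 1 → IsConj s t → s.1 a = ε • a → t.1 a = ε • a →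
      B (s.1 w) w = B (t.1 w) w → s.1 w ≠ ε • w → t.1 w ≠ ε • w → CmO (s * t) := fun {s t ε} hs hc a1 a2 w1 w3 w4 => by
    have ne : ∀ {s : Isom B}, s.1 a = ε • a → s.1 w ≠ ε • w → ∀ η : F, s.1 (x • a + z • w) ≠ η • (x • a + z • w) :=
      fun {s} a1 w3 η h => by
        have h1 := congrArg (B · a) h
        simp only [map_add, map_smul, LinearMap.add_apply, LinearMap.smul_apply, smul_eq_mul, a1, pa _ w0,
          pa _ (pp a1 _ w0)] at h1 h
        obtain rfl : ε = η := mul_left_cancel₀ (mul_ne_zero hx.1 a3) (by linear_combination h1)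
        exact w3 (smul_right_injective _ hx.2 (by linear_combination (norm := module) h))
    refine main hs hc (x • a + z • w) (by simp [pa _ w0, hB.refl (pa _ w0), w2]; linear_combination h) ?_
      (iff_of_false (by simpa using ne a1 w3 1) (by simpa using ne a2 w4 1))
      (iff_of_false (by simpa only [neg_one_smul] using ne a1 w3 (-1)) (by simpa only [neg_one_smul] using ne a2 w4 (-1)))
    simp [a1, a2, w1, pa _ (pp a1 _ w0), pa _ (pp a2 _ w0)]
  by_cases h5 : s.1 w ≠ ε • w ∧ t.1 w ≠ ε • w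
  · exact fin hs hc a1 a2 w1 h5.1 h5.2
  have c1 := rf_comm hB h2 e1 a1
  have c2 := rf_comm hB h2 e1 a2
  have c3 := rf_comm hB h2 (mul_one _) (y2.trans (one_smul F a).symm)
  have r1 : (s * hB.rf h2 a).1 w = s.1 w := by rw [isom_mul_apply, rf_perp hB h2 (pa _ w0)]
  have r2 : (hB.rf h2 a * t).1 w = t.1 w := by rw [isom_mul_apply, rf_perp hB h2 (pa _ (pp a2 _ w0))]
  have e0 : ε ≠ 0 := by rintro rfl; simp at e1
  have h6 : B (s.1 w) w = ε * B a a := by
    rcases not_and_or.1 h5 with h | h <;> rw [not_not] at h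
    · simp [h, w2]
    · simp [w1, h, w2]
  have h7 : ∀ v, B v w = ε * B a a → v ≠ -ε • w := by
    rintro _ h rfl
    simp only [map_smul, LinearMap.smul_apply, smul_eq_mul, w2] at h
    exact mul_ne_zero h2 (mul_ne_zero e0 a3) (by linear_combination -h)
  rw [show s * t = s * hB.rf h2 a * (hB.rf h2 a * t) by rw [mul_assoc, ← mul_assoc _ _ t, rf_sq, one_mul]]
  refine fin (ε := -ε) (by rw [mul_assoc, ← mul_assoc _ s, ← c1, mul_assoc s, rf_sq, mul_one, hs])
    (isConj_iff.2 ⟨y, mul_inv_eq_iff_eq_mul.2 (by rw [← mul_assoc, y1, mul_assoc, c3, ← mul_assoc, c2])⟩)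
    (by simp [isom_mul_apply, rf_self hB h2 a3, a1]) (by simp [isom_mul_apply, rf_self hB h2 a3, a2])
    (by rw [r1, r2, w1]) (by rw [r1]; exact h7 _ h6) (by rw [r2]; exact h7 _ (w1 ▸ h6))

theorem cmO_of_mem (hB : IsEps B 1) (h2 : (2 : F) ≠ 0) (hd : 7 ≤ finrank F V) (ho : Odd (finrank F V))
    {g : Isom B} (hg : g ∈ commutator (Isom B)) : CmO g := by
  have h3 : 3 ≤ finrank F V := by omega
  obtain ⟨h4, h5⟩ := (mem_comm_iff hB h2 h3 g).1 hg
  obtain ⟨s, t, hs, ht, rfl, h⟩ := exists_invol_pair hB h2 h3 g h4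
  refine cmO_of_conj hB h2 hd ho hs ht (isConj_invol hB h2 hs ht h ?_) h4
  rw [th_mul hB h2 h3] at h5
  rcases th_cases hB h2 h3 s with h | h <;> rcases th_cases hB h2 h3 t with h' | h' <;> simp_all

end Cfsg.Agent.H5
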