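import Cfsg.Agent.H5.OreO4

/-! Lemmas on pairs of quadratic forms in odd characteristic. -/

set_option autoImplicit false

namespace Cfsg.Agent.H5

open Module Polynomial Function

universe u v w

variable {F : Type w} [Field F]
variable {V : Type u} [AddCommGroup V] [Module F V] {B : Bil F V}

theorem exists_both_ne (h2 : (2 : F) ≠ 0) {C D : Bil F V} (hD : ∀ x y, D x y = D y x) {x : V} (hx : C x x ≠ 0)
    (h : ∀ x, ∃ y, D y x = 0 ∧ D y y ≠ 0) : ∃ x, C x x ≠ 0 ∧ D x x ≠ 0 := by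
  by_contra! H
  obtain ⟨y, h1, h3⟩ := h x
  have e1 : C y y = 0 := by_contra fun h => h3 (H y h)
  have e2 : C (x + y) (x + y) = 0 := by_contra fun h => h3 (by simpa [H x hx, h1, hD x y] using H _ h)
  have e3 : C (x - y) (x - y) = 0 := by_contra fun h => h3 (by simpa [H x hx, h1, hD x y] using H _ h)
  simp only [map_add, map_sub, LinearMap.add_apply, LinearMap.sub_apply, e1] at e2 e3
  exact hx (mul_left_cancel₀ h2 (by linear_combination e2 + e3))

theorem finrank_span_one_le (p : V) : finrank F (F ∙ p) ≤ 1 := by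
  simpa using finrank_span_le_card (R := F) ({p} : Set V)

variable [FiniteDimensional F V]

theorem perp_le_of_iso (hB : IsEps B 1) (h2 : (2 : F) ≠ 0) {W : Submodule F V} (h : ∀ z ∈ perp B W, B z z = 0) :
    perp B W ≤ W := fun u hu => (hB.perp_perp W).le (show u ∈ _ from fun v hv => by
  by_contra h'
  obtain ⟨z, z1, z2⟩ := exists_self_ne h2 hB.comm h' hu hv
  exact z2 (h z z1))

theorem exists_perp_two (hB : IsEps B 1) (h2 : (2 : F) ≠ 0) (hd : 4 ≤ finrank F V) {x x' : V} (hx : x ≠ 0)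
    (hx' : x' ≠ 0) : ∃ b, B b b ≠ 0 ∧ B b x ≠ 0 ∧ B b x' ≠ 0 := by
  by_contra! H
  obtain ⟨b, b1, b2⟩ : ∃ b, B b x ≠ 0 ∧ B b x' ≠ 0 := by
    obtain ⟨y, hy⟩ := not_forall.1 (mt (hB.nondeg' x) hx)
    obtain ⟨y', hy'⟩ := not_forall.1 (mt (hB.nondeg' x') hx')
    by_contra! H'
    exact hy' (by simpa [H' y hy] using H' (y + y') (by simpa [show B y' x = 0 from by_contra fun h => hy' (H' _ h)]))
  have iso : ∀ b, B b x ≠ 0 → B b x' ≠ 0 → B b b = 0 := fun b h1 h3 => by_contra fun h => h3 (H b h h1)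
  have key : ∀ u ∈ perp B (F ∙ x ⊔ F ∙ x'), B u u = 0 ∧ B b u = 0 := fun u hu => by
    have u1 := hu x (Submodule.mem_sup_left (Submodule.mem_span_singleton_self x))
    have u2 := hu x' (Submodule.mem_sup_right (Submodule.mem_span_singleton_self x'))
    have e1 := iso (b + u) (by simpa [u1]) (by simpa [u2])
    have e2 := iso (b - u) (by simpa [u1]) (by simpa [u2])
    simp only [map_add, map_sub, LinearMap.add_apply, LinearMap.sub_apply, iso b b1 b2, hB.comm u b] at e1 e2
    exact ⟨mul_left_cancel₀ h2 (by linear_combination e1 + e2),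
      mul_left_cancel₀ (mul_ne_zero h2 h2) (by linear_combination e1 - e2)⟩
  have h1 := hB.finrank_perp (F ∙ x ⊔ F ∙ x')
  have h3 := Submodule.finrank_add_le_finrank_add_finrank (F ∙ x) (F ∙ x')
  have h4 := finrank_span_one_le (F := F) x
  have h5 := finrank_span_one_le (F := F) x'
  have h6 : perp B (F ∙ x ⊔ F ∙ x') = F ∙ x ⊔ F ∙ x' := Submodule.eq_of_le_of_finrank_le
    (perp_le_of_iso hB h2 fun z hz => (key z hz).1) (by omega)
  exact b1 (key x (h6.ge (Submodule.mem_sup_left (Submodule.mem_span_singleton_self x)))).2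

theorem exists_isom_sub_inj (hB : IsEps B 1) (h2 : (2 : F) ≠ 0) (hd : 4 ≤ finrank F V) (C : End F V) :
    ∃ h : Isom B, ∀ x, h.1 x = C x → x = 0 := by
  suffices ∀ n, ∀ h : Isom B, finrank F (LinearMap.ker ((h.1 : End F V) - C)) = n →
    ∃ h : Isom B, ∀ x, h.1 x = C x → x = 0 from this _ 1 rfl
  intro n
  induction n using Nat.strong_induction_on with | _ n ih =>
  intro h hn
  by_cases H : ∀ x, h.1 x = C x → x = 0
  · exact ⟨h, H⟩
  push Not at H
  obtain ⟨x, x1, x2⟩ := H
  have x3 : x ∈ LinearMap.ker ((h.1 : End F V) - C) := sub_eq_zero.2 x1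
  obtain ⟨w, w1, w2⟩ := Submodule.exists_mem_ne_zero_of_ne_bot
    (p := perp B (LinearMap.range ((h.1 : End F V) - C))) fun h0 => by
      have h1 := hB.finrank_perp (LinearMap.range ((h.1 : End F V) - C))
      have h3 := ((h.1 : End F V) - C).finrank_range_add_finrank_ker
      rw [h0, finrank_bot] at h1
      exact x2 ((Submodule.eq_bot_iff _).1 (Submodule.finrank_eq_zero.1 (by omega)) x x3)
  obtain ⟨b, b1, b2, b3⟩ := exists_perp_two hB h2 hd x2 (h.1.symm.map_ne_zero_iff.2 w2)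
  have key : ∀ v ∈ LinearMap.ker (((h * hB.rf h2 b).1 : End F V) - C), B v b = 0 ∧ h.1 v = C v := fun v hv => by
    have h1 : h.1 (v - (2 * B v b / B b b) • b) = C v := by rw [← hB.rf_apply h2]; exact sub_eq_zero.1 hv
    have h3 := hB.refl (w1 _ ⟨v, rfl⟩)
    simp only [LinearMap.sub_apply, LinearEquiv.coe_coe, ← h1, map_sub, map_smul, sub_sub_cancel,
      LinearMap.smul_apply, smul_eq_mul, Isom.apply_left, mul_eq_zero, b3, or_false, div_eq_zero_iff, b1, h2,
      false_or] at h3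
    exact ⟨h3, by simpa [h3] using h1⟩
  exact ih _ (hn ▸ Submodule.finrank_lt_finrank_of_lt (lt_of_le_of_ne (fun v hv => sub_eq_zero.2 (key v hv).2)
    fun e => b2 (hB.refl (key x (e.ge x3)).1))) _ rfl

theorem exists_perp_nonisotropic (hB : IsEps B 1) (h2 : (2 : F) ≠ 0) (hd : 3 ≤ finrank F V) (p : V) :
    ∃ b, B b p = 0 ∧ B b b ≠ 0 := by
  by_contra! H
  have h1 := finrank_perp_ge hB p
  have h3 := finrank_span_one_le (F := F) p
  have h4 := Submodule.finrank_mono (perp_le_of_iso hB h2 (W := F ∙ p) fun z hz =>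
    H z (hz p (Submodule.mem_span_singleton_self p)))
  omega

variable [Fintype F]

theorem exists_sub_value (hB : IsEps B 1) (h2 : (2 : F) ≠ 0) {M H : Submodule F V} (dM : Disjoint M (perp B M))
    (hH : H ≤ M) (h1 : finrank F M ≤ finrank F H + 1) (h3 : 4 ≤ finrank F M) (c : F) : ∃ b ∈ H, B b b = c := by
  obtain ⟨W, w1, w2⟩ := exists_rad_value h2 (C := res B H) fun x y => hB.comm _ _
  have h4 : (LinearMap.ker (res B H)).map H.subtype ≤ M ⊓ perp B H := by
    rintro _ ⟨x, hx, rfl⟩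
    exact ⟨hH x.2, fun w hw => LinearMap.congr_fun hx ⟨w, hw⟩⟩
  have h5 := Submodule.finrank_mono h4
  have h6 := Submodule.finrank_sup_add_finrank_inf_eq (M ⊓ perp B H) (perp B M)
  have h7 := Submodule.finrank_mono (show (M ⊓ perp B H) ⊔ perp B M ≤ perp B H from sup_le inf_le_right (perp_anti B hH))
  have h8 := hB.finrank_perp H
  have h9 := hB.finrank_perp M
  rw [disjoint_iff.1 (dM.mono_left inf_le_left), finrank_bot] at h6
  rw [Submodule.finrank_map_subtype_eq] at h5
  obtain ⟨b, hb⟩ := exists_value w1 h2 (by omega) c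
  exact ⟨b, b.1.2, hb⟩

theorem exists_plane (hB : IsEps B 1) (h2 : (2 : F) ≠ 0) (hd : 4 ≤ finrank F V) {C : Bil F V}
    (hC : ∀ x y, C x y = C y x) {x y : V} (h : C x x * C y y ≠ C x y ^ 2) : ∃ W : Submodule F V,
      (∀ c, ∃ a ∈ W, C a a = c) ∧ ∀ c, ∃ b, (∀ a ∈ W, B b a = 0) ∧ B b b = c := by
  classical
  obtain ⟨a, a1, a2⟩ : ∃ a, C a a ≠ 0 ∧ B a a ≠ 0 := by
    obtain ⟨z, hz⟩ : ∃ z, C z z ≠ 0 := by
      by_contra! H
      obtain ⟨z, -, hz⟩ := exists_self_ne h2 hC (x := x) (y := y) (fun h0 => h (by simp [H, h0])) (U := ⊤) trivial trivial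
      exact hz (H z)
    exact exists_both_ne h2 hB.comm hz (exists_perp_nonisotropic hB h2 (by omega))
  obtain ⟨d1, d2⟩ := hB.finrank_perp_span a2
  let D : Bil F V := C a a • C - (C a).smulRight (C a)
  have hD : ∀ u v, D u v = C a a * C u v - C a u * C a v := fun u v => by simp [D]
  obtain ⟨z, hz⟩ : ∃ z : perp B (F ∙ a), D z z ≠ 0 := by
    by_contra! H
    have H' : ∀ z, D z z = 0 := fun z => by
      have := H ⟨z - (B z a / B a a) • a, mem_perp_span.2 (by rintro _ rfl; simp [a2])⟩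
      simp only [hD, map_sub, map_smul, LinearMap.sub_apply, LinearMap.smul_apply, smul_eq_mul, hC z a] at this ⊢
      linear_combination this
    have e : D x y = 0 := by
      by_contra h0
      obtain ⟨z, -, hz⟩ := exists_self_ne h2 (fun u v => by rw [hD, hD, hC u v]; ring) h0 (U := ⊤) trivial trivial
      exact hz (H' z)
    have e1 := H' x
    have e2 := H' y
    rw [hD] at e e1 e2
    refine h (mul_left_cancel₀ (pow_ne_zero 2 a1) ?_)
    linear_combination (C a a * C y y) * e1 + C a x ^ 2 * e2 - (C a a * C x y + C a x * C a y) * e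
  obtain ⟨a', b1, b2⟩ := exists_both_ne h2 (C := res D _) (hB.restrict_perp d1).comm hz
    (exists_perp_nonisotropic (hB.restrict_perp d1) h2 (by omega))
  refine ⟨F ∙ a ⊔ F ∙ (a' : V), fun c => ?_, fun c => ?_⟩
  · obtain ⟨s, t, hst⟩ := exists_binary h2 a1 (mul_ne_zero a1 b1) c
    refine ⟨(s - t * C a a') • a + (t * C a a) • (a' : V), Submodule.add_mem_sup
      (Submodule.smul_mem _ _ (Submodule.mem_span_singleton_self _))
      (Submodule.smul_mem _ _ (Submodule.mem_span_singleton_self _)), ?_⟩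
    simp only [res_apply, hD, map_add, map_smul, LinearMap.add_apply, LinearMap.smul_apply, smul_eq_mul, hC a' a] at hst ⊢
    linear_combination hst
  · obtain ⟨b, c1, c2⟩ := exists_orth_value (hB.restrict_perp d1) h2 (by omega) b2 c
    refine ⟨b, fun v hv => ?_, c2⟩
    obtain ⟨u, hu, _, hw, rfl⟩ := Submodule.mem_sup.1 hv
    obtain ⟨t, rfl⟩ := Submodule.mem_span_singleton.1 hw
    simp [b.2 u hu, show B b a' = 0 from c1]

variable [DecidableEq F]

theorem exists_fix_class (hB : IsEps B 1) (h2 : (2 : F) ≠ 0) (h3 : 3 ≤ finrank F V) {a a' : V} {ν : F}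
    (hν : quadraticChar F ν = -1) (ha : B a a = 1) (ha' : B a' a' = ν) (z : Isom B) : ∃ c, z * c ∈ commutator (Isom B) ∧
      ∀ k : Isom B, k * hB.rf h2 a = hB.rf h2 a * k → k * hB.rf h2 a' = hB.rf h2 a' * k → k * c = c * k := by
  have h0 : B a' a' ≠ 0 := by rintro h; rw [← ha', h] at hν; simp at hν
  have h1 : B a a ≠ 0 := by simp [ha]
  have h4 := (rf_mul_rf hB h2 h3 h1 h0).2
  rw [ha, ha', hν, map_one, th_mul hB h2 h3] at h4
  have : z * 1 ∈ commutator (Isom B) ∨ z * hB.rf h2 a ∈ commutator (Isom B) ∨ z * hB.rf h2 a' ∈ commutator (Isom B) ∨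
      z * (hB.rf h2 a * hB.rf h2 a') ∈ commutator (Isom B) := by
    rw [mul_one]
    simp only [mem_comm_iff hB h2 h3, even_rk_mul hB h2 h3, th_mul hB h2 h3, rk_rf hB h2 h0, rk_rf hB h2 h1]
    by_cases h6 : Even (rk z) <;> rcases th_cases hB h2 h3 z with h | h <;>
      rcases th_cases hB h2 h3 (hB.rf h2 a) with h' | h' <;> rcases th_cases hB h2 h3 (hB.rf h2 a') with h'' | h'' <;>
      simp_all
  rcases this with h | h | h | h
  · exact ⟨_, h, fun k _ _ => by simp⟩
  · exact ⟨_, h, fun k h _ => h⟩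
  · exact ⟨_, h, fun k _ h => h⟩
  · exact ⟨_, h, fun k h h' => by rw [← mul_assoc, h, mul_assoc, h', mul_assoc]⟩

theorem exists_invol_pair' (hB : IsEps B 1) (h2 : (2 : F) ≠ 0) (h3 : 3 ≤ finrank F V) (he : Even (finrank F V))
    (g : Isom B) (hg : Even (rk g)) :
    ∃ s t : Isom B, s * s = 1 ∧ t * t = 1 ∧ s * t = g ∧ rk s = rk t ∧ 2 * rk s = finrank F V := by
  obtain ⟨W, hW, a, b, rfl, ⟨k, hk⟩, hb⟩ := exists_fit hB g (c := -1) (by simp)
  obtain ⟨s, s1, s2, s3, s4, s5⟩ := exists_invol_cay (hB.restrict hW) h2 (negI _ * a) fun v hv => by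
    have h1 : a.1 v = v := neg_injective hv
    have : ∀ j, (((a.1 : End F W) - (-1 : F) • 1) ^ j) v = (2 : F) ^ j • v := fun j => by
      induction j with
      | zero => simp
      | succ j ih => rw [pow_succ', End.mul_apply, ih, pow_succ, mul_smul]; simp [h1, two_smul]
    have h4 := this k
    rw [hk] at h4
    exact (smul_eq_zero.1 h4.symm).resolve_left (pow_ne_zero _ h2)
  obtain ⟨t, t1, t2, t3, t4, t5⟩ := exists_invol_cay (hB.restrict_perp hW) h2 b (by simpa using hb)
  have e1 : s * a = negI _ * (s * (negI _ * a)) :=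
    Subtype.ext (LinearEquiv.ext fun x => by simp [negI_apply])
  have e2 : s * a * (s * a) = 1 := by
    rw [← s2]; exact Subtype.ext (LinearEquiv.ext fun x => by simp [negI_apply])
  have e3 := rk_neg h2 s2
  rw [← e1] at e3
  have e4 : glueHom hB hW (s, t) * glueHom hB hW (s * a, t * b) = glueHom hB hW (a, b) := by
    rw [← map_mul, Prod.mk_mul_mk, ← mul_assoc, ← mul_assoc, s1, t1, one_mul, one_mul]
  have e5 := (even_rk_mul hB h2 h3 _ _).1 (e4 ▸ hg)
  have e6 := hB.finrank_perp W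
  refine ⟨_, _, by rw [← map_mul, Prod.mk_mul_mk, s1, t1]; exact map_one _,
    by rw [← map_mul, Prod.mk_mul_mk, e2, t2]; exact map_one _, e4, ?_⟩
  simp only [rk_glue_add, Nat.even_iff] at e5 he ⊢
  omega

end Cfsg.Agent.H5
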