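import Cfsg.Agent.H5.OreP1

/-! Ore's conjecture for even-dimensional orthogonal groups in odd characteristic. -/

set_option autoImplicit false

namespace Cfsg.Agent.H5

open Module Polynomial Function

universe u v w

variable {F : Type w} [Field F]
variable {V : Type u} [AddCommGroup V] [Module F V] {B : Bil F V}

/-- The fixed space. -/
abbrev fS (y : Isom B) : Submodule F V := LinearMap.ker (1 - (y.1 : End F V))

theorem mem_fS {y : Isom B} {x : V} : x ∈ fS y ↔ y.1 x = x := sub_eq_zero.trans eq_comm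

/-- A conjugating element with a large fixed space. -/
def BigFix (s t y : Isom B) : Prop :=
  y * s = t * y ∧ (∀ m ∈ mS s, y.1 m = m → m = 0) ∧ finrank F V ≤ 2 * finrank F (fS y)

theorem comm_mul_mul {G : Type*} [Group G] {s y c k : G} (h1 : y * c = c * y) (h2 : s * k = k * s)
    (h3 : c * k = k * c) : s * c * (y * k) * (s * c)⁻¹ * (y * k)⁻¹ = s * y * s⁻¹ * y⁻¹ :=
  calc _ = s * (c * y) * (c⁻¹ * (c * k) * c⁻¹) * (k * s)⁻¹ * y⁻¹ := by group
    _ = s * (y * c) * (c⁻¹ * (k * c) * c⁻¹) * (s * k)⁻¹ * y⁻¹ := by rw [h1, h2, h3]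
    _ = _ := by group

variable [FiniteDimensional F V]

theorem perp_fS (hB : IsEps B 1) (y : Isom B) : perp B (fS y) = mS y⁻¹ := by
  rw [← hB.perp_perp (mS y⁻¹)]
  congr 1
  refine Submodule.ext fun x => mem_fS.trans ⟨?_, fun h => hB.ext_left fun v => ?_⟩
  · rintro h _ ⟨v, rfl⟩
    change B x (v - y.1.symm v) = 0
    rw [map_sub, ← Isom.apply_left, h, sub_self]
  · have : B x (v - y.1.symm v) = 0 := h _ ⟨v, rfl⟩
    rw [map_sub, ← Isom.apply_left] at this
    exact (sub_eq_zero.1 this).symm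

theorem exists_bigFix (hB : IsEps B 1) (h2 : (2 : F) ≠ 0) (hd : 8 ≤ finrank F V) {s t : Isom B} (hs : s * s = 1)
    (ht : t * t = 1) (hc : IsConj s t) (hr : 2 * rk s = finrank F V) : ∃ y, BigFix s t y := by
  obtain ⟨y, hy⟩ := isConj_iff.1 hc
  replace hy := mul_inv_eq_iff_eq_mul.1 hy
  have e1 : ∀ x, y.1 (s.1 x) = t.1 (y.1 x) := fun x => congrArg (fun k : Isom B => k.1 x) hy
  have d := disjoint_mS hB h2 hs
  have d' := disjoint_mS hB h2 ht
  have r1 : finrank F (mS t) = finrank F (mS s) := rk_conj y.1 fun x => (e1 x).symm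
  replace hr : 2 * finrank F (mS s) = finrank F V := hr
  have r2 := hB.finrank_perp (mS s)
  have r3 := hB.finrank_perp (mS t)
  obtain ⟨h, hh⟩ := exists_isom_sub_inj (hB.restrict d) h2 (by omega)
    (((2 : F)⁻¹ • (y.1.symm : End F V) ∘ₗ (1 - (t.1 : End F V))).restrict (q := mS s) fun x _ => (mem_mS h2 hs).2
      (y.1.injective (by simp [e1, invol_apply ht, smul_sub])))
  let ω : mS s →ₗ[F] V := (y.1 : End F V) ∘ₗ (mS s).subtype ∘ₗ (h.1 : End F (mS s))
  have ω1 : ∀ m, ω m ∈ mS t := fun m => (mem_mS h2 ht).2 (by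
    change t.1 (y.1 (h.1 m)) = -y.1 (h.1 m)
    rw [← e1, (mem_mS h2 hs).1 (h.1 m).2, map_neg])
  have ω2 : ∀ m m', B (ω m) (ω m') = B m m' := fun m m' => (y.2 _ _).trans (h.2 m m')
  have ω3 : ∀ m : mS s, (m : V) - ω m ∈ perp B (mS t) → m = 0 := fun m hm => hh m (Subtype.ext (y.1.injective (by
    rw [mem_perp_mS hB ht, map_sub, (mem_mS h2 ht).1 (ω1 m)] at hm
    change ω m = y.1 ((2 : F)⁻¹ • y.1.symm (m - t.1 m))
    rw [map_smul, y.1.apply_symm_apply, eq_inv_smul_iff₀ h2]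
    linear_combination (norm := module) hm)))
  let Ψ : (mS s × perp B (mS t)) →ₗ[F] V := (ω - (mS s).subtype).coprod (perp B (mS t)).subtype
  have Ψ1 : ∀ z, Ψ z = ω z.1 - z.1 + z.2 := fun _ => rfl
  have Ψ2 : Injective Ψ := (injective_iff_map_eq_zero _).2 fun z hz => by
    rw [Ψ1] at hz
    have := ω3 z.1 (by rw [show (z.1 : V) - ω z.1 = z.2 by linear_combination (norm := module) -hz]; exact z.2.2)
    exact Prod.ext this (Subtype.ext (by simpa [this] using hz))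
  let e := LinearMap.linearEquivOfInjective Ψ Ψ2 (by rw [finrank_prod]; omega)
  have he : ∀ x, ω (e.symm x).1 - (e.symm x).1 + (e.symm x).2 = x := fun x => e.apply_symm_apply x
  let ρ : perp B (mS s) →ₗ[F] V := (perp B (mS t)).subtype ∘ₗ LinearMap.snd F _ _ ∘ₗ e.symm.toLinearMap ∘ₗ
    (perp B (mS s)).subtype
  have ρ1 : ∀ x, ρ x ∈ perp B (mS t) := fun x => (e.symm x).2.2
  have ρ2 : ∀ x : perp B (mS s), ∃ m : mS s, ω m + ρ x = m + x := fun x =>
    ⟨(e.symm x).1, by change _ + ((e.symm x).2 : V) = _; linear_combination (norm := module) he x⟩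
  have ρ3 : ∀ x x', B (ρ x) (ρ x') = B x x' := fun x x' => by
    obtain ⟨m, hm⟩ := ρ2 x
    obtain ⟨m', hm'⟩ := ρ2 x'
    have := congrArg₂ (fun u v => B u v) hm hm'
    simpa [ω2, ρ1 x _ (ω1 m'), hB.refl (ρ1 x' _ (ω1 m)), x.2 _ m'.2, hB.refl (x'.2 _ m.2)] using this
  have f1 : ∀ x : mS s, LinearMap.ofIsCompl (hB.isCompl_perp d) ω ρ x = ω x := fun x => by simp
  have f2 : ∀ x : perp B (mS s), LinearMap.ofIsCompl (hB.isCompl_perp d) ω ρ x = ρ x := fun x => by simp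
  obtain ⟨z, z1, z2⟩ : ∃ z : Isom B, (∀ x : mS s, z.1 x = ω x) ∧ ∀ x : perp B (mS s), z.1 x = ρ x :=
    ⟨hB.toIsom (LinearMap.ofIsCompl (hB.isCompl_perp d) ω ρ) fun u v => by
      obtain ⟨a, b, rfl⟩ := exists_add_of_isCompl (hB.isCompl_perp d) u
      obtain ⟨a', b', rfl⟩ := exists_add_of_isCompl (hB.isCompl_perp d) v
      simp [f1, f2, ω2, ρ3, ρ1 b _ (ω1 a'), hB.refl (ρ1 b' _ (ω1 a)), b.2 _ a'.2, hB.refl (b'.2 _ a.2)], f1, f2⟩
  refine ⟨z, comm_of_inv hB h2 hs ht (fun x hx => (z1 ⟨x, hx⟩).symm ▸ ω1 _) (fun x hx => (z2 ⟨x, hx⟩).symm ▸ ρ1 _),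
    fun m hm h => congrArg Subtype.val (ω3 ⟨m, hm⟩ (by rw [← z1, h, sub_self]; exact zero_mem _)), ?_⟩
  have h1 := Submodule.finrank_add_le_finrank_add_finrank (fS z) (mS s)
  rw [eq_top_iff.2 (show ⊤ ≤ fS z ⊔ mS s from fun v _ => ?_), finrank_top] at h1
  · omega
  obtain ⟨a, b, rfl⟩ := exists_add_of_isCompl (hB.isCompl_perp d) v
  obtain ⟨m, hm⟩ := ρ2 b
  exact Submodule.mem_sup.2 ⟨m + b, mem_fS.2 (by rw [map_add, z1, z2, hm]), a - m, sub_mem a.2 m.2, by abel⟩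

theorem BigFix.sup_eq (hB : IsEps B 1) {s t y : Isom B} (h : BigFix s t y) (hr : 2 * rk s = finrank F V) :
    IsCompl (fS y) (mS s) := by
  have d : Disjoint (fS y) (mS s) := Submodule.disjoint_def.2 fun x h1 h3 => h.2.1 x h3 (mem_fS.1 h1)
  refine ⟨d, codisjoint_iff.2 (Submodule.eq_top_of_disjoint _ _ ?_ d)⟩
  have := h.2.2
  replace hr : 2 * finrank F (mS s) = finrank F V := hr
  omega

variable [Fintype F] [DecidableEq F]

theorem exists_bigFix_gram (hB : IsEps B 1) (h2 : (2 : F) ≠ 0) (hd : 8 ≤ finrank F V) {s t : Isom B} (hs : s * s = 1)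
    (ht : t * t = 1) (hc : IsConj s t) (hr : 2 * rk s = finrank F V) :
    ∃ y, BigFix s t y ∧ ∃ a ∈ fS y, ∃ b ∈ fS y, B a a * B b b ≠ B a b ^ 2 := by
  obtain ⟨y, hy⟩ := exists_bigFix hB h2 hd hs ht hc hr
  by_cases H : ∃ a ∈ fS y, ∃ b ∈ fS y, B a a * B b b ≠ B a b ^ 2
  · exact ⟨y, hy, H⟩
  push Not at H
  have c1 := hy.sup_eq hB hr
  have d := disjoint_mS hB h2 hs
  have c2 := Submodule.finrank_add_eq_of_isCompl c1
  replace hr : 2 * finrank F (mS s) = finrank F V := hr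
  have c3 : ∀ x ∈ perp B (fS y), s.1 x = x → x = 0 := fun x h1 h3 => hB.nondeg _ fun v => by
    obtain ⟨a, b, rfl⟩ := exists_add_of_isCompl c1 v
    rw [map_add, h1 _ a.2, (mem_perp_mS hB hs).2 h3 _ b.2, add_zero]
  have r1 : finrank F (fS y) ≤ finrank F (fS y ⊓ perp B (fS y) : Submodule F V) + 1 := by
    obtain ⟨a, ha, h⟩ : ∃ a ∈ fS y, ∀ l ∈ fS y, B l a = 0 → B l l = 0 := by
      by_cases h : ∃ a ∈ fS y, B a a ≠ 0
      · obtain ⟨a, h1, h3⟩ := h
        exact ⟨a, h1, fun l h4 h5 => by simpa [h5, h3] using H l h4 a h1⟩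
      · push Not at h
        exact ⟨0, zero_mem _, fun l h4 _ => h l h4⟩
    have h1 := Submodule.finrank_sup_add_finrank_inf_eq (fS y) (perp B (F ∙ a))
    have h3 := finrank_perp_ge hB a
    have h4 := Submodule.finrank_le (fS y ⊔ perp B (F ∙ a))
    have h5 := Submodule.finrank_mono (show fS y ⊓ perp B (F ∙ a) ≤ fS y ⊓ perp B (fS y) from fun l hl =>
      ⟨hl.1, show l ∈ perp B _ from fun l' hl' => by
        simpa [h l hl.1 (hl.2 a (Submodule.mem_span_singleton_self a)), eq_comm (a := (0 : F))] using H l hl.1 l' hl'⟩)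
    omega
  generalize hR : fS y ⊓ perp B (fS y) = R at r1
  have R1 : ∀ x ∈ R, y.1 x = x := fun x hx => mem_fS.1 (hR.ge hx).1
  have R2 : ∀ x ∈ R, x ∈ perp B (fS y) := fun x hx => (hR.ge hx).2
  have r2 : finrank F (R.map (1 - (s.1 : End F V))) = finrank F R := by
    have := ((1 - (s.1 : End F V)).domRestrict R).finrank_range_add_finrank_ker
    rwa [LinearMap.range_domRestrict, LinearMap.ker_eq_bot'.2 fun x hx =>
      Subtype.ext (c3 _ (R2 _ x.2) (sub_eq_zero.1 hx).symm), finrank_bot, add_zero] at this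
  have r3 : finrank F ((perp B R).map (1 - ((y⁻¹).1 : End F V))) ≤ 1 := by
    have h1 := ((1 - ((y⁻¹).1 : End F V)).domRestrict (perp B R)).finrank_range_add_finrank_ker
    have h3 := hB.finrank_perp R
    have h4 : fS y ≤ perp B R := fun x hx r hr => hB.refl (R2 r hr x hx)
    have h5 := Submodule.finrank_mono (show (fS y).comap (perp B R).subtype ≤
      LinearMap.ker ((1 - ((y⁻¹).1 : End F V)).domRestrict (perp B R)) from fun x hx =>
        sub_eq_zero.2 (y.1.eq_symm_apply.2 (mem_fS.1 hx)))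
    rw [(Submodule.comapSubtypeEquivOfLe h4).finrank_eq] at h5
    rw [LinearMap.range_domRestrict] at h1
    omega
  obtain ⟨u, u1, u2, u3⟩ : ∃ u ∈ R, B (u - s.1 u) (u - s.1 u) ≠ 0 ∧ u ∉ (perp B R).map (1 - ((y⁻¹).1 : End F V)) := by
    obtain ⟨ν, h0, h1, -⟩ := exists_nonsq' (F := F) h2
    have key := exists_sub_value hB h2 d (H := R.map (1 - (s.1 : End F V))) LinearMap.map_le_range (by omega) (by omega)
    obtain ⟨_, ⟨u, u1, rfl⟩, u2 : B (u - s.1 u) (u - s.1 u) = 1⟩ := key 1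
    obtain ⟨_, ⟨v, v1, rfl⟩, v2 : B (v - s.1 v) (v - s.1 v) = ν⟩ := key ν
    by_contra! H'
    obtain ⟨c, hc⟩ := Submodule.mem_span_singleton.1 ((Submodule.eq_of_le_of_finrank_le
      ((Submodule.span_singleton_le_iff_mem _ _).2 (H' u u1 (u2 ▸ one_ne_zero)))
      (by rw [finrank_span_singleton (by rintro rfl; simp at u2)]; exact r3)).ge (H' v v1 (by rwa [v2])))
    rw [← hc, map_smul, ← smul_sub] at v2
    simp only [map_smul, LinearMap.smul_apply, u2, smul_eq_mul, mul_one] at v2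
    rw [← v2, ← sq, quadraticChar_sq_one' (by rintro rfl; exact h0 (by simpa using v2.symm))] at h1
    exact absurd h1 (by decide)
  have u4 : B u u = 0 := R2 u u1 u (mem_fS.2 (R1 u u1))
  have u5 : B u (s.1 u) ≠ 0 := fun h => u2 (by simp [s.2 _ _, u4, h, hB.refl h])
  obtain ⟨w, w1⟩ : ∃ w, w - y.1.symm w = u := (perp_fS hB y).le (R2 u u1)
  obtain ⟨r, r4, r5⟩ : ∃ r ∈ R, B w r ≠ 0 := by
    by_contra! H'
    exact u3 ⟨w, H', w1⟩
  have u6 : y.1.symm u = u := y.1.symm_apply_eq.2 (R1 u u1).symm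
  obtain ⟨w, w1, w2, r5⟩ : ∃ w, w - y.1.symm w = u ∧ 2 * B w (s.1 u) = B u (s.1 u) ∧ B w r ≠ 0 :=
    ⟨w + ((1 / 2 - B w (s.1 u) / B u (s.1 u))) • u, by simp [u6, w1], by
      simp only [map_add, map_smul, LinearMap.add_apply, LinearMap.smul_apply, smul_eq_mul]; field_simp; ring, by
      simpa [R2 u u1 r (mem_fS.2 (R1 r r4))] using r5⟩
  have w3 : B w u = 0 := by
    have := (y⁻¹).2 w w
    change B (y.1.symm w) (y.1.symm w) = _ at this
    rw [show y.1.symm w = w - u by rw [← w1]; abel] at this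
    simp only [map_sub, LinearMap.sub_apply, u4, hB.comm u w] at this
    exact mul_left_cancel₀ h2 (by linear_combination -this)
  let k := hB.rf h2 (u + s.1 u) * hB.rf h2 (u - s.1 u)
  have hk : ∀ x, k.1 x = x - (B x (u + s.1 u) / B u (s.1 u)) • (u + s.1 u) +
      (B x (u - s.1 u) / B u (s.1 u)) • (u - s.1 u) := fun x => by
    have n1 : B (u + s.1 u) (u + s.1 u) = 2 * B u (s.1 u) := by simp [s.2 _ _, u4, hB.comm (s.1 u) u, two_mul]
    have n2 : B (u - s.1 u) (u - s.1 u) = -(2 * B u (s.1 u)) := by simp [s.2 _ _, u4, hB.comm (s.1 u) u]; ring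
    have n3 : B (u - s.1 u) (u + s.1 u) = 0 := by simp [s.2 _ _, u4, hB.comm (s.1 u) u]
    rw [isom_mul_apply, hB.rf_apply _ _ x, map_sub, map_smul, rf_perp hB h2 n3, hB.rf_apply, n1, n2, div_neg,
      mul_div_mul_left _ _ h2, mul_div_mul_left _ _ h2, neg_smul, sub_neg_eq_add]
  have k1 : (y * k).1 w = w := by
    rw [isom_mul_apply, ← y.1.eq_symm_apply, hk, show y.1.symm w = w - u by rw [← w1]; abel]
    simp only [map_add, map_sub, w3, ← w2]
    have : B w (s.1 u) ≠ 0 := fun h => u5 (by rw [← w2, h, mul_zero])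
    match_scalars <;> field_simp <;> ring
  have k2 : ∀ l ∈ fS y ⊓ perp B (F ∙ s.1 u), l ∈ fS (y * k) := fun l hl => mem_fS.2 (by
    rw [isom_mul_apply, hk]
    simp [hB.refl (R2 u u1 l hl.1), hl.2 _ (Submodule.mem_span_singleton_self _), mem_fS.1 hl.1])
  refine ⟨y * k, ⟨?_, fun m hm h => ?_, ?_⟩, w, mem_fS.2 k1, r - (B r (s.1 u) / B u (s.1 u)) • u,
    k2 _ ⟨mem_fS.2 (by simp [R1 r r4, R1 u u1]), mem_perp_span.2 (by rintro _ rfl; simp [u5])⟩, ?_⟩
  · rw [mul_assoc, mul_assoc, ← rf_comm hB h2 (y := s) (ε := -1) (by simp) (by simp [invol_apply hs]), ← mul_assoc _ s,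
      ← rf_comm hB h2 (y := s) (ε := 1) (by simp) (by simp [invol_apply hs, add_comm]), ← mul_assoc, ← mul_assoc, hy.1]
    simp only [k, mul_assoc]
  · have h1 : B m (u + s.1 u) = 0 := by simp [← invol_adj hs, (mem_mS h2 hs).1 hm]
    rw [isom_mul_apply, ← y.1.eq_symm_apply, hk, h1, zero_div, zero_smul, sub_zero] at h
    by_cases h3 : B m (u - s.1 u) / B u (s.1 u) = 0
    · rw [h3, zero_smul, add_zero, y.1.eq_symm_apply] at h
      exact hy.2.1 m hm h
    have h4 : u - s.1 u ∈ perp B (fS y) := by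
      rw [← Submodule.smul_mem_iff _ h3, ← Submodule.neg_mem_iff, perp_fS hB]
      exact ⟨m, by change m - y.1.symm m = _; rw [← h]; abel⟩
    have h5 := c3 (u + s.1 u) (by
      rw [show u + s.1 u = (2 : F) • u - (u - s.1 u) by module]
      exact sub_mem (Submodule.smul_mem _ _ (R2 u u1)) h4) (by simp [invol_apply hs, add_comm])
    exact absurd (by simpa [u4] using congrArg (B u) h5) u5
  · have h1 := Submodule.finrank_lt_finrank_of_lt (lt_of_le_of_ne k2 fun e => u5 (by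
      rw [y.1.symm_apply_eq.2 (mem_fS.1 (e.ge (mem_fS.2 k1)).1).symm, sub_self] at w1
      simp [← w1]))
    have h3 := Submodule.finrank_sup_add_finrank_inf_eq (fS y) (perp B (F ∙ s.1 u))
    have h4 := finrank_perp_ge hB (s.1 u)
    have h5 := Submodule.finrank_le (fS y ⊔ perp B (F ∙ s.1 u))
    omega
  · simpa [w3, u4, R2 r r4 r (mem_fS.2 (R1 r r4)), R2 r r4 u (mem_fS.2 (R1 u u1)), R2 u u1 r (mem_fS.2 (R1 r r4)),
      eq_comm (a := (0 : F))] using r5

theorem cmO_of_mem_even (hB : IsEps B 1) (h2 : (2 : F) ≠ 0) (hd : 8 ≤ finrank F V) (he : Even (finrank F V))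
    {g : Isom B} (hg : g ∈ commutator (Isom B)) : CmO g := by
  have h3 : 3 ≤ finrank F V := by omega
  obtain ⟨h4, h5⟩ := (mem_comm_iff hB h2 h3 g).1 hg
  obtain ⟨s, t, hs, ht, rfl, h, hr⟩ := exists_invol_pair' hB h2 h3 he g h4
  obtain ⟨y, hy, a, a1, b, b1, h6⟩ := exists_bigFix_gram hB h2 hd hs ht (isConj_invol hB h2 hs ht h (by
    rw [th_mul hB h2 h3] at h5
    rcases th_cases hB h2 h3 s with h | h <;> rcases th_cases hB h2 h3 t with h' | h' <;> simp_all)) hr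
  have d := disjoint_mS hB h2 hs
  have c1 := hy.sup_eq hB hr
  have c2 := hB.isCompl_perp d
  let j : perp B (mS s) →ₗ[F] V := (fS y).projection _ c1 ∘ₗ (perp B (mS s)).subtype
  have j1 : ∀ x, j x ∈ fS y := fun x => Submodule.projection_apply_mem _ _
  have j2 : ∀ x, j x - x ∈ mS s := fun x => sub_mem_comm_iff.1 (Submodule.sub_projection_mem c1 _)
  have j3 : ∀ l ∈ fS y, ∃ x, j x = l := fun l hl => by
    obtain ⟨m, x, rfl⟩ := exists_add_of_isCompl c2 l
    exact ⟨x, sub_eq_zero.1 (Submodule.disjoint_def.1 c1.disjoint _ (sub_mem (j1 x) hl) (by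
      rw [add_comm, ← sub_sub]; exact sub_mem (j2 x) m.2))⟩
  obtain ⟨a, rfl⟩ := j3 a a1
  obtain ⟨b, rfl⟩ := j3 b b1
  have d2 := hB.finrank_perp (mS s)
  replace hr : 2 * finrank F (mS s) = finrank F V := hr
  obtain ⟨W, w1, w2⟩ := exists_plane (hB.restrict_perp d) h2 (by omega) (C := (B.comp j).compl₂ j)
    (fun x y => hB.comm _ _) h6
  obtain ⟨ν, -, hν, -⟩ := exists_nonsq' (F := F) h2
  obtain ⟨a, a1, a2⟩ := w1 1
  obtain ⟨a', a3, a4⟩ := w1 ν
  obtain ⟨b, b1, b2⟩ := w2 1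
  obtain ⟨b', b3, b4⟩ := w2 ν
  obtain ⟨c, c3, c4⟩ := exists_fix_class hB h2 h3 hν a2 a4 s
  obtain ⟨k, k1, k2⟩ := exists_fix_class hB h2 h3 hν b2 b4 y
  have cm : ∀ {y : Isom B} {a : V}, y.1 a = a → y * hB.rf h2 a = hB.rf h2 a * y := fun h =>
    rf_comm hB h2 (ε := 1) (mul_one _) (by simpa using h)
  have o : ∀ {b : perp B (mS s)}, (∀ a ∈ W, res B _ b a = 0) → hB.rf h2 b * c = c * hB.rf h2 b := fun {b} h => by
    have : ∀ a ∈ W, (hB.rf h2 b).1 (j a) = j a := fun a ha => rf_perp hB h2 (hB.refl (by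
      have := b.2 _ (j2 a)
      rwa [map_sub, show B b a = 0 from h a ha, sub_zero] at this))
    exact c4 _ (cm (this a a1)) (cm (this a' a3))
  have e1 := c4 y (cm (mem_fS.1 (j1 a))) (cm (mem_fS.1 (j1 a')))
  have e2 := k2 s (cm ((mem_perp_mS hB hs).1 b.2)) (cm ((mem_perp_mS hB hs).1 b'.2))
  have e3 := k2 c (o b1).symm (o b3).symm
  refine ⟨_, c3, _, k1, ?_⟩
  rw [comm_mul_mul e1 e2 e3, inv_eq_of_mul_eq_one_right hs, mul_assoc s, hy.1]
  group

end Cfsg.Agent.H5
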