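import Cfsg.Agent.H4.CV2

/-! Factorisation of an endomorphism into two cyclic ones whose characteristic polynomial has a
simple quadratic factor. -/

set_option autoImplicit false

namespace Cfsg.Agent.H5

open Module Polynomial H4

universe u

variable {F : Type u} [Field F]
variable {V : Type*} [AddCommGroup V] [Module F V]

theorem sim_tri_compl {P Q : Submodule F V} (h : IsCompl P Q) {T : End F V} {A : End F P}
    {D : End F Q} (hA : ∀ p : P, T p = A p) (hD : ∀ c : Q, T c - D c ∈ P) :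
    ∃ Z, Sim (tri A Z D) T := by
  refine ⟨LinearMap.codRestrict P (T ∘ₗ Q.subtype - Q.subtype ∘ₗ D) hD,
    Submodule.prodEquivOfIsCompl P Q h, fun v => ?_⟩
  simp only [Submodule.coe_prodEquivOfIsCompl', tri_apply, map_add, hA, Submodule.coe_add, add_assoc]
  exact congrArg _ (sub_add_cancel _ _)

theorem exists_proj {P Q : Submodule F V} (h : IsCompl P Q) : ∃ π : V →ₗ[F] P,
    (∀ p : P, π p = p) ∧ ∀ v, v - π v ∈ Q := by
  refine ⟨P.projectionOnto Q h, fun p => by simp, fun v => ?_⟩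
  obtain ⟨a, b, rfl⟩ : ∃ (a : P) (b : Q), v = a + b := by
    obtain ⟨a, ha, b, hb, rfl⟩ := Submodule.mem_sup.1 (h.sup_eq_top ▸ Submodule.mem_top : v ∈ P ⊔ Q)
    exact ⟨⟨a, ha⟩, ⟨b, hb⟩, rfl⟩
  simp

variable [Module.Finite F V]

/-- `l X` and `X` are cyclic with characteristic polynomial `χ`. -/
def Fac (l : End F V) (χ : F[X]) : Prop :=
  ∃ W : End F V, Cyc W ∧ W.charpoly = χ ∧ Cyc (l * W) ∧ (l * W).charpoly = χ

/-- The state of the inductive construction. -/
structure LQ (M : End F V) (b : V) (P : Submodule F V) (W₀ : End F V) (i : ℕ) (W : End F V) :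
    Prop where
  rk : finrank F (Kr (M * W) b (i + 1)) = i + 1
  le : P ≤ Kr (M * W) b i
  eig : ∀ p ∈ P, W p = W₀ p
  hes : ∀ v ∈ Kr (M * W) b i, M v ∈ Kr (M * W) b (i + 1)
  obs : ∀ S : Submodule F V, P ≤ S → S ≤ Kr (M * W) b i → (∀ w ∈ S, W w ∈ S) → S ≤ P

theorem LQ.next {M : End F V} {b : V} {P : Submodule F V} {W₀ : End F V} {i : ℕ} {W W' : End F V}
    (h : LQ M b P W₀ i W) (h1 : ∀ v ∈ Kr (M * W) b i, W' v = W v)
    (h2 : M (W' (((M * W) ^ i) b)) ∉ Kr (M * W) b (i + 1))
    (h3 : M (((M * W) ^ i) b) ∈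
      Kr (M * W) b (i + 1) ⊔ Submodule.span F {M (W' (((M * W) ^ i) b))})
    (h4 : ∀ S : Submodule F V, P ≤ S → S ≤ Kr (M * W) b (i + 1) → (∀ w ∈ S, W' w ∈ S) → S ≤ P) :
    LQ M b P W₀ (i + 1) W' := by
  have a1 := Kr_agree (N := M * W) (N' := M * W') (b := b) (i := i) fun v hv => by
    rw [Module.End.mul_apply, Module.End.mul_apply, h1 v hv]
  have a2 : Kr (M * W') b (i + 1) = Kr (M * W) b (i + 1) := Kr_congr fun j hj => a1 j (by omega)
  have a3 : Kr (M * W') b (i + 1 + 1) =
      Kr (M * W) b (i + 1) ⊔ Submodule.span F {M (W' (((M * W) ^ i) b))} := by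
    rw [Kr_succ, a2, pow_succ', Module.End.mul_apply, a1 i le_rfl]; rfl
  refine ⟨by rw [a3, finrank_sup_span h2, h.rk], by rw [a2]; exact h.le.trans (Kr_le_succ _ _ _),
    fun p hp => by rw [h1 p (h.le hp), h.eig p hp], fun v hv => ?_, by rw [a2]; exact h4⟩
  rw [a2] at hv
  obtain ⟨p, hp, c, rfl⟩ := mem_Kr_succ hv
  rw [a3, map_add, map_smul]
  exact add_mem (Submodule.mem_sup_left (h.hes p hp)) (Submodule.smul_mem _ _ h3)

theorem LQ.step {M : End F V} (hM : LinearMap.det M ≠ 0) {b : V} {P : Submodule F V}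
    {W₀ : End F V} (hP : ∀ p ∈ P, W₀ p ∈ P) {i : ℕ} {W : End F V} (h : LQ M b P W₀ i W)
    (hn : i + 1 < finrank F V) : ∃ W', LQ M b P W₀ (i + 1) W' := by
  obtain ⟨M', m1, m2, -⟩ := exists_inv_of_det hM
  have m3 : ∀ v, M (M' v) = v := fun v => LinearMap.congr_fun m1 v
  set N := M * W with hN
  set u := (N ^ i) b with hu
  obtain ⟨f, f1, f2⟩ := exists_dual_one_zero (not_mem_Kr h.rk)
  rw [← hN, ← hu] at f1
  rw [← hN] at f2
  have hbP : P ≤ Kr N b i := h.le
  have fin : ∀ y : V, M y ∉ Kr N b (i + 1) → M u ∈ Kr N b (i + 1) ⊔ Submodule.span F {M y} →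
      (∀ W' : End F V, (∀ v ∈ Kr N b i, W' v = W v) → W' u = y → ∀ S : Submodule F V, P ≤ S →
        S ≤ Kr N b (i + 1) → (∀ w ∈ S, W' w ∈ S) → S ≤ P) → ∃ W', LQ M b P W₀ (i + 1) W' := by
    intro y a2 a3 a4
    have e1 : ∀ v ∈ Kr N b i, (W + f.smulRight (y - W u)) v = W v := fun v hv => by simp [f2 v hv]
    have e2 : (W + f.smulRight (y - W u)) u = y := by simp [f1]
    exact ⟨_, h.next e1 (by rw [← hN, ← hu, e2]; exact a2)
      (by rw [← hN, ← hu, e2]; exact a3) (a4 _ e1 e2)⟩
  by_cases hc : M u ∈ Kr N b (i + 1)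
  · obtain ⟨z, hz⟩ : ∃ z, z ∉ Kr N b (i + 1) := by
      by_contra hh
      push Not at hh
      have := h.rk
      rw [← hN, Submodule.eq_top_iff'.2 hh, finrank_top] at this
      omega
    refine fin (M' z) (by rwa [m3]) (Submodule.mem_sup_left hc) ?_
    intro W' e1 e2 S s1 s2 s3
    have hR : ∀ v ∈ Kr N b (i + 1), M v ∈ Kr N b (i + 1) := fun v hv => by
      obtain ⟨p, hp, c, rfl⟩ := mem_Kr_succ hv
      rw [map_add, map_smul]
      exact add_mem (h.hes p hp) (Submodule.smul_mem _ _ hc)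
    have s4 : S ≤ Kr N b i := fun w hw => by
      obtain ⟨p, hp, c, rfl⟩ := mem_Kr_succ (s2 hw)
      have := hR _ (s2 (s3 _ hw))
      have h5 : M (W p) ∈ Kr N b (i + 1) := apply_mem_Kr hp
      rw [map_add, map_smul, e1 p hp, ← hu, e2, map_add, map_smul, m3,
        Submodule.add_mem_iff_right _ h5] at this
      by_cases c0 : c = 0
      · simpa [c0] using hp
      · exact absurd ((Submodule.smul_mem_iff _ c0).1 this) hz
    exact h.obs S s1 s4 fun w hw => e1 w (s4 hw) ▸ s3 w hw
  · obtain ⟨Q, hQ⟩ := P.exists_isCompl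
    obtain ⟨π, p1, -⟩ := exists_proj hQ
    let π' : End F V := P.subtype ∘ₗ π
    have p2 : ∀ p ∈ P, π' p = p := fun p hp => congrArg Subtype.val (p1 ⟨p, hp⟩)
    have p3 : ∀ v, π' v ∈ P := fun v => (π v).2
    let g : End F V := (1 - W) * (1 - π') + π'
    obtain ⟨y, y1, y2⟩ : ∃ y, M y ∈ Kr N b (i + 1) ∧ y ∉ (Kr N b i).map g := by
      by_contra hh
      push Not at hh
      have h1 : (Kr N b (i + 1)).map M' ≤ (Kr N b i).map g := by
        rintro _ ⟨v, hv, rfl⟩
        exact hh _ (by rwa [m3])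
      have h2 := Submodule.finrank_mono h1
      have h3 := Submodule.finrank_map_le g (Kr N b i)
      have h4 := finrank_Kr_le N b i
      rw [← (Submodule.equivMapOfInjective M' (Function.LeftInverse.injective m3) _).finrank_eq,
        h.rk] at h2
      omega
    have key : ∀ w ∈ Kr N b (i + 1), M w ∈ Kr N b (i + 1) → w ∈ Kr N b i := fun w hw hw' => by
      obtain ⟨p, hp, c, rfl⟩ := mem_Kr_succ hw
      rw [map_add, map_smul, Submodule.add_mem_iff_right _ (h.hes p hp)] at hw'
      by_cases c0 : c = 0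
      · simpa [c0] using hp
      · exact absurd ((Submodule.smul_mem_iff _ c0).1 hw') hc
    refine fin (u + y) ?_ ?_ ?_
    · rwa [map_add, Submodule.add_mem_iff_left _ y1]
    · rw [show M u = M (u + y) - M y by simp]
      exact sub_mem (Submodule.mem_sup_right (Submodule.subset_span rfl)) (Submodule.mem_sup_left y1)
    · intro W' e1 e2 S s1 s2 s3
      have s4 := h.obs (S ⊓ Kr N b i) (le_inf s1 hbP) inf_le_right fun w hw => by
        have := s3 w hw.1
        rw [e1 w hw.2] at this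
        exact ⟨this, key _ (s2 this) (apply_mem_Kr hw.2)⟩
      intro w hw
      obtain ⟨p, hp, c, rfl⟩ := mem_Kr_succ (s2 hw)
      by_cases c0 : c = 0
      · exact s4 ⟨hw, by simpa [c0] using hp⟩
      exfalso
      have s5 := S.sub_mem (s3 _ hw) hw
      rw [map_add, map_smul, e1 p hp, ← hu, e2,
        show W p + c • (u + y) - (p + c • u) = c • y + W p - p by module] at s5
      have ht := s4 ⟨s5, key _ (s2 s5) (by
        rw [map_sub, map_add, map_smul]
        exact sub_mem (add_mem (Submodule.smul_mem _ _ y1) (apply_mem_Kr hp)) (h.hes p hp))⟩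
      have ht' : c • y + W p - p + (π' p - W (π' p)) ∈ P := add_mem ht (sub_mem (p3 p) (by
        rw [h.eig _ (p3 p)]; exact hP _ (p3 p)))
      refine y2 ((Submodule.smul_mem_iff _ c0).1
        ⟨p - π' p + (c • y + W p - p + (π' p - W (π' p))),
          add_mem (sub_mem hp (hbP (p3 p))) (hbP ht'), ?_⟩)
      have e3 : π' (p - π' p + (c • y + W p - p + (π' p - W (π' p)))) =
          c • y + W p - p + (π' p - W (π' p)) := by
        rw [map_add, map_sub, p2 _ (p3 p), p2 _ ht', sub_self, zero_add]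
      simp only [g, LinearMap.add_apply, LinearMap.sub_apply, Module.End.mul_apply,
        Module.End.one_apply, e3, add_sub_cancel_right]
      rw [map_sub]
      abel

theorem LQ.exists {M : End F V} (hM : LinearMap.det M ≠ 0) {b : V} {P : Submodule F V}
    {W₀ : End F V} (hP : ∀ p ∈ P, W₀ p ∈ P) {j : ℕ} (h : LQ M b P W₀ j W₀) (i : ℕ)
    (hn : j + i < finrank F V) : ∃ W, LQ M b P W₀ (j + i) W := by
  induction i with
  | zero => exact ⟨_, h⟩
  | succ i ih =>
    obtain ⟨W, hW⟩ := ih (by omega)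
    exact hW.step hM hP hn

theorem trace_add_smulRight (T : End F V) (κ : V →ₗ[F] F) (a : V) :
    LinearMap.trace F V (T + κ.smulRight a) = LinearMap.trace F V T + κ a := by
  rw [map_add, LinearMap.trace_smulRight]

theorem LQ.finish {M : End F V} (hM : LinearMap.det M = 1) {b : V} {W₀ : End F V} {m : ℕ}
    {P : Submodule F V} (hP : ∀ p ∈ P, W₀ p ∈ P) (hP' : P = Submodule.span F {b, M (W₀ b)})
    (hv : M (W₀ (M (W₀ b))) ∉ P) {W : End F V} (h : LQ M b P W₀ (m + 1) W)
    (hn : finrank F V = m + 2) (hc : Cyc (W₀.restrict hP)) {ψ : F[X]} (hψ : ψ.Monic)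
    (hd : ψ.natDegree + finrank F P = finrank F V) (hd' : 0 < ψ.natDegree)
    (hco : IsCoprime (W₀.restrict hP).charpoly ψ)
    (h0 : ((W₀.restrict hP).charpoly * ψ).coeff 0 ≠ 0) :
    Fac M ((W₀.restrict hP).charpoly * ψ) := by
  set χ := (W₀.restrict hP).charpoly * ψ with hχ
  have c1 : χ.Monic := (LinearMap.charpoly_monic _).mul hψ
  have c2 : χ.natDegree = finrank F V := by
    rw [hχ, (LinearMap.charpoly_monic _).natDegree_mul hψ, LinearMap.charpoly_natDegree]; omega
  obtain ⟨A, a, hA, hA'⟩ := exists_cyc_end (V := V) c1 c2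
  have hA0 : LinearMap.det A ≠ 0 := by
    rw [det_eq_charpoly, hA]; exact mul_ne_zero (pow_ne_zero _ (by simp)) h0
  have b1 : b ∈ P := hP' ▸ Submodule.subset_span (by simp)
  have b2 : M (W₀ b) ∈ P := hP' ▸ Submodule.subset_span (by simp)
  set N := M * W with hN
  have htop : Kr N b (m + 2) = ⊤ := Submodule.eq_top_of_finrank_eq (h.rk.trans hn.symm)
  obtain ⟨f, f1, f2⟩ := exists_dual_one_zero (not_mem_Kr h.rk)
  rw [← hN] at f1 f2
  have f3 : ∀ v, f v = 0 → v ∈ Kr N b (m + 1) := fun v hv => by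
    obtain ⟨p, hp, c, rfl⟩ := mem_Kr_succ (htop ▸ Submodule.mem_top : v ∈ Kr N b (m + 1 + 1))
    rw [map_add, map_smul, f1, f2 p hp, zero_add, smul_eq_mul, mul_one] at hv
    simpa [hv] using hp
  obtain ⟨Q, hQ⟩ := P.exists_isCompl
  have hK := Submodule.finrank_add_eq_of_isCompl hQ
  obtain ⟨π, p1, p2⟩ := exists_proj hQ.symm
  let W0 : End F Q := π ∘ₗ W ∘ₗ Q.subtype
  obtain ⟨y, y1, y2⟩ := pole_placement_dual (T := W0) (f := f ∘ₗ Q.subtype)
    (fun S s1 s2 => by
      have := h.obs (S.map Q.subtype ⊔ P) le_sup_right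
        (sup_le (by rintro _ ⟨v, hv, rfl⟩; exact f3 _ (s1 v hv)) h.le) fun w hw => by
          obtain ⟨_, ⟨v, hv, rfl⟩, q, hq, rfl⟩ := Submodule.mem_sup.1 hw
          rw [map_add, h.eig q hq, Submodule.subtype_apply,
            show W v + W₀ q = π (W v) + (W v - π (W v) + W₀ q) by abel]
          exact Submodule.add_mem_sup ⟨_, s2 v hv, rfl⟩ (add_mem (p2 _) (hP q hq))
      rw [eq_bot_iff]
      intro v hv
      exact Subtype.ext ((Submodule.disjoint_def.1 hQ.disjoint) _
        (this (Submodule.mem_sup_left ⟨v, hv, rfl⟩)) v.2)) hψ (by omega) (by omega)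
  set W1 := W + f.smulRight (y : V) with hW1
  have w1 : ∀ p ∈ P, W1 p = W₀ p := fun p hp => by simp [hW1, f2 p (h.le hp), h.eig p hp]
  have w2 : ∀ Z : End F V, (∀ p ∈ P, Z p = 0) → (∀ v, Z v ∈ P) → Sim A (W1 + Z) := fun Z z1 z2 => by
    obtain ⟨Z', s1⟩ := sim_tri_compl hQ (T := W1 + Z) (A := W₀.restrict hP)
      (D := W0 + (f ∘ₗ Q.subtype).smulRight y) (fun p => by simp [w1 p p.2, z1 p p.2]) fun c => by
        have := add_mem (p2 (W c)) (z2 c)
        convert this using 1
        simp [hW1, W0]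
        abel
    refine (Cyc.sim ⟨a, hA'⟩ (cyc_tri_of_coprime _ hc y2 (by rwa [y1])) ?_).trans s1
    rw [charpoly_tri, y1, hA]
  have a1 := Kr_agree (N := N) (N' := M * W1) (b := b) (i := m + 1) fun v hv => by
    simp [hN, hW1, f2 v hv]
  have a2 : IsCyc (M * W1) b := isCyc_iff.2 fun S s1 s2 => by
    have := Kr_le s1 s2 (m + 2)
    rwa [Kr_congr (N := N) fun j hj => a1 j (by omega), htop, top_le_iff] at this
  obtain ⟨g, g1, g2⟩ := exists_dual_one_zero hv
  set t := LinearMap.trace F V A - LinearMap.trace F V (M * W1) with ht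
  set Z1 : End F V := (t • g).smulRight (W₀ (M (W₀ b))) with hZ1
  have z1 : ∀ p ∈ P, Z1 p = 0 := fun p hp => by simp [hZ1, g2 p hp]
  have z2 : ∀ v, Z1 v ∈ P := fun v => P.smul_mem _ (hP _ b2)
  have e0 : M * (W1 + Z1) = M * W1 + (t • g).smulRight (M (W₀ (M (W₀ b)))) :=
    LinearMap.ext fun v => by simp [hZ1]
  have e1 : (M * (W1 + Z1)) b = M (W₀ b) := by simp [w1 b b1, z1 b b1]
  have a3 : IsCyc (M * (W1 + Z1)) b := a2.of_forall fun S s1 s2 w hw => by
    have s3 := s2 _ (s2 _ s1)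
    rw [e1, Module.End.mul_apply, LinearMap.add_apply, w1 _ b2, z1 _ b2, add_zero] at s3
    have s4 := s2 w hw
    rw [e0, LinearMap.add_apply] at s4
    exact (S.add_mem_iff_left (S.smul_mem _ s3)).1 s4
  have w3 : LinearMap.det (M * (W1 + Z1)) = LinearMap.det A := by
    rw [map_mul, hM, one_mul, (w2 Z1 z1 z2).det_eq]
  have a4 : IsCyc (M * (W1 + Z1)) (M (W₀ b)) := by
    obtain ⟨N', n1, n2, -⟩ := exists_inv_of_det (e := M * (W1 + Z1)) (by rwa [w3])
    refine IsCyc.inv (A := N') (isCyc_iff.2 fun S s1 s2 => isCyc_iff.1 (a3.inv n1) S ?_ s2) n2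
    have := s2 _ s1
    rwa [← e1, ← Module.End.mul_apply, n2] at this
  obtain ⟨κ, k1, k2⟩ := pole_placement a4 c1 c2 (by omega)
  have s1 : Sim A (M * (W1 + Z1) + κ.smulRight (M (W₀ b))) :=
    Cyc.sim ⟨a, hA'⟩ ⟨_, k2⟩ (hA.trans k1.symm)
  have k3 : κ b = 0 := by
    have e2 : M * (W1 + Z1) + κ.smulRight (M (W₀ b)) = M * (W1 + Z1) * (1 + κ.smulRight b) :=
      LinearMap.ext fun v => by
        rw [Module.End.mul_apply _ (1 + _), LinearMap.add_apply 1, map_add,
          LinearMap.smulRight_apply, map_smul, e1]; rfl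
    have e3 := s1.det_eq
    rw [e2, map_mul, det_one_add_smulRight', w3, eq_comm, mul_eq_left₀ hA0] at e3
    simpa using e3
  have k4 : κ (M (W₀ b)) = 0 := by
    have e3 := s1.trace_eq
    rw [trace_add_smulRight, e0, trace_add_smulRight, LinearMap.smul_apply, g1, ht] at e3
    simpa using e3
  have k5 : ∀ p ∈ P, κ p = 0 := fun p hp => by
    obtain ⟨s, t, rfl⟩ := Submodule.mem_span_pair.1 (hP' ▸ hp)
    simp [k3, k4]
  have s2 := w2 (Z1 + κ.smulRight (W₀ b)) (fun p hp => by simp [z1 p hp, k5 p hp])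
    fun v => add_mem (z2 v) (P.smul_mem _ (hP _ b1))
  have e4 : M * (W1 + (Z1 + κ.smulRight (W₀ b))) = M * (W1 + Z1) + κ.smulRight (M (W₀ b)) :=
    LinearMap.ext fun v => by simp [add_assoc]
  exact ⟨_, Cyc.of_sim ⟨a, hA'⟩ s2, s2.charpoly_eq ▸ hA, e4 ▸ ⟨_, k2⟩, e4 ▸ k1⟩

/-- There is a plane `P` such that `P ∩ M⁻¹ P` is a line. -/
def OK (M : End F V) : Prop :=
  ∃ b b' : V, b ≠ 0 ∧ b' ∉ Submodule.span F {b} ∧ M b ∈ Submodule.span F {b, b'} ∧
    M b' ∉ Submodule.span F {b, b'}

omit [Module.Finite F V] in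
theorem exists_dual_pair {a b : V} (ha : a ≠ 0) (hb : b ∉ Submodule.span F {a}) :
    ∃ f g : V →ₗ[F] F, f a = 1 ∧ f b = 0 ∧ g a = 0 ∧ g b = 1 := by
  obtain ⟨g, g1, g2⟩ := exists_dual_one_zero hb
  obtain ⟨l, hl⟩ := Module.Projective.exists_dual_eq_one F ha
  have g3 := g2 a (Submodule.subset_span rfl)
  exact ⟨l - l b • g, g, by simp [hl, g3], by simp [g1], g3, g1⟩

omit [Module.Finite F V] in
theorem span_pair_eq {a b c d : V} (hc : c ≠ 0) (hd : d ∉ Submodule.span F {c})
    (h1 : c ∈ Submodule.span F {a, b}) (h2 : d ∈ Submodule.span F {a, b}) :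
    Submodule.span F {c, d} = Submodule.span F {a, b} := by
  classical
  have : Module.Finite F (Submodule.span F ({a, b} : Set V)) :=
    Module.Finite.span_of_finite F (Set.toFinite _)
  refine Submodule.eq_of_le_of_finrank_le (Submodule.span_le.2 (by rintro _ (rfl | rfl) <;> assumption)) ?_
  have h3 : finrank F (Submodule.span F ({a, b} : Set V)) ≤ 2 :=
    (finrank_span_le_card _).trans (by simpa using Finset.card_le_two)
  have h4 : LinearIndependent F ![d, c] := (linearIndependent_fin2).2 ⟨hc, fun t ht =>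
    hd (Submodule.mem_span_singleton.2 ⟨t, ht⟩)⟩
  have h5 := finrank_span_eq_card h4
  rw [Matrix.range_cons, Matrix.range_cons_empty, Set.singleton_union, Set.pair_comm] at h5
  rw [h5]; simpa using h3

theorem finrank_span_pair {c d : V} (hc : c ≠ 0) (hd : d ∉ Submodule.span F {c}) :
    finrank F (Submodule.span F ({c, d} : Set V)) = 2 := by
  rw [Submodule.span_insert, finrank_sup_span hd, finrank_span_singleton hc]

theorem levq {M : End F V} (hM : LinearMap.det M = 1) (h : OK M) (τ : F) {δ : F} (hδ : δ ≠ 0)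
    {ψ : F[X]} (hψ : ψ.Monic) (hψ0 : ψ.coeff 0 ≠ 0) (hd : ψ.natDegree + 2 = finrank F V)
    (hco : IsCoprime (X ^ 2 - C τ * X + C δ) ψ) : Fac M ((X ^ 2 - C τ * X + C δ) * ψ) := by
  obtain ⟨b, b', h0, h1, h2, h3⟩ := h
  have hinj : Function.Injective M := (LinearMap.isUnit_iff_ker_eq_bot _).1
    ((LinearMap.isUnit_iff_isUnit_det _).2 (hM ▸ isUnit_one)) |> LinearMap.ker_eq_bot.1
  set P := Submodule.span F ({b, b'} : Set V) with hP
  have i1 : b ∈ P := Submodule.subset_span (by simp)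
  have i2 : b' ∈ P := Submodule.subset_span (by simp)
  have hMb : M b ≠ 0 := fun h => h0 (hinj (by simpa using h))
  obtain ⟨v, v1, v2, v3⟩ : ∃ v ∈ P, v ∉ Submodule.span F {b} ∧ v ∉ Submodule.span F {M b} := by
    by_cases c : b' ∈ Submodule.span F {M b}
    · refine ⟨b' + b, add_mem i2 i1, fun h => h1 ((Submodule.add_mem_iff_left _
        (Submodule.mem_span_singleton_self b)).1 h), fun h => ?_⟩
      obtain ⟨s, hs⟩ := Submodule.mem_span_singleton.1 ((Submodule.add_mem_iff_right _ c).1 h)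
      obtain ⟨t, ht⟩ := Submodule.mem_span_singleton.1 c
      have s0 : s ≠ 0 := by rintro rfl; exact h0 (by simpa using hs.symm)
      exact h1 (Submodule.mem_span_singleton.2 ⟨t / s, by
        rw [← ht]; nth_rewrite 1 [← hs]; rw [smul_smul, div_mul_cancel₀ _ s0]⟩)
    · exact ⟨b', i2, h1, c⟩
  have e1 : Submodule.span F {b, v} = P := span_pair_eq h0 v2 i1 v1
  have e2 : Submodule.span F {M b, v} = P := span_pair_eq hMb v3 h2 v1
  obtain ⟨f, g, f1, f2, g1, g2⟩ := exists_dual_pair h0 v2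
  let W : End F V := g.smulRight b + f.smulRight (τ • b - δ • v)
  have w1 : W v = b := by simp [W, f2, g2]
  have w2 : W b = τ • b - δ • v := by simp [W, f1, g1]
  have hW : ∀ p ∈ P, W p ∈ P := fun p _ =>
    add_mem (P.smul_mem _ i1) (P.smul_mem _ (sub_mem (P.smul_mem _ i1) (P.smul_mem _ v1)))
  have hP' : P = Submodule.span F {v, M (W v)} := by rw [w1, Set.pair_comm, e2]
  have hcyc : IsCyc (W.restrict hW) ⟨v, v1⟩ := isCyc_iff.2 fun S s1 s2 => by
    rw [eq_top_iff]
    rintro ⟨p, hp⟩ -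
    obtain ⟨s, t, rfl⟩ := Submodule.mem_span_pair.1 (e1.symm ▸ hp)
    convert add_mem (S.smul_mem s (s2 _ s1)) (S.smul_mem t s1) using 1
    exact Subtype.ext (by simp [w1])
  have hfr : finrank F P = 2 := finrank_span_pair h0 h1
  have hch : (W.restrict hW).charpoly = X ^ 2 - C τ * X + C δ :=
    hcyc.charpoly_eq (by monicity!) (by rw [hfr]; compute_degree!)
      (Subtype.ext (by simp [pow_two, w1, w2]))
  have hv : M (W (M (W v))) ∉ P := fun hv => by
    obtain ⟨s, t, hst⟩ := Submodule.mem_span_pair.1 (e1.symm ▸ h2 : M b ∈ Submodule.span F {b, v})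
    have s0 : s ≠ 0 := by
      rintro rfl
      have t0 : t ≠ 0 := by rintro rfl; exact hMb (by simpa using hst.symm)
      exact v3 (Submodule.mem_span_singleton.2 ⟨t⁻¹, by
        rw [← hst, zero_smul, zero_add, smul_smul, inv_mul_cancel₀ t0, one_smul]⟩)
    rw [w1, ← hst, map_add, map_smul, map_smul, w1, w2, map_add, map_smul, map_smul, map_sub,
      map_smul, map_smul, Submodule.add_mem_iff_left _ (P.smul_mem _ h2),
      Submodule.smul_mem_iff _ s0, sub_eq_add_neg, Submodule.add_mem_iff_right _ (P.smul_mem _ h2),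
      neg_mem_iff, Submodule.smul_mem_iff _ hδ] at hv
    obtain ⟨s', t', hst'⟩ := Submodule.mem_span_pair.1 (e1.symm ▸ i2 : b' ∈ Submodule.span F {b, v})
    exact h3 (by rw [← hst', map_add, map_smul, map_smul]
                 exact add_mem (P.smul_mem _ h2) (P.smul_mem _ hv))
  have k2 : Kr (M * W) v 2 = P := by
    rw [Kr_succ, Kr_succ, Kr_zero, bot_sup_eq, hP', Submodule.span_insert]; simp
  have k3 : Kr (M * W) v 3 = P ⊔ Submodule.span F {M (W (M (W v)))} := by
    rw [Kr_succ, k2, pow_two]; rfl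
  have hn : 3 ≤ finrank F V := by
    have := Submodule.finrank_le (P ⊔ Submodule.span F {M (W (M (W v)))})
    rwa [finrank_sup_span hv, hfr] at this
  have base : LQ M v P W 2 W := ⟨by rw [k3, finrank_sup_span hv, hfr], k2.ge, fun _ _ => rfl,
    fun p hp => by
      rw [k2] at hp
      obtain ⟨q, hq⟩ : ∃ q : P, W.restrict hW q = ⟨p, hp⟩ := by
        refine LinearMap.range_eq_top.1 ((LinearMap.isUnit_iff_range_eq_top _).1
          (isUnit_of_charpoly ?_)) _
        rw [hch]; simpa using hδ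
      rw [← show W q = p from congrArg Subtype.val hq]
      exact apply_mem_Kr (N := M * W) (k2.symm ▸ q.2), fun S _ h _ => k2 ▸ h⟩
  obtain ⟨m, hm⟩ : ∃ m, finrank F V = m + 1 + 2 := ⟨finrank F V - 3, by omega⟩
  obtain ⟨W', hW'⟩ := base.exists (by rw [hM]; exact one_ne_zero) hW m (by omega)
  rw [show 2 + m = m + 1 + 1 by omega] at hW'
  rw [← hch] at hco ⊢
  exact hW'.finish hM hW hP' hv hm ⟨_, hcyc⟩ hψ (by omega) (by omega) hco
    (by rw [mul_coeff_zero, hch]; simpa [hδ] using hψ0)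

omit [Module.Finite F V] in
theorem mem_span_pair_left (a b : V) : a ∈ Submodule.span F ({a, b} : Set V) :=
  Submodule.subset_span (by simp)

omit [Module.Finite F V] in
theorem mem_span_pair_right (a b : V) : b ∈ Submodule.span F ({a, b} : Set V) :=
  Submodule.subset_span (by simp)

theorem exists_not_mem_of_finrank_lt {S T : Submodule F V} (h : finrank F S < finrank F T) :
    ∃ v ∈ T, v ∉ S := by
  by_contra hh
  push Not at hh
  exact absurd (Submodule.finrank_mono hh) (by omega)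

theorem two_le_finrank_ker (hV : 3 ≤ finrank F V) (φ : V →ₗ[F] F) :
    2 ≤ finrank F (LinearMap.ker φ) := by
  have h1 := φ.finrank_range_add_finrank_ker
  have h2 := (LinearMap.range φ).finrank_le
  rw [finrank_self] at h2
  omega

theorem finrank_span_one_le (a : V) : finrank F (Submodule.span F ({a} : Set V)) ≤ 1 := by
  simpa using finrank_span_le_card (R := F) ({a} : Set V)

omit [Module.Finite F V] in
theorem indep_two {a b : V} (ha : a ≠ 0) (hb : b ∉ Submodule.span F {a}) (x y : F)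
    (h : x • a + y • b = 0) : x = 0 ∧ y = 0 := by
  obtain ⟨f, g, f1, f2, g1, g2⟩ := exists_dual_pair ha hb
  exact ⟨by simpa [f1, f2] using congrArg f h, by simpa [g1, g2] using congrArg g h⟩

omit [Module.Finite F V] in
theorem indep_three {a b c : V} (ha : a ≠ 0) (hb : b ∉ Submodule.span F {a})
    (hc : c ∉ Submodule.span F {a, b}) (x y z : F) (h : x • a + y • b + z • c = 0) :
    x = 0 ∧ y = 0 ∧ z = 0 := by
  obtain ⟨f, f1, f2⟩ := exists_dual_one_zero hc
  have h1 : z = 0 := by
    simpa [f1, f2 a (mem_span_pair_left _ _), f2 b (mem_span_pair_right _ _)] using congrArg f h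
  rw [h1, zero_smul, add_zero] at h
  exact ⟨(indep_two ha hb x y h).1, (indep_two ha hb x y h).2, h1⟩

theorem scalar_of_not_ok (hV : 3 ≤ finrank F V) {M : End F V} (h : ¬ OK M) {b : V} (hb : b ≠ 0)
    {c : F} (hc : M b = c • b) : ∀ v, M v = c • v := by
  have key : ∀ (b : V) (c : F), b ≠ 0 → M b = c • b → ∀ v, M v ∈ Submodule.span F {b, v} := by
    intro b c hb hc v
    by_cases hv : v ∈ Submodule.span F {b}
    · obtain ⟨t, rfl⟩ := Submodule.mem_span_singleton.1 hv
      rw [map_smul, hc]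
      exact Submodule.smul_mem _ _ (Submodule.smul_mem _ _ (mem_span_pair_left _ _))
    · by_contra hh
      exact h ⟨b, v, hb, hv, hc ▸ Submodule.smul_mem _ _ (mem_span_pair_left _ _), hh⟩
  have eig : ∀ v, ∃ d : F, M v = d • v := by
    intro v
    by_contra hv
    push Not at hv
    have h1 : v ∉ Submodule.span F {b} := fun h => by
      obtain ⟨t, rfl⟩ := Submodule.mem_span_singleton.1 h
      exact hv c (by rw [map_smul, hc, smul_comm])
    obtain ⟨w, -, h2⟩ := exists_not_mem_of_finrank_lt (S := Submodule.span F {b, v}) (T := ⊤)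
      (by rw [finrank_span_pair hb h1, finrank_top]; omega)
    have ind := indep_three hb h1 h2
    obtain ⟨α, β, e1⟩ := Submodule.mem_span_pair.1 (key b c hb hc v)
    obtain ⟨α', β', e2⟩ := Submodule.mem_span_pair.1 (key b c hb hc w)
    obtain ⟨α'', β'', e3⟩ := Submodule.mem_span_pair.1 (key b c hb hc (v + w))
    obtain ⟨-, e4, e5⟩ := ind (α + α' - α'') (β - β'') (β' - β'') (by
      rw [map_add] at e3; linear_combination (norm := module) e1 + e2 - e3)
    have α0 : α ≠ 0 := by rintro rfl; exact hv β (by simpa using e1.symm)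
    obtain ⟨x, y, e6⟩ := Submodule.mem_span_pair.1 (key (α • w - α' • v) β
      (fun h => α0 (ind 0 (-α') α (by linear_combination (norm := module) h)).2.2) (by
        rw [map_sub, map_smul, map_smul, ← e1, ← e2, show β' = β by linear_combination e5 - e4]
        module) v)
    exact α0 (ind α (β - y + x * α') (-(x * α)) (by linear_combination (norm := module) e1 - e6)).1
  intro v
  by_cases h1 : v ∈ Submodule.span F {b}
  · obtain ⟨t, rfl⟩ := Submodule.mem_span_singleton.1 h1
    rw [map_smul, hc, smul_comm]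
  · obtain ⟨d, e1⟩ := eig v
    obtain ⟨d', e2⟩ := eig (b + v)
    rw [map_add, hc, e1] at e2
    obtain ⟨e3, e4⟩ := indep_two hb h1 (c - d') (d - d') (by linear_combination (norm := module) e2)
    rw [e1, show d = c by linear_combination e4 - e3]

theorem nonscalar_or (hV : 2 ≤ finrank F V) {l : End F V} {x : V} (hx : x ≠ 0) {ψ : V →ₗ[F] F}
    (hψ : ψ ≠ 0) : (∀ c : F, l ≠ c • 1) ∨ ∀ c : F, l - ψ.smulRight x ≠ c • 1 := by
  by_contra hh
  push Not at hh
  obtain ⟨⟨c, rfl⟩, c', h⟩ := hh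
  obtain ⟨v, hv⟩ := DFunLike.ne_iff.1 hψ
  obtain ⟨w, -, hw⟩ := exists_not_mem_of_finrank_lt (S := Submodule.span F {x}) (T := ⊤)
    (by have := finrank_span_one_le (F := F) x; rw [finrank_top]; omega)
  have e1 := LinearMap.congr_fun h v
  have e2 := LinearMap.congr_fun h w
  simp only [LinearMap.sub_apply, LinearMap.smul_apply, Module.End.one_apply,
    LinearMap.smulRight_apply] at e1 e2
  have e3 := (indep_two hx hw (-ψ w) (c - c') (by linear_combination (norm := module) e2)).2
  rw [show c' = c by linear_combination -e3, sub_eq_self, smul_eq_zero] at e1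
  exact hx (e1.resolve_left hv)

theorem ok_or (hV : 3 ≤ finrank F V) {l : End F V} {x : V} (hx : x ≠ 0) {ψ : V →ₗ[F] F}
    (hψ : ψ ≠ 0) : OK l ∨ OK (l - ψ.smulRight x) := by
  by_contra hh
  rw [not_or] at hh
  obtain ⟨h1, h2⟩ := hh
  have hk := two_le_finrank_ker hV ψ
  obtain ⟨k, k1, k2⟩ := exists_not_mem_of_finrank_lt (S := ⊥) (T := LinearMap.ker ψ)
    (by rw [finrank_bot]; omega)
  rw [LinearMap.mem_ker] at k1
  rw [Submodule.mem_bot] at k2
  have ne : ∀ (b : V) (c : F), b ≠ 0 → l b ≠ c • b := fun b c hb hc => by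
    have e1 := scalar_of_not_ok hV h1 hb hc
    have e2 := scalar_of_not_ok hV h2 k2 (c := c) (by simp [k1, e1])
    rcases nonscalar_or (by omega) (l := l) hx hψ with h | h
    · exact h c (LinearMap.ext e1)
    · exact h c (LinearMap.ext e2)
  have ne' : ∀ b : V, b ≠ 0 → l b ∉ Submodule.span F {b} := fun b hb h => by
    obtain ⟨c, hc⟩ := Submodule.mem_span_singleton.1 h
    exact ne b c hb hc.symm
  have sq : ∀ b : V, b ≠ 0 → l (l b) ∈ Submodule.span F {b, l b} := fun b hb => by
    by_contra h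
    exact h1 ⟨b, l b, hb, ne' b hb, mem_span_pair_right _ _, h⟩
  have hin : ∀ b, ψ b = 0 → ψ (l b) ≠ 0 → b ∈ Submodule.span F {x, l x} ∧
      l b ∈ Submodule.span F {x, l x} := fun b b1 b2 => by
    have hb : b ≠ 0 := by rintro rfl; simp at b2
    have e1 : x ∈ Submodule.span F {b, l b} := by
      by_contra h
      refine h2 ⟨b, l b, hb, ne' b hb, by simpa [b1] using mem_span_pair_right _ _, fun h' => h ?_⟩
      rwa [LinearMap.sub_apply, sub_eq_add_neg, Submodule.add_mem_iff_right _ (sq b hb),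
        neg_mem_iff, LinearMap.smulRight_apply, Submodule.smul_mem_iff _ b2] at h'
    have e2 : l x ∈ Submodule.span F {b, l b} := by
      obtain ⟨s, t, rfl⟩ := Submodule.mem_span_pair.1 e1
      rw [map_add, map_smul, map_smul]
      exact add_mem (Submodule.smul_mem _ _ (mem_span_pair_right _ _))
        (Submodule.smul_mem _ _ (sq b hb))
    rw [span_pair_eq hx (ne' x hx) e1 e2]
    exact ⟨mem_span_pair_left _ _, mem_span_pair_right _ _⟩
  by_cases hH : ∃ b, ψ b = 0 ∧ ψ (l b) ≠ 0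
  · obtain ⟨b, b1, b2⟩ := hH
    have e1 : LinearMap.ker ψ ⊔ Submodule.span F {l b} ≤ Submodule.span F {x, l x} := by
      refine sup_le (fun v hv => ?_) ((Submodule.span_singleton_le_iff_mem _ _).2 (hin b b1 b2).2)
      rw [LinearMap.mem_ker] at hv
      by_cases c : ψ (l v) = 0
      · exact (Submodule.add_mem_iff_left _ (hin b b1 b2).1).1
          (hin (v + b) (by simp [hv, b1]) (by simpa [c] using b2)).1
      · exact (hin v hv c).1
    have := Submodule.finrank_mono e1
    rw [finrank_sup_span b2, finrank_span_pair hx (ne' x hx)] at this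
    omega
  · push Not at hH
    obtain ⟨v, hv⟩ := DFunLike.ne_iff.1 hψ
    rw [LinearMap.zero_apply] at hv
    have v0 : v ≠ 0 := by rintro rfl; simp at hv
    obtain ⟨s, t, hst⟩ := Submodule.mem_span_pair.1 (sq v v0)
    have e1 := hH (ψ (l v) • v - ψ v • l v) (by simp [mul_comm])
    simp only [map_sub, map_smul, ← hst, map_add, smul_eq_mul] at e1
    refine ne (ψ (l v) • v - ψ v • l v) ((t * ψ v - ψ (l v)) / ψ v) (fun h =>
      hv (neg_eq_zero.1 (indep_two v0 (ne' v v0) _ _ (by linear_combination (norm := module) h)).2)) ?_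
    rw [map_sub, map_smul, map_smul, ← hst]
    match_scalars
    · field_simp
      ring
    · field_simp
      linear_combination e1

end Cfsg.Agent.H5
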