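import Cfsg.Agent.H5.OreU1
import Cfsg.Agent.H4.GenT5

/-! Factorisations with irreducible characteristic polynomial in dimensions two and three. -/

set_option autoImplicit false

namespace Cfsg.Agent.H5

open Module Polynomial H4

universe u

variable {F : Type u} [Field F]
variable {V : Type*} [AddCommGroup V] [Module F V] [Module.Finite F V]

theorem cyc_of_irreducible {f : End F V} (h : Irreducible f.charpoly) : Cyc f := by
  refine exists_isCyc_of_nul fun φ _ h2 => ?_
  have h3 := h2.natDegree_pos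
  by_cases c : φ ∣ f.charpoly
  · have h4 := natDegree_eq_of_degree_eq (degree_eq_degree_of_associated (h2.associated_of_dvd h c))
    have h5 : nul f φ ≤ finrank F V := Submodule.finrank_le _
    rw [f.charpoly_natDegree] at h4
    omega
  · have : LinearMap.ker (aeval f φ) = ⊥ :=
      LinearMap.ker_eq_bot'.2 fun v hv => eq_zero_of_not_dvd h2 c hv
    rw [nul, this, finrank_bot]
    omega

theorem charpoly_of_aeval {f : End F V} {χ : F[X]} (h1 : χ.Monic) (h2 : Irreducible χ)
    (h3 : χ.natDegree = finrank F V) (h : aeval f χ = 0) : f.charpoly = χ := by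
  have := Module.nontrivial_of_finrank_pos (R := F) (M := V) (h3 ▸ h2.natDegree_pos)
  obtain ⟨v, hv⟩ := exists_ne (0 : V)
  by_cases c : χ ∣ f.charpoly
  · exact eq_of_monic_of_dvd_of_natDegree_le h1 f.charpoly_monic c (by rw [f.charpoly_natDegree, h3])
  · exact absurd (eq_zero_of_not_dvd h2 c (by rw [h]; rfl)) hv

theorem fac_of_matrix {n : ℕ} (b : Basis (Fin n) F V) {M : End F V} {χ : F[X]} (h1 : χ.Monic)
    (h2 : Irreducible χ) (h3 : χ.natDegree = finrank F V) (A : Matrix (Fin n) (Fin n) F)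
    (hA : aeval A χ = 0) (hM : aeval (LinearMap.toMatrix b b M * A) χ = 0) : Fac M χ := by
  have key : ∀ A : Matrix (Fin n) (Fin n) F, aeval A χ = 0 →
      (Matrix.toLinAlgEquiv b A).charpoly = χ := fun A hA =>
    charpoly_of_aeval h1 h2 h3 (by rw [aeval_algHom_apply, hA, map_zero])
  have e : M * Matrix.toLinAlgEquiv b A = Matrix.toLinAlgEquiv b (LinearMap.toMatrix b b M * A) := by
    rw [map_mul]; congr 1; exact (Matrix.toLin_toMatrix b b M).symm
  exact ⟨_, cyc_of_irreducible (key A hA ▸ h2), key A hA,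
    e ▸ cyc_of_irreducible (key _ hM ▸ h2), e ▸ key _ hM⟩

theorem fac_one {χ : F[X]} (h1 : χ.Monic) (h3 : χ.natDegree = finrank F V) :
    Fac (1 : End F V) χ := by
  obtain ⟨W, v, a1, a2⟩ := exists_cyc_end (V := V) h1 h3
  exact ⟨W, ⟨v, a2⟩, a1, by rw [one_mul]; exact ⟨v, a2⟩, by rwa [one_mul]⟩

omit [Module.Finite F V] in
theorem exists_non_eigen {M : End F V} (h : ∀ c : F, M ≠ c • 1) :
    ∃ v, v ≠ 0 ∧ M v ∉ Submodule.span F {v} := by
  by_contra hh
  push Not at hh
  obtain ⟨c, hc⟩ := LinearMap.exists_eq_smul_id_of_forall_notLinearIndependent (f := M) fun v hv => by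
    have h0 : v ≠ 0 := hv.ne_zero 0
    obtain ⟨t, ht⟩ := Submodule.mem_span_singleton.1 (hh v h0)
    have := (LinearIndependent.pair_iff.1 hv) t (-1) (by simp [ht])
    simp at this
  exact h c hc

theorem exists_conic [Finite F] {t τ : F} (δ : F) (ht : t ≠ 2) (hτ : τ ≠ 0) :
    ∃ b d : F, b ^ 2 + t * b * d + d ^ 2 - τ * (b + d) + δ = 0 := by
  cases nonempty_fintype F
  by_cases h2 : ringChar F = 2
  · have : CharP F 2 := ringChar.of_eq h2
    have h3 : (2 : F) = 0 := CharTwo.two_eq_zero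
    rw [h3] at ht
    obtain ⟨b, hb⟩ := FiniteField.isSquare_of_char_two h2 (δ / t)
    rw [div_eq_iff ht] at hb
    exact ⟨b, b, by linear_combination hb + (b ^ 2 - τ * b + b ^ 2 * t) * h3⟩
  have h3 : (2 : F) ≠ 0 := Ring.two_ne_zero h2
  by_cases h4 : t = -2
  · exact ⟨δ / (2 * τ), δ / (2 * τ), by rw [h4]; field_simp; ring⟩
  have h5 : 4 - t ^ 2 ≠ 0 := by
    rw [show 4 - t ^ 2 = (2 - t) * (t + 2) by ring]
    exact mul_ne_zero (sub_ne_zero.2 ht.symm) fun h => h4 (by linear_combination h)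
  obtain ⟨s, d, h⟩ := FiniteField.exists_root_sum_quadratic (f := X ^ 2)
    (g := C (4 - t ^ 2) * X ^ 2 + C (2 * t * τ - 4 * τ) * X + C (4 * δ - τ ^ 2))
    (degree_X_pow 2) (degree_quadratic h5) (FiniteField.odd_card_of_char_ne_two h2)
  simp only [eval_pow, eval_X, eval_add, eval_mul, eval_C] at h
  exact ⟨(s - t * d + τ) / 2, d, by field_simp; linear_combination h⟩

theorem fac_two [Finite F] (hV : finrank F V = 2) {M : End F V} (hd : LinearMap.det M = 1)
    (hM : Inv M) {τ δ : F} (hτ : τ ≠ 0) (h : Irreducible (X ^ 2 - C τ * X + C δ : F[X])) :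
    Fac M (X ^ 2 - C τ * X + C δ) := by
  obtain ⟨v, v0, hv⟩ := exists_non_eigen hM.1
  have li : LinearIndependent F ![v, M v] := LinearIndependent.pair_iff.2 (indep_two v0 hv)
  let b := basisOfLinearIndependentOfCardEqFinrank li (by simp [hV])
  have b0 : b 0 = v := by simp [b]
  have b1 : b 1 = M v := by simp [b]
  set α := b.repr (M (M v)) 0
  set t := b.repr (M (M v)) 1
  have e1 : LinearMap.toMatrix b b M = !![0, α; 1, t] := by
    ext i j
    rw [LinearMap.toMatrix_apply]
    fin_cases j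
    · rw [show b ⟨0, _⟩ = v from b0, ← b1, b.repr_self]
      fin_cases i <;> simp
    · rw [show b ⟨1, _⟩ = M v from b1]
      fin_cases i <;> rfl
  have e2 : α = -1 := by
    rw [← LinearMap.det_toMatrix b, e1, Matrix.det_fin_two_of] at hd
    linear_combination -hd
  have e3 : M (M v) = -v + t • M v := by
    have := b.sum_repr (M (M v))
    rw [Fin.sum_univ_two, b0, b1] at this
    rw [← this, show b.repr (M (M v)) 0 = -1 from e2, neg_one_smul]
  have ht : t ≠ 2 := fun ht => hM.2 ⟨M v - v, fun w => ⟨b.repr w 0 + b.repr w 1, by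
    have := b.sum_repr w
    rw [Fin.sum_univ_two, b0, b1] at this
    conv_lhs => rw [← this, map_add, map_smul, map_smul, e3, ht]
    module⟩⟩
  obtain ⟨x, d, hc⟩ := exists_conic δ ht hτ
  refine fac_of_matrix b (by monicity!) h (by rw [hV]; compute_degree!)
    !![τ - d, x; x + t * d - τ, d] ?_ ?_
  · simp only [map_add, map_sub, map_mul, map_pow, aeval_X, aeval_C, Algebra.algebraMap_eq_smul_one]
    ext i j
    fin_cases i <;> fin_cases j <;> simp [pow_two] <;> first | ring1 | linear_combination hc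
  · rw [e1, e2]
    simp only [map_add, map_sub, map_mul, map_pow, aeval_X, aeval_C, Algebra.algebraMap_eq_smul_one]
    ext i j
    fin_cases i <;> fin_cases j <;> simp [pow_two] <;> first | ring1 | linear_combination hc

theorem cub_tab {a b : R4} (ha : a = 0 ∨ a = 1 ∨ a = w4 ∨ a = 1 + w4)
    (hb : b = 0 ∨ b = 1 ∨ b = w4 ∨ b = 1 + w4) : ∃ A : Matrix (Fin 3) (Fin 3) R4,
      A ^ 3 + A + 1 = 0 ∧ (!![0, 0, 1; 1, 0, a; 0, 1, b] * A) ^ 3 +
        !![0, 0, 1; 1, 0, a; 0, 1, b] * A + 1 = 0 := by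
  rcases ha with rfl | rfl | rfl | rfl <;> rcases hb with rfl | rfl | rfl | rfl
  · exact ⟨!![0, 1, 1; 1, 1, 0; 1, 1, 1], by decide +kernel⟩
  · exact ⟨!![1, 0, 1; 1, 1, 0; 0, 1, 0], by decide +kernel⟩
  · exact ⟨!![0, 0, 1; 0, 1, 1 + w4; 1, w4, 1], by decide +kernel⟩
  · exact ⟨!![0, 0, 1; 0, 1, w4; 1, 1 + w4, 1], by decide +kernel⟩
  · exact ⟨!![0, 0, 1; 1, 0, 1; 0, 1, 0], by decide +kernel⟩
  · exact ⟨!![0, 0, 1; 1, 0, 0; 1, 1, 0], by decide +kernel⟩
  · exact ⟨!![0, 0, 1; 1, 0, w4; 1 + w4, 1, 0], by decide +kernel⟩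
  · exact ⟨!![0, 0, 1; 1, 0, 1 + w4; w4, 1, 0], by decide +kernel⟩
  · exact ⟨!![0, 0, w4; 0, 1, 1; 1 + w4, 1, 1], by decide +kernel⟩
  · exact ⟨!![0, 1, w4; 1, 0, 0; 0, 1 + w4, 0], by decide +kernel⟩
  · exact ⟨!![0, 0, 1; w4, 0, 0; 1, 1 + w4, 0], by decide +kernel⟩
  · exact ⟨!![0, 0, 1; 1 + w4, 1, 0; 0, w4, 1], by decide +kernel⟩
  · exact ⟨!![0, 0, 1 + w4; 0, 1, 1; w4, 1, 1], by decide +kernel⟩
  · exact ⟨!![0, 1, 1 + w4; 1, 0, 0; 0, w4, 0], by decide +kernel⟩
  · exact ⟨!![0, 0, 1; w4, 1, 0; 0, 1 + w4, 1], by decide +kernel⟩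
  · exact ⟨!![0, 0, 1; 1 + w4, 0, 0; 1, w4, 0], by decide +kernel⟩

theorem cub_tab' {l : R4} (hl : l = w4 ∨ l = 1 + w4) : ∃ A : Matrix (Fin 3) (Fin 3) R4,
      A ^ 3 + A + 1 = 0 ∧ (!![l, 0, 1; 0, l, 0; 0, 0, l] * A) ^ 3 +
        !![l, 0, 1; 0, l, 0; 0, 0, l] * A + 1 = 0 := by
  rcases hl with rfl | rfl <;> exact ⟨!![0, 0, 1; 1, 0, 1; 0, 1, 0], by decide +kernel⟩

theorem cube_eq_one [Fintype F] (hF : Fintype.card F = 4) {x : F} (hx : x ≠ 0) : x ^ 3 = 1 := by
  simpa [hF] using FiniteField.pow_card_sub_one_eq_one x hx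

theorem irreducible_cubic [Fintype F] (hF : Fintype.card F = 4) :
    Irreducible (X ^ 3 + X + 1 : F[X]) := by
  obtain ⟨-, -, -, h2, -⟩ := exists_hom_R4 hF
  refine irreducible_of_degree_le_three_of_not_isRoot (by
    rw [show (X ^ 3 + X + 1 : F[X]).natDegree = 3 by compute_degree!]; simp) fun x hx => ?_
  simp only [IsRoot.def, eval_add, eval_pow, eval_X, eval_one] at hx
  have h0 : x ≠ 0 := by rintro rfl; simp at hx
  exact h0 (by linear_combination hx - cube_eq_one hF h0 - h2)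

theorem fac_three [Fintype F] (hF : Fintype.card F = 4) (hV : finrank F V = 3) {M : End F V}
    (hd : LinearMap.det M = 1) (hM : Inv M) : Fac M (X ^ 3 + X + 1) := by
  obtain ⟨f, -, -, h2, hf⟩ := exists_hom_R4 hF
  have hf' : ∀ c : F, ∃ a, f a = c ∧ (a = 0 ∨ a = 1 ∨ a = w4 ∨ a = 1 + w4) := fun c => by
    rcases hf c with rfl | rfl | rfl | rfl
    exacts [⟨0, by simp, by simp⟩, ⟨1, by simp, by simp⟩, ⟨w4, rfl, by simp⟩,
      ⟨1 + w4, by simp, by simp⟩]
  have key : ∀ (b : Basis (Fin 3) F V) (N A : Matrix (Fin 3) (Fin 3) R4),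
      LinearMap.toMatrix b b M = f.mapMatrix N → A ^ 3 + A + 1 = 0 →
      (N * A) ^ 3 + N * A + 1 = 0 → Fac M (X ^ 3 + X + 1) := fun b N A h0 h1 h2 =>
    fac_of_matrix b (by monicity!) (irreducible_cubic hF) (by rw [hV]; compute_degree!)
      (f.mapMatrix A) (by
        simpa only [map_add, map_pow, map_one, map_zero, aeval_X] using congrArg f.mapMatrix h1)
      (by
        simpa only [h0, map_add, map_pow, map_one, map_zero, aeval_X, map_mul]
          using congrArg f.mapMatrix h2)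
  rcases exists_isCyc_or_three hV M with ⟨v, hv⟩ | ⟨l, a, φ, h⟩
  · obtain ⟨b, hb⟩ := hv.exists_krylov hV
    have b0 : M (b 0) = b 1 := by simp [hb]
    have b1 : M (b 1) = b 2 := by simp [hb, pow_two]
    obtain ⟨x, x1, x2⟩ := hf' (b.repr (M (b 2)) 1)
    obtain ⟨y, y1, y2⟩ := hf' (b.repr (M (b 2)) 2)
    have e1 : LinearMap.toMatrix b b M = !![0, 0, b.repr (M (b 2)) 0; 1, 0, f x; 0, 1, f y] := by
      ext i j
      rw [LinearMap.toMatrix_apply]
      fin_cases j
      · rw [show M (b ⟨0, _⟩) = b 1 from b0, b.repr_self]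
        fin_cases i <;> simp
      · rw [show M (b ⟨1, _⟩) = b 2 from b1, b.repr_self]
        fin_cases i <;> simp
      · fin_cases i <;> simp [x1, y1]
    have e2 : b.repr (M (b 2)) 0 = 1 := by
      rw [← LinearMap.det_toMatrix b, e1, Matrix.det_fin_three] at hd
      simpa using hd
    obtain ⟨A, a1, a2⟩ := cub_tab x2 y2
    refine key b _ A ?_ a1 a2
    rw [e1, e2]
    ext i j
    fin_cases i <;> fin_cases j <;> simp
  · have hφ : φ ≠ 0 := by
      rintro rfl
      exact hM.1 l (LinearMap.ext fun v => by simpa using h v)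
    have ha : a ≠ 0 := by
      rintro rfl
      exact hM.1 l (LinearMap.ext fun v => by simpa using h v)
    have l1 : l ≠ 1 := by
      rintro rfl
      exact hM.2 ⟨a, fun v => ⟨φ v, by simp [h v]⟩⟩
    have l0 : l ≠ 0 := by
      rintro rfl
      obtain ⟨k, k1, k2⟩ := exists_not_mem_of_finrank_lt (S := ⊥) (T := LinearMap.ker φ)
        (by have := two_le_finrank_ker hV.ge φ; rw [finrank_bot]; omega)
      exact k2 ((LinearMap.isUnit_iff_ker_eq_bot _).1 ((LinearMap.isUnit_iff_isUnit_det _).2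
        (hd ▸ isUnit_one)) ▸ (show M k = 0 by simp [h, LinearMap.mem_ker.1 k1]))
    have ha' : φ a = 0 := by
      have e : M = l • (1 + φ.smulRight (l⁻¹ • a)) := LinearMap.ext fun v => by
        simp [h, smul_smul, mul_left_comm l, l0]
      rw [e, LinearMap.det_smul, det_one_add_smulRight', hV, cube_eq_one hF l0] at hd
      simpa [l0] using hd
    obtain ⟨k, k1, k2⟩ := exists_not_mem_of_finrank_lt (S := Submodule.span F {a})
      (T := LinearMap.ker φ) (by
        have := two_le_finrank_ker hV.ge φ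
        have := finrank_span_one_le (F := F) a
        omega)
    rw [LinearMap.mem_ker] at k1
    obtain ⟨c, hc⟩ := LinearMap.surjective_of_ne_zero hφ 1
    have li : LinearIndependent F ![a, k, c] := by
      rw [Fintype.linearIndependent_iff]
      intro g hg i
      rw [Fin.sum_univ_three] at hg
      have := indep_three ha k2 (c := c) (fun h => by
        obtain ⟨s, t, rfl⟩ := Submodule.mem_span_pair.1 h
        simp [ha', k1] at hc) _ _ _ hg
      fin_cases i
      exacts [this.1, this.2.1, this.2.2]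
    let b := basisOfLinearIndependentOfCardEqFinrank li (by simp [hV])
    have b0 : b 0 = a := by simp [b]
    have b1 : b 1 = k := by simp [b]
    have b2 : b 2 = c := by simp [b]
    obtain ⟨x, rfl, x2⟩ := hf' l
    obtain ⟨A, a1, a2⟩ := cub_tab' (l := x) (by
      rcases x2 with rfl | rfl | h
      · simp at l0
      · simp at l1
      · exact h)
    refine key b _ A ?_ a1 a2
    have m0 : M (b 0) = f x • b 0 := by rw [h, b0, ha', zero_smul, add_zero]
    have m1 : M (b 1) = f x • b 1 := by rw [h, b1, k1, zero_smul, add_zero]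
    have m2 : M (b 2) = f x • b 2 + b 0 := by rw [h, b2, hc, one_smul, b0]
    ext i j
    rw [LinearMap.toMatrix_apply]
    fin_cases j
    · rw [show M (b ⟨0, _⟩) = _ from m0]
      fin_cases i <;> simp
    · rw [show M (b ⟨1, _⟩) = _ from m1]
      fin_cases i <;> simp
    · rw [show M (b ⟨2, _⟩) = _ from m2]
      fin_cases i <;> simp

end Cfsg.Agent.H5
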