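import Cfsg.Agent.H5.OreU2
import Cfsg.Agent.H5.UModel

/-! Polynomials coprime to their conjugate-reciprocal and the resulting factorisations. -/

set_option autoImplicit false

namespace Cfsg.Agent.H5

open Module Polynomial H4

universe u

variable {F : Type u} [Field F] {σ : F →+* F}
variable {V : Type*} [AddCommGroup V] [Module F V] [Module.Finite F V]

/-- Monic, invertible, coprime to its conjugate-reciprocal, with a simple irreducible factor. -/
def GoodP (σ : F →+* F) (χ : F[X]) : Prop :=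
  χ.Monic ∧ χ.coeff 0 ≠ 0 ∧ IsCoprime χ (pstar σ χ) ∧
    ∃ π ψ : F[X], Irreducible π ∧ χ = π * ψ ∧ IsCoprime π ψ

theorem goodP_of_closure (hσ : ∀ x, σ (σ x) = x) {S : Set F[X]}
    (h1 : ∀ a ∈ S, a.Monic ∧ Irreducible a ∧ a.coeff 0 ≠ 0)
    (h2 : ∀ a ∈ S, ∀ b ∈ S, pstar σ b ≠ a) {π ψ : F[X]} (hπ : π ∈ S)
    (hψ : ψ ∈ Submonoid.closure S) (hc : IsCoprime π ψ) :
    GoodP σ (π * ψ) ∧ ψ.Monic ∧ ψ.coeff 0 ≠ 0 := by
  have k1 : ∀ a ∈ Submonoid.closure S, a.Monic ∧ a.coeff 0 ≠ 0 := fun a ha => by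
    induction ha using Submonoid.closure_induction with
    | mem a ha => exact ⟨(h1 a ha).1, (h1 a ha).2.2⟩
    | one => simp
    | mul a b _ _ i j => exact ⟨i.1.mul j.1, by rw [mul_coeff_zero]; exact mul_ne_zero i.2 j.2⟩
  have k2 : ∀ a ∈ S, ∀ b ∈ Submonoid.closure S, IsCoprime a (pstar σ b) := fun a ha b hb => by
    induction hb using Submonoid.closure_induction with
    | mem b hb =>
      exact isCoprime_of_ne (h1 a ha).1 (h1 a ha).2.1 (pstar_monic (h1 b hb).1.ne_zero)
        (pstar_irreducible hσ (h1 b hb).2.1) (h2 a ha b hb).symm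
    | one => rw [pstar_one]; exact isCoprime_one_right
    | mul a b _ _ i j => rw [pstar_mul]; exact i.mul_right j
  have k3 : ∀ a ∈ Submonoid.closure S, ∀ b ∈ Submonoid.closure S, IsCoprime a (pstar σ b) :=
    fun a ha b hb => by
    induction ha using Submonoid.closure_induction with
    | mem a ha => exact k2 a ha b hb
    | one => exact isCoprime_one_left
    | mul a b _ _ i j => exact i.mul_left j
  have h3 := mul_mem (Submonoid.subset_closure hπ) hψ
  exact ⟨⟨(k1 _ h3).1, (k1 _ h3).2, k3 _ h3 _ h3, π, ψ, (h1 π hπ).2.1, rfl, hc⟩, k1 ψ hψ⟩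

theorem pstar_ne_of_natDegree {a b : F[X]} (h : b.natDegree ≠ a.natDegree) : pstar σ b ≠ a :=
  fun h' => h (by rw [← h', natDegree_pstar])

theorem monic_quad (τ δ : F) : (X ^ 2 - C τ * X + C δ : F[X]).Monic := by monicity!

theorem natDegree_quad (τ δ : F) : (X ^ 2 - C τ * X + C δ : F[X]).natDegree = 2 := by
  compute_degree!

theorem coeff_quad (τ δ : F) : (X ^ 2 - C τ * X + C δ : F[X]).coeff 0 = δ := by simp

theorem irreducible_quad {τ δ : F} (h : ∀ x, x ^ 2 - τ * x + δ ≠ 0) :
    Irreducible (X ^ 2 - C τ * X + C δ : F[X]) :=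
  irreducible_of_degree_le_three_of_not_isRoot (by rw [natDegree_quad]; simp) fun x hx =>
    h x (by simpa using hx)

theorem pstar_quad_ne {τ δ : F} (hδ : δ ≠ 0) (h : σ τ ≠ σ δ * τ) :
    pstar σ (X ^ 2 - C τ * X + C δ) ≠ X ^ 2 - C τ * X + C δ := fun h' => by
  have := congrArg (coeff · 1) (map_eq_of_pstar_eq (by rwa [coeff_quad]) h')
  simp only [coeff_map, coeff_C_mul, coeff_reverse, natDegree_quad, coeff_quad] at this
  exact h (by simpa [coeff_X, coeff_C] using this)

theorem pstar_quad_ne' {τ δ τ' δ' : F} (hδ : δ ≠ 0) (h : δ' * σ δ ≠ 1) :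
    pstar σ (X ^ 2 - C τ * X + C δ) ≠ X ^ 2 - C τ' * X + C δ' := fun h' => by
  have := coeff_zero_pstar (σ := σ) (monic_quad τ δ) (by rwa [coeff_quad])
  rw [h', coeff_quad, coeff_quad] at this
  exact h (by rw [this, inv_mul_cancel₀ ((map_ne_zero σ).2 hδ)])

theorem pstar_linear_ne {α : F} (h0 : α ≠ 0) (h : α * σ α ≠ 1) : pstar σ (X - C α) ≠ X - C α :=
  fun h' => h (by simpa using norm_of_pstar_eq (monic_X_sub_C α) (by simpa using h0) h')

variable [Fintype F] {q : ℕ}

theorem UF.exists_quad (h : UF σ q) (hq : q ≠ 2) {δ : F} (hδ : δ ≠ 0) : ∃ τ : F, τ ≠ 0 ∧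
    (∀ x, x ^ 2 - τ * x + δ ≠ 0) ∧ σ τ ≠ σ δ * τ := by
  classical
  have h2 := h.two_le
  let φ : F → F := fun x => x + δ / x
  let S₂ := (X ^ 2 - C δ : F[X]).roots.toFinset
  let S₁ := (Finset.univ.erase (0 : F)) \ S₂
  let T := (X ^ q - C (σ δ) * X : F[X]).roots.toFinset
  have m2 : ∀ x, x ∈ S₂ ↔ x ^ 2 = δ := fun x => by
    simp only [S₂, Multiset.mem_toFinset]
    rw [mem_roots (X_pow_sub_C_ne_zero two_pos δ)]
    simp [sub_eq_zero]
  have d1 : (X ^ q - C (σ δ) * X : F[X]).natDegree = q := by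
    rw [natDegree_sub_eq_left_of_natDegree_lt] <;> rw [natDegree_X_pow]
    exact (natDegree_C_mul_le _ _).trans_lt (by rw [natDegree_X]; omega)
  have c2 : S₂.card ≤ 2 := (Multiset.toFinset_card_le _).trans ((card_roots' _).trans (by simp))
  have c3 : T.card ≤ q := (Multiset.toFinset_card_le _).trans ((card_roots' _).trans d1.le)
  have c1 : 2 * (S₁.image φ).card ≤ S₁.card := Finset.mul_card_image_le_card _ _ fun b hb => by
    obtain ⟨x, hx, rfl⟩ := Finset.mem_image.1 hb
    have hx' := hx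
    simp only [S₁, Finset.mem_sdiff, Finset.mem_erase, Finset.mem_univ, and_true, m2] at hx'
    refine Finset.one_lt_card.2 ⟨x, by simp [hx], δ / x, ?_, fun h => hx'.2 ?_⟩
    · simp only [Finset.mem_filter, S₁, Finset.mem_sdiff, Finset.mem_erase, Finset.mem_univ,
        and_true, m2, φ]
      have := hx'.1
      refine ⟨⟨div_ne_zero hδ this, fun h => hx'.2 ?_⟩, by field_simp; ring⟩
      field_simp at h
      exact h.symm
    · rw [eq_div_iff hx'.1] at h
      rw [pow_two, h]
  have c4 : S₁.card + S₂.card + 1 = q ^ 2 := by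
    rw [Finset.card_sdiff_add_card_eq_card (fun x hx => by
      simp only [Finset.mem_erase, Finset.mem_univ, and_true]
      rintro rfl
      exact hδ (by simpa using ((m2 0).1 hx).symm)),
      Finset.card_erase_add_one (Finset.mem_univ _), Finset.card_univ, h.card]
  obtain ⟨τ, -, hτ⟩ := Finset.exists_mem_notMem_of_card_lt_card
    (s := (S₁.image φ ∪ S₂.image φ) ∪ T) (t := Finset.univ) (by
      have a1 := Finset.card_union_le (S₁.image φ ∪ S₂.image φ) T
      have a2 := Finset.card_union_le (S₁.image φ) (S₂.image φ)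
      have a3 := Finset.card_image_le (s := S₂) (f := φ)
      rw [Finset.card_univ, h.card]
      have : 3 * q ≤ q ^ 2 := by rw [pow_two]; exact Nat.mul_le_mul_right _ (by omega)
      omega)
  have hT : σ τ ≠ σ δ * τ := fun h' => hτ (Finset.mem_union_right _ (by
    simp only [T, Multiset.mem_toFinset]
    rw [mem_roots (fun h0 => by rw [h0, natDegree_zero] at d1; omega)]
    simp [← h.apply, h']))
  refine ⟨τ, by rintro rfl; simp at hT, fun x hx => hτ (Finset.mem_union_left _ ?_), hT⟩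
  have x0 : x ≠ 0 := by rintro rfl; exact hδ (by simpa using hx)
  rw [← Finset.image_union, Finset.mem_image]
  refine ⟨x, by by_cases c : x ∈ S₂ <;> simp [S₁, c, x0], ?_⟩
  simp only [φ]
  field_simp
  linear_combination hx

theorem UF.exists_norm_ne (h : UF σ q) (hq : q ≠ 2) : ∃ α : F, α ≠ 0 ∧ α * σ α ≠ 1 := by
  obtain ⟨g, hg⟩ := h.exists_gen
  have h2 := h.two_le
  refine ⟨g, hg.ne_zero (Nat.mul_ne_zero (by omega) (by omega)), fun h1 => ?_⟩
  rw [h.norm_eq] at h1
  have := Nat.le_of_dvd (by omega) ((hg.pow_eq_one_iff_dvd _).1 h1)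
  have h3 : (q + 1) * 2 ≤ (q + 1) * (q - 1) := Nat.mul_le_mul_left _ (by omega)
  omega

theorem UF.four (h : UF σ 2) : ∃ ω : F, ω ^ 2 = ω + 1 ∧ (2 : F) = 0 ∧ ω ≠ 0 ∧ ω ≠ 1 ∧
    (∀ x, x ^ 2 - ω * x + 1 ≠ 0) ∧ (∀ x, x ^ 2 - 1 * x + ω ≠ 0) ∧
    ∀ x, x ^ 2 - 1 * x + (ω + 1) ≠ 0 := by
  obtain ⟨f, h0, -, h2, hf⟩ := exists_hom_R4 (F := F) h.card
  have h3 : f w4 ^ 2 = f w4 + 1 := by
    rw [← map_pow, show w4 ^ 2 = w4 + 1 by decide +kernel, map_add, map_one]
  generalize f w4 = ω at *
  have h1 : ω ≠ 1 := by rintro rfl; exact one_ne_zero (α := F) (by linear_combination h2 + h3)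
  have h4 : (1 : F) ≠ 0 := one_ne_zero
  refine ⟨ω, h3, h2, h0, h1, fun x hx => ?_, fun x hx => ?_, fun x hx => ?_⟩ <;>
    rcases hf x with rfl | rfl | rfl | rfl
  · exact h4 (by linear_combination hx)
  · exact h0 (by linear_combination h2 - hx)
  · exact h4 (by linear_combination hx)
  · exact h0 (by linear_combination hx - h2)
  · exact h0 (by linear_combination hx)
  · exact h0 (by linear_combination hx)
  · exact h1 (by linear_combination hx - h3 - h2)
  · exact h1 (by linear_combination hx - h3 - (ω + 1) * h2)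
  · exact h1 (by linear_combination hx - h2)
  · exact h1 (by linear_combination hx - h2)
  · exact h0 (by linear_combination hx - h3 - h2)
  · exact h0 (by linear_combination hx - h3 - (ω + 1) * h2)

theorem UF.exists_quad_one (h : UF σ q) : ∃ τ : F, τ ≠ 0 ∧
    (∀ x, x ^ 2 - τ * x + 1 ≠ 0) ∧ σ τ ≠ σ 1 * τ := by
  by_cases hq : q = 2
  · subst hq
    obtain ⟨ω, h1, -, h3, -, h5, -⟩ := h.four
    exact ⟨ω, h3, h5, by rw [map_one, one_mul, h.apply, h1]; simp⟩
  · exact h.exists_quad hq one_ne_zero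

omit [Fintype F] in
theorem pstar_cubic_ne : pstar σ (X ^ 3 + X + 1) ≠ (X ^ 3 + X + 1 : F[X]) := fun h' => by
  have := congrArg (coeff · 1) (map_eq_of_pstar_eq (by simp) h')
  simp only [coeff_map, coeff_C_mul, coeff_reverse,
    show (X ^ 3 + X + 1 : F[X]).natDegree = 3 by compute_degree!,
    revAt_le (show 1 ≤ 3 by omega)] at this
  simp [coeff_X, coeff_one] at this

theorem UF.facA (h : UF σ q) (hV : finrank F V = 2 ∨ (finrank F V = 3 ∧ q = 2)) {l : End F V}
    (hd : LinearMap.det l = 1) (hl : l = 1 ∨ Inv l) :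
    ∃ χ, GoodP σ χ ∧ σ (χ.coeff 0) = χ.coeff 0 ∧ Fac l χ := by
  rcases hV with hV | ⟨hV, rfl⟩
  · obtain ⟨τ, h1, h2, h3⟩ := h.exists_quad_one
    have := (goodP_of_closure h.invol (S := {X ^ 2 - C τ * X + C 1}) (by
      rintro _ rfl
      exact ⟨monic_quad _ _, irreducible_quad h2, by simp⟩) (by
      rintro _ rfl _ rfl
      exact pstar_quad_ne one_ne_zero h3) rfl (one_mem _) isCoprime_one_right).1
    rw [mul_one] at this
    refine ⟨_, this, by simp, ?_⟩
    rcases hl with rfl | hl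
    · exact fac_one (monic_quad _ _) (by rw [natDegree_quad, hV])
    · exact fac_two hV hd hl h1 (irreducible_quad h2)
  · have := (goodP_of_closure h.invol (S := {X ^ 3 + X + 1}) (by
      rintro _ rfl
      exact ⟨by monicity!, irreducible_cubic h.card, by simp⟩) (by
      rintro _ rfl _ rfl
      exact pstar_cubic_ne) rfl (one_mem _) isCoprime_one_right).1
    rw [mul_one] at this
    refine ⟨_, this, by simp, ?_⟩
    rcases hl with rfl | hl
    · exact fac_one this.1 (by rw [hV]; compute_degree!)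
    · exact fac_three h.card hV hd hl

theorem UF.facC (h : UF σ q) (hq : q ≠ 2) (hV : finrank F V = 1) :
    ∃ χ, GoodP σ χ ∧ Fac (1 : End F V) χ := by
  obtain ⟨α, h0, h1⟩ := h.exists_norm_ne hq
  have := (goodP_of_closure h.invol (S := {X - C α}) (by
    rintro _ rfl
    exact ⟨monic_X_sub_C _, irreducible_X_sub_C _, by simpa using h0⟩) (by
    rintro _ rfl _ rfl
    exact pstar_linear_ne h0 h1) rfl (one_mem _) isCoprime_one_right).1
  rw [mul_one] at this
  exact ⟨_, this, fac_one this.1 (by rw [hV, natDegree_X_sub_C])⟩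

theorem UF.facB (h : UF σ q) (hV : 3 ≤ finrank F V) (hq : ¬ (finrank F V = 3 ∧ q = 2))
    {l : End F V} (hd : LinearMap.det l = 1) (hl : OK l) :
    ∃ χ, GoodP σ χ ∧ σ (χ.coeff 0) = χ.coeff 0 ∧ Fac l χ := by
  by_cases h2 : q = 2
  · subst h2
    obtain ⟨ω, w1, w2, w3, w4, w5, w6, w7⟩ := h.four
    have w8 : ω + 1 ≠ 0 := fun h => w4 (by linear_combination h - w2)
    have s1 : σ ω = ω + 1 := by rw [h.apply, w1]
    have s2 : σ (ω + 1) = ω := by rw [← s1, h.invol]
    set a : F[X] := X ^ 2 - C ω * X + C 1 with ha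
    set b : F[X] := X ^ 2 - C 1 * X + C ω with hb
    set c : F[X] := X ^ 2 - C 1 * X + C (ω + 1) with hc
    set d : F[X] := X ^ 3 + X + 1 with hd'
    have dd : d.natDegree = 3 := by rw [hd']; compute_degree!
    have da : a.natDegree = 2 := natDegree_quad _ _
    have db : b.natDegree = 2 := natDegree_quad _ _
    have dc : c.natDegree = 2 := natDegree_quad _ _
    have i1 : ∀ x ∈ ({a, b, c, d} : Set F[X]), x.Monic ∧ Irreducible x ∧ x.coeff 0 ≠ 0 := by
      rintro _ (rfl | rfl | rfl | rfl)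
      · exact ⟨monic_quad _ _, irreducible_quad w5, by rw [coeff_quad]; exact one_ne_zero⟩
      · exact ⟨monic_quad _ _, irreducible_quad w6, by rwa [coeff_quad]⟩
      · exact ⟨monic_quad _ _, irreducible_quad w7, by rwa [coeff_quad]⟩
      · exact ⟨by rw [hd']; monicity!, irreducible_cubic h.card, by simp [hd']⟩
    have i2 : ∀ x ∈ ({a, b, c, d} : Set F[X]), ∀ y ∈ ({a, b, c, d} : Set F[X]), pstar σ y ≠ x := by
      rintro _ (rfl | rfl | rfl | rfl) _ (rfl | rfl | rfl | rfl)
      · exact pstar_quad_ne one_ne_zero (by simp [s1])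
      · exact pstar_quad_ne' w3 (by simp [s1, w3])
      · exact pstar_quad_ne' w8 (by simpa [s2] using w4)
      · exact pstar_ne_of_natDegree (by omega)
      · exact pstar_quad_ne' one_ne_zero (by simpa using w4)
      · exact pstar_quad_ne w3 (by simp [s1, w3])
      · exact pstar_quad_ne' w8 (by rw [s2, ← pow_two, w1]; simpa using w3)
      · exact pstar_ne_of_natDegree (by omega)
      · exact pstar_quad_ne' one_ne_zero (by simpa using w3)
      · exact pstar_quad_ne' w3 (by
          rw [s1]; exact fun h => w4 (by linear_combination h - w1 - (ω + 1) * w2))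
      · exact pstar_quad_ne w8 (by simpa [s2] using w4.symm)
      · exact pstar_ne_of_natDegree (by omega)
      · exact pstar_ne_of_natDegree (by omega)
      · exact pstar_ne_of_natDegree (by omega)
      · exact pstar_ne_of_natDegree (by omega)
      · exact pstar_cubic_ne
    have co : ∀ x ∈ ({a, b, c, d} : Set F[X]), ∀ y ∈ ({a, b, c, d} : Set F[X]),
        x.coeff 0 ≠ y.coeff 0 ∨ x.natDegree ≠ y.natDegree → IsCoprime x y := fun x hx y hy hh =>
      isCoprime_of_ne (i1 x hx).1 (i1 x hx).2.1 (i1 y hy).1 (i1 y hy).2.1 (by rintro rfl; simp at hh)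
    have ca : a.coeff 0 = 1 := coeff_quad _ _
    have cb : b.coeff 0 = ω := coeff_quad _ _
    have cc : c.coeff 0 = ω + 1 := coeff_quad _ _
    have cd : ∀ j, (d ^ j).coeff 0 = 1 := fun j => by simp [hd', coeff_zero_eq_eval_zero]
    have cbc : ω * (ω + 1) = 1 := by linear_combination w1 + ω * w2
    have mb : b ∈ Submonoid.closure ({a, b, c, d} : Set F[X]) := Submonoid.subset_closure (by simp)
    have mc : c ∈ Submonoid.closure ({a, b, c, d} : Set F[X]) := Submonoid.subset_closure (by simp)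
    have md : d ∈ Submonoid.closure ({a, b, c, d} : Set F[X]) := Submonoid.subset_closure (by simp)
    have nd : ∀ j, (d ^ j).natDegree = 3 * j := fun j => by rw [natDegree_pow, dd, mul_comm]
    have hd0 : ∀ j, d ^ j ≠ 0 := fun j => pow_ne_zero _ (i1 d (by simp)).1.ne_zero
    have hb0 := (i1 b (by simp)).1.ne_zero
    have hc0 := (i1 c (by simp)).1.ne_zero
    obtain ⟨j, hj | hj | hj⟩ : ∃ j, finrank F V = 3 * j + 4 ∨ finrank F V = 3 * j + 5 ∨
        finrank F V = 3 * j + 6 := ⟨(finrank F V - 4) / 3, by omega⟩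
    · have k : IsCoprime b (c * d ^ j) := (co b (by simp) c (by simp) (by simp [cb, cc])).mul_right
        (co b (by simp) d (by simp) (by omega)).pow_right
      obtain ⟨g1, g2, g3⟩ := goodP_of_closure h.invol i1 i2 (by simp) (mul_mem mc (pow_mem md j)) k
      exact ⟨_, g1, by simp [mul_coeff_zero, cb, cc, cd, cbc],
        levq hd hl _ w3 g2 g3 (by rw [natDegree_mul hc0 (hd0 j), nd]; omega) k⟩
    · have k : IsCoprime a (d ^ (j + 1)) := (co a (by simp) d (by simp) (by omega)).pow_right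
      obtain ⟨g1, g2, g3⟩ := goodP_of_closure h.invol i1 i2 (by simp) (pow_mem md (j + 1)) k
      exact ⟨_, g1, by simp [mul_coeff_zero, ca, cd],
        levq hd hl _ one_ne_zero g2 g3 (by rw [nd]; omega) k⟩
    · have k : IsCoprime a (b * (c * d ^ j)) :=
        (co a (by simp) b (by simp) (by simp [ca, cb, w4.symm])).mul_right
          ((co a (by simp) c (by simp) (by simp [ca, cc, w3])).mul_right
            (co a (by simp) d (by simp) (by omega)).pow_right)
      obtain ⟨g1, g2, g3⟩ := goodP_of_closure h.invol i1 i2 (by simp)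
        (mul_mem mb (mul_mem mc (pow_mem md j))) k
      exact ⟨_, g1, by simp [mul_coeff_zero, ca, cb, cc, cd, cbc],
        levq hd hl _ one_ne_zero g2 g3 (by
          rw [natDegree_mul hb0 (mul_ne_zero hc0 (hd0 j)), natDegree_mul hc0 (hd0 j), nd]
          omega) k⟩
  · obtain ⟨α, h0, h1⟩ := h.exists_norm_ne h2
    obtain ⟨j, hj⟩ : ∃ j, finrank F V = j + 2 := ⟨finrank F V - 2, by omega⟩
    have hδ : ((-α) ^ j)⁻¹ ≠ 0 := inv_ne_zero (pow_ne_zero _ (neg_ne_zero.2 h0))
    obtain ⟨τ, -, t2, t3⟩ := h.exists_quad h2 hδ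
    have k : IsCoprime (X ^ 2 - C τ * X + C ((-α) ^ j)⁻¹) ((X - C α) ^ j) :=
      (isCoprime_X_sub_C (by simpa using t2 α)).symm.pow_right
    obtain ⟨g1, g2, g3⟩ := goodP_of_closure h.invol
      (S := {X ^ 2 - C τ * X + C ((-α) ^ j)⁻¹, X - C α}) (by
        rintro _ (rfl | rfl)
        · exact ⟨monic_quad _ _, irreducible_quad t2, by rwa [coeff_quad]⟩
        · exact ⟨monic_X_sub_C _, irreducible_X_sub_C _, by simpa using h0⟩) (by
        rintro _ (rfl | rfl) _ (rfl | rfl)
        · exact pstar_quad_ne hδ t3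
        · exact pstar_ne_of_natDegree (by rw [natDegree_quad]; simp)
        · exact pstar_ne_of_natDegree (by rw [natDegree_quad]; simp)
        · exact pstar_linear_ne h0 h1) (by simp)
      (pow_mem (Submonoid.subset_closure (by simp)) j) k
    refine ⟨_, g1, ?_, levq hd hl _ hδ g2 g3 (by simp [hj]) k⟩
    have : ((X - C α) ^ j).coeff 0 = (-α) ^ j := by simp [coeff_zero_eq_eval_zero]
    rw [mul_coeff_zero, coeff_quad, this, inv_mul_cancel₀ (pow_ne_zero _ (neg_ne_zero.2 h0)), map_one]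

end Cfsg.Agent.H5
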