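import Cfsg.Agent.H5.OreU3

/-! Hyperbolic pairs, common complements of totally isotropic subspaces and Eichler
transformations of hermitian spaces. -/

set_option autoImplicit false

namespace Cfsg.Agent.H5

open Module H4

universe u

variable {F : Type u} [Field F] [Fintype F] {σ : F →+* F} {q : ℕ}
variable {V : Type*} [AddCommGroup V] [Module F V] {B : Sesq σ V}

theorem UF.exists_hyp (h : UF σ q) (hB : ∀ u v, B v u = σ (B u v))
    (H : ∀ φ : V →ₗ[F] F, ∃ e y, φ e = 0 ∧ B e y ≠ 0) :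
    ∃ e f, B e e = 0 ∧ B f f = 0 ∧ B e f = 1 := by
  obtain ⟨a, -, ha⟩ := h.exists_aniso (B := B) (W := ⊤) fun hh => by
    obtain ⟨e, y, -, h1⟩ := H 0
    exact h1 (hh Submodule.mem_top y Submodule.mem_top)
  obtain ⟨b, y, b1, b2⟩ := H (B.flip a)
  rw [LinearMap.flip_apply] at b1
  have b3 : B a b = 0 := by rw [hB, b1, map_zero]
  obtain ⟨t, ht⟩ := h.exists_smul_unit hB ha (c := -B b b) (by rw [map_neg, ← hB])
  obtain ⟨e, y, e1, e2⟩ : ∃ e y, B e e = 0 ∧ B e y = 1 := by
    refine ⟨b + t • a, (σ (B b y))⁻¹ • (y - (B y a / B a a) • a), ?_, ?_⟩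
    · rw [map_add, map_add, LinearMap.add_apply, LinearMap.add_apply, ht]
      simp [b1, b3]
    · have e3 : σ (B a a) = B a a := (hB a a).symm
      simp only [map_add, map_sub, map_smulₛₗ, LinearMap.add_apply, LinearMap.smul_apply,
        smul_eq_mul, RingHom.id_apply, b1, map_div₀, map_inv₀, h.invol, ← hB, e3]
      field_simp
      ring
  obtain ⟨η, hη⟩ := h.trace_surj (c := B y y) (hB y y).symm
  refine ⟨e, y - η • e, e1, ?_, by simp [e1, e2]⟩
  have e3 : B y e = 1 := by rw [hB, e2, map_one]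
  simp only [map_sub, map_smulₛₗ, LinearMap.sub_apply, LinearMap.smul_apply, smul_eq_mul,
    RingHom.id_apply, e1, e2, e3]
  linear_combination hη

theorem UF.eq_zero_of_iso (h : UF σ q) (hB : ∀ u v, B v u = σ (B u v)) {e f : V} (h1 : B e e = 0)
    (h2 : B f f = 0) (h3 : B e f = 1) {d : Sesq σ V} (hd : ∀ v, B v v = 0 → d v v = 0)
    (h4 : d e f = 0) (u v : V) : d u v = 0 := by
  obtain ⟨s, s0, s1⟩ := h.exists_trace_zero
  obtain ⟨a, ha⟩ := h.exists_ne
  have h3' : B f e = 1 := by rw [hB, h3, map_one]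
  have h5 : d f e = 0 := by
    have := hd (e + s • f) (by simp [h1, h2, h3, h3', s1])
    simpa [hd e h1, hd f h2, h4, s0] using this
  have aux : ∀ e f : V, B e e = 0 → B f f = 0 → B e f = 1 → B f e = 1 → d e f = 0 → d f e = 0 →
      (∀ w η, B w e = 0 → B w f = 0 → B w w = -(σ η + η) →
        d w w + d f w + d w f + η * d e w + σ η * d w e = 0) ∧
      ∀ w, B w e = 0 → B w f = 0 → d e w = 0 ∧ d w e = 0 := by
    intro e f h1 h2 h3 h3' h4 h5
    have k1 : ∀ w η, B w e = 0 → B w f = 0 → B w w = -(σ η + η) →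
        d w w + d f w + d w f + η * d e w + σ η * d w e = 0 := fun w η w1 w2 w3 => by
      have w4 : B e w = 0 := by rw [hB, w1, map_zero]
      have w5 : B f w = 0 := by rw [hB, w2, map_zero]
      have := hd (f + w + η • e) (by
        simp only [map_add, map_smulₛₗ, LinearMap.add_apply, LinearMap.smul_apply, smul_eq_mul,
          RingHom.id_apply, h1, h2, h3, h3', w1, w2, w3, w4, w5]; ring)
      simp only [map_add, map_smulₛₗ, LinearMap.add_apply, LinearMap.smul_apply, smul_eq_mul,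
        RingHom.id_apply, hd e h1, hd f h2, h4, h5] at this
      linear_combination this
    have k2 : ∀ w, B w e = 0 → B w f = 0 → d e w = d w e := fun w w1 w2 => by
      obtain ⟨η, hη⟩ := h.trace_surj (c := -B w w) (by rw [map_neg, ← hB])
      have a1 := k1 w η w1 w2 (by rw [← hη, neg_neg])
      have a2 := k1 w (η + s) w1 w2 (by rw [map_add, s1]; linear_combination -hη)
      rw [map_add, s1] at a2
      exact mul_left_cancel₀ s0 (by linear_combination a2 - a1)
    refine ⟨k1, fun w w1 w2 => ?_⟩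
    have a1 := k2 w w1 w2
    have a2 := k2 (a • w) (by simp [w1]) (by simp [w2])
    simp only [map_smulₛₗ, LinearMap.smul_apply, smul_eq_mul, RingHom.id_apply, ← a1] at a2
    have a3 : d e w = 0 := (mul_eq_zero.1 (show (σ a - a) * d e w = 0 by
      linear_combination a2)).resolve_left (sub_ne_zero.2 ha)
    exact ⟨a3, a1 ▸ a3⟩
  obtain ⟨k1, k2⟩ := aux e f h1 h2 h3 h3' h4 h5
  obtain ⟨-, k3⟩ := aux f e h2 h1 h3' h3 h5 h4
  have k4 : perp B (Submodule.span F {e, f}) ≤ perp d (perp B (Submodule.span F {e, f})) := by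
    by_contra hh
    obtain ⟨w, w1, w2⟩ := h.exists_aniso hh
    rw [mem_perp_span] at w1
    have w3 := w1 e (by simp)
    have w4 := w1 f (by simp)
    obtain ⟨η, hη⟩ := h.trace_surj (c := -B w w) (by rw [map_neg, ← hB])
    have := k1 w η w3 w4 (by rw [← hη, neg_neg])
    exact w2 (by simpa [k2 w w3 w4, k3 w w4 w3] using this)
  have dec : ∀ u, ∃ (x y : F) (w : V), B w e = 0 ∧ B w f = 0 ∧ u = x • e + y • f + w := fun u =>
    ⟨B u f, B u e, u - B u f • e - B u e • f, by simp [h1, h3'], by simp [h2, h3], by abel⟩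
  obtain ⟨x, y, w, w1, w2, rfl⟩ := dec u
  obtain ⟨x', y', w', w1', w2', rfl⟩ := dec v
  have k5 : d w w' = 0 := k4 (mem_perp_span.2 (by rintro _ (rfl | rfl) <;> assumption)) _
    (mem_perp_span.2 (by rintro _ (rfl | rfl) <;> assumption))
  simp [hd e h1, hd f h2, h4, h5, k5, k2 w w1 w2, k2 w' w1' w2', k3 w w2 w1, k3 w' w2' w1']

omit [Fintype F] in
theorem exists_eichler [FiniteDimensional F V] (hB : IsEps B 1) {x w : V} {η : F} (h1 : B x x = 0)
    (h2 : B w x = 0) (h3 : η + σ η = B w w) :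
    ∃ t : Isom B, ∀ v, t.1 v = v + B v x • w - (B v w + η * B v x) • x := by
  have h4 : B x w = 0 := hB.refl h2
  refine ⟨hB.toIsom (1 + (B.flip x).smulRight w - (B.flip w + η • B.flip x).smulRight x)
    fun u v => ?_, fun v => rfl⟩
  simp only [LinearMap.sub_apply, LinearMap.add_apply, Module.End.one_apply,
    LinearMap.smulRight_apply, LinearMap.flip_apply, LinearMap.smul_apply, map_add, map_sub,
    map_smulₛₗ, smul_eq_mul, RingHom.id_apply, h1, h2, h4, map_mul, ← hB.herm, ← h3]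
  ring

variable [FiniteDimensional F V]

theorem UF.exists_hyp_perp (h : UF σ q) (hB : IsEps B 1) {D : Submodule F V}
    (hd : 2 * finrank F D + 2 ≤ finrank F V) : ∃ e ∈ perp B D, ∃ f ∈ perp B D,
      B e e = 0 ∧ B f f = 0 ∧ B e f = 1 := by
  obtain ⟨e, f, h1⟩ := h.exists_hyp (B := res B (perp B D)) (fun u v => hB.herm _ _) fun φ => by
    have h1 := hB.finrank_perp D
    have h2 := φ.finrank_range_add_finrank_ker
    have h3 := (LinearMap.range φ).finrank_le
    rw [finrank_self] at h3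
    obtain ⟨_, ⟨e, e1, rfl⟩, e2⟩ := exists_not_mem_of_finrank_lt (S := D)
      (T := (LinearMap.ker φ).map (perp B D).subtype) (by
        rw [Submodule.finrank_map_subtype_eq]; omega)
    by_contra hh
    push Not at hh
    exact e2 ((hB.perp_perp D).le fun y hy => hh e ⟨y, hy⟩ e1)
  exact ⟨e, e.2, f, f.2, h1⟩

theorem UF.exists_ext (h : UF σ q) (hB : IsEps B 1) {A₁ A₂ : Submodule F V} (h1 : A₁ ≤ perp B A₁)
    (h2 : A₂ ≤ perp B A₂) {k : ℕ} (hk : 2 * k ≤ finrank F V) (j : ℕ) : ∀ D : Submodule F V,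
    D ≤ perp B D → Disjoint D A₁ → Disjoint D A₂ → finrank F D + j = k →
    ∃ G, D ≤ G ∧ G ≤ perp B G ∧ Disjoint G A₁ ∧ Disjoint G A₂ ∧ finrank F G = k := by
  induction j with
  | zero => exact fun D a b c d => ⟨D, le_rfl, a, b, c, d⟩
  | succ j ih =>
    intro D d1 d2 d3 d4
    obtain ⟨e, e1, f, f1, a1, a2, a3⟩ := h.exists_hyp_perp hB (D := D) (by omega)
    obtain ⟨s, s0, s1⟩ := h.exists_trace_zero
    have a4 : B f e = 1 := by rw [hB.herm, a3, map_one]
    have key : ∀ A : Submodule F V, A ≤ perp B A → ∀ u ∈ perp B D, ∀ v ∈ perp B D, u ∈ D ⊔ A →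
        v ∈ D ⊔ A → B u v = 0 := by
      intro A hA u u1 v v1 u2 v2
      obtain ⟨x, hx, a, ha, rfl⟩ := Submodule.mem_sup.1 u2
      obtain ⟨x', hx', a', ha', rfl⟩ := Submodule.mem_sup.1 v2
      rw [map_add (B (x + a)), u1 x' hx', map_add, LinearMap.add_apply, hA ha a' ha', zero_add,
        add_zero]
      exact hB.refl ((Submodule.add_mem_iff_right _ (d1 hx')).1 v1 x hx)
    have g1 : e + s • f ∈ perp B D := add_mem e1 (Submodule.smul_mem _ _ f1)
    have n1 : ∀ A : Submodule F V, A ≤ perp B A → e ∈ D ⊔ A → f ∉ D ⊔ A := fun A hA a b => by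
      simpa [a3] using key A hA e e1 f f1 a b
    have n2 : ∀ A : Submodule F V, A ≤ perp B A → e ∈ D ⊔ A → e + s • f ∉ D ⊔ A := fun A hA a b => by
      simpa [a1, a4, s0] using key A hA _ g1 e e1 b a
    have n3 : ∀ A : Submodule F V, A ≤ perp B A → f ∈ D ⊔ A → e + s • f ∉ D ⊔ A := fun A hA a b => by
      simpa [a2, a3] using key A hA _ g1 f f1 b a
    obtain ⟨v, v1, v2, v3, v4⟩ : ∃ v ∈ perp B D, B v v = 0 ∧ v ∉ D ⊔ A₁ ∧ v ∉ D ⊔ A₂ := by
      have g2 : B (e + s • f) (e + s • f) = 0 := by simp [a1, a2, a3, a4, s1]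
      by_cases c1 : e ∈ D ⊔ A₁
      · by_cases c2 : f ∈ D ⊔ A₂
        · exact ⟨_, g1, g2, n2 _ h1 c1, n3 _ h2 c2⟩
        · exact ⟨f, f1, a2, n1 _ h1 c1, c2⟩
      by_cases c2 : e ∈ D ⊔ A₂
      · by_cases c3 : f ∈ D ⊔ A₁
        · exact ⟨_, g1, g2, n3 _ h1 c3, n2 _ h2 c2⟩
        · exact ⟨f, f1, a2, c3, n1 _ h2 c2⟩
      · exact ⟨e, e1, a1, c1, c2⟩
    have dis : ∀ A : Submodule F V, Disjoint D A → v ∉ D ⊔ A →
        Disjoint (D ⊔ Submodule.span F {v}) A := fun A hA hv => Submodule.disjoint_def.2 fun x x1 x2 => by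
      obtain ⟨y, hy, _, hz, rfl⟩ := Submodule.mem_sup.1 x1
      obtain ⟨c, rfl⟩ := Submodule.mem_span_singleton.1 hz
      by_cases c0 : c = 0
      · rw [c0, zero_smul, add_zero] at x2 ⊢
        exact Submodule.disjoint_def.1 hA y hy x2
      · exact absurd ((Submodule.smul_mem_iff _ c0).1 ((Submodule.add_mem_iff_right _
          (Submodule.mem_sup_left hy)).1 (Submodule.mem_sup_right x2))) hv
    obtain ⟨G, g3, g4⟩ := ih (D ⊔ Submodule.span F {v}) (by
      rw [perp_sup]
      refine sup_le (le_inf d1 (hB.le_perp_comm ?_)) ?_ <;>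
        rw [Submodule.span_singleton_le_iff_mem]
      · exact v1
      · exact ⟨v1, mem_perp_span.2 (by rintro _ rfl; exact v2)⟩) (dis _ d2 v3) (dis _ d3 v4) (by
      rw [finrank_sup_span fun h => v3 (Submodule.mem_sup_left h)]; omega)
    exact ⟨G, le_sup_left.trans g3, g4⟩

omit [Fintype F] in
theorem mem_of_iso (hB : IsEps B 1) {G : Submodule F V} (hG : G ≤ perp B G)
    (hd : finrank F V < 2 * finrank F G + 2) {v : V} (h1 : v ∈ perp B G) (h2 : B v v = 0) :
    v ∈ G := by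
  by_contra hv
  have h3 : G ⊔ Submodule.span F {v} ≤ perp B (G ⊔ Submodule.span F {v}) := by
    rw [perp_sup]
    refine sup_le (le_inf hG (hB.le_perp_comm ?_)) ?_ <;>
      rw [Submodule.span_singleton_le_iff_mem]
    · exact h1
    · exact ⟨h1, mem_perp_span.2 (by rintro _ rfl; exact h2)⟩
  have h4 := Submodule.finrank_mono h3
  have h5 := hB.finrank_perp (G ⊔ Submodule.span F {v})
  rw [finrank_sup_span hv] at h4 h5
  omega

theorem UF.exists_iso_ne (h : UF σ q) (hB : IsEps B 1) (hV : 2 ≤ finrank F V) {g : End F V}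
    (hg : ∀ c : F, g ≠ c • 1) : ∃ e, B e e = 0 ∧ B (g e) e ≠ 0 := by
  obtain ⟨e, -, f, -, a1, a2, a3⟩ := h.exists_hyp_perp hB (D := ⊥) (by simpa using hV)
  by_contra hh
  push Not at hh
  refine hg (B (g e) f) (LinearMap.ext fun u => hB.ext_left fun v => ?_)
  have := h.eq_zero_of_iso hB.herm a1 a2 a3 (d := B.comp g - B (g e) f • B)
    (fun v hv => by simp [hv, hh v hv]) (by simp [a3]) u v
  simpa [sub_eq_zero] using this

end Cfsg.Agent.H5
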