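import Cfsg.Agent.H5.OreU4

/-! Opposite pairs of maximal totally isotropic subspaces adapted to a unitary transformation. -/

set_option autoImplicit false

namespace Cfsg.Agent.H5

open Module H4

universe u

variable {F : Type u} [Field F] {σ : F →+* F} {q : ℕ}
variable {V : Type*} [AddCommGroup V] [Module F V] {B : Sesq σ V}

/-- `G` is opposite to `E` and to `g E`, and `l` is the resulting compression of `g`. -/
structure Cfg (B : Sesq σ V) (g : End F V) (E G : Submodule F V) (z : V) (l : End F E) : Prop where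
  hG : G ≤ perp B G
  co : IsCompl E (perp B G)
  zE : z ∈ perp B E
  zG : z ∈ perp B G
  hz : B z z = 1 ∨ z = 0
  sp : perp B G ≤ G ⊔ Submodule.span F {z}
  hl : ∀ e : E, g e - l e ∈ perp B G
  det : LinearMap.det l ≠ 0

variable {g : Isom B} {E G : Submodule F V} {z : V} {l : End F E}

theorem Cfg.move (c : Cfg B g.1 E G z l) (t : Isom B) (ht : ∀ e ∈ E, t.1 e = e) {l' : End F E}
    (hl : ∀ e : E, t.1 (g.1 e) - l' e ∈ perp B G) (hd : LinearMap.det l' ≠ 0) :
    Cfg B g.1 E (G.comap (t.1 : End F V)) (t.1.symm z) l' := by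
  have p : ∀ v, v ∈ perp B (G.comap (t.1 : End F V)) ↔ t.1 v ∈ perp B G := fun v =>
    ⟨fun h w hw => by rw [Isom.apply_left]; exact h _ (by simpa using hw),
      fun h w hw => by rw [← t.2]; exact h _ hw⟩
  refine ⟨fun v hv => (p v).2 (c.hG hv), ⟨Submodule.disjoint_def.2 fun v v1 v2 =>
      Submodule.disjoint_def.1 c.co.disjoint v v1 (ht v v1 ▸ (p v).1 v2), ?_⟩,
    fun e he => by rw [← Isom.apply_right, ht e he]; exact c.zE e he, (p _).2 (by simpa using c.zG),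
    c.hz.imp (fun h => by rw [← t.2]; simpa using h) fun h => by simp [h], fun v hv => ?_,
    fun e => (p _).2 (by rw [map_sub, ht _ (l' e).2]; exact hl e), hd⟩
  · rw [codisjoint_iff, eq_top_iff]
    intro v _
    obtain ⟨a, b, h⟩ := exists_add_of_isCompl c.co (t.1 v)
    rw [show v = a + (v - a) by abel]
    exact Submodule.add_mem_sup a.2 ((p _).2 (by rw [map_sub, ht _ a.2, h]; simp))
  · obtain ⟨a, ha, _, hb, h⟩ := Submodule.mem_sup.1 (c.sp ((p v).1 hv))
    obtain ⟨s, rfl⟩ := Submodule.mem_span_singleton.1 hb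
    rw [show v = t.1.symm a + s • t.1.symm z by rw [← map_smul, ← map_add, h]; simp]
    exact Submodule.add_mem_sup (by simpa using ha)
      (Submodule.smul_mem _ _ (Submodule.mem_span_singleton_self _))

theorem Cfg.rel (hB : IsEps B 1) (hE : E ≤ perp B E) (c : Cfg B g.1 E G z l) (e e' : E) :
    B (g.1 e) (l e') + σ (B (g.1 e') (l e)) + B (g.1 e) z * σ (B (g.1 e') z) = 0 := by
  obtain ⟨a, ha, _, hb, h⟩ := Submodule.mem_sup.1 (c.sp (c.hl e'))
  obtain ⟨s, rfl⟩ := Submodule.mem_span_singleton.1 hb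
  have h1 : g.1 e' = l e' + a + s • z := by rw [add_assoc, h]; simp
  have h2 : B (g.1 e) (g.1 e') = 0 := (g.2 _ _).trans (hE e.2 _ e'.2)
  have h3 : B (g.1 e) a = B (l e) a := by simpa [sub_eq_zero] using c.hl e a ha
  have h4 : B (l e) z = 0 := hB.refl (c.zE _ (l e).2)
  have h5 : B (g.1 e') z = s * B z z := by
    rw [h1]; simp [hB.refl (c.zE _ (l e').2), hB.refl (c.zG a ha)]
  rw [← hB.herm, h5]
  rw [h1] at h2 ⊢
  simp only [map_add, map_smulₛₗ, smul_eq_mul, h3, h4, hE (l e).2 _ (l e').2] at h2 ⊢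
  rcases c.hz with h6 | rfl
  · rw [h6, mul_one]; linear_combination h2
  · simpa using h2

theorem det_sub_smulRight [FiniteDimensional F V] (l : End F V) (ψ : V →ₗ[F] F) (e : V) :
    LinearMap.det (l - ψ.smulRight (l e)) = LinearMap.det l * (1 - ψ e) := by
  rw [show l - ψ.smulRight (l e) = l * (1 + (-ψ).smulRight e) from LinearMap.ext fun v => by
    simp [sub_eq_add_neg], map_mul, det_one_add_smulRight']
  simp [sub_eq_add_neg]

variable [FiniteDimensional F V]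

theorem Cfg.step (hB : IsEps B 1) (hE : E ≤ perp B E) (c : Cfg B g.1 E G z l) (e₀ y : E) (s η : F)
    (h1 : η + σ η = s * σ s * B z z) (h2 : y = 0 ∨ ∀ e : E, B (g.1 e) (l e₀) = 0) {ψ : E →ₗ[F] F}
    (h3 : ∀ e : E, ψ e = B (g.1 e) y + σ s * B (g.1 e) z + η * B (g.1 e) (l e₀)) (h4 : ψ e₀ ≠ 1) :
    ∃ G z, Cfg B g.1 E G z (l - ψ.smulRight (l e₀)) := by
  have z1 : ∀ e : E, B e z = 0 := fun e => hB.refl (c.zE _ e.2)
  have z2 : ∀ e : E, B z e = 0 := fun e => c.zE _ e.2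
  have z3 : ∀ e e' : E, B e e' = 0 := fun e e' => hE e.2 _ e'.2
  obtain ⟨t, ht⟩ := exists_eichler hB (x := l e₀) (w := y + s • z) (η := η) (z3 _ _)
    (by simp [z2, z3]) (by simp [z1, z2, z3, h1]; ring)
  refine ⟨_, _, c.move t (fun e he => by
    simp [ht, z1 ⟨e, he⟩, z3 ⟨e, he⟩]) (fun e => ?_) (by
      rw [det_sub_smulRight]; exact mul_ne_zero c.det (sub_ne_zero.2 h4.symm))⟩
  have h5 : B (g.1 e) (l e₀) • (y : V) = 0 := by
    rcases h2 with rfl | h2
    · simp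
    · rw [h2, zero_smul]
  convert add_mem (c.hl e) (Submodule.smul_mem _ (B (g.1 e) (l e₀) * s) c.zG) using 1
  simp only [ht, map_add, map_smulₛₗ, smul_eq_mul, LinearMap.sub_apply, LinearMap.smulRight_apply,
    h3, Submodule.coe_sub, Submodule.coe_smul, smul_add, h5]
  module

theorem Cfg.surj (c : Cfg B g.1 E G z l) : Function.Surjective l :=
  LinearMap.range_eq_top.1 ((LinearMap.isUnit_iff_range_eq_top _).1
    ((LinearMap.isUnit_iff_isUnit_det _).2 c.det.isUnit))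

/-- The functional `e ↦ B (g e) y` on `E`. -/
abbrev hf (B : Sesq σ V) (g : End F V) (E : Submodule F V) (y : V) : E →ₗ[F] F :=
  B.flip y ∘ₗ g ∘ₗ E.subtype

variable [Fintype F]

theorem Cfg.stepD (h : UF σ q) (hB : IsEps B 1) (hE : E ≤ perp B E) (c : Cfg B g.1 E G z l)
    (h0 : ∃ e y : E, B (g.1 e) y ≠ 0) (hd : z = 0 → σ (LinearMap.det l) = LinearMap.det l) :
    ∃ G z l, Cfg B g.1 E G z l ∧ LinearMap.det l = 1 := by
  obtain ⟨e, -, he⟩ := h.exists_aniso
    (B := ((B.comp ((g.1 : End F V) ∘ₗ E.subtype)).compl₂ (E.subtype ∘ₗ l) : Sesq σ E))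
    (W := ⊤) fun hh => by
      obtain ⟨e, y, h1⟩ := h0
      obtain ⟨y, rfl⟩ := c.surj y
      exact h1 (hh Submodule.mem_top y Submodule.mem_top)
  change B (g.1 e) (l e) ≠ 0 at he
  have r := c.rel hB hE e e
  have he' := (map_ne_zero σ).2 he
  have hd0 := c.det
  suffices H : ∃ s η : F, η + σ η = s * σ s * B z z ∧
      σ s * B (g.1 e) z + η * B (g.1 e) (l e) = 1 - (LinearMap.det l)⁻¹ by
    obtain ⟨s, η, h1, h2⟩ := H
    have h3 : (σ s • hf B g.1 E z + η • hf B g.1 E (l e)) e = 1 - (LinearMap.det l)⁻¹ := h2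
    obtain ⟨G', z', c'⟩ := c.step hB hE e 0 s η h1 (Or.inl rfl)
      (ψ := σ s • hf B g.1 E z + η • hf B g.1 E (l e)) (fun e => by simp)
      (by rw [h3]; simpa using hd0)
    exact ⟨G', z', _, c', by rw [det_sub_smulRight, h3]; simp [hd0]⟩
  generalize B (g.1 e) (l e) = ν at *
  generalize (LinearMap.det l) = d at *
  rcases c.hz with h1 | h1
  · generalize B (g.1 e) z = ρ at *
    obtain ⟨s, hs⟩ := h.norm_surj (c := -(d⁻¹ / ν + σ (d⁻¹ / ν)))
      (by rw [map_neg, map_add, h.invol, add_comm])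
    refine ⟨s - ρ / ν, (1 - d⁻¹ - σ (s - ρ / ν) * ρ) / ν, ?_, by field_simp; ring⟩
    simp only [map_sub, map_div₀, map_mul, map_one, h.invol, h1] at hs ⊢
    generalize σ d⁻¹ = d' at *
    generalize d⁻¹ = d'' at *
    field_simp at hs ⊢
    linear_combination r - hs
  · have h2 := hd h1
    subst h1
    simp only [map_zero, zero_mul, add_zero, mul_zero, zero_add] at r ⊢
    refine ⟨0, (1 - d⁻¹) / ν, ?_, by field_simp⟩
    simp only [map_sub, map_div₀, map_one, map_inv₀, h2]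
    field_simp
    linear_combination (d - 1) * r

theorem UF.four' (h : UF σ q) : Four F := four_of_card (by
  rw [h.card]; exact Nat.pow_le_pow_left h.two_le 2)

theorem Cfg.stepN (h : UF σ q) (hB : IsEps B 1) (hE : E ≤ perp B E) (c : Cfg B g.1 E G z l)
    (h0 : ∃ e y : E, B (g.1 e) y ≠ 0) {φ : E →ₗ[F] F} (hφ : φ ≠ 0) :
    (∃ (e : E) (ψ : E →ₗ[F] F), φ e ≠ 0 ∧ ψ ≠ 0 ∧ ψ e = 0 ∧
      ∃ G z, Cfg B g.1 E G z (l - ψ.smulRight (l e))) ∨
    ∀ e : E, φ e = 0 → ∃ G z, Cfg B g.1 E G z (l - φ.smulRight (l e)) := by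
  obtain ⟨e₁, y₁, h1⟩ := h0
  have two : ∀ e : E, (∀ e' : E, B (g.1 e') (l e) = 0) → ∀ y : E, B (g.1 e) y = 0 := by
    intro e he y
    obtain ⟨y, rfl⟩ := c.surj y
    have r1 := c.rel hB hE e e
    have r2 := c.rel hB hE e y
    rw [he, map_zero, zero_add, zero_add, mul_eq_zero, map_eq_zero σ, or_self] at r1
    simpa [he, r1] using r2
  have two' : ∀ e : E, (∀ y : E, B (g.1 e) y = 0) → ∀ e' : E, B (g.1 e') (l e) = 0 := by
    intro e he y
    have r1 := c.rel hB hE e e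
    have r2 := c.rel hB hE y e
    rw [he, map_zero, zero_add, zero_add, mul_eq_zero, map_eq_zero σ, or_self] at r1
    simpa [he, r1] using r2
  have mv : ∀ e : E, (∀ e' : E, B (g.1 e') (l e) = 0) → ∀ y : E,
      ∃ G z, Cfg B g.1 E G z (l - (hf B g.1 E y).smulRight (l e)) := fun e he y =>
    c.step hB hE e y 0 0 (by simp) (Or.inr he) (fun e => by simp)
      (by rw [show hf B g.1 E y e = 0 from two e he y]; exact zero_ne_one)
  have mv' : ∀ e : E, φ e ≠ 0 → (∀ e' : E, B (g.1 e') (l e) = 0) →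
      ∃ (e : E) (ψ : E →ₗ[F] F), φ e ≠ 0 ∧ ψ ≠ 0 ∧ ψ e = 0 ∧
        ∃ G z, Cfg B g.1 E G z (l - ψ.smulRight (l e)) := fun e a he =>
    ⟨e, hf B g.1 E y₁, a, DFunLike.ne_iff.2 ⟨e₁, h1⟩, two e he y₁, mv e he y₁⟩
  by_cases H : ∀ φ : E →ₗ[F] F, ∃ e y : E, φ e = 0 ∧ B (g.1 e) y ≠ 0
  · left
    by_cases hρ : hf B g.1 E z = 0
    · have ρ0 : ∀ e : E, B (g.1 e) z = 0 := fun e => LinearMap.congr_fun hρ e
      obtain ⟨s, s0, s1⟩ := h.exists_trace_zero
      let γ : Sesq σ E := s • (B.comp ((g.1 : End F V) ∘ₗ E.subtype)).compl₂ (E.subtype ∘ₗ l)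
      have γ1 : ∀ u v, γ u v = s * B (g.1 u) (l v) := fun _ _ => rfl
      have γ2 : ∀ u v, γ v u = σ (γ u v) := fun u v => by
        have := c.rel hB hE v u
        rw [γ1, γ1, map_mul, s1]
        rw [ρ0] at this
        linear_combination s * this
      obtain ⟨a, b, a1, a2, a3⟩ := h.exists_hyp γ2 fun φ => by
        obtain ⟨e, y, h1, h2⟩ := H φ
        obtain ⟨y, rfl⟩ := c.surj y
        exact ⟨e, y, h1, mul_ne_zero s0 h2⟩
      obtain ⟨e, e1, e2⟩ : ∃ e, γ e e = 0 ∧ φ e ≠ 0 := by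
        by_contra hh
        push Not at hh
        obtain ⟨v, hv⟩ := DFunLike.ne_iff.1 hφ
        have := h.eq_zero_of_iso γ2 a1 a2 a3
          (d := LinearMap.mk₂'ₛₗ (RingHom.id F) σ (fun u v => φ u * σ (φ v)) (by simp [add_mul])
            (by simp [mul_assoc]) (by simp [mul_add]) (by simp [mul_left_comm]))
          (fun v hv => by simp [hh v hv]) (by simp [hh a a1]) v v
        exact hv (by simpa using this)
      by_cases he : ∀ e' : E, B (g.1 e') (l e) = 0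
      · exact mv' e e2 he
      push Not at he
      obtain ⟨e', he⟩ := he
      exact ⟨e, s • hf B g.1 E (l e), e2, DFunLike.ne_iff.2 ⟨e', mul_ne_zero s0 he⟩, e1,
        c.step hB hE e 0 0 s (by simp [s1]) (Or.inl rfl) (fun e => by simp)
          (by rw [show (s • hf B g.1 E (l e)) e = 0 from e1]; exact zero_ne_one)⟩
    · obtain ⟨e', y, a1, a2⟩ := H (hf B g.1 E z)
      change B (g.1 e') z = 0 at a1
      obtain ⟨y, rfl⟩ := c.surj y
      have hζ : B.flip (g.1 e') ∘ₗ E.subtype ∘ₗ l ≠ 0 :=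
        DFunLike.ne_iff.2 ⟨y, fun hh => a2 (hB.refl hh)⟩
      obtain ⟨e, e1, e2, e3, -⟩ := avoid_four h.four' (mt LinearMap.ker_eq_top.1 hρ)
        (mt LinearMap.ker_eq_top.1 hφ) (mt LinearMap.ker_eq_top.1 hζ) (mt LinearMap.ker_eq_top.1 hζ)
      change B (g.1 e) z ≠ 0 at e1
      have e4 : B (g.1 e') (l e) ≠ 0 := fun hh => e3 (hB.refl hh)
      have hz : B z z = 1 := c.hz.resolve_right (by rintro rfl; simp at e1)
      have r := c.rel hB hE e e
      have e5 := (map_ne_zero σ).2 e1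
      have e6 : B (g.1 e) (l e) ≠ 0 := fun hh => by simp [hh, e1] at r
      have e7 := (map_ne_zero σ).2 e6
      obtain ⟨θ, hθ⟩ := h.trace_surj (c := B (g.1 e) (l e) * σ (B (g.1 e) (l e)) /
        (B (g.1 e) z * σ (B (g.1 e) z))) (by rw [map_div₀, h.norm_fixed, h.norm_fixed])
      have θ0 : θ ≠ 0 := by rintro rfl; simp [e1, e6] at hθ
      have θ1 := (map_ne_zero σ).2 θ0
      have e8 : ((-θ⁻¹ * B (g.1 e) (l e) / B (g.1 e) z) • hf B g.1 E z +
          θ⁻¹ • hf B g.1 E (l e)) e = 0 := by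
        change _ * B (g.1 e) z + _ * B (g.1 e) (l e) = 0
        field_simp
        ring
      refine ⟨e, _, e2, DFunLike.ne_iff.2 ⟨e', ?_⟩, e8, c.step hB hE e 0
        (σ (-θ⁻¹ * B (g.1 e) (l e) / B (g.1 e) z)) θ⁻¹ ?_ (Or.inl rfl)
        (fun e => by simp [h.invol]) (by rw [e8]; exact zero_ne_one)⟩
      · change _ * B (g.1 e') z + _ * B (g.1 e') (l e) ≠ 0
        simpa [a1, θ0] using e4
      · simp only [map_div₀, map_mul, map_neg, map_inv₀, h.invol, hz]
        field_simp at hθ ⊢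
        linear_combination -hθ
  · push Not at H
    obtain ⟨φ₁, H⟩ := H
    by_cases c1 : ∃ e, φ₁ e = 0 ∧ φ e ≠ 0
    · obtain ⟨e, e1, e2⟩ := c1
      exact Or.inl (mv' e e2 (two' e fun y => H e y e1))
    push Not at c1
    right
    have v0 : φ₁ e₁ ≠ 0 := fun hh => h1 (H _ _ hh)
    have k : ∀ μ : E →ₗ[F] F, (∀ e, φ₁ e = 0 → μ e = 0) → ∀ e, μ e = φ₁ e / φ₁ e₁ * μ e₁ :=
      fun μ hμ e => by simpa [sub_eq_zero] using hμ (e - (φ₁ e / φ₁ e₁) • e₁) (by simp [v0])
    have k1 : φ e₁ ≠ 0 := fun hh => hφ (LinearMap.ext fun e => by simp [k φ c1 e, hh])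
    intro e he
    have k2 : φ₁ e = 0 := by simpa [he, k1, v0] using k φ c1 e
    have k3 : hf B g.1 E (σ (φ e₁ / B (g.1 e₁) y₁) • y₁ : E) = φ := LinearMap.ext fun v => by
      rw [k φ c1 v, k _ (fun e a => H e _ a) v]
      simp [h.invol, h1]
    exact k3 ▸ mv e (two' e fun y => H e y k2) _

theorem Cfg.stepN' (h : UF σ q) (hB : IsEps B 1) (hE : E ≤ perp B E) (c : Cfg B g.1 E G z l)
    (h0 : ∃ e y : E, B (g.1 e) y ≠ 0) (hk : 2 ≤ finrank F E) :
    ∃ (e : E) (ψ : E →ₗ[F] F), e ≠ 0 ∧ ψ ≠ 0 ∧ ψ e = 0 ∧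
      ∃ G z, Cfg B g.1 E G z (l - ψ.smulRight (l e)) := by
  obtain ⟨-, φ, -, hφ⟩ := exists_ne_zero_pair (F := F) (V := E) (by omega)
  rcases c.stepN h hB hE h0 hφ with ⟨e, ψ, a, b⟩ | H
  · exact ⟨e, ψ, by rintro rfl; simp at a, b⟩
  · have h1 := φ.finrank_range_add_finrank_ker
    have h2 := (LinearMap.range φ).finrank_le
    rw [finrank_self] at h2
    obtain ⟨e, e1, e2⟩ := exists_not_mem_of_finrank_lt (S := ⊥) (T := LinearMap.ker φ)
      (by rw [finrank_bot]; omega)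
    exact ⟨e, φ, e2, hφ, e1, H e e1⟩

theorem Cfg.stepO (h : UF σ q) (hB : IsEps B 1) (hE : E ≤ perp B E) (c : Cfg B g.1 E G z l)
    (h0 : ∃ e y : E, B (g.1 e) y ≠ 0) (hk : 3 ≤ finrank F E) (hd : LinearMap.det l = 1) :
    ∃ G z l, Cfg B g.1 E G z l ∧ LinearMap.det l = 1 ∧ OK l := by
  obtain ⟨e, ψ, a1, a2, a3, G', z', c'⟩ := c.stepN' h hB hE h0 (by omega)
  have a4 : l e ≠ 0 := fun hh => a1 ((LinearMap.injective_iff_surjective.2 c.surj) (by simpa using hh))
  rcases ok_or hk (l := l) a4 a2 with h1 | h1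
  · exact ⟨G, z, l, c, hd, h1⟩
  · exact ⟨G', z', _, c', by simp [det_sub_smulRight, a3, hd], h1⟩

theorem Cfg.stepI (h : UF σ q) (hB : IsEps B 1) (hE : E ≤ perp B E) (c : Cfg B g.1 E G z l)
    (h0 : ∃ e y : E, B (g.1 e) y ≠ 0) (hk : 2 ≤ finrank F E) (hd : LinearMap.det l = 1) :
    ∃ G z l, Cfg B g.1 E G z l ∧ LinearMap.det l = 1 ∧ (l = 1 ∨ Inv l) := by
  by_cases h1 : l = 1 ∨ Inv l
  · exact ⟨G, z, l, c, hd, h1⟩
  rw [not_or, H4.Inv, not_and_or, not_not] at h1
  obtain ⟨h1, h2 | ⟨a, ha⟩⟩ := h1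
  · push Not at h2
    obtain ⟨t, rfl⟩ := h2
    have t1 : t ≠ 1 := by rintro rfl; simp at h1
    obtain ⟨e, ψ, a1, a2, a3, G', z', c'⟩ := c.stepN' h hB hE h0 hk
    have t0 : t ≠ 0 := by
      rintro rfl
      obtain ⟨e', rfl⟩ := c.surj e
      simp at a1
    have hd' : LinearMap.det (t • (1 : End F E) - ψ.smulRight ((t • (1 : End F E)) e)) = 1 := by
      simp only [det_sub_smulRight, a3, hd, sub_zero, mul_one]
    refine ⟨G', z', _, c', hd', Or.inr ⟨(nonscalar_or hk (by simp [t0, a1]) a2).resolve_left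
      fun hh => hh t rfl, fun ⟨a, ha⟩ => ?_⟩⟩
    obtain ⟨s, hs⟩ := ha e
    have e1 := fixed_of_rank_le_one hd' ha
    have e2 := congrArg (t • (1 : End F E) - ψ.smulRight ((t • (1 : End F E)) e)) hs
    rw [map_smul, e1, ← hs] at e2
    simp only [map_sub, LinearMap.sub_apply, LinearMap.smul_apply, Module.End.one_apply,
      LinearMap.smulRight_apply, a3, zero_smul, sub_zero, map_smul] at e2
    have e3 : (t - 1) ^ 2 • e = 0 := by linear_combination (norm := module) e2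
    simp [sub_eq_zero, t1, a1] at e3
  · have e1 := fixed_of_rank_le_one hd ha
    obtain ⟨φ, hl⟩ := exists_transvection_of_rank_le_one ha
    have e2 : ∀ v, l v = v + φ v • a := fun v => by rw [hl]; rfl
    have hφ : φ ≠ 0 := by rintro rfl; exact h1 (LinearMap.ext fun v => by simp [e2])
    have a0 : a ≠ 0 := by rintro rfl; exact h1 (LinearMap.ext fun v => by simp [e2])
    have e3 : φ a = 0 := by simpa [e1, a0] using e2 a
    rcases c.stepN h hB hE h0 hφ with ⟨e, ψ, a1, a2, a3, G', z', c'⟩ | H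
    · have e4 : (l - ψ.smulRight (l e)) e = e + φ e • a := by simp [a3, e2]
      refine ⟨G', z', _, c', by simp [det_sub_smulRight, a3, hd], Or.inr ⟨fun t ht => ?_,
        fun ⟨b, hb⟩ => ?_⟩⟩
      · rw [ht] at e4
        have e5 := congrArg φ e4
        simp only [LinearMap.smul_apply, Module.End.one_apply, map_smul, map_add, e3, smul_eq_mul,
          mul_zero, add_zero, mul_eq_right₀ a1] at e5
        simp [e5, a1, a0] at e4
      · obtain ⟨s, hs⟩ := hb e
        obtain ⟨v, hv⟩ := DFunLike.ne_iff.1 a2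
        obtain ⟨s', hs'⟩ := hb v
        rw [e4, add_sub_cancel_left] at hs
        have e5 := congrArg φ hs
        have e6 := congrArg φ hs'
        have s0 : s ≠ 0 := by rintro rfl; simp [a1, a0] at hs
        simp only [map_smul, e3, smul_eq_mul, mul_zero, zero_eq_mul, s0, false_or] at e5
        simp [e2, e3, e5, a1] at e6
        exact hv e6
    · obtain ⟨G', z', c'⟩ := H a e3
      have e4 : l - φ.smulRight (l a) = 1 := LinearMap.ext fun v => by simp [e1, e2 v]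
      exact ⟨G', z', _, c', by rw [e4, map_one], Or.inl e4⟩

end Cfsg.Agent.H5
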