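import Cfsg.Agent.H5.OreU5

/-! Cyclic isometries stabilising a maximal totally isotropic subspace. -/

set_option autoImplicit false

namespace Cfsg.Agent.H5

open Module Polynomial H4

universe u

variable {F : Type u} [Field F] {σ : F →+* F} {q : ℕ}
variable {V : Type*} [AddCommGroup V] [Module F V] {B : Sesq σ V}

theorem aeval_pstar (g : Isom B) {a : F[X]} (h : a.coeff 0 ≠ 0) (u v : V) :
    B (aeval (g.1 : End F V) (pstar σ a) u) (((g.1 : End F V) ^ a.natDegree) v) =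
      (σ (a.coeff 0))⁻¹ * B u (aeval (g.1 : End F V) a v) := by
  rw [pstar_eq h, map_mul, aeval_C, ← Algebra.smul_def, LinearMap.smul_apply, map_smul,
    LinearMap.smul_apply, smul_eq_mul]
  congr 1
  rw [aeval_eq_sum_range' (n := a.natDegree + 1) (Nat.lt_succ_of_le
    ((reverse_natDegree_le _).trans natDegree_map_le)), aeval_eq_sum_range,
    ← Finset.sum_range_reflect (fun i => a.coeff i • (g.1 : End F V) ^ i)]
  simp only [LinearMap.sum_apply, map_sum, LinearMap.smul_apply, map_smulₛₗ, RingHom.id_apply]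
  refine Finset.sum_congr rfl fun i hi => ?_
  have hi' := Nat.le_of_lt_succ (Finset.mem_range.1 hi)
  rw [coeff_reverse, natDegree_map, revAt_le hi', coeff_map, Nat.add_sub_cancel,
    ← Isom.pow_apply g i u, ← Module.End.mul_apply, ← pow_add, Nat.add_sub_cancel' hi']

theorem pstar_linear {c : F} (h : c * σ c = 1) : pstar σ (X - C c) = X - C c := by
  have h0 : c ≠ 0 := by rintro rfl; simp at h
  rw [(pstar_monic (X_sub_C_ne_zero c)).eq_X_add_C (by rw [natDegree_pstar, natDegree_X_sub_C]),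
    coeff_zero_pstar (monic_X_sub_C c) (by simpa using h0),
    coeff_sub, coeff_X_zero, coeff_C_zero, zero_sub, map_neg σ, inv_neg,
    ← eq_inv_of_mul_eq_one_left h, sub_eq_add_neg, ← C_neg]

theorem pstar_dvd {a b : F[X]} (h : a ∣ b) : pstar σ a ∣ pstar σ b := by
  obtain ⟨c, rfl⟩ := h
  exact ⟨_, pstar_mul _ _⟩

theorem GoodP.coprime {χ : F[X]} (h : GoodP σ χ) {c : F} (hc : c * σ c = 1) :
    IsCoprime χ (X - C c) :=
  ((irreducible_X_sub_C c).coprime_iff_not_dvd.2 fun h1 => (irreducible_X_sub_C c).not_isUnit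
    (h.2.2.1.isUnit_of_dvd' h1 (pstar_linear hc ▸ pstar_dvd h1))).symm

theorem mem_of_coprime {W : End F V} {φ a : F[X]} (h : IsCoprime φ a) {S T : Submodule F V}
    (hT : ∀ w ∈ T, W w ∈ T) (hS : ∀ w ∈ T, aeval W a w ∈ S) {v : V} (hv : v ∈ T)
    (h0 : aeval W φ v = 0) : v ∈ S := by
  obtain ⟨x, y, hxy⟩ := h
  have := congrArg (fun p => aeval W p v) hxy
  simp only [map_add, map_mul, LinearMap.add_apply, Module.End.mul_apply, h0, map_zero, zero_add,
    map_one, Module.End.one_apply] at this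
  rw [← this, aeval_comm_apply]
  exact hS _ (aeval_mem_of_invariant hT y hv)

variable [FiniteDimensional F V]

theorem cyc_of_flag (hB : IsEps B 1) (W : Isom B) {T : Submodule F V} (hT : T ≤ perp B T)
    (hW : ∀ w ∈ T, W.1 w ∈ T) {χ χ₁ χ₂ : F[X]} (hχ : GoodP σ χ) (h12 : χ₁ * χ₂ = χ * pstar σ χ)
    {c : F} {j : ℕ} (hj : j ≤ 1) (hn : 2 * finrank F T + j = finrank F V)
    (hd : χ.natDegree = finrank F T) (h1 : ∀ v, aeval (W.1 : End F V) χ₁ v ∈ perp B T)
    (h2 : ∀ v ∈ perp B T, aeval (W.1 : End F V) ((X - C c) ^ j) v ∈ T)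
    (h3 : ∀ v ∈ T, aeval (W.1 : End F V) χ₂ v = 0)
    (h4 : ∀ φ : F[X], Irreducible φ → φ ∣ χ → nul (W.1 : End F V) φ < 2 * φ.natDegree) :
    Cyc (W.1 : End F V) ∧ LinearMap.charpoly (W.1 : End F V) = χ * pstar σ χ * (X - C c) ^ j := by
  have hm := pstar_monic (σ := σ) hχ.1.ne_zero
  have hc : Cyc (W.1 : End F V) := exists_isCyc_of_nul fun φ p1 p2 => by
    by_cases c1 : φ ∣ χ
    · exact h4 φ p2 c1
    by_cases c2 : φ ∣ pstar σ χ
    · have h0 : φ.coeff 0 ≠ 0 := coeff_zero_ne_zero_of_dvd c2 (by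
        rw [coeff_zero_pstar hχ.1 hχ.2.1]; simpa using hχ.2.1)
      rw [← nul_pstar hB W h0, ← natDegree_pstar (σ := σ) φ]
      exact h4 _ (pstar_irreducible hB.invol p2) (pstar_pstar hB.invol hχ.1 ▸ pstar_dvd c2)
    have c3 : IsCoprime φ (χ₁ * χ₂) := h12 ▸ (p2.coprime_iff_not_dvd.2 c1).mul_right
      (p2.coprime_iff_not_dvd.2 c2)
    have c4 : LinearMap.ker (aeval (W.1 : End F V) φ) ⊔ T ≤ perp B T := sup_le (fun v hv =>
      mem_of_coprime c3.of_mul_right_left (T := ⊤) (fun _ _ => trivial) (fun w _ => h1 w) trivial hv) hT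
    have c5 : LinearMap.ker (aeval (W.1 : End F V) φ) ⊓ T = ⊥ := eq_bot_iff.2 fun v hv =>
      mem_of_coprime c3.of_mul_right_right hW h3 hv.2 hv.1
    have c6 := Submodule.finrank_sup_add_finrank_inf_eq (LinearMap.ker (aeval (W.1 : End F V) φ)) T
    have c7 := Submodule.finrank_mono c4
    have c8 := hB.finrank_perp T
    have c9 := p2.natDegree_pos
    rw [c5, finrank_bot] at c6
    unfold nul
    omega
  obtain ⟨v, hv⟩ := hc
  refine ⟨⟨v, hv⟩, hv.charpoly_eq ((hχ.1.mul hm).mul ((monic_X_sub_C c).pow j)) ?_ ?_⟩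
  · rw [(hχ.1.mul hm).natDegree_mul ((monic_X_sub_C c).pow j), hχ.1.natDegree_mul hm,
      natDegree_pstar, natDegree_pow, natDegree_X_sub_C]
    omega
  · rw [← h12, show χ₁ * χ₂ * (X - C c) ^ j = χ₂ * ((X - C c) ^ j * χ₁) by ring, map_mul, map_mul]
    exact h3 _ (h2 _ (h1 v))

theorem cyc_of_sub (hB : IsEps B 1) (W : Isom B) {T : Submodule F V} (hT : T ≤ perp B T)
    {A : End F T} (hW : ∀ w : T, W.1 w = A w) (hA : Cyc A) (hχ : GoodP σ A.charpoly)
    {c : F} (hc : c * σ c = 1) {j : ℕ} (hj : j ≤ 1) (hn : 2 * finrank F T + j = finrank F V)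
    (h2 : ∀ v ∈ perp B T, aeval (W.1 : End F V) ((X - C c) ^ j) v ∈ T) :
    Cyc (W.1 : End F V) ∧
      LinearMap.charpoly (W.1 : End F V) = A.charpoly * pstar σ A.charpoly * (X - C c) ^ j := by
  have i1 : ∀ (p : F[X]) (w : T), (aeval A p w : V) = aeval (W.1 : End F V) p w := fun p w =>
    intertwine_aeval T.subtype (fun v => (hW v).symm) p w
  have hW' : ∀ w ∈ T, W.1 w ∈ T := fun w hw => (hW ⟨w, hw⟩).symm ▸ (A ⟨w, hw⟩).2
  have h3 : ∀ v ∈ T, aeval (W.1 : End F V) A.charpoly v = 0 := fun v hv => by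
    rw [← i1 _ ⟨v, hv⟩, LinearMap.aeval_self_charpoly]; rfl
  have h1 : ∀ v, aeval (W.1 : End F V) (pstar σ A.charpoly) v ∈ perp B T := fun v w hw => by
    have hw' := symm_mem_of_mapsTo (W.1 ^ A.charpoly.natDegree) (W := T) (fun w hw => by
      rw [LinearEquiv.pow_apply]; exact Set.MapsTo.iterate (f := W.1) hW' _ hw) w hw
    obtain ⟨w, rfl⟩ := (W.1 ^ A.charpoly.natDegree).surjective w
    rw [LinearEquiv.symm_apply_apply] at hw'
    have := aeval_pstar W hχ.2.1 v w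
    rw [h3 _ hw', map_zero, mul_zero, Module.End.pow_apply] at this
    rw [LinearEquiv.pow_apply]
    exact this
  refine cyc_of_flag hB W hT hW' hχ (mul_comm _ _) hj hn A.charpoly_natDegree h1 h2 h3
    fun φ p1 p2 => lt_of_le_of_lt ?_ (hA.nul_lt p1)
  have k : ∀ v, aeval (W.1 : End F V) φ v = 0 → v ∈ T := fun v hv =>
    mem_of_coprime ((hχ.coprime hc).of_isCoprime_of_dvd_left p2).pow_right (Isom.map_perp' W hW') h2
      (mem_of_coprime (hχ.2.2.1.of_isCoprime_of_dvd_left p2) (T := ⊤) (fun _ _ => trivial)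
        (fun w _ => h1 w) trivial hv) hv
  exact LinearMap.finrank_le_finrank_of_injective (f := LinearMap.codRestrict _
    (LinearMap.codRestrict T (Submodule.subtype _) fun v => k v v.2) fun v =>
      Subtype.ext ((i1 _ _).trans v.2)) fun v w hvw =>
        Subtype.ext (congrArg (fun x => (x.1 : V)) hvw)

theorem cyc_of_quot (hB : IsEps B 1) (W : Isom B) {T : Submodule F V} (hT : T ≤ perp B T)
    (hW : ∀ w ∈ T, W.1 w ∈ T) {E : Type*} [AddCommGroup E] [Module F E] [FiniteDimensional F E]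
    (π : V →ₗ[F] E) (hπ : ∀ v, π v = 0 → v ∈ perp B T) {D : End F E} (hD : ∀ v, π (W.1 v) = D (π v))
    (hE : finrank F E = finrank F T) (hA : Cyc D) (hχ : GoodP σ D.charpoly)
    {c : F} (hc : c * σ c = 1) {j : ℕ} (hj : j ≤ 1) (hn : 2 * finrank F T + j = finrank F V)
    (h2 : ∀ v ∈ perp B T, aeval (W.1 : End F V) ((X - C c) ^ j) v ∈ T) :
    Cyc (W.1 : End F V) ∧
      LinearMap.charpoly (W.1 : End F V) = D.charpoly * pstar σ D.charpoly * (X - C c) ^ j := by
  have i1 := intertwine_aeval (f := (W.1 : End F V)) π hD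
  have h1 : ∀ v, aeval (W.1 : End F V) D.charpoly v ∈ perp B T := fun v => hπ _ (by
    rw [i1, LinearMap.aeval_self_charpoly]; rfl)
  have h3 : ∀ v ∈ T, aeval (W.1 : End F V) (pstar σ D.charpoly) v = 0 := fun v hv =>
    hB.nondeg _ fun w => by
      obtain ⟨w, rfl⟩ := (W.1 ^ D.charpoly.natDegree).surjective w
      have := aeval_pstar W hχ.2.1 v w
      rw [hB.refl (h1 w v hv), mul_zero, Module.End.pow_apply] at this
      rw [LinearEquiv.pow_apply]
      exact this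
  refine cyc_of_flag hB W hT hW hχ rfl hj hn (D.charpoly_natDegree.trans hE) h1 h2 h3
    fun φ p1 p2 => lt_of_le_of_lt ?_ (hA.nul_lt p1)
  refine LinearMap.finrank_le_finrank_of_injective (f := LinearMap.codRestrict _
    (π ∘ₗ Submodule.subtype _) fun v => ?_) ((injective_iff_map_eq_zero _).2 fun v hv => ?_)
  · exact (i1 φ v).symm.trans (by rw [show aeval (W.1 : End F V) φ v = 0 from v.2, map_zero])
  · exact Subtype.ext (mem_of_coprime (S := ⊥) (hχ.2.2.1.of_isCoprime_of_dvd_left p2) hW h3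
      (mem_of_coprime ((hχ.coprime hc).of_isCoprime_of_dvd_left p2).pow_right (Isom.map_perp' W hW) h2
        (hπ _ (congrArg Subtype.val hv)) v.2) v.2)

theorem isom_det_norm (hB : IsEps B 1) (y : Isom B) :
    LinearMap.det (y.1 : End F V) * σ (LinearMap.det (y.1 : End F V)) = 1 := by
  rw [← hB.det_adj, hB.adj_eq (g := (y.1.symm : End F V)) fun u v => (Isom.apply_right y u v).symm,
    ← map_mul, ← map_one (LinearMap.det (A := F) (M := V))]
  exact congrArg _ (LinearMap.ext fun v => y.1.apply_symm_apply v)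

/-- `g` is a commutator of isometries of determinant one. -/
def CommU (B : Sesq σ V) (g : Isom B) : Prop :=
  ∃ a b : Isom B, LinearMap.det (a.1 : End F V) = 1 ∧ LinearMap.det (b.1 : End F V) = 1 ∧
    g = a * b * a⁻¹ * b⁻¹

variable [Fintype F]

theorem UF.commU_of_cyc (h : UF σ q) (hB : IsEps B 1) {g W : Isom B} (h1 : Cyc (W.1 : End F V))
    (h2 : Cyc ((g * W).1 : End F V))
    (h3 : LinearMap.charpoly (W.1 : End F V) = LinearMap.charpoly ((g * W).1 : End F V))
    (h4 : LinearMap.det (W.1 : End F V) = 1)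
    (h5 : ∀ μ, ∃ c : End F V, c * W.1 = W.1 * c ∧ LinearMap.det c = μ) : CommU B g := by
  obtain ⟨y, y1, y2⟩ := h.isim_of_sim hB hB W (g * W) (h1.sim h2 h3)
  have y3 := isom_det_norm hB ⟨y, y1⟩
  obtain ⟨d, d0, hd⟩ := h.hilbert90 (b := σ (LinearMap.det (y : End F V))) (by
    rw [h.invol, mul_comm]; exact y3)
  obtain ⟨c, c1, rfl⟩ := h5 d
  obtain ⟨z, z1, z2⟩ := exists_isom_of_cyc hB W h1.choose_spec c1 d0
  have z3 : LinearMap.det (z.1 : End F V) = σ (LinearMap.det (y : End F V)) :=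
    mul_right_cancel₀ ((map_ne_zero σ).2 d0) (by rw [z2, mul_comm, ← hd])
  refine ⟨⟨y, y1⟩ * z, W, ?_, h4, ?_⟩
  · change LinearMap.det ((y : End F V) ∘ₗ (z.1 : End F V)) = 1
    rw [LinearMap.det_comp, z3]; exact y3
  · rw [eq_mul_inv_iff_mul_eq, eq_mul_inv_iff_mul_eq]
    exact Subtype.ext (LinearEquiv.ext fun v => ((congrArg y (z1 v)).trans (y2 _)).symm)

theorem exists_commute_det_simple {f : End F V} {π ψ : F[X]} (hπ : Irreducible π)
    (hc : f.charpoly = π * ψ) (h : IsCoprime π ψ) (μ : F) :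
    ∃ c : End F V, c * f = f * c ∧ LinearMap.det c = μ := by
  obtain ⟨s, hs⟩ := exists_hasType f
  have h2 : π ∣ chi s := by rw [← hs.charpoly_eq, hc]; exact dvd_mul_right _ _
  obtain ⟨a, ha, h3⟩ := hπ.prime.exists_mem_multiset_dvd h2
  obtain ⟨z, hz, rfl⟩ := Multiset.mem_map.1 ha
  have hz' := hs.good z hz
  have h4 := hπ.associated_of_dvd hz'.2.1 (hπ.prime.dvd_of_dvd_pow h3)
  have h7 : z.1 ^ z.2 ∣ π * ψ := by
    rw [← hc, hs.charpoly_eq]
    exact Multiset.dvd_prod ha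
  have h8 : z.2 = 1 := by
    by_contra hh
    have h9 : π * π ∣ π * ψ := ((mul_dvd_mul h4.dvd h4.dvd).trans (by
      rw [← pow_two]; exact pow_dvd_pow _ (by have := hz'.2.2; omega))).trans h7
    exact hπ.not_isUnit (h.isUnit_of_dvd ((mul_dvd_mul_iff_left hπ.ne_zero).1 h9))
  simpa [h8] using hs.exists_commute_det hz μ

theorem UF.commU_scalar (h : UF σ q) (hB : IsEps B 1) (hV : 0 < finrank F V) {g : Isom B} {ζ : F}
    (hg : (g.1 : End F V) = ζ • 1) (hd : LinearMap.det (g.1 : End F V) = 1) : CommU B g := by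
  have hζ : ζ ^ finrank F V = 1 := by simpa [hg] using hd
  obtain ⟨p, hp⟩ := CharP.exists F
  have hpp : Fact p.Prime := ⟨(CharP.char_is_prime F p)⟩
  obtain ⟨e, m, hm, hn⟩ := Nat.exists_eq_pow_mul_and_not_dvd hV.ne' p hpp.out.ne_one
  have hm0 : 0 < m := Nat.pos_of_ne_zero (by rintro rfl; exact hm (dvd_zero _))
  set c : F := (-1) ^ (finrank F V + 1) with hc'
  have hc : c ^ p ^ e = c := by
    rw [← pow_mul, mul_comm, pow_mul, neg_one_pow_char_pow]
  have hc0 : c ≠ 0 := pow_ne_zero _ (neg_ne_zero.2 one_ne_zero)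
  have hc1 : σ c = c := by simp [hc']
  have hc2 : c * c = 1 := by rw [hc', ← mul_pow]; simp
  have hχ : (X ^ finrank F V - C c : F[X]) = (X ^ m - C c) ^ p ^ e := by
    rw [sub_pow_char_pow, ← pow_mul, ← map_pow, hc, mul_comm, ← hn]
  have m1 : (X ^ finrank F V - C c : F[X]).Monic := monic_X_pow_sub_C c hV.ne'
  have m2 : (X ^ finrank F V - C c : F[X]).coeff 0 = -c := by simp [coeff_X_pow, hV.ne]
  have := m1.finite_adjoinRoot
  obtain ⟨B₀, hB₀, g₀, hg₀⟩ := h.exists_form_mulX m1 (by rw [m2]; simpa using hc0) (by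
    rw [pstar_eq (by rw [m2]; simpa using hc0), m2, Polynomial.map_sub, Polynomial.map_pow, map_X,
      map_C, hc1, sub_eq_add_neg, ← C_neg, reverse_add_C, ← mul_one (X ^ finrank F V), reverse_X_pow_mul,
      ← C_1, reverse_C, C_1, mul_one, natDegree_X_pow, map_neg σ, hc1, mul_add, ← mul_assoc, ← C_mul,
      inv_mul_cancel₀ (neg_ne_zero.2 hc0), inv_neg, ← eq_inv_of_mul_eq_one_left hc2, C_1, one_mul,
      mul_one, add_comm])
  obtain ⟨ε, hε⟩ := exists_isometry (h.good hB₀) (h.good hB) (by rw [H4.finrank_adjoinRoot]; simp)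
  let b := Isom.congr ε hε g₀
  have s1 : Sim (mulX (X ^ finrank F V - C c)) (b.1 : End F V) := hg₀ ▸ ⟨ε, fun v => by simp [b]⟩
  obtain ⟨v, b2⟩ := s1.exists_isCyc ⟨_, isCyc_mulX (X ^ finrank F V - C c)⟩
  have b1 : LinearMap.charpoly (b.1 : End F V) = X ^ finrank F V - C c := by
    rw [← s1.charpoly_eq, charpoly_mulX m1]
  have hζ0 : ζ ≠ 0 := by rintro rfl; simp [hV.ne'] at hζ
  have e1 : ((g * b).1 : End F V) = ζ • (b.1 : End F V) :=
    LinearMap.ext fun v => LinearMap.congr_fun hg _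
  have b3 : H4.IsCyc (ζ • (b.1 : End F V) : End F V) v :=
    isCyc_iff.2 fun S h1 h2 => isCyc_iff.1 b2 S h1 fun w hw => (S.smul_mem_iff hζ0).1 (h2 w hw)
  have b4 : LinearMap.charpoly (ζ • (b.1 : End F V) : End F V) = X ^ finrank F V - C c :=
    b3.charpoly_eq m1 (by simp) (by
      have := LinearMap.aeval_self_charpoly (b.1 : End F V)
      rw [b1] at this
      simp only [map_sub, map_pow, aeval_X, aeval_C, _root_.smul_pow, hζ, one_smul] at this ⊢
      exact LinearMap.congr_fun this v)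
  refine h.commU_of_cyc hB (W := b) ⟨v, b2⟩ (e1 ▸ ⟨v, b3⟩) (by rw [e1, b1, b4]) ?_ fun μ => ?_
  · rw [det_eq_charpoly, b1, m2, ← neg_one_mul c, ← mul_assoc, ← pow_succ, hc2]
  have hσ := monic_X_pow_sub_C c hm0.ne'
  have := finite_adjoinRoot hσ.ne_zero
  obtain ⟨ν, rfl⟩ := (bijective_iterateFrobenius F p e).2 μ
  obtain ⟨c', h1, h2⟩ := exists_commute_det_end (f := mulX (X ^ m - C c))
    (by rw [H4.finrank_adjoinRoot, natDegree_X_pow_sub_C]; exact hm0)
    (squarefree_X_pow_sub_C p ((hpp.out.coprime_iff_not_dvd.2 hm).symm) hc0)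
    ((aeval_mulX_eq_zero_iff _ _).2 dvd_rfl) ν
  obtain ⟨r, rfl⟩ := (isCyc_mulX _).exists_eq_aeval (c := c') fun x => LinearMap.congr_fun h1 x
  refine ⟨aeval (b.1 : End F V) r, ?_, ?_⟩
  · simpa using congrArg (aeval (b.1 : End F V)) (mul_comm r X)
  · rw [det_aeval_of_charpoly_eq_pow (f := mulX (X ^ m - C c)) (j := p ^ e)
      (by rw [b1, charpoly_mulX hσ, hχ]), h2, iterateFrobenius_def]

end Cfsg.Agent.H5
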