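import Cfsg.Agent.H5.OreU6

/-! Ore's conjecture for the special unitary groups. -/

set_option autoImplicit false

namespace Cfsg.Agent.H5

open Module Polynomial H4

universe u

variable {F : Type u} [Field F] {σ : F →+* F} {q : ℕ}
variable {V : Type*} [AddCommGroup V] [Module F V] {B : Sesq σ V}
variable {g : Isom B} {E G : Submodule F V} {z : V} {l : End F E}

theorem Cfg.form (hB : IsEps B 1) (c : Cfg B g.1 E G z l) {u v : V} (hu : u ∈ perp B G)
    (hv : v ∈ perp B G) : B u v = B u z * σ (B v z) := by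
  obtain ⟨a, ha, _, hb, rfl⟩ := Submodule.mem_sup.1 (c.sp hv)
  obtain ⟨s, rfl⟩ := Submodule.mem_span_singleton.1 hb
  rcases c.hz with h | rfl
  · simp [hu a ha, hB.refl (c.zG a ha), h, mul_comm]
  · simp [hu a ha]

theorem proj_eq_zero {P Q : Submodule F V} (h : IsCompl P Q) {π : V →ₗ[F] P}
    (h2 : ∀ v, v - π v ∈ Q) {v : V} (hv : v ∈ Q) : π v = 0 :=
  Subtype.ext (Submodule.disjoint_def.1 h.disjoint _ (π v).2 (by simpa using sub_mem hv (h2 v)))

variable [FiniteDimensional F V]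

theorem det_of_compl {P Q : Submodule F V} (h : IsCompl P Q) {T : End F V} {A : End F P}
    {D : End F Q} (hA : ∀ p : P, T p = A p) (hD : ∀ c : Q, T c - D c ∈ P) :
    LinearMap.det T = LinearMap.det A * LinearMap.det D := by
  obtain ⟨Z, hZ⟩ := sim_tri_compl h hA hD
  rw [← hZ.det_eq, det_tri]

theorem det_eq_of_sub {P : Submodule F V} {T T' : End F V} (h1 : ∀ p ∈ P, T p = p)
    (h2 : ∀ p ∈ P, T' p = p) (h3 : ∀ v, T v - T' v ∈ P) : LinearMap.det T = LinearMap.det T' := by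
  obtain ⟨Q, hQ⟩ := P.exists_isCompl
  obtain ⟨π, -, h4⟩ := exists_proj hQ.symm
  rw [det_of_compl hQ (A := 1) (D := π ∘ₗ T' ∘ₗ Q.subtype) (fun p => h2 p p.2) fun c => h4 _,
    det_of_compl hQ (A := 1) (D := π ∘ₗ T' ∘ₗ Q.subtype) (fun p => h1 p p.2) fun c => by
      simpa using add_mem (h3 c) (h4 (T' c))]

theorem Cfg.finrank_eq (hB : IsEps B 1) (c : Cfg B g.1 E G z l) : finrank F G = finrank F E := by
  have h1 := hB.finrank_perp G
  have h2 := Submodule.finrank_add_eq_of_isCompl c.co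
  omega

theorem Cfg.det_real (hB : IsEps B 1) (hE : E ≤ perp B E) (c : Cfg B g.1 E G 0 l)
    (hg : LinearMap.det (g.1 : End F V) = 1) : σ (LinearMap.det l) = LinearMap.det l := by
  have hG : perp B G = G := le_antisymm (by simpa using c.sp) c.hG
  have hE' : perp B E = E := by
    have h1 := hB.finrank_perp G
    have h2 := hB.finrank_perp E
    have h3 := c.finrank_eq hB
    rw [hG] at h1
    exact (Submodule.eq_of_le_of_finrank_eq hE (by omega)).symm
  obtain ⟨π, p1, p2⟩ := exists_proj c.co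
  set P : End F V := E.subtype ∘ₗ π with hP
  have q1 : ∀ v, v - P v ∈ perp B G := p2
  have q2 : ∀ v ∈ perp B G, P v = 0 := fun v hv => congrArg Subtype.val (proj_eq_zero c.co p2 hv)
  have q3 : ∀ e ∈ E, P e = e := fun e he => congrArg Subtype.val (p1 ⟨e, he⟩)
  have q4 : ∀ w ∈ perp B G, hB.adj P w = w := fun w hw => hB.ext_left fun v => by
    rw [hB.adj_left, eq_comm, ← sub_eq_zero, ← map_sub]
    exact hw _ (hG ▸ q1 v)
  have q5 : ∀ e ∈ E, hB.adj P e = 0 := fun e he => hB.nondeg _ fun v => by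
    rw [hB.adj_left]; exact hE he _ (π v).2
  have q6 : ∀ v, v - hB.adj P v ∈ E := fun v => hE' ▸ fun e he => by simp [hB.adj_left, q3 e he]
  have d1 : LinearMap.det (P * (g.1 : End F V) * P + hB.adj P) = LinearMap.det l := by
    rw [det_of_compl c.co.symm (A := 1) (D := l) (fun p => by simp [q2 _ p.2, q4 _ p.2]) fun e => by
      simpa [q3 _ e.2, q5 _ e.2] using sub_mem (c.hl e) (q1 (g.1 e))]
    simp
  have d2 : LinearMap.det ((g.1 : End F V) * P + hB.adj P) =
      LinearMap.det (P * (g.1 : End F V) * P + hB.adj P) :=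
    det_eq_of_sub (P := perp B G) (fun p hp => by simp [q2 p hp, q4 p hp])
      (fun p hp => by simp [q2 p hp, q4 p hp]) fun v => by simpa using q1 _
  have d3 : LinearMap.det (P + (g.1.symm : End F V) * hB.adj P) =
      LinearMap.det (P + hB.adj P * (g.1.symm : End F V) * hB.adj P) :=
    det_eq_of_sub (P := E) (fun p hp => by simp [q3 p hp, q5 p hp])
      (fun p hp => by simp [q3 p hp, q5 p hp]) fun v => by simpa using q6 _
  have d4 : hB.adj (P * (g.1 : End F V) * P + hB.adj P) = P + hB.adj P * (g.1.symm : End F V) * hB.adj P :=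
    hB.adj_eq fun u v => by
      simp [hB.adj_left, hB.adj_right, ← Isom.apply_right, add_comm]
  rw [← d1, ← hB.det_adj, d4, ← d3, ← d2, show (g.1 : End F V) * P + hB.adj P =
    (g.1 : End F V) * (P + (g.1.symm : End F V) * hB.adj P) from LinearMap.ext fun v => by simp,
    map_mul, hg, one_mul]

theorem isCompl_of_iso (hB : IsEps B 1) (hE : E ≤ perp B E) (hG : G ≤ perp B G) (hd : Disjoint G E)
    (h1 : finrank F G = finrank F E) (h2 : finrank F V < 2 * finrank F G + 2) :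
    IsCompl E (perp B G) := by
  have := hB.finrank_perp G
  exact (Submodule.isCompl_iff_disjoint _ _ (by omega)).2 (Submodule.disjoint_def.2 fun v v1 v2 =>
    Submodule.disjoint_def.1 hd v (mem_of_iso hB hG h2 v2 (hE v1 v v1)) v1)

theorem exists_norm_one (hB : IsEps B 1) (W : Isom B) (hW : ∀ w ∈ G, W.1 w ∈ G)
    (zG : z ∈ perp B G) (hz : B z z = 1 ∨ z = 0) (hG : G ≤ perp B G)
    (sp : perp B G ≤ G ⊔ Submodule.span F {z}) :
    ∃ c : F, c * σ c = 1 ∧ ∀ v ∈ perp B G, W.1 v - c • v ∈ G := by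
  rcases hz with hz | rfl
  · obtain ⟨a, ha, _, hb, h⟩ := Submodule.mem_sup.1 (sp (Isom.map_perp' W hW z zG))
    obtain ⟨s, rfl⟩ := Submodule.mem_span_singleton.1 hb
    refine ⟨s, ?_, fun v hv => ?_⟩
    · have := W.2 z z
      rw [← h] at this
      simpa [hG ha a ha, zG a ha, hB.refl (zG a ha), hz, mul_comm] using this
    · obtain ⟨b, hb, _, hb', rfl⟩ := Submodule.mem_sup.1 (sp hv)
      obtain ⟨t, rfl⟩ := Submodule.mem_span_singleton.1 hb'
      rw [map_add, map_smul, ← h]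
      convert add_mem (sub_mem (hW b hb) (G.smul_mem s hb)) (G.smul_mem t ha) using 1
      module
  · have : ∀ v ∈ perp B G, v ∈ G := fun v hv => by simpa using sp hv
    exact ⟨1, by simp, fun v hv => sub_mem (hW v (this v hv)) (G.smul_mem _ (this v hv))⟩

theorem aeval_pow_mem (hB : IsEps B 1) {W : End F V} (hG : G ≤ perp B G) {c : F} {j : ℕ}
    (hj : j ≤ 1) (hn : 2 * finrank F G + j = finrank F V) (h : ∀ v ∈ perp B G, W v - c • v ∈ G) :
    ∀ v ∈ perp B G, aeval W ((X - C c) ^ j) v ∈ G := fun v hv => by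
  have := hB.finrank_perp G
  rcases Nat.le_one_iff_eq_zero_or_eq_one.1 hj with rfl | rfl
  · simpa using (Submodule.eq_of_le_of_finrank_eq hG (by omega)).symm.le hv
  · simpa [Algebra.algebraMap_eq_smul_one] using h v hv

theorem Cfg.exists_isom (hB : IsEps B 1) (hE : E ≤ perp B E) (cf : Cfg B g.1 E G z l)
    {A : End F E} (hA : LinearMap.det A ≠ 0) {c : F} (hc : c * σ c = 1) :
    ∃ (W : Isom B) (π : V →ₗ[F] E), (∀ e : E, W.1 e = A e) ∧ (∀ v ∈ perp B E, W.1 v - c • v ∈ E) ∧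
      (∀ w ∈ G, (g * W).1 w ∈ G) ∧ (∀ v, π v = 0 → v ∈ perp B G) ∧
      ∀ v, π ((g * W).1 v) = (l * A) (π v) := by
  have p : ∀ v, v ∈ perp B (G.comap (g.1 : End F V)) ↔ g.1 v ∈ perp B G := fun v =>
    ⟨fun h w hw => by rw [Isom.apply_left]; exact h _ (by simpa using hw),
      fun h w hw => by rw [← g.2]; exact h _ hw⟩
  obtain ⟨π, p1, p2⟩ := exists_proj cf.co
  have p3 : ∀ v ∈ perp B G, π v = 0 := fun v hv => proj_eq_zero cf.co p2 hv
  have p4 : ∀ e : E, π (g.1 e) = l e := fun e => by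
    simpa [sub_eq_zero, p1] using p3 _ (cf.hl e)
  obtain ⟨l', l1, l2, -⟩ := exists_inv_of_det cf.det
  obtain ⟨A', a1, a2, -⟩ := exists_inv_of_det hA
  set π' : V →ₗ[F] E := l' ∘ₗ π ∘ₗ (g.1 : End F V) with hπ'
  have r1 : ∀ e : E, π' e = e := fun e => by
    simpa [hπ', p4] using LinearMap.congr_fun l2 e
  have r2 : ∀ v, g.1 (v - π' v) ∈ perp B G := fun v => by
    have : l (π' v) = π (g.1 v) := LinearMap.congr_fun l1 _
    simpa [this] using sub_mem (p2 (g.1 v)) (cf.hl (π' v))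
  set d := hB.adj (E.subtype ∘ₗ A' ∘ₗ π') with hd
  have d1 : ∀ u v, B (d u) v = B u (A' (π' v)) := hB.adj_left _
  have d2 : ∀ u, g.1 (d u) ∈ G := fun u => by
    refine (hB.perp_perp (G.comap (g.1 : End F V))).le (fun w hw => ?_ : d u ∈ _)
    simp [d1, hπ', p3 _ ((p w).1 hw)]
  have d3 : ∀ u ∈ perp B E, d u = 0 := fun u hu => hB.nondeg _ fun v => (d1 u v).trans (hu _ (A' _).2)
  have d4 : ∀ u (e : E), B (d u) (A e) = B u e := fun u e => by
    rw [d1, r1, show A' (A e) = e from LinearMap.congr_fun a2 e]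
  have d5 : ∀ u v, g.1 v ∈ perp B G → B v (d u) = 0 := fun u v hv => by
    rw [← g.2]; exact hv _ (d2 u)
  have z1 : ∀ e : E, B e z = 0 := fun e => hB.refl (cf.zE _ e.2)
  have z2 : ∀ e : E, B z e = 0 := fun e => cf.zE _ e.2
  have z3 : ∀ e e' : E, B e e' = 0 := fun e e' => hE e.2 _ e'.2
  have z4 : ∀ v, B v z * B z z = B v z := fun v => by rcases cf.hz with h | h <;> simp [h]
  set W : End F V := E.subtype ∘ₗ A ∘ₗ π + (B.flip z).smulRight (c • (z - π' z)) + d with hW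
  have w1 : ∀ v, W v = A (π v) + B v z • c • (z - π' z) + d v := fun _ => rfl
  have w2 : ∀ u v, B (W u) (W v) = B u v := fun u v => by
    have e1 := cf.form hB (p2 u) (p2 v)
    have e2 := d5 v _ (r2 z)
    have e3 := hB.refl (d5 u _ (r2 z))
    have e4 := d5 v _ (cf.hG (d2 u))
    have e5 : B (A (π u)) (d v) = B (π u) v := by rw [hB.herm, d4, ← hB.herm]
    rw [w1, w1]
    generalize hz' : z - π' z = z' at *
    have e6 : ∀ e : E, B e z' = 0 := fun e => by simp [← hz', z1, z3]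
    have e7 : ∀ e : E, B z' e = 0 := fun e => hB.refl (e6 e)
    have e8 : B z' z' = B z z := by simp [← hz', z1, z2, z3]
    simp only [map_add, map_sub, LinearMap.add_apply, LinearMap.sub_apply, map_smulₛₗ,
      LinearMap.smul_apply, smul_eq_mul, RingHom.id_apply, z1, z3, d4, e2, e3, e4, e5, e6, e7,
      e8, map_zero] at e1 ⊢
    linear_combination -e1 + σ (B v z) * z4 u + σ (B v z) * B u z * B z z * hc
  refine ⟨hB.toIsom W w2, π, fun e => ?_, fun v hv => ?_, fun w hw => ?_,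
    fun v hv => by simpa [hv] using p2 v, fun v => ?_⟩
  · simp [w1, p1, z1, d3 _ (hE e.2)]
  · obtain ⟨a, ha, _, hb, h⟩ := Submodule.mem_sup.1 (cf.sp (p2 v))
    obtain ⟨s, rfl⟩ := Submodule.mem_span_singleton.1 hb
    have a0 : a = 0 := hB.nondeg _ fun y => by
      obtain ⟨y1, y2, rfl⟩ := exists_add_of_isCompl cf.co y
      rw [map_add, hB.refl (y2.2 a ha), add_zero, eq_sub_of_add_eq h]
      simp [hv _ y1.2, z2, z3]
    have h1 : v = π v + s • z := by rw [← zero_add (s • z), ← a0, h]; simp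
    have h2 : B v z • z = s • z := by
      rw [h1]; rcases cf.hz with h | h <;> simp [h, z1]
    rw [IsEps.toIsom_apply, w1, d3 v hv, smul_comm, smul_sub, h2]
    convert sub_mem (A (π v)).2 (E.smul_mem c (add_mem (E.smul_mem (B v z) (π' z).2) (π v).2)) using 1
    nth_rewrite 3 [h1]
    module
  · change g.1 (W w) ∈ G
    simpa [w1, p3 _ (cf.hG hw), hB.refl (cf.zG w hw)] using d2 w
  · change π (g.1 (W v)) = _
    simp only [w1, map_add, map_smul, p4, p3 _ (r2 z), p3 _ (cf.hG (d2 v))]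
    simp

variable [Fintype F]

theorem Cfg.commU (h : UF σ q) (hB : IsEps B 1) (hE : E ≤ perp B E) (cf : Cfg B g.1 E G z l)
    (hg : LinearMap.det (g.1 : End F V) = 1) {j : ℕ} (hj : j ≤ 1)
    (hn : 2 * finrank F E + j = finrank F V) {χ : F[X]} (hχ : GoodP σ χ)
    (h0 : j = 1 ∨ σ (χ.coeff 0) = χ.coeff 0) (hf : Fac l χ) : CommU B g := by
  obtain ⟨A, a1, rfl, a2, a3⟩ := hf
  have k0 := hχ.2.1
  have k1 := (map_ne_zero σ).2 k0
  have hc : σ (A.charpoly.coeff 0) / A.charpoly.coeff 0 *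
      σ (σ (A.charpoly.coeff 0) / A.charpoly.coeff 0) = 1 := by
    rw [map_div₀, h.invol]; field_simp
  obtain ⟨W, π, w1, w2, w3, w4, w5⟩ := cf.exists_isom hB hE (A := A)
    (by rw [det_eq_charpoly]; simpa using k0) hc
  have hk := cf.finrank_eq hB
  obtain ⟨c, c1, c2⟩ := exists_norm_one hB (g * W) w3 cf.zG cf.hz cf.hG cf.sp
  obtain ⟨b1, b2⟩ := cyc_of_sub hB W hE w1 a1 hχ hc hj hn (aeval_pow_mem hB hE hj hn w2)
  obtain ⟨b3, b4⟩ := cyc_of_quot hB (g * W) cf.hG w3 π w4 w5 hk.symm a2 (a3 ▸ hχ) c1 hj (hk ▸ hn)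
    (aeval_pow_mem hB cf.hG hj (hk ▸ hn) c2)
  rw [a3] at b4
  have dd : ∀ (T : End F V) (c : F), T.charpoly = A.charpoly * pstar σ A.charpoly * (X - C c) ^ j →
      LinearMap.det T = A.charpoly.coeff 0 / σ (A.charpoly.coeff 0) * c ^ j := fun T c hT => by
    rw [det_eq_charpoly, hT, mul_coeff_zero, mul_coeff_zero, coeff_zero_pstar hχ.1 k0, ← hn,
      coeff_zero_eq_eval_zero ((X - C c) ^ j)]
    simp only [eval_pow, eval_sub, eval_X, eval_C, zero_sub, neg_pow c, pow_add, pow_mul]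
    have : ((-1 : F) ^ j) * (-1) ^ j = 1 := by rw [← mul_pow]; simp
    linear_combination (A.charpoly.coeff 0 / σ (A.charpoly.coeff 0) * c ^ j) * this
  have e1 : LinearMap.det (W.1 : End F V) = 1 := by
    rw [dd _ _ b2]
    rcases h0 with rfl | h0
    · field_simp
    · simp [h0, k0]
  have e2 : LinearMap.det ((g * W).1 : End F V) = 1 := by
    change LinearMap.det ((g.1 : End F V) ∘ₗ (W.1 : End F V)) = 1
    rw [LinearMap.det_comp, hg, e1, mul_one]
  obtain ⟨p, ψ, p1, p2, p3⟩ := hχ.2.2.2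
  have p4 : p ∣ A.charpoly := ⟨_, p2⟩
  refine h.commU_of_cyc hB b1 b3 ?_ e1 (exists_commute_det_simple p1
    (ψ := ψ * pstar σ A.charpoly * (X - C _) ^ j) (by rw [b2, ← mul_assoc, ← mul_assoc, ← p2])
    ((p3.mul_right (hχ.2.2.1.of_isCoprime_of_dvd_left p4)).mul_right
      ((hχ.coprime hc).of_isCoprime_of_dvd_left p4).pow_right))
  have e3 := mul_left_cancel₀ (div_ne_zero k0 k1) ((dd _ _ b2).symm.trans (e1.trans
    (e2.symm.trans (dd _ _ b4))))
  rw [b2, b4]
  rcases Nat.le_one_iff_eq_zero_or_eq_one.1 hj with rfl | rfl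
  · simp
  · rw [pow_one, pow_one] at e3; rw [e3]

theorem UF.exists_cfg (h : UF σ q) (hB : IsEps B 1) (hV : 2 ≤ finrank F V) (g : Isom B)
    (hg : ∀ c : F, (g.1 : End F V) ≠ c • 1) : ∃ (E G : Submodule F V) (z : V) (l : End F E),
      E ≤ perp B E ∧ finrank F E = finrank F V / 2 ∧ (∃ e y : E, B (g.1 e) y ≠ 0) ∧
      Cfg B g.1 E G z l := by
  obtain ⟨e, e1, e2⟩ := h.exists_iso_ne hB hV hg
  have e0 : e ≠ 0 := by rintro rfl; simp at e2
  obtain ⟨E, E1, E2, -, -, E3⟩ := h.exists_ext hB (A₁ := ⊥) (A₂ := ⊥) bot_le bot_le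
    (k := finrank F V / 2) (by omega) (finrank F V / 2 - 1) (Submodule.span F {e})
    (Submodule.span_le.2 (by simpa [mem_perp_span] using e1)) disjoint_bot_right disjoint_bot_right
    (by rw [finrank_span_singleton e0]; omega)
  obtain ⟨G, -, G1, G2, G3, G4⟩ := h.exists_ext hB (A₁ := E) (A₂ := E.map (g.1 : End F V)) E2
    (by rintro _ ⟨a, ha, rfl⟩ _ ⟨b, hb, rfl⟩; exact (g.2 a b).trans (E2 ha b hb))
    (k := finrank F V / 2) (by omega) (finrank F V / 2) ⊥ bot_le disjoint_bot_left disjoint_bot_left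
    (by simp)
  have c1 := isCompl_of_iso hB E2 G1 G2 (by omega) (by omega)
  have c2 := isCompl_of_iso hB G1 E2 G2.symm (by omega) (by omega)
  obtain ⟨π, -, p2⟩ := exists_proj c1
  have he : e ∈ E := E1 (Submodule.mem_span_singleton_self e)
  suffices H : ∃ z, z ∈ perp B E ∧ z ∈ perp B G ∧ (B z z = 1 ∨ z = 0) ∧
      perp B G ≤ G ⊔ Submodule.span F {z} by
    obtain ⟨z, z1, z2, z3, z4⟩ := H
    refine ⟨E, G, z, π ∘ₗ (g.1 : End F V) ∘ₗ E.subtype, E2, E3, ⟨⟨e, he⟩, ⟨e, he⟩, e2⟩,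
      G1, c1, z1, z2, z3, z4, fun e => p2 _, ((LinearMap.isUnit_iff_isUnit_det _).1
        ((LinearMap.isUnit_iff_ker_eq_bot _).2 (eq_bot_iff.2 fun v hv => ?_))).ne_zero⟩
    have h1 : g.1 v ∈ perp B G := by simpa [show π (g.1 v) = 0 from hv] using p2 (g.1 v)
    simpa using Submodule.disjoint_def.1 G3 _ (mem_of_iso hB G1 (by omega) h1
      ((g.2 _ _).trans (E2 v.2 _ v.2))) ⟨v, v.2, rfl⟩
  by_cases h1 : perp B G ≤ G
  · exact ⟨0, zero_mem _, zero_mem _, Or.inr rfl, h1.trans le_sup_left⟩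
  obtain ⟨v, v1, v2⟩ := SetLike.not_le_iff_exists.1 h1
  obtain ⟨a, b, rfl⟩ := exists_add_of_isCompl c2 v
  have b1 : (b : V) ∈ perp B G := by simpa using sub_mem v1 (G1 a.2)
  obtain ⟨s, hs⟩ := h.exists_smul_unit hB.herm (w := (b : V))
    (fun hh => v2 (add_mem a.2 (mem_of_iso hB G1 (by omega) b1 hh))) (map_one σ)
  have b2 := Submodule.smul_mem _ s b1
  have := hB.finrank_perp G
  refine ⟨s • b, Submodule.smul_mem _ s b.2, b2, Or.inl hs, (Submodule.eq_of_le_of_finrank_le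
    (sup_le G1 ((Submodule.span_singleton_le_iff_mem _ _).2 b2)) ?_).ge⟩
  rw [finrank_sup_span fun hh => one_ne_zero (hs.symm.trans (b2 _ hh))]
  omega

theorem UF.commU (h : UF σ q) (hB : IsEps B 1) (hV : 3 ≤ finrank F V)
    (hq : ¬ (finrank F V = 3 ∧ q = 2)) (g : Isom B) (hg : LinearMap.det (g.1 : End F V) = 1) :
    CommU B g := by
  by_cases hs : ∃ c : F, (g.1 : End F V) = c • 1
  · exact h.commU_scalar hB (by omega) hs.choose_spec hg
  obtain ⟨E, G, z, l, hE, hk, h0, cf⟩ := h.exists_cfg hB (by omega) g (not_exists.1 hs)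
  obtain ⟨G, z, l, cf, hl⟩ := cf.stepD h hB hE h0 (by rintro rfl; exact cf.det_real hB hE hg)
  have hj : finrank F V % 2 ≤ 1 := by omega
  have hn : 2 * finrank F E + finrank F V % 2 = finrank F V := by omega
  by_cases k1 : finrank F E = 1
  · obtain ⟨χ, a1, a2⟩ := h.facC (fun hh => hq ⟨by omega, hh⟩) k1
    exact cf.commU h hB hE hg hj hn a1 (Or.inl (by omega)) (eq_one_of_finrank_eq_one k1 hl ▸ a2)
  by_cases k2 : finrank F E = 2 ∨ (finrank F E = 3 ∧ q = 2)
  · obtain ⟨G, z, l, cf, hl, h1⟩ := cf.stepI h hB hE h0 (by omega) hl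
    obtain ⟨χ, a1, a2, a3⟩ := h.facA k2 hl h1
    exact cf.commU h hB hE hg hj hn a1 (Or.inr a2) a3
  · obtain ⟨G, z, l, cf, hl, h1⟩ := cf.stepO h hB hE h0 (by omega) hl
    obtain ⟨χ, a1, a2, a3⟩ := h.facB (by omega) (by omega) hl h1
    exact cf.commU h hB hE hg hj hn a1 (Or.inr a2) a3

theorem ore_SU (n q : ℕ) (hn : 3 ≤ n) (hF : Fintype.card F = q ^ 2) (hex : ¬ (n = 3 ∧ q = 2))
    (g : Cfsg.SU n F q) : ∃ a b : Cfsg.SU n F q, g = a * b * a⁻¹ * b⁻¹ := by
  classical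
  have h := uf_frob hF
  obtain ⟨e, φ, -, -, h1⟩ := h.exists_std (h.isEps_std (Fin n)) (n := n) (by simp)
  have h2 : ∀ x, (φ x).1.1.det = LinearMap.det (x.1 : End F (Fin n → F)) := fun x => by
    rw [← LinearMap.det_toLin', h1, LinearEquiv.conj_apply, LinearMap.comp_assoc, LinearMap.det_conj]
  obtain ⟨a, b, a1, b1, h3⟩ := h.commU (h.isEps_std (Fin n)) (by simpa using hn) (by simpa using hex)
    (φ.symm (suToGU n F q g)) (by rw [← h2, φ.apply_symm_apply]; exact g.1.2)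
  obtain ⟨a', ha⟩ := exists_su_of_det (φ a) ((h2 a).trans a1)
  obtain ⟨b', hb⟩ := exists_su_of_det (φ b) ((h2 b).trans b1)
  refine ⟨a', b', suToGU_injective n ?_⟩
  simp only [map_mul, map_inv, ha, hb]
  simpa using congrArg φ h3

end Cfsg.Agent.H5
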