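import Cfsg.Agent.H5.OrthE

/-! Elements of `V ⋊ Ω(V)` with prescribed order conditions; discriminant from eigenvalues. -/

set_option autoImplicit false

namespace Cfsg.Agent.H5

open Module Polynomial Function

universe u v w

variable {F : Type w} [Field F]
variable {V : Type u} [AddCommGroup V] [Module F V]
variable {V' : Type v} [AddCommGroup V'] [Module F V']

/-- Some element of `V ⋊ Ω(V)` has the property that all exponents killing it satisfy `P`. -/
def AffEx (B : Bil F V) (P : ℕ → Prop) : Prop :=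
  ∃ g ∈ commutator (Isom B), ∃ v, ∀ i, aff (g.1 : End F V) v ^ i = 1 → P i

theorem AffEx.mono {B : Bil F V} {P Q : ℕ → Prop} (h : AffEx B P) (h1 : ∀ i, P i → Q i) : AffEx B Q :=
  let ⟨g, hg, v, hv⟩ := h; ⟨g, hg, v, fun i hi => h1 i (hv i hi)⟩

theorem sorb_delta' {K : Type*} [Field K] [Fintype F] [Algebra F K] {x η : K} (h0 : x ≠ 0) (h1 : x⁻¹ ≠ x)
    {d : ℕ} (h : x ^ Fintype.card F ^ d = x ∧ η = 1 ∨ x ^ Fintype.card F ^ d = x⁻¹ ∧ η = -1) :
    ∃ δ, ((sorb (Fintype.card F) x d).map fun y => 1 - y ^ 2).prod = (-1) ^ d * δ ^ 2 ∧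
      δ ^ Fintype.card F = η * δ := by
  let f : ℕ → K := fun k => x ^ Fintype.card F ^ k - (x ^ Fintype.card F ^ k)⁻¹
  refine ⟨∏ k ∈ Finset.range d, f k, ?_, ?_⟩
  · rw [show (-1 : K) ^ d = ∏ _k ∈ Finset.range d, -1 by simp]
    simp only [sorb, orb, Multiset.map_add, Multiset.map_map, Multiset.prod_add, ← Multiset.prod_map_mul,
      ← Finset.prod_pow, ← Finset.prod_mul_distrib, phi_iterate, comp_apply]
    refine congrArg _ (Multiset.map_congr rfl fun k _ => ?_)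
    have : x ^ Fintype.card F ^ k ≠ 0 := pow_ne_zero _ h0
    rw [inv_pow]
    simp only [f]
    field_simp
    ring
  · have e1 : f 0 ≠ 0 := fun h => h1 (by
      simp only [f, pow_zero, pow_one] at h
      exact (sub_eq_zero.1 h).symm)
    have e2 : f d = η * f 0 := by
      simp only [f, pow_zero, pow_one]
      rcases h with ⟨h, rfl⟩ | ⟨h, rfl⟩ <;> simp [h]
    refine mul_right_cancel₀ e1 ?_
    rw [mul_right_comm, ← e2, mul_comm (f d), ← Finset.prod_range_succ, Finset.prod_range_succ',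
      ← frobK_apply (F := F), map_prod]
    congr 1
    exact Finset.prod_congr rfl fun k _ => by
      simp only [f, map_sub, map_inv₀, frobK_apply, pow_succ, pow_mul]

variable [FiniteDimensional F V] [FiniteDimensional F V'] [Fintype F] [DecidableEq F]

omit [Fintype F] [DecidableEq F] in
theorem inj_of_notMem_evE (K : Type*) [Field K] [Algebra F K] {B : Bil F V} {g : Isom B}
    (h : 1 ∉ evE K (g.1 : End F V)) (v : V) (hv : g.1 v = v) : v = 0 := by
  by_contra h0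
  exact h (by simpa using mem_evE_of_eigen K (f := (g.1 : End F V)) (c := 1) h0 (by simpa using hv))

omit [Fintype F] [DecidableEq F] in
theorem inj_of_notMem_evE' (K : Type*) [Field K] [Algebra F K] {B : Bil F V} {g : Isom B}
    (h : -1 ∉ evE K (g.1 : End F V)) (v : V) (hv : g.1 v = -v) : v = 0 := by
  by_contra h0
  exact h (by simpa using mem_evE_of_eigen K (f := (g.1 : End F V)) (c := -1) h0 (by simpa using hv))

theorem discr_of_evE (K : Type*) [Field K] [Algebra F K] [IsAlgClosed K] {B : Bil F V} (hB : IsEps B 1)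
    (h2 : (2 : F) ≠ 0) (h3 : 3 ≤ finrank F V) (g : Isom B) (h1 : 1 ∉ evE K (g.1 : End F V))
    (h4 : -1 ∉ evE K (g.1 : End F V)) {δ : K}
    (hδ : ((evE K (g.1 : End F V)).map fun y => 1 - y ^ 2).prod = δ ^ 2) {η : ℤ} (hη : η = 1 ∨ η = -1)
    (h5 : δ ^ Fintype.card F = η * δ) : H6.discr B = η := by
  have h6 : (2 : K) ≠ 0 := by rwa [← map_ofNat (algebraMap F K), _root_.map_ne_zero]
  have a1 := th_of_inj hB g (inj_of_notMem_evE K h1)
  have a2 := th_of_inj_neg hB h2 h3 g (inj_of_notMem_evE' K h4)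
  have a3 := qc_of_sq h2 (c := LinearMap.det ((2 : F) • (1 - (g.1 : End F V))) *
      LinearMap.det ((2 : F) • ((g.1 : End F V) + 1))) (δ := 2 ^ finrank F V * δ) (by
    rw [LinearMap.det_smul, LinearMap.det_smul, sub_eq_neg_add, mul_pow, ← hδ]
    simp only [map_mul, det_add_one, evE_neg, Multiset.map_map, map_pow, map_ofNat]
    rw [mul_mul_mul_comm, ← Multiset.prod_map_mul, sq]
    exact congrArg _ (congrArg _ (Multiset.map_congr rfl fun x _ => by simp; ring)))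
    (mul_ne_zero (pow_ne_zero _ h6) (by
      rintro rfl
      obtain ⟨x, hx, h⟩ := Multiset.mem_map.1 (Multiset.prod_eq_zero_iff.1 (hδ.trans (by simp)))
      rcases sq_eq_one_iff.1 (sub_eq_zero.1 h).symm with rfl | rfl
      exacts [h1 hx, h4 hx])) hη (by
    rw [mul_pow, h5, mul_left_comm, ← frobK_apply (F := F), map_pow, map_ofNat])
  rw [map_mul, ← a2, a1] at a3
  rcases th_cases hB h2 h3 g with h | h <;> rcases discr_cases hB h2 with h' | h' <;>
    rw [h, h'] at a1 <;> rw [h'] at a3 ⊢ <;> rw [← a3, ← a1] <;> omega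

variable (p : ℕ) [Fact p.Prime] [CharP F p] (h2 : (2 : F) ≠ 0) {B : Bil F V} (hB : IsEps B 1)
  (h3 : 3 ≤ finrank F V) {Z : Bil F V'} (hZ : IsEps Z 1) (z : Isom Z) (hz : Even (rk z))
include h2 hB h3 hZ hz

theorem affEx_of {P : ℕ → Prop} (hd : finrank F V' < finrank F V)
    (h : ∀ (W : Submodule F V) (hW : Disjoint W (perp B W)), finrank F (perp B W) + finrank F V' = finrank F V →
      ∃ (s : Isom (res B (perp B W))) (w : perp B W), Even (rk s) ∧ th s = th z ∧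
        ∀ i, aff (s.1 : End F _) w ^ i = 1 → P i) : AffEx B fun i => z ^ i = 1 ∧ P i := by
  obtain ⟨W, f, w1, w2⟩ := exists_embed hZ hB h2 hd
  obtain ⟨s, w, s1, s2, s3⟩ := h W w1 (f.finrank_eq ▸ hB.finrank_perp W)
  obtain ⟨a1, a2⟩ := glue_th_rk hB w1 h2 h3 (Isom.congr f w2 z) s
  refine ⟨glueHom hB w1 (Isom.congr f w2 z, s), (mem_comm_iff hB h2 h3 _).2 ⟨a2.2 (iff_of_true
    (by rwa [rk_congr]) s1), ?_⟩, w, fun i hi => ⟨?_, s3 i (aff_glue hB w1 hi).2⟩⟩
  · rw [a1, th_congr, s2, ← th_congr f w2, ← th_glue hB w1]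
    rcases th_cases hB h2 h3 (glueHom hB w1 (Isom.congr f w2 z, 1)) with h | h <;> simp [h]
  · simpa [← map_pow] using (aff_glue hB w1 hi).1

omit hz in
theorem th_cases' (hd : finrank F V' < finrank F V) : th z = 1 ∨ th z = -1 := by
  obtain ⟨W, f, w1, w2⟩ := exists_embed hZ hB h2 hd
  rw [← th_congr f w2, ← th_glue hB w1]
  exact th_cases hB h2 h3 _

theorem affEx_two {e : ℕ} (hd : finrank F V' + 3 ≤ finrank F V) (he : finrank F V' + 2 * e + 2 ≤ finrank F V) :
    AffEx B fun i => z ^ i = 1 ∧ 2 ∣ i ∧ ∀ a, p ^ a < 2 * e → p ^ (a + 1) ∣ i :=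
  affEx_of h2 hB h3 hZ z hz (by omega) fun W hW h => exists_aff_two p h2 (hB.restrict_perp hW) (by omega)
    (by omega) (th_cases' h2 hB h3 hZ z (by omega))

theorem affEx_fix (hd : finrank F V' + 2 ≤ finrank F V) : AffEx B fun i => z ^ i = 1 :=
  (affEx_of h2 hB h3 hZ z hz (P := fun _ => True) (by omega) fun W hW h =>
    let ⟨s, h1, h4⟩ := exists_th_perp h2 hB hW h3 (by omega) (th_cases' h2 hB h3 hZ z (by omega))
    ⟨s, 0, h1, h4, fun _ _ => trivial⟩).mono fun _ => And.left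

theorem affEx_unip (ht : th z = 1) {e : ℕ} (hd : finrank F V' < finrank F V)
    (he : finrank F V' + 2 * e ≤ finrank F V) :
    AffEx B fun i => z ^ i = 1 ∧ ∀ a, p ^ a < 2 * e → p ^ (a + 1) ∣ i :=
  affEx_of h2 hB h3 hZ z hz hd fun W hW h =>
    let ⟨u, w, _, h1, h4⟩ := exists_aff p h2 (hB.restrict_perp hW) (e := e) (by omega)
    ⟨u, w, (unip_th_rk p h2 hB hW h3 h1).1, (unip_th_rk p h2 hB hW h3 h1).2.trans ht.symm, h4⟩

theorem affEx_iso (ht : th z = 1) (hd : finrank F V' = finrank F V) (h : H6.discr Z = H6.discr B) :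
    AffEx B fun i => z ^ i = 1 := by
  obtain ⟨f, hf⟩ := exists_isometry_symm hZ hB h2 hd h
  exact ⟨Isom.congr f hf z, (mem_comm_iff hB h2 h3 _).2 ⟨by rwa [rk_congr], by rwa [th_congr]⟩, 0,
    fun i hi => by simpa [← map_pow] using isom_pow_eq_one.2 (aff_pow_eq_one.1 hi).1⟩

omit hZ hz

variable (K : Type*) [Field K] [Algebra F K] [IsAlgClosed K] [DecidableEq K] {N : Multiset K}
  (h1 : N.map (phi (Fintype.card F)) = N) (h4 : N.map (·⁻¹) = N) (h0 : 0 ∉ N) (h5 : 1 ∉ N) (h6 : -1 ∉ N)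
include h1 h4 h0 h5 h6

theorem affEx_model {e : ℕ} (hd : N.card + 3 ≤ finrank F V) (he : N.card + 2 * e + 2 ≤ finrank F V) :
    AffEx B fun i => (∀ x ∈ N, x ^ i = 1) ∧ (∀ x a, p ^ a < N.count x → p ^ (a + 1) ∣ i) ∧ 2 ∣ i ∧
      ∀ a, p ^ a < 2 * e → p ^ (a + 1) ∣ i := by
  obtain ⟨d, Z, y, a1, a2, a3, a4⟩ := exists_orth_model K p h1 h4 h0 h5 h6
  have a5 : finrank F (Fin d ⊕ Fin d → F) = N.card := by simp; omega
  exact (affEx_two p h2 hB h3 a2 y (by
    rw [rk_of_inj y (inj_of_notMem_evE K (by rwa [a3])), a5, a1]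
    exact even_two_mul d) (by omega) (by omega)).mono fun i hi =>
      ⟨fun x hx => pow_eq_one_of_mem_evE K (isom_pow_eq_one.1 hi.1) (a3 ▸ hx), a4 i hi.1, hi.2⟩

theorem affEx_model' (hd : N.card + 2 ≤ finrank F V) (hN : N ≠ 0) :
    AffEx B fun i => (∀ x ∈ N, x ^ i = 1) ∧ (∀ x a, p ^ a < N.count x → p ^ (a + 1) ∣ i) ∧ 2 ∣ i := by
  obtain ⟨d, Z, y, a1, a2, a3, a4⟩ := exists_orth_model K p h1 h4 h0 h5 h6
  have a5 : finrank F (Fin d ⊕ Fin d → F) = N.card := by simp; omega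
  obtain ⟨z, b1, b2⟩ : ∃ z : Isom Z, (∀ v, z.1 v = v → v = 0) ∧ ∀ i, z ^ i = 1 → y ^ i = 1 ∧ 2 ∣ i := by
    rcases Nat.even_or_odd (orderOf y) with h | h
    · exact ⟨y, inj_of_notMem_evE K (by rwa [a3]),
        fun i hi => ⟨hi, h.two_dvd.trans (orderOf_dvd_of_pow_eq_one hi)⟩⟩
    refine ⟨negI Z * y, fun v hv => inj_of_notMem_evE' K (g := y) (by rwa [a3]) v
      (neg_eq_iff_eq_neg.1 hv), fun i hi => ?_⟩
    have c1 : Commute (negI Z) y := Subtype.ext (LinearEquiv.ext fun v => (map_neg y.1 v).symm)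
    have c2 : negI Z ^ 2 = 1 := Subtype.ext (LinearEquiv.ext fun v => neg_neg v)
    have c3 : y ^ i = 1 := orderOf_dvd_iff_pow_eq_one.1 ((Nat.coprime_two_right.2 h).dvd_of_dvd_mul_left
      (orderOf_dvd_of_pow_eq_one (by
        have := congrArg (· ^ 2) hi
        simp only [← pow_mul, one_pow, mul_comm i] at this
        rwa [c1.mul_pow, pow_mul (negI Z), c2, one_pow, one_mul] at this)))
    rw [c1.mul_pow, c3, mul_one] at hi
    exact ⟨c3, two_dvd_of_negI_pow h2 (a5 ▸ Multiset.card_pos.2 hN) hi⟩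
  exact (affEx_fix h2 hB h3 a2 z (by rw [rk_of_inj z b1, a5, a1]; exact even_two_mul d) (by omega)).mono
    fun i hi => ⟨fun x hx => pow_eq_one_of_mem_evE K (isom_pow_eq_one.1 (b2 i hi).1) (a3 ▸ hx),
      a4 i (b2 i hi).1, (b2 i hi).2⟩

end Cfsg.Agent.H5
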