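import Cfsg.Agent.H5.UModel
import Cfsg.Agent.H5.WSum

/-! An upper bound for the number of conjugacy classes of `SU(n, q)`. -/

set_option autoImplicit false

namespace Cfsg.Agent.H5

open Module Polynomial Finset

/-- The number of monic self-conjugate polynomials of degree `m`. -/
def wU (q m : ℕ) : ℕ := if m = 0 then 1 else (q + 1) * q ^ (m - 1)

theorem sum_wU_le {q : ℕ} (hq : 2 ≤ q) {e m N : ℕ} (he : 0 < e) (D : Finset (ℕ → ℕ))
    (h1 : ∀ d ∈ D, ∀ j, d j ≠ 0 → e ∣ j ∧ 0 < j ∧ j ≤ N)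
    (h2 : ∀ d ∈ D, ∑ j ∈ range (N + 1), j * d j = e * (m + 1)) :
    ∑ d ∈ D, ∏ j ∈ range (N + 1), (wU q (d j) : ℝ) ≤ (q : ℝ) ^ (m + 1) * prodU (1 / q) m := by
  have hq' : (2 : ℝ) ≤ q := by exact_mod_cast hq
  set x : ℝ := 1 / q with hx
  have hx0 : 0 ≤ x := by positivity
  have hx1 : x < 1 := by rw [hx, div_lt_one (by linarith)]; linarith
  have hqx : (q : ℝ) * x = 1 := by rw [hx]; field_simp
  have hle : ∀ d ∈ D, ∀ j, j * d j ≤ e * (m + 1) := fun d hd j => by
    by_cases h : d j = 0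
    · simp [h]
    · rw [← h2 d hd]
      exact single_le_sum (f := fun j => j * d j) (fun _ _ => Nat.zero_le _)
        (mem_range.2 (Nat.lt_succ_of_le (h1 d hd j h).2.2))
  have hs : ∀ d ∈ D, ∀ j, d j ≠ 0 → j ≤ N ∧ ∃ k < m + 1, j = e * (k + 1) := fun d hd j h => by
    obtain ⟨⟨k, rfl⟩, h3, h4⟩ := h1 d hd j h
    have h5 := (Nat.le_mul_of_pos_right _ (Nat.pos_of_ne_zero h)).trans (hle d hd (e * k))
    have h6 := Nat.le_of_mul_le_mul_left h5 he
    have h7 : k ≠ 0 := by rintro rfl; simp at h3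
    exact ⟨h4, k - 1, by omega, by rw [Nat.sub_add_cancel (by omega)]⟩
  have hsum : ∀ d ∈ D, ∑ k ∈ range (m + 1), (k + 1) * d (e * (k + 1)) = m + 1 := fun d hd => by
    apply Nat.eq_of_mul_eq_mul_left he
    rw [← h2 d hd, sum_range_reindex (fun j => j * d j) he (m := m + 1)
      fun j hj => hs d hd j (right_ne_zero_of_mul hj), mul_sum]
    exact sum_congr rfl fun k _ => by ring
  have key := sum_prod_le D m (fun d k => d (e * (k + 1))) (fun _ => range (m + 2))
    (fun k b => wU q b * x ^ ((k + 1) * b)) (1 + x) (by linarith) ?_ ?_ (fun _ _ => by positivity) ?_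
  · calc _ = ∑ d ∈ D, (q : ℝ) ^ (m + 1) * ∏ k ∈ range (m + 1),
            (wU q (d (e * (k + 1))) * x ^ ((k + 1) * d (e * (k + 1)))) := by
          refine sum_congr rfl fun d hd => ?_
          rw [prod_range_reindex (fun j => (wU q (d j) : ℝ)) he (m := m + 1)
            fun j hj => hs d hd j fun h => hj (by simp [h, wU]), prod_mul_distrib,
            prod_pow_eq_pow_sum, hsum d hd, mul_left_comm, ← mul_pow, hqx, one_pow, mul_one]
      _ ≤ _ := by
          rw [← mul_sum]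
          refine mul_le_mul_of_nonneg_left (key.trans (mul_le_mul_of_nonneg_left
            (prod_le_prod (fun _ _ => sum_nonneg fun _ _ => by positivity) fun k _ => ?_)
            (by linarith))) (by positivity)
          have hy0 := pow_nonneg hx0 (k + 1)
          have hy1 := pow_lt_one₀ hx0 hx1 (Nat.add_one_ne_zero k)
          have h3 : ∀ b, (wU q (b + 1) : ℝ) * x ^ ((k + 1 + 1) * (b + 1)) =
              (x ^ (k + 1) + x ^ (k + 2)) * (x ^ (k + 1)) ^ b := fun b => by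
            have : (q : ℝ) ^ b * x ^ b = 1 := by rw [← mul_pow, hqx, one_pow]
            simp only [wU, Nat.add_one_ne_zero, if_false, Nat.add_sub_cancel]
            push_cast
            calc _ = ((q : ℝ) * x + x) * ((q : ℝ) ^ b * x ^ b) * x ^ (k + 1) * (x ^ (k + 1)) ^ b := by ring
              _ = _ := by rw [this, hqx]; ring
          rw [sum_range_succ']
          simp only [h3, ← mul_sum]
          have h4 := mul_le_mul_of_nonneg_left (geom_range_le hy0 hy1 (m + 1))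
            (add_nonneg hy0 (pow_nonneg hx0 (k + 2)))
          have h5 : (1 + x ^ (k + 2)) / (1 - x ^ (k + 1)) =
              (x ^ (k + 1) + x ^ (k + 2)) * (1 - x ^ (k + 1))⁻¹ + 1 := by
            have : 1 - x ^ (k + 1) ≠ 0 := by linarith
            field_simp; ring
          rw [h5]
          simpa [wU] using h4
  · intro a ha b hb hab
    have h3 := hsum a ha
    have h4 := hsum b hb
    rw [sum_range_succ'] at h3 h4
    rw [sum_congr rfl fun k hk => by rw [hab k (mem_range.1 hk)]] at h3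
    funext j
    by_cases h5 : ∃ k < m + 1, j = e * (k + 1)
    · obtain ⟨k, hk, rfl⟩ := h5
      rcases k with _ | k
      · omega
      · exact hab k (by omega)
    · rw [not_not.1 fun h => h5 (hs a ha j h).2, not_not.1 fun h => h5 (hs b hb j h).2]
  · intro d hd k _
    have h3 := hle d hd (e * (k + 1 + 1))
    rw [mul_assoc] at h3
    have h4 := Nat.le_of_mul_le_mul_left h3 he
    rw [mem_range]
    nlinarith
  · intro d _
    generalize d (e * (0 + 1)) = b
    rcases b with _ | b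
    · simp [wU, hx0]
    · have : (q : ℝ) ^ b * x ^ b = 1 := by rw [← mul_pow, hqx, one_pow]
      simp only [wU, Nat.add_one_ne_zero, if_false, Nat.add_sub_cancel]
      push_cast
      apply le_of_eq
      calc _ = ((q : ℝ) * x + x) * ((q : ℝ) ^ b * x ^ b) := by ring
        _ = _ := by rw [this, hqx]; ring

/-- The gcd of `q + 1` and the indices in the support. -/
def gcdE (q N : ℕ) (d : ℕ → ℕ) : ℕ := (q + 1).gcd (((range (N + 1)).filter fun j => d j ≠ 0).gcd id)

theorem num_su {q n : ℕ} (hq : 2 ≤ q) (hn : 2 ≤ n) (D : Finset (ℕ → ℕ))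
    (h1 : ∀ d ∈ D, ∀ j, d j ≠ 0 → 0 < j ∧ j ≤ n) (h2 : ∀ d ∈ D, ∑ j ∈ range (n + 1), j * d j = n) :
    100 * ∑ d ∈ D, gcdE q n d ^ 2 * ∏ j ∈ range (n + 1), wU q (d j) ≤ 826 * q ^ (n - 1) * (q + 1) := by
  have hq' : (2 : ℝ) ≤ q := by exact_mod_cast hq
  have hE1 : ∀ d ∈ D, ∀ j, d j ≠ 0 → gcdE q n d ∣ j := fun d hd j hj =>
    (Nat.gcd_dvd_right _ _).trans (gcd_dvd (f := id) (by simp [hj, Nat.lt_succ_iff, (h1 d hd j hj).2]))
  have hE2 : ∀ d ∈ D, gcdE q n d ∈ (n.gcd (q + 1)).divisors := fun d hd => by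
    refine Nat.mem_divisors.2 ⟨Nat.dvd_gcd ?_ (Nat.gcd_dvd_left _ _), Nat.gcd_ne_zero_right (by omega)⟩
    conv_rhs => rw [← h2 d hd]
    refine dvd_sum fun j _ => ?_
    by_cases h : d j = 0
    · simp [h]
    · exact (hE1 d hd j h).mul_right _
  have hA : ∀ e ∈ (n.gcd (q + 1)).divisors, ∑ d ∈ D with e ∣ gcdE q n d,
      ∏ j ∈ range (n + 1), (wU q (d j) : ℝ) ≤ (q : ℝ) ^ (n / e) * prodU (1 / q) (n / e - 1) := by
    intro e he
    have he0 := Nat.pos_of_mem_divisors he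
    obtain ⟨m, hm⟩ := (Nat.dvd_of_mem_divisors he).trans (Nat.gcd_dvd_left _ _)
    obtain ⟨m, rfl⟩ : ∃ k, m = k + 1 := ⟨m - 1, by
      have : m ≠ 0 := by rintro rfl; omega
      omega⟩
    have : n / e = m + 1 := by rw [hm, Nat.mul_div_cancel_left _ he0]
    rw [this, Nat.add_sub_cancel]
    exact sum_wU_le hq he0 _ (fun d hd j hj => ⟨(mem_filter.1 hd).2.trans (hE1 d (mem_filter.1 hd).1 j hj),
      h1 d (mem_filter.1 hd).1 j hj⟩) fun d hd => (h2 d (mem_filter.1 hd).1).trans hm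
  have hmain : ∑ d ∈ D, (gcdE q n d : ℝ) ^ 2 * ∏ j ∈ range (n + 1), (wU q (d j) : ℝ) ≤
      (q : ℝ) ^ n * prodU (1 / q) (n - 1) + ∑ e ∈ (n.gcd (q + 1)).divisors,
        ((e : ℝ) ^ 2 - 1) * ((q : ℝ) ^ (n / e) * prodU (1 / q) (n / e - 1)) := by
    have h3 := hA 1 (Nat.one_mem_divisors.2 (Nat.gcd_ne_zero_right (by omega)))
    simp only [one_dvd, filter_true, Nat.div_one] at h3
    have h4 : ∑ d ∈ D, (gcdE q n d : ℝ) ^ 2 * ∏ j ∈ range (n + 1), (wU q (d j) : ℝ) =
        ∑ d ∈ D, ∏ j ∈ range (n + 1), (wU q (d j) : ℝ) +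
        ∑ d ∈ D, ((gcdE q n d : ℝ) ^ 2 - 1) * ∏ j ∈ range (n + 1), (wU q (d j) : ℝ) := by
      rw [← sum_add_distrib]; exact sum_congr rfl fun _ _ => by ring
    rw [h4, ← sum_fiberwise_of_maps_to hE2 (f := fun d => ((gcdE q n d : ℝ) ^ 2 - 1) * _)]
    refine add_le_add h3 (sum_le_sum fun e he => ?_)
    rw [sum_congr rfl fun d hd => by rw [(mem_filter.1 hd).2], ← mul_sum]
    have : (1 : ℝ) ≤ e := by exact_mod_cast Nat.pos_of_mem_divisors he
    refine mul_le_mul_of_nonneg_left (le_trans (sum_le_sum_of_subset_of_nonneg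
      (monotone_filter_right _ fun d _ hd => hd.symm.dvd) fun _ _ _ => by positivity) (hA e he))
      (by nlinarith)
  have hpow : ∀ e ∈ (n.gcd (q + 1)).divisors, (q : ℝ) ^ (n / e) ≤ (q : ℝ) ^ n * (1 / q) ^ (e - 1) := by
    intro e he
    have he0 := Nat.pos_of_mem_divisors he
    obtain ⟨m, hm⟩ := (Nat.dvd_of_mem_divisors he).trans (Nat.gcd_dvd_left _ _)
    have hm0 : m ≠ 0 := by rintro rfl; omega
    rw [one_div, inv_pow, ← div_eq_mul_inv, le_div_iff₀ (by positivity), ← pow_add]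
    refine pow_le_pow_right₀ (by linarith) ?_
    rw [hm, Nat.mul_div_cancel_left _ he0]
    obtain ⟨a, rfl⟩ : ∃ a, e = a + 1 := ⟨e - 1, by omega⟩
    obtain ⟨b, rfl⟩ : ∃ b, m = b + 1 := ⟨m - 1, by omega⟩
    simp only [Nat.add_sub_cancel]
    nlinarith
  have hqn : (q : ℝ) ^ n = q ^ (n - 1) * q := by rw [← pow_succ, Nat.sub_add_cancel (by omega)]
  have hQ : (0 : ℝ) < (q : ℝ) ^ (n - 1) := by positivity
  have hnn : ∀ e ∈ (n.gcd (q + 1)).divisors, (0 : ℝ) ≤ (e : ℝ) ^ 2 - 1 := fun e he => by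
    have : (1 : ℝ) ≤ e := by exact_mod_cast Nat.pos_of_mem_divisors he
    nlinarith
  suffices 100 * ((q : ℝ) ^ n * prodU (1 / q) (n - 1) + ∑ e ∈ (n.gcd (q + 1)).divisors,
      ((e : ℝ) ^ 2 - 1) * ((q : ℝ) ^ (n / e) * prodU (1 / q) (n / e - 1))) ≤
      826 * (q : ℝ) ^ (n - 1) * (q + 1) by
    have h5 := (mul_le_mul_of_nonneg_left hmain (by norm_num : (0 : ℝ) ≤ 100)).trans this
    exact_mod_cast h5
  rcases Nat.lt_or_ge q 3 with hq3 | hq3
  · obtain rfl : q = 2 := by omega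
    have hP := fun m => prodU_half m
    push_cast at hqn hQ ⊢
    have h6 := mul_le_mul_of_nonneg_left (hP (n - 1)) (by positivity : (0 : ℝ) ≤ 2 ^ n)
    by_cases h3 : 3 ∣ n
    · obtain ⟨m, rfl⟩ := h3
      rw [Nat.gcd_mul_right_left, show Nat.divisors 3 = {1, 3} by decide, sum_pair (by decide),
        Nat.mul_div_cancel_left _ three_pos]
      rcases m with _ | _ | _ | m
      · omega
      · norm_num [prodU] at h6 ⊢
      · norm_num [prodU] at h6 ⊢
      · have h7 := mul_le_mul_of_nonneg_left (hP (m + 2))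
          (by positivity : (0 : ℝ) ≤ 2 ^ (m + 1 + 1 + 1))
        have h8 : (2 : ℝ) ^ (m + 1 + 1 + 1) * 2 ^ 6 ≤ 2 ^ (3 * (m + 1 + 1 + 1)) := by
          rw [← pow_add]; exact pow_le_pow_right₀ (by norm_num) (by omega)
        push_cast
        linarith
    · rw [(Nat.coprime_comm.1 ((Nat.Prime.coprime_iff_not_dvd Nat.prime_three).2 h3) :)]
      simp only [Nat.divisors_one, sum_singleton]
      push_cast
      linarith
  · have hq3' : (3 : ℝ) ≤ q := by exact_mod_cast hq3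
    have hP : ∀ m, prodU (1 / q) m ≤ 3 := fun m =>
      (prodU_mono (by positivity) (by gcongr) (by norm_num) m).trans (prodU_third m)
    have h6 := mul_le_mul_of_nonneg_left (hP (n - 1)) (by positivity : (0 : ℝ) ≤ (q : ℝ) ^ n)
    have h7 : ∑ e ∈ (n.gcd (q + 1)).divisors,
        ((e : ℝ) ^ 2 - 1) * ((q : ℝ) ^ (n / e) * prodU (1 / q) (n / e - 1)) ≤
        3 * (q : ℝ) ^ n * ∑ e ∈ (n.gcd (q + 1)).divisors, ((e : ℝ) ^ 2 - 1) * (1 / q) ^ (e - 1) := by
      rw [mul_sum]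
      refine sum_le_sum fun e he => ?_
      calc _ ≤ ((e : ℝ) ^ 2 - 1) * ((q : ℝ) ^ n * (1 / q) ^ (e - 1) * 3) :=
            mul_le_mul_of_nonneg_left ((mul_le_mul_of_nonneg_left (hP _) (by positivity)).trans
              (mul_le_mul_of_nonneg_right (hpow e he) (by norm_num))) (hnn e he)
        _ = _ := by ring
    have h8 : ∑ e ∈ (n.gcd (q + 1)).divisors, ((e : ℝ) ^ 2 - 1) * (1 / q) ^ (e - 1) ≤ 44 / 27 := by
      rcases Nat.lt_or_ge q 4 with hq4 | hq4
      · obtain rfl : q = 3 := by omega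
        refine (sum_le_sum_of_subset_of_nonneg (Nat.divisors_subset_of_dvd (by norm_num)
          (Nat.gcd_dvd_right n 4)) fun e he _ => ?_).trans ?_
        · have : (1 : ℝ) ≤ e := by exact_mod_cast Nat.pos_of_mem_divisors he
          have : (0 : ℝ) ≤ (e : ℝ) ^ 2 - 1 := by nlinarith
          positivity
        · rw [show Nat.divisors 4 = {1, 2, 4} by decide]
          norm_num
      · have hq4' : (4 : ℝ) ≤ q := by exact_mod_cast hq4
        refine le_trans ?_ (sum_sq_quarter (q + 1))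
        have h10 := sum_Ico_add' (fun e : ℕ => ((e : ℝ) ^ 2 - 1) * (1 / 4 : ℝ) ^ (e - 1)) 0 (q + 1) 1
        simp only [Nat.add_sub_cancel, Nat.cast_add, Nat.cast_one] at h10
        rw [range_eq_Ico, h10]
        refine le_trans (sum_le_sum fun e he => mul_le_mul_of_nonneg_left
          (pow_le_pow_left₀ (by positivity) (show (1 : ℝ) / q ≤ 1 / 4 by gcongr) _) (hnn e he))
          (sum_le_sum_of_subset_of_nonneg (fun e he => ?_) fun e he _ => ?_)
        · have := Nat.pos_of_mem_divisors he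
          have := Nat.le_of_dvd (by omega) ((Nat.dvd_of_mem_divisors he).trans (Nat.gcd_dvd_right _ _))
          rw [mem_Ico]; omega
        · have : (1 : ℝ) ≤ e := by exact_mod_cast (mem_Ico.1 he).1
          have : (0 : ℝ) ≤ (e : ℝ) ^ 2 - 1 := by nlinarith
          positivity
    have h9 := mul_le_mul_of_nonneg_left h8 (by positivity : (0 : ℝ) ≤ 3 * (q : ℝ) ^ n)
    rw [hqn] at h6 h7 h9 ⊢
    nlinarith

variable {F : Type*} [Field F] [Fintype F] {σ : F →+* F} {q : ℕ}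

/-- The group of elements of norm one. -/
abbrev muG (F : Type*) [Field F] (q : ℕ) : Subgroup Fˣ := (powMonoidHom (q + 1) : Fˣ →* Fˣ).ker

theorem UF.mem_muG (h : UF σ q) {x : Fˣ} : x ∈ muG F q ↔ (x : F) * σ x = 1 := by
  rw [MonoidHom.mem_ker, powMonoidHom_apply, h.norm_eq, ← Units.val_pow_eq_pow_val, Units.val_eq_one]

theorem UF.card_muG (h : UF σ q) : Nat.card (muG F q) = q + 1 := by
  rw [IsCyclic.card_powMonoidHom_ker, h.card_units, Nat.gcd_comm, Nat.gcd_mul_right_right]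

theorem UF.card_fiber_le (h : UF σ q) (n : ℕ) (d : ℕ → ℕ) (δ : F) (T : Finset (ℕ → F[X]))
    (hT : ∀ u ∈ T, u ∈ H4.UU F n n ∧ (∀ j, pstar σ (u j) = u j) ∧ H4.DD n u = δ ∧
      ∀ j, (u j).natDegree = d j) :
    (q + 1) * T.card ≤ gcdE q n d * ∏ j ∈ range (n + 1), wU q (d j) := by
  classical
  rcases T.eq_empty_or_nonempty with rfl | ⟨u₀, hu₀⟩
  · simp
  set J := (range (n + 1)).filter fun j => d j ≠ 0 with hJ
  let ψ : (J → muG F q) →* muG F q :=
    { toFun := fun a => ∏ j, a j ^ j.1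
      map_one' := by simp
      map_mul' := fun a b => by simp [mul_pow, prod_mul_distrib] }
  let c : T → J → muG F q := fun u j => ⟨Units.mk0 _ ((hT u.1 u.2).1.1 j).2,
    h.mem_muG.2 (norm_of_pstar_eq ((hT u.1 u.2).1.1 j).1 ((hT u.1 u.2).1.1 j).2 ((hT u.1 u.2).2.1 j))⟩
  have hc : ∀ u : T, ((ψ (c u)).1 : F) = δ := fun u => by
    obtain ⟨a1, -, a2, a3⟩ := hT u.1 u.2
    rw [← a2, H4.DD, ← prod_filter_mul_prod_filter_not _ (fun j => d j ≠ 0),
      prod_eq_one (s := filter (fun j => ¬ d j ≠ 0) _) (fun j hj => by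
        rw [(a1.1 j).1.natDegree_eq_zero.1 ((a3 j).trans (not_not.1 (mem_filter.1 hj).2))]; simp),
      mul_one, ← hJ, ← prod_coe_sort J]
    simp [ψ, c]
  let P : (J → muG F q) → J → Type _ := fun a j => {χ : F[X] // χ.Monic ∧
    χ.natDegree = (d j - 1) + 1 ∧ χ.coeff 0 = (a j).1 ∧ χ.map σ = C (σ (a j).1) * χ.reverse}
  have hP : ∀ a j, Nat.card (P a j) = q ^ (d j - 1) := fun a j =>
    h.card_selfConj _ (h.mem_muG.1 (a j).2)
  have : ∀ a j, Finite (P a j) := fun a j =>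
    Nat.finite_of_card_ne_zero (by rw [hP]; exact (pow_pos h.pos _).ne')
  have h1 : T.card ≤ Nat.card (Σ a : {a // ψ a = ψ (c ⟨u₀, hu₀⟩)}, ∀ j, P a.1 j) := by
    rw [← Fintype.card_coe, ← Nat.card_eq_fintype_card]
    refine Nat.card_le_card_of_injective (fun u => ⟨⟨c u, Subtype.ext (Units.ext
      ((hc u).trans (hc _).symm))⟩, fun j => ⟨u.1 j, ((hT u.1 u.2).1.1 j).1, ?_, rfl,
        map_eq_of_pstar_eq ((hT u.1 u.2).1.1 j).2 ((hT u.1 u.2).2.1 j)⟩⟩) fun u v huv => ?_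
    · rw [(hT u.1 u.2).2.2.2, Nat.sub_add_cancel (Nat.pos_of_ne_zero (mem_filter.1 j.2).2)]
    · have h2 := congrArg (fun x : (Σ a : {a // ψ a = ψ (c ⟨u₀, hu₀⟩)}, ∀ j, P a.1 j) =>
        fun j => (x.2 j).1) huv
      obtain ⟨a1, -, -, a3⟩ := hT u.1 u.2
      obtain ⟨b1, -, -, b3⟩ := hT v.1 v.2
      refine Subtype.ext (funext fun j => ?_)
      by_cases hj : j ∈ J
      · exact congrFun h2 ⟨j, hj⟩
      by_cases hj' : d j = 0
      · rw [(a1.1 j).1.natDegree_eq_zero.1 ((a3 j).trans hj'),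
          (b1.1 j).1.natDegree_eq_zero.1 ((b3 j).trans hj')]
      · have : n < j := by simpa [hJ, hj', Nat.lt_succ_iff] using hj
        rw [a1.2.1 j (Or.inr this), b1.2.1 j (Or.inr this)]
  have := Fintype.ofFinite {a // ψ a = ψ (c ⟨u₀, hu₀⟩)}
  rw [Nat.card_sigma] at h1
  simp only [Nat.card_pi, hP, sum_const, card_univ, smul_eq_mul, ← Nat.card_eq_fintype_card] at h1
  have h2 := card_fiber_mul_le ψ (ψ (c ⟨u₀, hu₀⟩))
  have h3 := index_le_gcd ψ.range J fun j hj μ => ⟨Pi.mulSingle ⟨j, hj⟩ μ, by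
    change ∏ i : J, Pi.mulSingle (M := fun _ => muG F q) ⟨j, hj⟩ μ i ^ i.1 = μ ^ j
    rw [prod_eq_single ⟨j, hj⟩] <;> simp +contextual⟩
  rw [Nat.card_pi, h.card_muG] at h2
  rw [h.card_muG] at h3
  have h4 : ∏ j ∈ range (n + 1), wU q (d j) = (∏ _j : J, (q + 1)) * ∏ j : J, q ^ (d j - 1) := by
    rw [← prod_mul_distrib, prod_coe_sort J (fun j => (q + 1) * q ^ (d j - 1)), hJ, prod_filter]
    exact prod_congr rfl fun j _ => by simp [wU]
  rw [h4, ← mul_assoc]
  calc _ ≤ (Nat.card {a // ψ a = ψ (c ⟨u₀, hu₀⟩)} * (q + 1)) * ∏ j : J, q ^ (d j - 1) := by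
        rw [mul_comm _ (q + 1), mul_assoc]; exact Nat.mul_le_mul_left _ h1
    _ ≤ _ := Nat.mul_le_mul_right _ (h2.trans (Nat.mul_le_mul_right _ h3))

theorem UF.card_classes_su_le (h : UF σ q) {n : ℕ} (hn : 2 ≤ n) :
    100 * Nat.card (ConjClasses (Cfsg.SU n F q)) ≤ 826 * q ^ (n - 1) := by
  classical
  let T := (H4.UU_finite (F := F) n n).toFinset.filter fun u =>
    (∀ j, pstar σ (u j) = u j) ∧ H4.DD n u = (-1) ^ n
  let dg : (ℕ → F[X]) → ℕ → ℕ := fun u j => (u j).natDegree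
  let D : Cfsg.GU n F q →* muG F q :=
    (Matrix.GeneralLinearGroup.det.comp (Cfsg.GU n F q).subtype).codRestrict _
      fun g => h.mem_muG.2 (h.det_norm g)
  have hty : ∀ g : Cfsg.SU n F q, H4.HasType ((h.guEquiv n (suToGU n F q g)).1 : End F (Fin n → F))
      (H4.typ g.1.1) := fun g => H4.typ_spec g.1.1
  have h1 := card_conjClasses_le_sum (suToGU n F q)
    (fun a b hab => Subtype.ext (Subtype.ext (congrArg (·.1.1) hab))) D
    (fun z hz => exists_su_of_det z (congrArg (·.1.1) hz)) (fun g => H4.uu (H4.typ g.1.1)) T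
    (fun g => by
      have := H4.uu_typ_mem (A := g.1.1) (by rw [g.1.2]; exact one_ne_zero) (M := n) (by simp)
      refine mem_filter.2 ⟨by simpa using this, uu_star_stable (h.isEps_std _) _ (hty g), ?_⟩
      rw [H4.DD_uu_typ _ (by simp), H4.SL_charpoly_coeff_zero, Fintype.card_fin])
    (fun g k hgk => by
      obtain ⟨y, h1, h2⟩ := h.isim_of_sim (h.isEps_std _) (h.isEps_std _)
        (h.guEquiv n (suToGU n F q g)) (h.guEquiv n (suToGU n F q k)) ((H4.uu_typ_eq_iff _ _).1 hgk)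
      have : IsConj (h.guEquiv n (suToGU n F q g)) (h.guEquiv n (suToGU n F q k)) :=
        isConj_iff.2 ⟨⟨y, h1⟩, mul_inv_eq_iff_eq_mul.2 (Subtype.ext (LinearEquiv.ext h2))⟩
      simpa using (h.guEquiv n).symm.toMonoidHom.map_isConj this)
    (fun u => gcdE q n (dg u)) (fun g => by
      rw [gcdE, ← h.card_muG]
      refine index_le_gcd _ _ fun j hj μ => ?_
      obtain ⟨y, hy, rfl⟩ := H4.Good.exists_mem_of_uu_ne_one (s := H4.typ g.1.1) (j := j)
        fun h0 => (mem_filter.1 hj).2 (by simp [dg, h0])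
      obtain ⟨z, hz, hz'⟩ := h.exists_commute_det_pow (h.isEps_std _) _ (hty g) hy (h.mem_muG.1 μ.2)
      obtain ⟨z, rfl⟩ := (h.guEquiv n).surjective z
      refine ⟨z, Subgroup.mem_centralizer_singleton_iff.2 ((h.guEquiv n).injective ?_),
        Subtype.ext (Units.ext ?_)⟩
      · rw [map_mul, map_mul]
        exact Subtype.ext (LinearEquiv.ext hz)
      · rw [h.guEquiv_coe, LinearMap.det_toLin'] at hz'
        exact hz'.trans (by simp))
  have hT : ∀ u ∈ T, u ∈ H4.UU F n n := fun u hu => by simpa using (mem_filter.1 hu).1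
  have h2 := num_su h.two_le hn (T.image dg) (fun d hd j hj => by
      obtain ⟨u, hu, rfl⟩ := mem_image.1 hd
      by_contra hh
      exact hj (by simp [dg, (hT u hu).2.1 j (by omega)]))
    (fun d hd => by
      obtain ⟨u, hu, rfl⟩ := mem_image.1 hd
      exact (hT u hu).2.2)
  refine Nat.le_of_mul_le_mul_right (le_trans ?_ h2) (Nat.succ_pos q)
  rw [mul_assoc, mul_comm _ (q.succ)]
  refine Nat.mul_le_mul_left _ ((Nat.mul_le_mul_left _ h1).trans ?_)
  rw [← sum_fiberwise_of_maps_to (g := dg) (t := T.image dg) fun u hu => mem_image_of_mem _ hu, mul_sum]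
  refine sum_le_sum fun d _ => ?_
  rw [sum_congr rfl fun u hu => by rw [(mem_filter.1 hu).2], sum_const, smul_eq_mul, ← mul_assoc, sq,
    mul_assoc (gcdE q n d), mul_comm (gcdE q n d)]
  refine Nat.mul_le_mul_right _ (h.card_fiber_le n d ((-1) ^ n) _ fun u hu => ?_)
  obtain ⟨a1, rfl⟩ := mem_filter.1 hu
  exact ⟨hT u a1, (mem_filter.1 a1).2.1, (mem_filter.1 a1).2.2, fun _ => rfl⟩

end Cfsg.Agent.H5
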