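import Cfsg.Agent.H5.TA0

/-! Basic consequences of rank one data: the Sylow subgroup, the torus, the Borel subgroup. -/

set_option autoImplicit false

namespace Cfsg.Agent.H5.TA

open Subgroup

variable {G : Type*} [Group G] {N N' : Subgroup G} {F K : Type} [Field F] [Field K] {m i : ℕ}

/-- The normaliser of a subgroup. -/
abbrev Nm (N : Subgroup G) : Subgroup G := normalizer (N : Set G)

/-- The centraliser of a subgroup. -/
abbrev Cn (N : Subgroup G) : Subgroup G := centralizer (N : Set G)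

theorem mem_Nm [Finite G] {g : G} : g ∈ Nm N ↔ ∀ n ∈ N, g * n * g⁻¹ ∈ N :=
  ⟨fun h n hn => (mem_normalizer_iff.1 h n).1 hn, fun h => mem_normalizer_fintype h⟩

theorem Nm_conj {g n : G} (hg : g ∈ Nm N) (hn : n ∈ N) : g * n * g⁻¹ ∈ N := (mem_normalizer_iff.1 hg n).1 hn

theorem Nm_conj' {g n : G} (hg : g ∈ Nm N) (hn : n ∈ N) : g⁻¹ * n * g ∈ N := (mem_normalizer_iff''.1 hg n).1 hn

theorem le_Nm : N ≤ Nm N := le_normalizer

theorem mem_Cn {g : G} : g ∈ Cn N ↔ ∀ n ∈ N, n * g = g * n := mem_centralizer_iff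

theorem Cn_conj {g n : G} (hg : g ∈ Cn N) (hn : n ∈ N) : g * n * g⁻¹ = n := by
  rw [← mem_Cn.1 hg n hn]; group

theorem mem_Cn' {g : G} : g ∈ Cn N ↔ ∀ n ∈ N, g * n * g⁻¹ = n :=
  ⟨fun h _ hn => Cn_conj h hn, fun h => mem_Cn.2 fun n hn => by rw [← mul_inv_eq_iff_eq_mul.1 (h n hn)]⟩

theorem Cn_le_Nm : Cn N ≤ Nm N := centralizer_le_normalizer _

theorem Iv.inv {t : G} (h : Iv N t) : t⁻¹ = t := inv_eq_of_mul_eq_one_right h.2.2

theorem Iv.conj {t g : G} (h : Iv N t) (hg : g * t * g⁻¹ ∈ N') : Iv N' (g * t * g⁻¹) :=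
  ⟨hg, fun e => h.2.1 (by simpa using e), by rw [conj_mul, h.2.2]; simp⟩

theorem Iv.order {t : G} (h : Iv N t) : orderOf t = 2 :=
  orderOf_eq_prime (by rw [pow_two, h.2.2]) h.2.1

theorem eq_one_of_odd_two {g : G} {k : ℕ} (h : Odd (orderOf g)) (h2 : g ^ 2 ^ k = 1) : g = 1 :=
  orderOf_eq_one_iff.1 (Nat.eq_one_of_self_dvd_coprime h h2)
where Nat.eq_one_of_self_dvd_coprime {g : G} {k : ℕ} (h : Odd (orderOf g)) (h2 : g ^ 2 ^ k = 1) : orderOf g = 1 :=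
  Nat.Coprime.eq_one_of_dvd ((Nat.coprime_two_right.2 h).pow_right k) (orderOf_dvd_of_pow_eq_one h2)

namespace R0

variable (R : R0 N F K m i)
include R

theorem finF : Finite F := Nat.finite_of_card_ne_zero (by rw [R.cardF]; positivity)

theorem four_le : 4 ≤ 2 ^ m := by
  calc 4 = 2 ^ 2 := rfl
    _ ≤ 2 ^ m := Nat.pow_le_pow_right two_pos R.hm

theorem ζ_zero : R.ζ 0 = 1 := by
  have := R.ζ_add 0 0
  rw [add_zero] at this
  exact mul_eq_left.1 this.symm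

theorem ζ_eq_one {x : F} : R.ζ x = 1 ↔ x = 0 := by rw [← R.ζ_zero, R.ζ_inj.eq_iff]

theorem twoF : (2 : F) = 0 := by
  haveI := R.finF
  haveI := Fintype.ofFinite F
  have h := FiniteField.cast_card_eq_zero F
  rw [← Nat.card_eq_fintype_card, R.cardF, Nat.cast_pow] at h
  exact_mod_cast pow_eq_zero_iff (by have := R.hm; omega) |>.1 h

theorem twoK : (2 : K) = 0 := by rw [← map_ofNat R.ι 2, R.twoF, map_zero]

theorem charF : CharP F 2 := CharTwo.of_one_ne_zero_of_two_eq_zero one_ne_zero R.twoF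

theorem charK : CharP K 2 := CharTwo.of_one_ne_zero_of_two_eq_zero one_ne_zero R.twoK

theorem addF (x : F) : x + x = 0 := by rw [← two_mul, R.twoF, zero_mul]

theorem addK (x : K) : x + x = 0 := by rw [← two_mul, R.twoK, zero_mul]

theorem ζ_sq (x : F) : R.ζ x * R.ζ x = 1 := by rw [← R.ζ_add, R.addF, R.ζ_zero]

theorem ζ_inv (x : F) : (R.ζ x)⁻¹ = R.ζ x := inv_eq_of_mul_eq_one_right (R.ζ_sq x)

theorem iv_ζ {x : F} (hx : x ≠ 0) : Iv N (R.ζ x) := ⟨R.S_le (R.ζ_mem x), mt R.ζ_eq_one.1 hx, R.ζ_sq x⟩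

/-- The centre `Ω₁(S)`. -/
def Z : Subgroup G where
  carrier := Set.range R.ζ
  one_mem' := ⟨0, R.ζ_zero⟩
  mul_mem' := by
    rintro _ _ ⟨x, rfl⟩ ⟨y, rfl⟩
    exact ⟨_, R.ζ_add x y⟩
  inv_mem' := by
    rintro _ ⟨x, rfl⟩
    exact ⟨x, (R.ζ_inv x).symm⟩

theorem mem_Z {g : G} : g ∈ R.Z ↔ ∃ x, R.ζ x = g := Iff.rfl

theorem ζ_mem_Z (x : F) : R.ζ x ∈ R.Z := ⟨x, rfl⟩

theorem Z_le : R.Z ≤ R.S := by
  rintro _ ⟨x, rfl⟩
  exact R.ζ_mem x

theorem Z_comm {z s : G} (hz : z ∈ R.Z) (hs : s ∈ R.S) : z * s = s * z := by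
  obtain ⟨x, rfl⟩ := hz
  exact R.ζ_comm x s hs

theorem Z_sq {z : G} (hz : z ∈ R.Z) : z * z = 1 := by
  obtain ⟨x, rfl⟩ := hz
  exact R.ζ_sq x

theorem card_Z : Nat.card R.Z = 2 ^ m := by
  rw [← R.cardF]
  exact (Nat.card_congr (Equiv.ofInjective _ R.ζ_inj)).symm

theorem ω_eq_zero {s : G} (hs : s ∈ R.S) : R.ω s = 0 ↔ s ∈ R.Z :=
  (R.ω_ker s hs).trans (exists_congr fun _ => eq_comm)

theorem ω_ζ (x : F) : R.ω (R.ζ x) = 0 := (R.ω_eq_zero (R.ζ_mem x)).2 ⟨x, rfl⟩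

theorem ω_one : R.ω 1 = 0 := R.ζ_zero ▸ R.ω_ζ 0

theorem ω_inv {s : G} (hs : s ∈ R.S) : R.ω s⁻¹ = R.ω s := by
  have := R.ω_mul _ hs _ (inv_mem hs)
  rw [mul_inv_cancel, R.ω_one] at this
  linear_combination -this - R.addK (R.ω s)

theorem ω_eq_iff {s s' : G} (hs : s ∈ R.S) (hs' : s' ∈ R.S) : R.ω s = R.ω s' ↔ ∃ x, s = R.ζ x * s' := by
  constructor
  · intro h
    obtain ⟨x, hx⟩ := (R.ω_ker _ (mul_mem hs (inv_mem hs'))).1
      (by rw [R.ω_mul _ hs _ (inv_mem hs'), R.ω_inv hs', h, R.addK])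
    exact ⟨x, by rw [← hx]; group⟩
  · rintro ⟨x, rfl⟩
    rw [R.ω_mul _ (R.ζ_mem x) _ hs', R.ω_ζ, zero_add]

theorem ν_mul (a b : K) : R.ν (a * b) = R.ν a * R.ν b :=
  R.ι.injective (by rw [map_mul, R.hν, R.hν, R.hν, map_mul]; ring)

theorem ν_eq_zero {a : K} : R.ν a = 0 ↔ a = 0 := by
  rw [← map_eq_zero R.ι, R.hν, mul_eq_zero, map_eq_zero, or_self]

theorem ν_zero : R.ν 0 = 0 := R.ν_eq_zero.2 rfl

theorem ν_one : R.ν 1 = 1 := R.ι.injective (by rw [R.hν, map_one, map_one, mul_one])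

theorem ν_pow (a : K) (n : ℕ) : R.ν (a ^ n) = R.ν a ^ n := by
  induction n with
  | zero => simpa using R.ν_one
  | succ n ih => rw [pow_succ, R.ν_mul, ih, pow_succ]

theorem sq_eq_one {s : G} (hs : s ∈ R.S) : s * s = 1 ↔ s ∈ R.Z := by
  rw [R.sq s hs, R.ζ_eq_one, R.ν_eq_zero, R.ω_eq_zero hs]

theorem sq_mem {s : G} (hs : s ∈ R.S) : s * s ∈ R.Z := R.sq s hs ▸ R.ζ_mem_Z _

theorem pow_four {s : G} (hs : s ∈ R.S) : s ^ 2 ^ 2 = 1 := by
  rw [show 2 ^ 2 = 2 * 2 from rfl, pow_mul, pow_two, pow_two]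
  exact R.Z_sq (R.sq_mem hs)

/-- The commutator form. -/
def β (a b : K) : F := R.ν (a + b) + R.ν a + R.ν b

theorem ι_β (a b : K) : R.ι (R.β a b) = a * R.θ b + b * R.θ a := by
  rw [β, map_add, map_add, R.hν, R.hν, R.hν, map_add]
  linear_combination R.addK (a * R.θ a) + R.addK (b * R.θ b)

theorem comm {s s' : G} (hs : s ∈ R.S) (hs' : s' ∈ R.S) : s * s' = R.ζ (R.β (R.ω s) (R.ω s')) * (s' * s) := by
  have h1 := R.sq _ (mul_mem hs hs')
  rw [R.ω_mul _ hs _ hs'] at h1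
  have h4 : s * s * (s * s) = 1 := R.Z_sq (R.sq_mem hs)
  have h5 : s' * s' * (s' * s') = 1 := R.Z_sq (R.sq_mem hs')
  have c1 : s * s * s' = s' * (s * s) := R.Z_comm (R.sq_mem hs) hs'
  rw [β, R.ζ_add, R.ζ_add, ← h1, ← R.sq s hs, ← R.sq s' hs']
  symm
  calc _ = s * s' * (s * (s' * (s * s) * (s' * s' * s')) * s) := by simp only [mul_assoc]
    _ = s * s' * (s * (s * s * (s' * s' * (s' * s'))) * s) := by rw [← c1]; simp only [mul_assoc]
    _ = s * s' * (s * s * (s * s)) := by rw [h5]; simp only [mul_assoc, mul_one]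
    _ = _ := by rw [h4, mul_one]

theorem comm_iff {s s' : G} (hs : s ∈ R.S) (hs' : s' ∈ R.S) : s * s' = s' * s ↔ R.β (R.ω s) (R.ω s') = 0 := by
  rw [R.comm hs hs', mul_eq_right, R.ζ_eq_one]

theorem conj_S {s s' : G} (hs : s ∈ R.S) (hs' : s' ∈ R.S) : s * s' * s⁻¹ = R.ζ (R.β (R.ω s) (R.ω s')) * s' := by
  rw [R.comm hs hs']; group

theorem ψ_one : R.ψ 1 = 1 := by
  have := R.ψ_mul 1 (one_mem _) 1 (one_mem _)
  rw [mul_one] at this
  exact mul_left_cancel₀ (R.ψ_ne 1 (one_mem _)) (by rw [← this, mul_one])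

theorem ψ_pow {t : G} (ht : t ∈ R.T) (n : ℕ) : R.ψ (t ^ n) = R.ψ t ^ n := by
  induction n with
  | zero => simpa using R.ψ_one
  | succ n ih => rw [pow_succ, R.ψ_mul _ (pow_mem ht n) _ ht, ih, pow_succ]

theorem ψ_inv {t : G} (ht : t ∈ R.T) : R.ψ t⁻¹ = (R.ψ t)⁻¹ :=
  eq_inv_of_mul_eq_one_left (by rw [← R.ψ_mul _ (inv_mem ht) _ ht, inv_mul_cancel, R.ψ_one])

theorem ψ_eq {t t' : G} (ht : t ∈ R.T) (ht' : t' ∈ R.T) (h : R.ψ t = R.ψ t') : t = t' :=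
  mul_inv_eq_one.1 (R.ψ_inj _ (mul_mem ht (inv_mem ht'))
    (by rw [R.ψ_mul _ ht _ (inv_mem ht'), R.ψ_inv ht', h, mul_inv_cancel₀ (R.ψ_ne _ ht')]))

theorem T_comm {t t' : G} (ht : t ∈ R.T) (ht' : t' ∈ R.T) : t * t' = t' * t :=
  R.ψ_eq (mul_mem ht ht') (mul_mem ht' ht) (by rw [R.ψ_mul _ ht _ ht', R.ψ_mul _ ht' _ ht, mul_comm])

theorem T_two {t : G} (ht : t ∈ R.T) {k : ℕ} (h : t ^ 2 ^ k = 1) : t = 1 := by
  haveI := R.charK
  have := R.ψ_pow ht (2 ^ k)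
  rw [h, R.ψ_one] at this
  have h2 : (R.ψ t - 1) ^ 2 ^ k = 0 := by rw [sub_pow_char_pow, ← this, one_pow, sub_self]
  exact R.ψ_inj t ht (sub_eq_zero.1 (pow_eq_zero_iff (by positivity) |>.1 h2))

theorem T_odd [Finite G] {t : G} (ht : t ∈ R.T) : Odd (orderOf t) := by
  by_contra h
  obtain ⟨k, hk⟩ := Nat.not_odd_iff_even.1 h
  have h0 := orderOf_pos t
  have := R.T_two (pow_mem ht k) (k := 1) (by rw [← pow_mul, pow_one, mul_two, ← hk, pow_orderOf_eq_one])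
  exact absurd (Nat.le_of_dvd (by omega) (orderOf_dvd_of_pow_eq_one this)) (by omega)

theorem S_inf_T {g : G} (hs : g ∈ R.S) (ht : g ∈ R.T) : g = 1 := R.T_two ht (R.pow_four hs)

theorem i_cases : i = 1 ∨ i = 2 ∨ i = 3 := by
  rcases R.typ with h | h | h <;> simp [h.1]

theorem ω_surj (h : i ≠ 1) (a : K) : ∃ s ∈ R.S, R.ω s = a := by
  rcases R.typ with k | k | k
  exacts [(h k.1).elim, k.2.2.1 a, k.2.1 a]

theorem S_eq_Z (h : i = 1) : R.S = R.Z := by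
  rcases R.typ with k | k | k
  · exact le_antisymm (fun s hs => (R.ω_eq_zero hs).1 (k.2.1 s hs)) R.Z_le
  all_goals omega

theorem cardK : Nat.card K = (2 ^ m) ^ (if i = 3 then 2 else 1) := by
  rcases R.typ with k | k | k
  · rw [if_neg (by omega), pow_one, ← R.cardF]
    exact (Nat.card_congr (Equiv.ofBijective _ ⟨R.ι.injective, k.2.2.1⟩)).symm
  · rw [if_neg (by omega), pow_one, ← R.cardF]
    exact (Nat.card_congr (Equiv.ofBijective _ ⟨R.ι.injective, k.2.2.2.1⟩)).symm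
  · rw [if_pos k.1, k.2.2.1]

theorem θθ (h : i = 3) (a : K) : R.θ (R.θ a) = a := by
  rcases R.typ with k | k | k
  · omega
  · omega
  haveI := R.finK
  haveI := Fintype.ofFinite K
  rw [k.2.2.2.1, k.2.2.2.1, ← pow_mul, ← pow_two, ← k.2.2.1, Nat.card_eq_fintype_card, FiniteField.pow_card]

theorem θ_ι (h : i ≠ 2) (x : F) : R.θ (R.ι x) = R.ι x := by
  rcases R.typ with k | k | k
  · exact k.2.2.2 _
  · omega
  haveI := R.finF
  haveI := Fintype.ofFinite F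
  rw [k.2.2.2.1, ← map_pow, ← R.cardF, Nat.card_eq_fintype_card, FiniteField.pow_card]

theorem ν_ι (h : i ≠ 2) (x : F) : R.ν (R.ι x) = x ^ 2 := R.ι.injective (by rw [R.hν, R.θ_ι h, map_pow, pow_two])

theorem ν_inj (h : i ≠ 3) : Function.Injective R.ν := by
  haveI := R.charK
  have key : ∀ a, R.ν a = 1 → a = 1 := fun a ha => by
    have h1 := R.hν a
    rw [ha, map_one] at h1
    rcases R.typ with k | k | k
    · rw [k.2.2.2] at h1
      exact CharTwo.sq_injective (by simp only; rw [pow_two, ← h1, one_pow])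
    · have h2 := congrArg R.θ h1
      rw [map_one, map_mul, k.2.2.2.2] at h2
      linear_combination (-1 : K) * h2 + a * h1
    · omega
  intro a b e
  by_cases hb : b = 0
  · rw [hb, R.ν_zero, R.ν_eq_zero] at e; rw [e, hb]
  have hb' := mt R.ν_eq_zero.1 hb
  have : R.ν (a / b) = 1 := mul_right_cancel₀ hb' (by rw [← R.ν_mul, div_mul_cancel₀ _ hb, e, one_mul])
  exact (div_eq_one_iff_eq hb).1 (key _ this)

theorem card_S : Nat.card R.S = (2 ^ m) ^ i := by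
  by_cases h : i = 1
  · rw [R.S_eq_Z h, R.card_Z, h, pow_one]
  choose f hf hf' using R.ω_surj h
  have : Function.Bijective fun x : F × K => (⟨R.ζ x.1 * f x.2, mul_mem (R.ζ_mem _) (hf _)⟩ : R.S) := by
    constructor
    · rintro ⟨x, a⟩ ⟨y, b⟩ e
      have e : R.ζ x * f a = R.ζ y * f b := congrArg Subtype.val e
      have : a = b := by
        have := congrArg R.ω e
        rwa [R.ω_mul _ (R.ζ_mem _) _ (hf _), R.ω_mul _ (R.ζ_mem _) _ (hf _), R.ω_ζ, R.ω_ζ, hf', hf', zero_add,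
          zero_add] at this
      subst this
      rw [R.ζ_inj (mul_right_cancel e)]
    · rintro ⟨s, hs⟩
      obtain ⟨x, hx⟩ := (R.ω_eq_iff hs (hf (R.ω s))).1 (hf' _).symm
      exact ⟨(x, R.ω s), Subtype.ext hx.symm⟩
  rw [← Nat.card_congr (Equiv.ofBijective _ this), Nat.card_prod, R.cardF, R.cardK]
  rcases R.i_cases with k | k | k
  · exact (h k).elim
  · rw [k]; simp [pow_two]
  · rw [k]; simp; ring

theorem exists_F : ∃ x : F, x ≠ 0 ∧ x ≠ 1 := by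
  haveI := R.finF
  haveI := Fintype.ofFinite F
  by_contra h
  push Not at h
  classical
  have : (Finset.univ : Finset F) ⊆ {0, 1} := fun x _ => by
    by_cases e : x = 0
    · simp [e]
    · simp [h x e]
  have h1 := (Finset.card_le_card this).trans Finset.card_le_two
  have := R.four_le
  rw [Finset.card_univ, ← Nat.card_eq_fintype_card, R.cardF] at h1
  omega

/-- The commutator form is non-degenerate. -/
theorem β_nondeg (h : i ≠ 1) {a : K} (ha : ∀ b, R.β a b = 0) : a = 0 := by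
  by_contra h0
  have key : ∀ c, R.θ c = c := fun c => by
    have := R.ι_β a (c * a)
    rw [ha, map_zero, map_mul] at this
    have h1 : a * R.θ a ≠ 0 := mul_ne_zero h0 ((map_ne_zero _).2 h0)
    exact mul_right_cancel₀ h1 (by linear_combination -this - R.addK (c * a * R.θ a))
  rcases R.typ with k | k | k
  · exact h k.1
  · obtain ⟨x, h1, h2⟩ := R.exists_F
    have := k.2.2.2.2 (R.ι x)
    rw [key, key, ← map_pow] at this
    exact h2 (mul_left_cancel₀ h1 (by rw [mul_one, ← pow_two, ← R.ι.injective this]))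
  · obtain ⟨t, -, h1, h2⟩ := k.2.2.2.2
    haveI := R.charK
    have := R.hν (R.ψ t)
    rw [h2, map_one, key] at this
    exact h1 (CharTwo.sq_injective (by simp only; rw [pow_two, ← this, one_pow]))

theorem mem_Z_of_central {s : G} (hs : s ∈ R.S) (h : ∀ s' ∈ R.S, s * s' = s' * s) : s ∈ R.Z := by
  by_cases k : i = 1
  · exact R.S_eq_Z k ▸ hs
  refine (R.ω_eq_zero hs).1 (R.β_nondeg k fun b => ?_)
  obtain ⟨s', hs', rfl⟩ := R.ω_surj k b
  exact (R.comm_iff hs hs').1 (h s' hs')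

theorem S_le_Nm : R.S ≤ Nm R.S := le_Nm

variable [Finite G]

theorem T_le_Nm : R.T ≤ Nm R.S := fun t ht => mem_Nm.2 (R.T_norm t ht)

theorem w_norm' {t : G} (ht : t ∈ R.T) : R.w⁻¹ * t * R.w ∈ R.T := Nm_conj' (mem_Nm.2 R.w_norm) ht

theorem w_not_mem : R.w ∉ Nm R.S := fun h =>
  (R.iv_ζ one_ne_zero).2.1 (R.ti _ (R.ζ_mem 1) _ (Nm_conj h (R.ζ_mem 1)) 1 (one_mem _) (mul_one _).symm)

theorem mem_B {g : G} (hg : g ∈ N) : g ∈ Nm R.S ↔ ∃ s ∈ R.S, ∃ t ∈ R.T, g = s * t := by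
  constructor
  · intro h
    rcases R.bruhat g hg with k | ⟨s, hs, s', hs', t, ht, rfl⟩
    · exact k
    refine (R.w_not_mem ?_).elim
    exact (mul_mem_cancel_left (R.S_le_Nm hs)).1
      ((mul_mem_cancel_right (mul_mem (R.S_le_Nm hs') (R.T_le_Nm ht))).1 h)
  · rintro ⟨s, hs, t, ht, rfl⟩
    exact mul_mem (R.S_le_Nm hs) (R.T_le_Nm ht)

/-- Trivial intersection, strong form. -/
theorem ti' {g s : G} (hg : g ∈ N) (hs : s ∈ R.S) (h1 : s ≠ 1) (h : g * s * g⁻¹ ∈ Nm R.S) : g ∈ Nm R.S := by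
  rcases R.bruhat g hg with k | ⟨a, ha, b, hb, t, ht, rfl⟩
  · exact (R.mem_B hg).2 k
  have h2 : b * t * s * (b * t)⁻¹ ∈ R.S := Nm_conj (mul_mem (R.S_le_Nm hb) (R.T_le_Nm ht)) hs
  have h3 : R.w * (b * t * s * (b * t)⁻¹) * R.w⁻¹ ∈ Nm R.S := by
    have := mul_mem (mul_mem (inv_mem (R.S_le_Nm ha)) h) (R.S_le_Nm ha)
    convert this using 1
    group
  obtain ⟨s', hs', t', ht', e⟩ := (R.mem_B (mul_mem (mul_mem R.w_mem (R.S_le h2)) (inv_mem R.w_mem))).1 h3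
  exact (h1 (conj_eq_one_iff.1 (R.ti _ h2 _ hs' _ ht' e))).elim

theorem pow_st {s t : G} (hs : s ∈ R.S) (ht : t ∈ R.T) (n : ℕ) : ∃ s' ∈ R.S, (s * t) ^ n = s' * t ^ n := by
  induction n with
  | zero => exact ⟨1, one_mem _, by simp⟩
  | succ n ih =>
    obtain ⟨s', hs', e⟩ := ih
    exact ⟨s * (t * s' * t⁻¹), mul_mem hs (R.T_norm t ht s' hs'), by rw [pow_succ', e, pow_succ']; group⟩

/-- An element of the Borel subgroup with a `2`-power in `S` lies in `S`. -/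
theorem mem_S_of_pow {g : G} (hg : g ∈ N) (hB : g ∈ Nm R.S) {k : ℕ} (h : g ^ 2 ^ k ∈ R.S) : g ∈ R.S := by
  obtain ⟨s, hs, t, ht, rfl⟩ := (R.mem_B hg).1 hB
  obtain ⟨s', hs', e⟩ := R.pow_st hs ht (2 ^ k)
  rw [e, mul_mem_cancel_left hs'] at h
  rw [R.T_two ht (R.S_inf_T h (pow_mem ht _)), mul_one]
  exact hs

theorem mem_S_of_two {g : G} (hg : g ∈ N) (hB : g ∈ Nm R.S) {k : ℕ} (h : g ^ 2 ^ k = 1) : g ∈ R.S :=
  R.mem_S_of_pow hg hB (h ▸ one_mem _)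

theorem mem_B_of_comm {g s : G} (hg : g ∈ N) (hs : s ∈ R.S) (h1 : s ≠ 1) (h : Commute g s) : g ∈ Nm R.S :=
  R.ti' hg hs h1 (by rw [h.eq, mul_inv_cancel_right]; exact R.S_le_Nm hs)

theorem iv_mem_Z {u : G} (hu : Iv N u) (hB : u ∈ Nm R.S) : u ∈ R.Z :=
  have h := R.mem_S_of_two hu.1 hB (k := 1) (by rw [pow_one, pow_two, hu.2.2])
  (R.sq_eq_one h).1 hu.2.2

theorem iv_mem_Z_of_comm {u s : G} (hu : Iv N u) (hs : s ∈ R.S) (h1 : s ≠ 1) (h : Commute u s) : u ∈ R.Z :=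
  R.iv_mem_Z hu (R.mem_B_of_comm hu.1 hs h1 h)

theorem Z_norm {g z : G} (hg : g ∈ Nm R.S) (hz : z ∈ R.Z) : g * z * g⁻¹ ∈ R.Z :=
  (R.sq_eq_one (Nm_conj hg (R.Z_le hz))).1 (by rw [conj_mul, R.Z_sq hz]; simp)

/-- The Borel subgroup acts on `Z` by scalars. -/
theorem B_scal {g : G} (hg : g ∈ N) (hB : g ∈ Nm R.S) : ∃ c, c ≠ 0 ∧ ∀ x, g * R.ζ x * g⁻¹ = R.ζ (c * x) := by
  obtain ⟨s, hs, t, ht, rfl⟩ := (R.mem_B hg).1 hB
  refine ⟨_, mt R.ν_eq_zero.1 (R.ψ_ne t ht), fun x => ?_⟩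
  calc _ = s * (t * R.ζ x * t⁻¹) * s⁻¹ := by group
    _ = _ := by rw [R.ζ_conj t ht, ← R.ζ_comm _ s hs]; group

end R0

end Cfsg.Agent.H5.TA
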