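import Cfsg.Agent.H5.TA1

/-! The points (Sylow `2`-subgroups) of a group with rank one data. -/

set_option autoImplicit false
set_option linter.unusedSectionVars false

namespace Cfsg.Agent.H5.TA

open Subgroup MulAction

variable {G : Type*} [Group G] {N N' : Subgroup G} {F K : Type} [Field F] [Field K] {m i : ℕ}

/-- Conjugate subgroup. -/
def cj (g : G) (S : Subgroup G) : Subgroup G := S.map (MulAut.conj g).toMonoidHom

theorem mem_cj {g x : G} {S : Subgroup G} : x ∈ cj g S ↔ g⁻¹ * x * g ∈ S := by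
  rw [cj, Subgroup.mem_map_equiv]; simp

theorem conj_mem_cj {g x : G} {S : Subgroup G} : g * x * g⁻¹ ∈ cj g S ↔ x ∈ S := by
  rw [mem_cj]; simp [mul_assoc]

theorem cj_mul (g h : G) (S : Subgroup G) : cj (g * h) S = cj g (cj h S) := by
  ext x; simp [mem_cj, mul_assoc]

theorem cj_one (S : Subgroup G) : cj 1 S = S := by ext x; simp [mem_cj]

theorem cj_eq_iff {g : G} {S : Subgroup G} : cj g S = S ↔ g ∈ Nm S := mem_normalizer_iff_map_conj_eq.symm

theorem mem_Nm_cj {g x : G} {S : Subgroup G} : x ∈ Nm (cj g S) ↔ g⁻¹ * x * g ∈ Nm S := by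
  rw [← cj_eq_iff, ← cj_eq_iff, cj_mul, cj_mul]
  constructor
  · intro h; rw [h, ← cj_mul, inv_mul_cancel, cj_one]
  · intro h
    have := congrArg (cj g) h
    rwa [← cj_mul, mul_inv_cancel, cj_one] at this

theorem odd_fix {α : Type*} [Finite α] (f : α → α) (hf : ∀ x, f (f x) = x) (h : Odd (Nat.card α)) : ∃ x, f x = x := by
  classical
  haveI := Fintype.ofFinite α
  by_contra k
  push Not at k
  have := Finset.sum_involution (s := Finset.univ) (f := fun _ => (1 : ZMod 2)) (fun x _ => f x)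
    (fun _ _ => rfl) (fun x _ _ => k x) (fun _ _ => Finset.mem_univ _) (fun x _ => hf x)
  rw [Finset.sum_const, nsmul_eq_mul, mul_one, Finset.card_univ, ← Nat.card_eq_fintype_card] at this
  exact Nat.not_even_iff_odd.2 h (ZMod.natCast_eq_zero_iff_even.1 this)

/-- An involution of a finite set with exactly one fixed point: the set is odd. -/
theorem odd_of_one_fix {α : Type*} [Finite α] (f : α → α) (hf : ∀ x, f (f x) = x) (a : α) (ha : ∀ x, f x = x ↔ x = a) :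
    Odd (Nat.card α) := by
  classical
  haveI := Fintype.ofFinite α
  have := Finset.sum_involution (s := Finset.univ.erase a) (f := fun _ => (1 : ZMod 2)) (fun x _ => f x)
    (fun _ _ => rfl) (fun x hx _ e => (Finset.mem_erase.1 hx).1 ((ha x).1 e))
    (fun x hx => Finset.mem_erase.2 ⟨fun e => (Finset.mem_erase.1 hx).1
      (by rw [← hf x, e, (ha a).2 rfl]), Finset.mem_univ _⟩) (fun x _ => hf x)
  rw [Finset.sum_const, nsmul_eq_mul, mul_one] at this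
  rw [Nat.card_eq_fintype_card, ← Finset.card_univ, ← Finset.card_erase_add_one (Finset.mem_univ a)]
  exact (ZMod.natCast_eq_zero_iff_even.1 this).add_one

/-- Change the proof of the ambient subgroup. -/
def R0.congr (R : R0 N F K m i) (h : N = N') : R0 N' F K m i :=
  { R with
    S_le := h ▸ R.S_le
    T_le := h ▸ R.T_le
    w_mem := h ▸ R.w_mem
    bruhat := h ▸ R.bruhat
    gen := h ▸ R.gen }

/-- Conjugate data. -/
noncomputable def R0.cj (R : R0 N F K m i) (g : G) (h : TA.cj g N = N') : R0 N' F K m i :=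
  (R.map (MulAut.conj g).toMonoidHom (MulAut.conj g).injective).congr h

section
variable (R : R0 N F K m i) (g : G) (h : TA.cj g N = N')

theorem R0.cj_S : (R.cj g h).S = TA.cj g R.S := rfl
theorem R0.cj_T : (R.cj g h).T = TA.cj g R.T := rfl
theorem R0.cj_w : (R.cj g h).w = g * R.w * g⁻¹ := rfl
theorem R0.cj_ζ (x : F) : (R.cj g h).ζ x = g * R.ζ x * g⁻¹ := rfl
theorem R0.cj_ν : (R.cj g h).ν = R.ν := rfl
theorem R0.cj_ω (x : G) : (R.cj g h).ω (g * x * g⁻¹) = R.ω x :=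
  congrArg R.ω (Function.leftInverse_invFun (f := (MulAut.conj g).toMonoidHom) (MulAut.conj g).injective x)
theorem R0.cj_ψ (x : G) : (R.cj g h).ψ (g * x * g⁻¹) = R.ψ x :=
  congrArg R.ψ (Function.leftInverse_invFun (f := (MulAut.conj g).toMonoidHom) (MulAut.conj g).injective x)
theorem R0.cj_Z : (R.cj g h).Z = TA.cj g R.Z := by
  refine Subgroup.ext fun x => ?_
  rw [mem_cj]
  exact exists_congr fun y => by
    rw [R0.cj_ζ]; constructor <;> intro e
    · rw [← e]; group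
    · rw [e]; group
end

variable (N F K m i) in
/-- The points. -/
def Pt : Type _ := {S : Subgroup G // ∃ R : R0 N F K m i, R.S = S}

instance instFinPt [Finite G] : Finite (Pt N F K m i) := by unfold Pt; infer_instance

instance instActPt : MulAction (Nm N) (Pt N F K m i) where
  smul g p := ⟨cj g p.1, by
    obtain ⟨R, h⟩ := p.2
    exact ⟨R.cj g (cj_eq_iff.2 g.2), h ▸ rfl⟩⟩
  one_smul p := Subtype.ext (cj_one _)
  mul_smul g h p := Subtype.ext (cj_mul _ _ _)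

theorem smul_val (g : Nm N) (p : Pt N F K m i) : (g • p).1 = cj (g : G) p.1 := rfl

theorem smul_eq_iff {g : Nm N} {p : Pt N F K m i} : g • p = p ↔ (g : G) ∈ Nm p.1 :=
  Subtype.ext_iff.trans cj_eq_iff

/-- An element of `N` as an element of the normaliser. -/
abbrev nm {g : G} (h : g ∈ N) : Nm N := ⟨g, le_Nm h⟩

theorem Cn_smul {g : Nm N} (h : (g : G) ∈ Cn N) (p : Pt N F K m i) : g • p = p := by
  obtain ⟨_, R, rfl⟩ := p
  exact smul_eq_iff.2 (Cn_le_Nm (centralizer_le R.S_le h))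

namespace R0

variable (R : R0 N F K m i)

/-- The base point. -/
def pt : Pt N F K m i := ⟨R.S, R, rfl⟩

/-- The opposite point. -/
def pt' : Pt N F K m i := nm R.w_mem • R.pt

theorem fix_pt {g : Nm N} : g • R.pt = R.pt ↔ (g : G) ∈ Nm R.S := smul_eq_iff

theorem fix_pt' {g : Nm N} : g • R.pt' = R.pt' ↔ R.w⁻¹ * g * R.w ∈ Nm R.S := smul_eq_iff.trans mem_Nm_cj

theorem cj_pt (g : Nm N) : (R.cj g (cj_eq_iff.2 g.2)).pt = g • R.pt := rfl

theorem cj_pt' (g : Nm N) : (R.cj g (cj_eq_iff.2 g.2)).pt' = g • R.pt' := by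
  rw [pt', pt', cj_pt, ← mul_smul, ← mul_smul]
  congr 1
  exact Subtype.ext (inv_mul_cancel_right _ _)

variable [Finite G]

theorem pt'_ne : R.pt' ≠ R.pt := fun h => R.w_not_mem (R.fix_pt.1 h)

theorem T_fix' {t : G} (ht : t ∈ R.T) : nm (R.T_le ht) • R.pt' = R.pt' := R.fix_pt'.2 (R.T_le_Nm (R.w_norm' ht))

/-- A non-trivial element of `S` fixes no other `N`-conjugate of the base point. -/
theorem S_fix_aux {s g : G} (hs : s ∈ R.S) (h1 : s ≠ 1) (hg : g ∈ N)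
    (h : nm (R.S_le hs) • nm hg • R.pt = nm hg • R.pt) : nm hg • R.pt = R.pt := by
  have h2 : g⁻¹ * s * g ∈ Nm R.S := mem_Nm_cj.1 (smul_eq_iff.1 h)
  exact R.fix_pt.2 (inv_mem_iff.1 (R.ti' (inv_mem hg) hs h1 (by rwa [inv_inv])))

theorem orbit_cases {g : G} (hg : g ∈ N) :
    nm hg • R.pt = R.pt ∨ ∃ s, ∃ hs : s ∈ R.S, nm hg • R.pt = nm (R.S_le hs) • R.pt' := by
  rcases R.bruhat g hg with k | ⟨s, hs, s', hs', t, ht, rfl⟩
  · exact Or.inl (R.fix_pt.2 ((R.mem_B hg).2 k))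
  · refine Or.inr ⟨s, hs, ?_⟩
    have : nm (mul_mem (R.S_le hs') (R.T_le ht)) • R.pt = R.pt := R.fix_pt.2 (mul_mem (R.S_le_Nm hs') (R.T_le_Nm ht))
    rw [pt']
    conv_rhs => rw [← this, ← mul_smul, ← mul_smul]
    rfl

theorem S_inj {s s' : G} (hs : s ∈ R.S) (hs' : s' ∈ R.S) (h : nm (R.S_le hs) • R.pt' = nm (R.S_le hs') • R.pt') :
    s = s' := by
  by_contra k
  refine R.pt'_ne (R.S_fix_aux (mul_mem (inv_mem hs') hs) (fun e => k (inv_mul_eq_one.1 e).symm) R.w_mem ?_)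
  exact (mul_smul (nm (R.S_le hs'))⁻¹ (nm (R.S_le hs)) R.pt').trans (by rw [h, inv_smul_smul]; rfl)

theorem S_smul_ne {s : G} (hs : s ∈ R.S) : nm (R.S_le hs) • R.pt' ≠ R.pt := fun h =>
  R.pt'_ne (by rw [← inv_smul_eq_iff.2 h.symm]; exact R.fix_pt.2 (inv_mem (R.S_le_Nm hs)))

include R in
theorem odd_succ : Odd ((2 ^ m) ^ i + 1) := by
  refine Even.add_one ((Nat.even_pow' ?_).2 ((Nat.even_pow' ?_).2 even_two))
  · rcases R.i_cases with h | h | h <;> omega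
  · have := R.hm; omega

theorem card_orbit : Nat.card {p : Pt N F K m i // ∃ g, ∃ hg : g ∈ N, p = nm hg • R.pt} = (2 ^ m) ^ i + 1 := by
  rw [← R.card_S, ← Finite.card_option]
  symm
  refine Nat.card_congr (Equiv.ofBijective (fun x => match x with
    | none => ⟨R.pt, 1, one_mem _, (one_smul _ _).symm⟩
    | some s => ⟨nm (R.S_le s.2) • R.pt', _, mul_mem (R.S_le s.2) R.w_mem, (mul_smul _ _ _).symm⟩) ⟨?_, ?_⟩)
  · rintro (_ | s) (_ | s') e
    · rfl
    · exact (R.S_smul_ne s'.2 (congrArg Subtype.val e).symm).elim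
    · exact (R.S_smul_ne s.2 (congrArg Subtype.val e)).elim
    · rw [Subtype.ext (R.S_inj s.2 s'.2 (congrArg Subtype.val e))]
  · rintro ⟨_, g, hg, rfl⟩
    rcases R.orbit_cases hg with k | ⟨s, hs, k⟩
    · exact ⟨none, Subtype.ext k.symm⟩
    · exact ⟨some ⟨s, hs⟩, Subtype.ext k.symm⟩

theorem isPGroup_S : IsPGroup 2 R.S := fun s => ⟨2, Subtype.ext (R.pow_four s.2)⟩

theorem exists_smul_pt (p : Pt N F K m i) : ∃ g, ∃ hg : g ∈ N, p = nm hg • R.pt := by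
  obtain ⟨_, R', rfl⟩ := p
  letI : MulAction R'.S {p : Pt N F K m i // ∃ g, ∃ hg : g ∈ N, p = nm hg • R.pt} :=
    { smul := fun s p => ⟨nm (R'.S_le s.2) • p.1, by
        obtain ⟨g, hg, e⟩ := p.2
        exact ⟨_, mul_mem (R'.S_le s.2) hg, by rw [e]; exact (mul_smul _ _ _).symm⟩⟩
      one_smul := fun p => Subtype.ext (one_smul (Nm N) p.1)
      mul_smul := fun s s' p => Subtype.ext (mul_smul (nm (R'.S_le s.2)) (nm (R'.S_le s'.2)) p.1) }
  obtain ⟨⟨_, g, hg, rfl⟩, h⟩ := R'.isPGroup_S.nonempty_fixed_point_of_prime_not_dvd_card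
    {p : Pt N F K m i // ∃ g, ∃ hg : g ∈ N, p = nm hg • R.pt}
    (by rw [R.card_orbit]; exact R.odd_succ.not_two_dvd_nat)
  refine ⟨g, hg, Subtype.ext ?_⟩
  let R1 := R.cj (nm hg) (cj_eq_iff.2 (nm hg).2)
  have : R'.S ≤ R1.S := fun s hs => R1.mem_S_of_two (R'.S_le hs)
    (smul_eq_iff.1 (congrArg Subtype.val (h ⟨s, hs⟩) :)) (R'.pow_four hs)
  exact (eq_of_le_of_card_ge this (by rw [R1.card_S, R'.card_S]) : R'.S = R1.S)

include R in
theorem card_Pt : Nat.card (Pt N F K m i) = (2 ^ m) ^ i + 1 := by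
  rw [← R.card_orbit]
  exact (Nat.card_congr (Equiv.subtypeUnivEquiv R.exists_smul_pt)).symm

include R in
theorem odd_Pt : Odd (Nat.card (Pt N F K m i)) := R.card_Pt ▸ R.odd_succ

/-- `S` is transitive on the other points. -/
theorem exists_S {p : Pt N F K m i} (hp : p ≠ R.pt) : ∃ s, ∃ hs : s ∈ R.S, p = nm (R.S_le hs) • R.pt' := by
  obtain ⟨g, hg, rfl⟩ := R.exists_smul_pt p
  exact (R.orbit_cases hg).resolve_left hp

theorem exists_S' {p p' : Pt N F K m i} (hp : p ≠ R.pt) (hp' : p' ≠ R.pt) :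
    ∃ s, ∃ hs : s ∈ R.S, nm (R.S_le hs) • p = p' := by
  obtain ⟨s, hs, rfl⟩ := R.exists_S hp
  obtain ⟨s', hs', rfl⟩ := R.exists_S hp'
  exact ⟨_, mul_mem hs' (inv_mem hs), (mul_smul (nm (R.S_le hs')) (nm (R.S_le hs))⁻¹ _).trans (by rw [inv_smul_smul])⟩

/-- `S` is semiregular on the other points. -/
theorem S_fix {s : G} (hs : s ∈ R.S) (h1 : s ≠ 1) {p : Pt N F K m i} (h : nm (R.S_le hs) • p = p) : p = R.pt := by
  obtain ⟨g, hg, rfl⟩ := R.exists_smul_pt p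
  exact R.S_fix_aux hs h1 hg h

theorem mem_T {g : G} (hg : g ∈ N) (h : nm hg • R.pt = R.pt) (h' : nm hg • R.pt' = R.pt') : g ∈ R.T := by
  obtain ⟨s, hs, t, ht, rfl⟩ := (R.mem_B hg).1 (R.fix_pt.1 h)
  have : nm (R.S_le hs) • R.pt' = R.pt' := by
    conv_lhs => rw [← R.T_fix' ht, ← mul_smul]
    exact h'
  by_cases e : s = 1
  · rwa [e, one_mul]
  · exact (R.pt'_ne (R.S_fix hs e this)).elim

theorem T_cent {t s : G} (ht : t ∈ R.T) (hs : s ∈ R.S) (h1 : s ≠ 1) (h : t * s * t⁻¹ = s) : R.ν (R.ψ t) = 1 := by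
  by_cases k : R.ω s = 0
  · obtain ⟨x, rfl⟩ := (R.ω_ker s hs).1 k
    rw [R.ζ_conj t ht] at h
    exact mul_right_cancel₀ (mt R.ζ_eq_one.2 h1) ((R.ζ_inj h).trans (one_mul x).symm)
  · have := R.ω_conj t ht s hs
    rw [h] at this
    rw [mul_right_cancel₀ k (this.symm.trans (one_mul _).symm), R.ν_one]

theorem conj_smul {g : Nm N} (h' : g • R.pt' = R.pt') {s : G} (hs : s ∈ R.S) :
    nm (Nm_conj g.2 (R.S_le hs)) • R.pt' = g • nm (R.S_le hs) • R.pt' := by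
  conv_rhs => rw [← inv_smul_eq_iff.2 h'.symm, ← mul_smul, ← mul_smul]
  rfl

/-- The fixed points of an element fixing both base points. -/
theorem fix_iff {g : Nm N} (h : g • R.pt = R.pt) (h' : g • R.pt' = R.pt') {s : G} (hs : s ∈ R.S) :
    g • nm (R.S_le hs) • R.pt' = nm (R.S_le hs) • R.pt' ↔ g * s * (g : G)⁻¹ = s := by
  rw [← R.conj_smul h' hs]
  exact ⟨R.S_inj (Nm_conj (R.fix_pt.1 h) hs) hs, fun e => by congr 1; exact Subtype.ext e⟩

theorem T_fix {t : G} (ht : t ∈ R.T) : nm (R.T_le ht) • R.pt = R.pt := R.fix_pt.2 (R.T_le_Nm ht)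

theorem w_pt' : nm R.w_mem • R.pt' = R.pt := by
  obtain ⟨c, h0, h1⟩ := R.exists_F
  obtain ⟨t, ht, e⟩ := R.χ_surj c h0
  by_contra k
  obtain ⟨s, hs, e'⟩ := R.exists_S k
  have h2 : nm (R.T_le ht) • nm R.w_mem • R.pt' = nm R.w_mem • R.pt' := by
    conv_rhs => rw [← R.T_fix' (R.w_norm' ht), ← mul_smul]
    rw [← mul_smul]
    congr 1
    exact Subtype.ext (by simp [mul_assoc])
  rw [e', R.fix_iff (R.T_fix ht) (R.T_fix' ht) hs] at h2
  refine h1 (e ▸ R.T_cent ht hs (fun e1 => R.pt'_ne ?_) h2)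
  subst e1
  exact smul_left_cancel _ (e'.trans (one_smul (Nm N) _))

/-- The data with the two base points interchanged. -/
noncomputable def opp : R0 N F K m i := R.cj (nm R.w_mem) (cj_eq_iff.2 (nm R.w_mem).2)

theorem opp_pt : R.opp.pt = R.pt' := rfl

theorem opp_pt' : R.opp.pt' = R.pt := (R.cj_pt' _).trans R.w_pt'

theorem opp_T : R.opp.T = R.T := cj_eq_iff.2 (mem_Nm.2 R.w_norm)

include R in
theorem exists_pair {p p' : Pt N F K m i} (h : p' ≠ p) : ∃ R' : R0 N F K m i, R'.pt = p ∧ R'.pt' = p' := by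
  obtain ⟨_, R1, rfl⟩ := p
  obtain ⟨s, hs, rfl⟩ := R1.exists_S h
  exact ⟨R1.cj _ (cj_eq_iff.2 (nm (R1.S_le hs)).2), (R1.cj_pt _).trans (R1.fix_pt.2 (R1.S_le_Nm hs)), R1.cj_pt' _⟩

theorem exists_pt' {p' : Pt N F K m i} (h : p' ≠ R.pt) :
    ∃ R' : R0 N F K m i, R'.S = R.S ∧ R'.ζ = R.ζ ∧ R'.pt' = p' := by
  obtain ⟨s, hs, rfl⟩ := R.exists_S h
  refine ⟨R.cj _ (cj_eq_iff.2 (nm (R.S_le hs)).2), cj_eq_iff.2 (R.S_le_Nm hs), funext fun x => ?_, R.cj_pt' _⟩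
  rw [R0.cj_ζ, ← R.ζ_comm x s hs, mul_inv_cancel_right]

theorem Z_eq {R' : R0 N F K m i} (h : R'.S = R.S) : R'.Z = R.Z := Subgroup.ext fun _ =>
  ⟨fun k => (R.sq_eq_one (h ▸ R'.Z_le k)).1 (R'.Z_sq k), fun k => (R'.sq_eq_one (h ▸ R.Z_le k)).1 (R.Z_sq k)⟩

include R in
/-- A `2`-subgroup of the normaliser fixes a point. -/
theorem exists_fix {P : Subgroup G} (hP : IsPGroup 2 P) (h : P ≤ Nm N) :
    ∃ R' : R0 N F K m i, P ≤ Nm R'.S := by
  letI : MulAction P (Pt N F K m i) := MulAction.compHom _ (inclusion h)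
  obtain ⟨⟨_, R', rfl⟩, k⟩ := hP.nonempty_fixed_point_of_prime_not_dvd_card (Pt N F K m i) R.odd_Pt.not_two_dvd_nat
  exact ⟨R', fun g hg => smul_eq_iff.1 (k ⟨g, hg⟩ : (⟨g, h hg⟩ : Nm N) • _ = _)⟩

include R in
theorem exists_le_S {P : Subgroup G} (hP : IsPGroup 2 P) (h : P ≤ N) : ∃ R' : R0 N F K m i, P ≤ R'.S := by
  obtain ⟨R', k⟩ := R.exists_fix hP (h.trans le_Nm)
  refine ⟨R', fun g hg => ?_⟩
  obtain ⟨n, hn⟩ := hP ⟨g, hg⟩
  exact R'.mem_S_of_two (h hg) (k hg) (congrArg Subtype.val hn)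

include R in
theorem exists_mem_S {g : G} (hg : g ∈ N) {k : ℕ} (h : g ^ 2 ^ k = 1) : ∃ R' : R0 N F K m i, g ∈ R'.S := by
  obtain ⟨n, -, hn⟩ := (Nat.dvd_prime_pow Nat.prime_two).1 (orderOf_dvd_of_pow_eq_one h)
  obtain ⟨R', k⟩ := R.exists_le_S (P := zpowers g) (IsPGroup.of_card (by rw [Nat.card_zpowers, hn]))
    (zpowers_le.2 hg)
  exact ⟨R', k (mem_zpowers g)⟩

theorem exists_T {x y : F} (hx : x ≠ 0) (hy : y ≠ 0) : ∃ t ∈ R.T, t * R.ζ x * t⁻¹ = R.ζ y := by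
  obtain ⟨t, ht, e⟩ := R.χ_surj (y / x) (div_ne_zero hy hx)
  exact ⟨t, ht, by rw [R.ζ_conj t ht, e, div_mul_cancel₀ _ hx]⟩

include R in
/-- Data centred at a given involution. -/
theorem exists_at {u : G} (hu : Iv N u) : ∃ R' : R0 N F K m i, R'.ζ 1 = u := by
  obtain ⟨R', h⟩ := R.exists_mem_S hu.1 (k := 1) (by rw [pow_one, pow_two, hu.2.2])
  obtain ⟨x, rfl⟩ := (R'.sq_eq_one h).1 hu.2.2
  obtain ⟨t, ht, e⟩ := R'.exists_T one_ne_zero (mt R'.ζ_eq_one.2 hu.2.1)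
  exact ⟨R'.cj _ (cj_eq_iff.2 (le_Nm (R'.T_le ht))), e⟩

include R in
theorem iv_conj {t u : G} (ht : Iv N t) (hu : Iv N u) : ∃ g ∈ N, g * t * g⁻¹ = u := by
  obtain ⟨R1, rfl⟩ := R.exists_at ht
  obtain ⟨R2, rfl⟩ := R.exists_at hu
  obtain ⟨g, hg, e⟩ := R1.exists_smul_pt R2.pt
  have h1 : g * R1.ζ 1 * g⁻¹ ∈ R2.Z :=
    (R2.sq_eq_one (by rw [show R2.S = TA.cj g R1.S from congrArg Subtype.val e, conj_mem_cj]; exact R1.ζ_mem 1)).1
      (by rw [conj_mul, R1.ζ_sq]; simp)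
  obtain ⟨x, hx⟩ := h1
  obtain ⟨t, ht', e'⟩ := R2.exists_T (x := x) (fun e0 => ht.2.1 (conj_eq_one_iff.1 (by rw [← hx, e0, R2.ζ_zero])))
    one_ne_zero
  exact ⟨t * g, mul_mem (R2.T_le ht') hg, by rw [← e', hx]; group⟩

theorem S_eq_of_mem {R' : R0 N F K m i} {s : G} (hs : s ∈ R.S) (hs' : s ∈ R'.S) (h1 : s ≠ 1) : R'.S = R.S :=
  congrArg Subtype.val (R.S_fix hs h1 (R'.fix_pt.2 (R'.S_le_Nm hs')))

/-- An element of the normaliser which maps a non-trivial element of `S` into `S` fixes the point. -/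
theorem Nm_of_mem {g s : G} (hg : g ∈ Nm N) (hs : s ∈ R.S) (h1 : s ≠ 1) (h : g * s * g⁻¹ ∈ R.S) : g ∈ Nm R.S :=
  cj_eq_iff.1 (R.S_eq_of_mem (R' := R.cj g (cj_eq_iff.2 hg)) h (conj_mem_cj.2 hs) (mt conj_eq_one_iff.1 h1))

theorem Nm_of_comm {g s : G} (hg : g ∈ Nm N) (hs : s ∈ R.S) (h1 : s ≠ 1) (h : Commute g s) : g ∈ Nm R.S :=
  R.Nm_of_mem hg hs h1 (by rwa [h.eq, mul_inv_cancel_right])

include R in
/-- Commuting is transitive on involutions. -/
theorem comm_trans {t u v : G} (ht : Iv N t) (hu : Iv N u) (hv : Iv N v) (h1 : Commute t u) (h2 : Commute u v) :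
    Commute t v := by
  obtain ⟨R', rfl⟩ := R.exists_at hu
  exact R'.Z_comm (R'.iv_mem_Z_of_comm ht (R'.ζ_mem 1) hu.2.1 h1)
    (R'.Z_le (R'.iv_mem_Z_of_comm hv (R'.ζ_mem 1) hu.2.1 h2.symm))

include R in
/-- Non-commuting involutions have a product of odd order. -/
theorem odd_prod {t u : G} (ht : Iv N t) (hu : Iv N u) (h : ¬ Commute t u) : Odd (orderOf (t * u)) := by
  by_contra k
  obtain ⟨n, hn⟩ := Nat.not_odd_iff_even.1 k
  have h0 := orderOf_pos (t * u)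
  have h1 : (t * u) ^ n * (t * u) ^ n = 1 := by rw [← pow_add, ← hn, pow_orderOf_eq_one]
  have hv : Iv N ((t * u) ^ n) := ⟨pow_mem (mul_mem ht.1 hu.1) n,
    fun e => absurd (Nat.le_of_dvd (by omega) (orderOf_dvd_of_pow_eq_one e)) (by omega), h1⟩
  have e1 : t * (t * u) * t⁻¹ = (t * u)⁻¹ := by rw [mul_inv_rev, ht.inv, hu.inv, ← mul_assoc, ht.2.2, one_mul]
  have e2 : u * (t * u) * u⁻¹ = (t * u)⁻¹ := by rw [mul_inv_rev, ht.inv, hu.inv, mul_assoc, mul_assoc, hu.2.2, mul_one]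
  have key : ∀ x, x * (t * u) * x⁻¹ = (t * u)⁻¹ → Commute x ((t * u) ^ n) := fun x e =>
    mul_inv_eq_iff_eq_mul.1 (by rw [← conj_pow, e, inv_pow, hv.inv])
  exact h (R.comm_trans ht hv hu (key t e1) (key u e2).symm)

include R in
/-- An element of odd order inverted by an involution centralises no involution. -/
theorem P4 {d t u : G} (hd : d ∈ N) (ho : Odd (orderOf d)) (ht : Iv N t) (h : t * d * t⁻¹ = d⁻¹) (hu : Iv N u)
    (hc : Commute d u) : d = 1 := by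
  obtain ⟨R1, rfl⟩ := R.exists_at ht
  obtain ⟨R2, rfl⟩ := R.exists_at hu
  have inv : ∀ {v : G} (hv : Iv N v) (p : Pt N F K m i), nm hv.1 • nm hv.1 • p = p := fun hv p => by
    rw [← mul_smul, show nm hv.1 * nm hv.1 = 1 from Subtype.ext hv.2.2, one_smul]
  have a2 : nm hd • R2.pt = R2.pt := R2.fix_pt.2 (R2.mem_B_of_comm hd (R2.ζ_mem 1) hu.2.1 hc)
  have odd := odd_of_one_fix (α := {p : Pt N F K m i // nm hd • p = p})
    (fun p => ⟨nm hu.1 • p.1, by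
      rw [← mul_smul, show nm hd * nm hu.1 = nm hu.1 * nm hd from Subtype.ext hc.eq, mul_smul, p.2]⟩)
    (fun p => Subtype.ext (inv hu p.1)) ⟨_, a2⟩ fun p => ⟨fun e => Subtype.ext
      (R2.S_fix (R2.ζ_mem 1) hu.2.1 (congrArg Subtype.val e)), fun e => by
        rw [e]; exact Subtype.ext (R2.fix_pt.2 (R2.S_le_Nm (R2.ζ_mem 1)))⟩
  obtain ⟨p, hp⟩ := odd_fix (α := {p : Pt N F K m i // nm hd • p = p})
    (fun p => ⟨nm ht.1 • p.1, by
      have : nm hd * nm ht.1 = nm ht.1 * (nm hd)⁻¹ := Subtype.ext (by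
        change d * R1.ζ 1 = R1.ζ 1 * d⁻¹
        rw [← h, ht.inv, ← mul_assoc, ← mul_assoc, ht.2.2, one_mul])
      rw [← mul_smul, this, mul_smul, inv_smul_eq_iff.2 p.2.symm]⟩)
    (fun p => Subtype.ext (inv ht p.1)) odd
  have h1 : nm hd • R1.pt = R1.pt := R1.S_fix (R1.ζ_mem 1) ht.2.1 (congrArg Subtype.val hp) ▸ p.2
  have h2 := R1.fix_pt.1 h1
  have h3 : d ^ 2 ^ 1 ∈ R1.S := by
    have : d ^ 2 ^ 1 = d * R1.ζ 1 * d⁻¹ * R1.ζ 1 := by rw [← h, ht.inv]; simp only [mul_assoc, ← mul_assoc (R1.ζ 1) (R1.ζ 1), ht.2.2, one_mul, mul_one, pow_one, pow_two]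
    exact this ▸ mul_mem (Nm_conj h2 (R1.ζ_mem 1)) (R1.ζ_mem 1)
  exact eq_one_of_odd_two ho (R1.pow_four (R1.mem_S_of_pow hd h2 h3))

/-- A subgroup containing `S` and moving the base point contains `N`. -/
theorem G1 {M : Subgroup G} (h : R.S ≤ M) {g : G} (hg : g ∈ M) (hN : g ∈ Nm N) (h1 : g ∉ Nm R.S) : N ≤ M := by
  obtain ⟨s, hs, e⟩ := R.exists_S (p := (⟨g, hN⟩ : Nm N) • R.pt) (mt R.fix_pt.1 h1)
  refine R.gen M h fun x hx => ?_
  have e' : TA.cj g R.S = TA.cj s (TA.cj R.w R.S) := congrArg Subtype.val e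
  have : s * (R.w * x * R.w⁻¹) * s⁻¹ ∈ TA.cj g R.S := by rw [e', conj_mem_cj, conj_mem_cj]; exact hx
  have := mul_mem (mul_mem (mul_mem (mul_mem (inv_mem (h hs)) hg) (h (mem_cj.1 this))) (inv_mem hg)) (h hs)
  convert this using 1
  group

/-- An element fixing the second point and centralising `S` fixes all points. -/
theorem fix_all {g : Nm N} (h' : g • R.pt' = R.pt') (h : ∀ s ∈ R.S, g * s * (g : G)⁻¹ = s) (p : Pt N F K m i) :
    g • p = p := by
  have h0 : g • R.pt = R.pt := R.fix_pt.2 (mem_Nm.2 fun s hs => (h s hs).symm ▸ hs)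
  by_cases e : p = R.pt
  · rw [e, h0]
  obtain ⟨s, hs, rfl⟩ := R.exists_S e
  exact (R.fix_iff h0 h' hs).2 (h s hs)

include R in
/-- The kernel of the action on the points is the centraliser. -/
theorem ker {g : Nm N} (h : ∀ p : Pt N F K m i, g • p = p) : (g : G) ∈ Cn N := by
  have key : ∀ R' : R0 N F K m i, R'.S ≤ centralizer {(g : G)} := fun R' s hs =>
    mem_centralizer_singleton_iff.2 (mul_inv_eq_iff_eq_mul.1 ((R'.fix_iff (h _) (h _) hs).1 (h _))).symm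
  exact mem_Cn.2 fun n hn => mem_centralizer_singleton_iff.1
    (R.gen _ (key R) (fun s hs => key R.opp (conj_mem_cj.2 hs)) hn)

theorem cen_of_S {g : Nm N} (h' : g • R.pt' = R.pt') (h : ∀ s ∈ R.S, g * s * (g : G)⁻¹ = s) : (g : G) ∈ Cn N :=
  R.ker (R.fix_all h' h)

include R in
theorem center {g : G} (hg : g ∈ N) (h : g ∈ Cn N) : g = 1 := by
  have ht := R.mem_T hg (Cn_smul h _) (Cn_smul h _)
  by_cases k : i = 3
  · obtain ⟨s, hs, e⟩ := R.ω_surj (by omega) 1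
    have := R.ω_conj g ht s hs
    rw [Cn_conj h (R.S_le hs), e, mul_one] at this
    exact R.ψ_inj g ht this.symm
  · exact R.ψ_inj g ht (R.ν_inj k ((R.T_cent ht (R.ζ_mem 1) (R.iv_ζ one_ne_zero).2.1
      (Cn_conj h (R.S_le (R.ζ_mem 1)))).trans R.ν_one.symm))

end R0

end Cfsg.Agent.H5.TA
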