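import Cfsg.Agent.H5.TA2

/-! Automorphisms of a group with rank one data. -/

set_option autoImplicit false
set_option linter.unusedSectionVars false

namespace Cfsg.Agent.H5.TA

open Subgroup MulAction

variable {G : Type*} [Group G] {N N' : Subgroup G} {F K : Type} [Field F] [Field K] {m i : ℕ}

namespace R0

variable [Finite G] (R : R0 N F K m i)

theorem exists_LZ {g : G} (hg : g ∈ Nm R.S) : ∃ L : F →+ F, Function.Injective L ∧ ∀ x, g * R.ζ x * g⁻¹ = R.ζ (L x) := by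
  choose L hL using fun x => R.Z_norm hg (R.ζ_mem_Z x)
  refine ⟨AddMonoidHom.mk' L fun x y => R.ζ_inj ?_, fun x y e => ?_, fun x => (hL x).symm⟩
  · rw [R.ζ_add, hL, hL, hL, R.ζ_add, conj_mul]
  · have : R.ζ (L x) = R.ζ (L y) := congrArg R.ζ e
    rw [hL, hL] at this
    exact R.ζ_inj (mul_left_cancel (mul_right_cancel this))

/-- The normaliser acts semilinearly on `Z`. -/
theorem SL {g : G} (hN : g ∈ Nm N) (hg : g ∈ Nm R.S) :
    ∃ (c : F) (τ : F ≃+* F), c ≠ 0 ∧ ∀ x, g * R.ζ x * g⁻¹ = R.ζ (c * τ x) := by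
  obtain ⟨L, inj, hL⟩ := R.exists_LZ hg
  have h1 : L 1 ≠ 0 := (map_ne_zero_iff L inj).2 one_ne_zero
  have key : ∀ c x, L (c * x) * L 1 = L c * L x := fun c x => by
    by_cases hc : c = 0
    · simp [hc]
    obtain ⟨t, ht, rfl⟩ := R.χ_surj c hc
    obtain ⟨d, -, hd⟩ := R.B_scal (Nm_conj hN (R.T_le ht)) (mul_mem (mul_mem hg (R.T_le_Nm ht)) (inv_mem hg))
    have e : ∀ y, L (R.ν (R.ψ t) * y) = d * L y := fun y => R.ζ_inj (by
      rw [← hL, ← hd, ← hL, ← R.ζ_conj t ht]; group)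
    have e1 := e 1
    rw [mul_one] at e1
    rw [e, e1]; ring
  let τ : F →+* F :=
    { toFun := fun x => L x / L 1
      map_one' := div_self h1
      map_mul' := fun x y => by field_simp; exact key x y
      map_zero' := by simp
      map_add' := fun x y => by rw [map_add, add_div] }
  haveI := R.finF
  refine ⟨L 1, RingEquiv.ofBijective τ (Finite.injective_iff_bijective.1 τ.injective), h1, fun x => ?_⟩
  rw [hL]
  exact congrArg R.ζ (mul_div_cancel₀ _ h1).symm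

theorem ω_conj_eq {g s s' : G} (hg : g ∈ Nm R.S) (hs : s ∈ R.S) (hs' : s' ∈ R.S) (e : R.ω s = R.ω s') :
    R.ω (g * s * g⁻¹) = R.ω (g * s' * g⁻¹) := by
  obtain ⟨x, rfl⟩ := (R.ω_eq_iff hs hs').1 e
  rw [← conj_mul, R.ω_mul _ (Nm_conj hg (R.ζ_mem x)) _ (Nm_conj hg hs'),
    (R.ω_eq_zero (Nm_conj hg (R.ζ_mem x))).2 (R.Z_norm hg (R.ζ_mem_Z x)), zero_add]

/-- The action on `S / Z`. -/
theorem exists_LW (h : i ≠ 1) {g : G} (hg : g ∈ Nm R.S) : ∃ L : K →+ K, Function.Injective L ∧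
    (∀ s ∈ R.S, R.ω (g * s * g⁻¹) = L (R.ω s)) ∧ ∀ a, g * R.ζ (R.ν a) * g⁻¹ = R.ζ (R.ν (L a)) := by
  choose f hf hf' using R.ω_surj h
  have e : ∀ s ∈ R.S, R.ω (g * s * g⁻¹) = R.ω (g * f (R.ω s) * g⁻¹) := fun s hs =>
    R.ω_conj_eq hg hs (hf _) (hf' _).symm
  have e2 : ∀ a, g * R.ζ (R.ν a) * g⁻¹ = R.ζ (R.ν (R.ω (g * f a * g⁻¹))) := fun a => by
    rw [← R.sq _ (Nm_conj hg (hf a)), conj_mul, R.sq _ (hf a), hf']
  refine ⟨AddMonoidHom.mk' (fun a => R.ω (g * f a * g⁻¹)) fun a b => ?_, (injective_iff_map_eq_zero _).2 fun a ha => ?_,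
    e, e2⟩
  · rw [← R.ω_mul _ (Nm_conj hg (hf a)) _ (Nm_conj hg (hf b)), conj_mul, e _ (mul_mem (hf a) (hf b)),
      R.ω_mul _ (hf a) _ (hf b), hf', hf']
  · have := e2 a
    rw [show R.ω (g * f a * g⁻¹) = 0 from ha, R.ν_zero, R.ζ_zero, conj_eq_one_iff, R.ζ_eq_one, R.ν_eq_zero] at this
    exact this

omit [Finite G] in
/-- Additive maps preserving the norm. -/
theorem norm_pres (L : K →+ K) (hL : ∀ a, R.ν (L a) = R.ν a) :
    ∃ l, R.ν l = 1 ∧ ((∀ a, L a = l * a) ∨ ∀ a, L a = l * R.θ a) := by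
  have e : ∀ a, L a * R.θ (L a) = a * R.θ a := fun a => by rw [← R.hν, hL, R.hν]
  have e1 : L 1 * R.θ (L 1) = 1 := by rw [e, map_one, mul_one]
  have key : ∀ a, L a = L 1 * a ∨ L a = L 1 * R.θ a := fun a => by
    have h1 := e (a + 1)
    simp only [map_add, map_one] at h1
    have : (L a - L 1 * a) * (L a - L 1 * R.θ a) = 0 := by
      linear_combination (L 1 * L a) * (h1 - e a - e1) - L 1 ^ 2 * e a - L a ^ 2 * e1
    simpa only [mul_eq_zero, sub_eq_zero] using this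
  refine ⟨L 1, by rw [hL, R.ν_one], ?_⟩
  by_contra k
  push Not at k
  obtain ⟨⟨a, ha⟩, b, hb⟩ := k
  have h1 := (key a).resolve_left ha
  have h2 := (key b).resolve_right hb
  rcases key (a + b) with k | k <;> rw [map_add] at k
  · exact ha (by linear_combination k - h2)
  · exact hb (by rw [map_add] at k; linear_combination k - h1)

omit [Finite G] in
theorem T_ω {g t s : G} (hg : g ∈ Nm R.S) (hW : ∀ s ∈ R.S, R.ω (g * s * g⁻¹) = R.ω s) (ht : t ∈ R.T)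
    (ht' : g * t * g⁻¹ ∈ R.T) (hs : s ∈ R.S) : R.ψ (g * t * g⁻¹) * R.ω s = R.ψ t * R.ω s := by
  have h1 := Nm_conj' hg hs
  have h2 := hW _ h1
  rw [show g * (g⁻¹ * s * g) * g⁻¹ = s by group] at h2
  rw [← R.ω_conj _ ht' s hs, h2, ← R.ω_conj t ht _ h1, ← hW _ (R.T_norm t ht _ h1)]
  congr 1
  group

theorem T_Nm {g : Nm N} (h : g • R.pt = R.pt) (h' : g • R.pt' = R.pt') {t : G} (ht : t ∈ R.T) :
    g * t * (g : G)⁻¹ ∈ R.T := by
  have e : nm (Nm_conj g.2 (R.T_le ht)) = g * nm (R.T_le ht) * g⁻¹ := rfl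
  refine R.mem_T (Nm_conj g.2 (R.T_le ht)) ?_ ?_
  · rw [e, mul_smul, mul_smul, inv_smul_eq_iff.2 h.symm, R.T_fix ht, h]
  · rw [e, mul_smul, mul_smul, inv_smul_eq_iff.2 h'.symm, R.T_fix' ht, h']

omit [Finite G] in
theorem ψ_surj [Finite G] (h : i ≠ 3) {a : K} (ha : a ≠ 0) : ∃ t ∈ R.T, R.ψ t = a := by
  obtain ⟨t, ht, e⟩ := R.χ_surj (R.ν a) (mt R.ν_eq_zero.1 ha)
  exact ⟨t, ht, R.ν_inj h e⟩

/-- An element fixing both points and trivial on `Z` and `S / Z` centralises `N`. -/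
theorem cen_of_ZW {g : Nm N} (h : g • R.pt = R.pt) (h' : g • R.pt' = R.pt')
    (hZ : ∀ x, g * R.ζ x * (g : G)⁻¹ = R.ζ x) (hW : ∀ s ∈ R.S, R.ω (g * s * (g : G)⁻¹) = R.ω s) : (g : G) ∈ Cn N := by
  refine R.cen_of_S h' ?_
  by_cases h1 : i = 1
  · rw [R.S_eq_Z h1]
    rintro _ ⟨x, rfl⟩
    exact hZ x
  have hg := R.fix_pt.1 h
  have hT : ∀ t ∈ R.T, g * t * (g : G)⁻¹ = t := fun t ht => by
    obtain ⟨s, hs, e⟩ := R.ω_surj h1 1
    have := R.T_ω hg hW ht (R.T_Nm h h' ht) hs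
    rw [e, mul_one, mul_one] at this
    exact R.ψ_eq (R.T_Nm h h' ht) ht this
  choose φ hφ using fun s : R.S => (R.ω_eq_iff (Nm_conj hg s.2) s.2).1 (hW s s.2)
  have add : ∀ s s' : R.S, φ (s * s') = φ s + φ s' := fun s s' => R.ζ_inj (mul_right_cancel (b := (s * s' : G)) (by
    refine (hφ (s * s')).symm.trans ?_
    rw [coe_mul, ← conj_mul, hφ, hφ, R.ζ_add, mul_assoc, ← mul_assoc (s : G), ← R.ζ_comm _ _ s.2]
    simp only [mul_assoc]))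
  have dep : ∀ s s' : R.S, R.ω s = R.ω s' → φ s = φ s' := fun s s' e => by
    obtain ⟨x, hx⟩ := (R.ω_eq_iff s.2 s'.2).1 e
    have h0 : φ ⟨_, R.ζ_mem x⟩ = 0 := R.ζ_eq_one.1 (mul_eq_right.1 ((hφ ⟨_, R.ζ_mem x⟩).symm.trans (hZ x)))
    rw [show s = ⟨_, R.ζ_mem x⟩ * s' from Subtype.ext hx, add, h0, zero_add]
  have tor : ∀ t (ht : t ∈ R.T) (s : R.S), φ ⟨_, R.T_norm t ht s s.2⟩ = R.ν (R.ψ t) * φ s := fun t ht s =>
    R.ζ_inj (mul_right_cancel (b := t * s * t⁻¹) (by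
      refine (hφ ⟨_, R.T_norm t ht s s.2⟩).symm.trans ?_
      rw [← R.ζ_conj t ht, conj_mul, ← hφ]
      calc g * (t * s * t⁻¹) * (g : G)⁻¹ = g * t * (g : G)⁻¹ * (g * s * (g : G)⁻¹) * (g * t * (g : G)⁻¹)⁻¹ := by group
        _ = _ := by rw [hT t ht]))
  choose f hf hf' using R.ω_surj h1
  let Φ : K → F := fun a => φ ⟨f a, hf a⟩
  have Φa : ∀ a b, Φ (a + b) = Φ a + Φ b := fun a b => by
    rw [← add]
    exact dep _ _ (by rw [hf', coe_mul, R.ω_mul _ (hf a) _ (hf b), hf', hf'])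
  have Φt : ∀ t ∈ R.T, ∀ a, Φ (R.ψ t * a) = R.ν (R.ψ t) * Φ a := fun t ht a => by
    rw [← tor t ht]
    exact dep _ _ (by rw [hf', R.ω_conj t ht _ (hf a), hf'])
  have Φ0 : ∀ a, Φ a = 0 := by
    by_cases h3 : i = 3
    · rcases R.typ with k | k | k
      · omega
      · omega
      obtain ⟨t, ht, k1, k2⟩ := k.2.2.2.2
      intro a
      have := Φa (R.ψ t * (a / (R.ψ t - 1))) (a / (R.ψ t - 1))
      rw [Φt t ht, k2, one_mul, R.addF] at this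
      rw [← this]
      congr 1
      have := sub_ne_zero.2 k1
      field_simp
      linear_combination -R.twoK * a
    · have e : ∀ a, Φ a = R.ν a * Φ 1 := fun a => by
        by_cases ha : a = 0
        · have := Φa 0 0
          rw [add_zero, R.addF] at this
          rw [ha, this, R.ν_zero, zero_mul]
        obtain ⟨t, ht, rfl⟩ := R.ψ_surj h3 ha
        rw [← Φt t ht, mul_one]
      by_contra k
      have k1 : Φ 1 ≠ 0 := fun e1 => k fun a => by rw [e, e1, mul_zero]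
      refine one_ne_zero (R.β_nondeg h1 (a := 1) fun b => mul_right_cancel₀ k1 ?_)
      rw [β, add_mul, add_mul, ← e, ← e, ← e, Φa]
      linear_combination R.addF (Φ 1) + R.addF (Φ b)
  intro s hs
  rw [hφ ⟨s, hs⟩, dep ⟨s, hs⟩ ⟨f (R.ω s), hf _⟩ (hf' _).symm]
  change R.ζ (Φ _) * s = s
  rw [Φ0, R.ζ_zero, one_mul]

theorem exists_fix' {g : G} (hN : g ∈ Nm N) (hg : g ∈ Nm R.S) :
    ∃ s, ∃ hs : s ∈ R.S, (nm (R.S_le hs) * ⟨g, hN⟩) • R.pt' = R.pt' := by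
  obtain ⟨s, hs, e⟩ := R.exists_S' (p := (⟨g, hN⟩ : Nm N) • R.pt') (p' := R.pt')
    (fun e => R.pt'_ne (smul_left_cancel _ (e.trans (R.fix_pt.2 hg).symm))) R.pt'_ne
  exact ⟨s, hs, (mul_smul _ _ _).trans e⟩

/-- An element trivial on `Z` and on `S / Z` is inner, induced by `S`. -/
theorem FA {g : G} (hN : g ∈ Nm N) (hg : g ∈ Nm R.S) (hZ : ∀ x, g * R.ζ x * g⁻¹ = R.ζ x)
    (hW : ∀ s ∈ R.S, R.ω (g * s * g⁻¹) = R.ω s) : ∃ s ∈ R.S, s * g ∈ Cn N := by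
  obtain ⟨s, hs, e⟩ := R.exists_fix' hN hg
  refine ⟨s, hs, R.cen_of_ZW (R.fix_pt.2 (mul_mem (R.S_le_Nm hs) hg)) e (fun x => ?_) fun x hx => ?_⟩
  · calc s * g * R.ζ x * (s * g)⁻¹ = s * (g * R.ζ x * g⁻¹) * s⁻¹ := by group
      _ = _ := by rw [hZ, ← R.ζ_comm x s hs, mul_inv_cancel_right]
  · calc R.ω (s * g * x * (s * g)⁻¹) = R.ω (s * (g * x * g⁻¹) * s⁻¹) := by congr 1; group
      _ = _ := by rw [R.conj_S hs (Nm_conj hg hx), R.ω_mul _ (R.ζ_mem _) _ (Nm_conj hg hx), R.ω_ζ, zero_add, hW x hx]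

/-- An element of the normaliser centralising `S` is inner, induced by an element of `Z`. -/
theorem inner_of_S {g : G} (hN : g ∈ Nm N) (h : ∀ s ∈ R.S, g * s * g⁻¹ = s) : ∃ z ∈ R.Z, z * g ∈ Cn N := by
  obtain ⟨z, hz, e⟩ := R.FA hN (mem_Nm.2 fun s hs => (h s hs).symm ▸ hs) (fun x => h _ (R.ζ_mem x))
    fun s hs => by rw [h s hs]
  refine ⟨z, R.mem_Z_of_central hz fun s hs => mul_inv_eq_iff_eq_mul.1 ?_, e⟩
  calc z * s * z⁻¹ = z * (g * s * g⁻¹) * z⁻¹ := by rw [h s hs]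
    _ = z * g * s * (z * g)⁻¹ := by group
    _ = s := Cn_conj e (R.S_le hs)

/-- For `i ≠ 3` an element centralising `Z` is inner, induced by `S`. -/
theorem FA' (h : i ≠ 3) {g : G} (hN : g ∈ Nm N) (hZ : ∀ x, g * R.ζ x * g⁻¹ = R.ζ x) : ∃ s ∈ R.S, s * g ∈ Cn N := by
  have hg := R.Nm_of_mem hN (R.ζ_mem 1) (R.iv_ζ one_ne_zero).2.1 (by rw [hZ]; exact R.ζ_mem 1)
  refine R.FA hN hg hZ fun s hs => R.ν_inj h (R.ζ_inj ?_)
  rw [← R.sq _ (Nm_conj hg hs), conj_mul, R.sq s hs, hZ]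

/-- An element centralising `Z` acts on `S / Z` as `a ↦ l a` or `a ↦ l θ(a)`. -/
theorem W_cases {g : G} (hg : g ∈ Nm R.S) (hZ : ∀ x, g * R.ζ x * g⁻¹ = R.ζ x) : ∃ l, R.ν l = 1 ∧
    ((∀ s ∈ R.S, R.ω (g * s * g⁻¹) = l * R.ω s) ∨ ∀ s ∈ R.S, R.ω (g * s * g⁻¹) = l * R.θ (R.ω s)) := by
  by_cases h : i = 1
  · refine ⟨1, R.ν_one, Or.inl fun s hs => ?_⟩
    rw [(R.ω_eq_zero (Nm_conj hg hs)).2 (R.S_eq_Z h ▸ Nm_conj hg hs), (R.ω_eq_zero hs).2 (R.S_eq_Z h ▸ hs), mul_zero]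
  obtain ⟨L, -, h1, h2⟩ := R.exists_LW h hg
  obtain ⟨l, k1, k2⟩ := R.norm_pres L fun a => R.ζ_inj (by rw [← h2, hZ])
  exact ⟨l, k1, k2.imp (fun k s hs => by rw [h1 s hs, k]) fun k s hs => by rw [h1 s hs, k]⟩

/-- `ψ` as a homomorphism. -/
def ψh : R.T →* Kˣ := MonoidHom.mk' (fun t => Units.mk0 (R.ψ t) (R.ψ_ne t t.2)) fun t t' =>
  Units.ext (R.ψ_mul t t.2 t' t'.2)

/-- The character of `T` on `Z`. -/
def χh : R.T →* Fˣ := MonoidHom.mk' (fun t => Units.mk0 (R.ν (R.ψ t)) (mt R.ν_eq_zero.1 (R.ψ_ne t t.2))) fun t t' =>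
  Units.ext (by simp only [Units.val_mk0, Units.val_mul, coe_mul]; rw [R.ψ_mul t t.2 t' t'.2, R.ν_mul])

theorem ψh_inj : Function.Injective R.ψh := fun t t' e => Subtype.ext (R.ψ_eq t.2 t'.2 (congrArg Units.val e))

theorem χh_surj : Function.Surjective R.χh := fun c => by
  obtain ⟨t, ht, e⟩ := R.χ_surj c c.ne_zero
  exact ⟨⟨t, ht⟩, Units.ext e⟩

theorem card_T_dvd : Nat.card R.T ∣ Nat.card K - 1 := by
  rw [← Nat.card_units]
  exact card_dvd_of_injective _ R.ψh_inj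

theorem dvd_card_T : 2 ^ m - 1 ∣ Nat.card R.T := by
  rw [← R.cardF, ← Nat.card_units]
  exact card_dvd_of_surjective _ R.χh_surj

theorem card_T (h : i ≠ 3) : Nat.card R.T = 2 ^ m - 1 :=
  Nat.dvd_antisymm (by have := R.card_T_dvd; rwa [R.cardK, if_neg h, pow_one] at this) R.dvd_card_T

theorem cyc_T : IsCyclic R.T := by
  haveI := R.finK
  exact isCyclic_of_injective _ R.ψh_inj

theorem card_B : Nat.card (N ⊓ Nm R.S : Subgroup G) = (2 ^ m) ^ i * Nat.card R.T := by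
  rw [← R.card_S, ← Nat.card_prod]
  symm
  refine Nat.card_congr (Equiv.ofBijective (fun x => ⟨x.1 * x.2, mul_mem (R.S_le x.1.2) (R.T_le x.2.2),
    mul_mem (R.S_le_Nm x.1.2) (R.T_le_Nm x.2.2)⟩) ⟨?_, ?_⟩)
  · rintro ⟨s, t⟩ ⟨s', t'⟩ e
    have e : (s * t : G) = s' * t' := congrArg Subtype.val e
    have h1 : ((s' : G)⁻¹ * s) = t' * (t : G)⁻¹ := by rw [inv_mul_eq_iff_eq_mul, ← mul_assoc, ← e]; group
    have h2 := R.S_inf_T (mul_mem (inv_mem s'.2) s.2) (h1 ▸ mul_mem t'.2 (inv_mem t.2))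
    rw [Subtype.ext (inv_mul_eq_one.1 h2 : (s' : G) = s), Subtype.ext (mul_inv_eq_one.1 (h1 ▸ h2) : (t' : G) = t)]
  · rintro ⟨g, hg, hB⟩
    obtain ⟨s, hs, t, ht, rfl⟩ := (R.mem_B hg).1 hB
    exact ⟨(⟨s, hs⟩, ⟨t, ht⟩), rfl⟩

theorem card_N : Nat.card N = ((2 ^ m) ^ i + 1) * ((2 ^ m) ^ i * Nat.card R.T) := by
  letI : MulAction N (Pt N F K m i) := MulAction.compHom _ (inclusion le_Nm)
  have h1 : orbit N R.pt = Set.univ := Set.eq_univ_of_forall fun p => by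
    obtain ⟨g, hg, rfl⟩ := R.exists_smul_pt p
    exact ⟨⟨g, hg⟩, rfl⟩
  have h2 : stabilizer N R.pt = (N ⊓ Nm R.S).subgroupOf N := Subgroup.ext fun g =>
    (R.fix_pt (g := nm g.2)).trans ⟨fun h => ⟨g.2, h⟩, fun h => h.2⟩
  rw [← R.card_B, ← R.card_Pt, ← (stabilizer N R.pt).index_mul_card, index_stabilizer, h1, Set.ncard_univ, h2,
    Nat.card_congr (subgroupOfEquivOfLe inf_le_left).toEquiv]

end R0

end Cfsg.Agent.H5.TA
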