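import Cfsg.Agent.H5.TA3

/-! Counting involutions, simplicity, and the basic properties of a configuration. -/

set_option autoImplicit false
set_option linter.unusedSectionVars false

namespace Cfsg.Agent.H5.TA

open Subgroup MulAction

variable {G : Type*} [Group G] {N N' : Subgroup G} {F K : Type} [Field F] [Field K] {m i : ℕ}

namespace R0

variable [Finite G] (R : R0 N F K m i)
include R

theorem card_iv : Nat.card {t // Iv N t} = ((2 ^ m) ^ i + 1) * (2 ^ m - 1) := by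
  choose P hP using fun p : Pt N F K m i => p.2
  rw [← R.card_Pt, ← R.cardF, ← Nat.card_units, ← Nat.card_prod]
  symm
  refine Nat.card_congr (Equiv.ofBijective (fun x => ⟨(P x.1).ζ x.2, (P x.1).iv_ζ x.2.ne_zero⟩) ⟨?_, ?_⟩)
  · rintro ⟨p, x⟩ ⟨p', x'⟩ e
    have e : (P p).ζ x = (P p').ζ x' := congrArg Subtype.val e
    obtain rfl : p' = p := Subtype.ext (by
      rw [← hP, ← hP]
      exact (P p).S_eq_of_mem ((P p).ζ_mem x) (e ▸ (P p').ζ_mem x') ((P p).iv_ζ x.ne_zero).2.1)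
    rw [Units.ext ((P p').ζ_inj e)]
  · rintro ⟨t, ht⟩
    obtain ⟨R', rfl⟩ := R.exists_at ht
    obtain ⟨x, hx⟩ : R'.ζ 1 ∈ (P R'.pt).Z := by rw [R'.Z_eq (hP _)]; exact R'.ζ_mem_Z 1
    exact ⟨(R'.pt, Units.mk0 x fun e => ht.2.1 (by rw [← hx, e, ζ_zero])), Subtype.ext hx⟩

theorem simple' {M : Subgroup G} (h : M ≤ N) (hn : ∀ g ∈ N, ∀ x ∈ M, g * x * g⁻¹ ∈ M) : M = ⊥ ∨ M = N := by
  by_cases k : ∀ x (hx : x ∈ M) (p : Pt N F K m i), nm (h hx) • p = p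
  · exact Or.inl (eq_bot_iff.2 fun x hx => R.center (h hx) (R.ker (k x hx)))
  push Not at k
  obtain ⟨x, hx, ⟨_, R, rfl⟩, k⟩ := k
  let P : Subgroup G :=
    { carrier := {n | ∃ s ∈ R.S, n * s⁻¹ ∈ M}
      one_mem' := ⟨1, one_mem _, by simp⟩
      mul_mem' := by
        rintro a b ⟨s, hs, h1⟩ ⟨s', hs', h2⟩
        exact ⟨s * s', mul_mem hs hs', by convert mul_mem h1 (hn s (R.S_le hs) _ h2) using 1; group⟩
      inv_mem' := by
        rintro a ⟨s, hs, h1⟩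
        exact ⟨s⁻¹, inv_mem hs, by convert hn _ (R.S_le (inv_mem hs)) _ (inv_mem h1) using 1; group⟩ }
  have hP : N ≤ P := R.G1 (fun s hs => ⟨s, hs, by simp⟩) (g := x) ⟨1, one_mem _, by simpa⟩ (le_Nm (h hx))
    fun e => k (R.fix_pt.2 e)
  have hT : ∀ t ∈ R.T, t ∈ M := fun t ht => by
    obtain ⟨s, hs, h1⟩ := hP (R.T_le ht)
    have : ∀ n : ℕ, t ^ n * (s ^ n)⁻¹ ∈ M := fun n => by
      induction n with
      | zero => simp
      | succ n ih => convert mul_mem (hn t (R.T_le ht) _ ih) h1 using 1; group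
    have h4 := this (2 ^ 2)
    rw [R.pow_four hs, inv_one, mul_one] at h4
    exact (zpowers_le.2 h4) (mem_zpowers_pow_iff.2 ((Nat.coprime_two_left.2 (R.T_odd ht)).pow_left 2))
  have hc : ∀ t ∈ R.T, ∀ s ∈ R.S, t * s * t⁻¹ * s⁻¹ ∈ M := fun t ht s hs => by
    convert mul_mem (hT t ht) (hn s (R.S_le hs) _ (inv_mem (hT t ht))) using 1; group
  obtain ⟨c, h0, h1⟩ := R.exists_F
  obtain ⟨t, ht, e⟩ := R.χ_surj c h0
  have hZ : ∀ x, R.ζ x ∈ M := fun x => by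
    have := hc t ht _ (R.ζ_mem (x / (c - 1)))
    rw [R.ζ_conj t ht, R.ζ_inv, ← R.ζ_add, e] at this
    convert this using 2
    have := sub_ne_zero.2 h1
    field_simp
    linear_combination -R.twoF * x
  have hS : R.S ≤ M := fun s hs => by
    by_cases hi : i = 1
    · obtain ⟨x, rfl⟩ : s ∈ R.Z := R.S_eq_Z hi ▸ hs
      exact hZ x
    have h2 : R.ψ t - 1 ≠ 0 := sub_ne_zero.2 fun e1 => h1 (by rw [← e, e1, R.ν_one])
    obtain ⟨s', hs', e'⟩ := R.ω_surj hi (R.ω s / (R.ψ t - 1))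
    obtain ⟨x, rfl⟩ := (R.ω_eq_iff hs (mul_mem (R.T_norm t ht s' hs') (inv_mem hs'))).1 (by
      rw [R.ω_mul _ (R.T_norm t ht s' hs') _ (inv_mem hs'), R.ω_conj t ht s' hs', R.ω_inv hs', e']
      field_simp
      linear_combination -R.twoK * R.ω s)
    exact mul_mem (hZ x) (hc t ht s' hs')
  exact Or.inr (le_antisymm h (R.gen M hS fun s hs => hn _ R.w_mem s (hS hs)))

theorem simple : IsSimpleGroup N := by
  haveI : Nontrivial N := ⟨⟨⟨_, (R.iv_ζ one_ne_zero).1⟩, 1, fun e => (R.iv_ζ one_ne_zero).2.1 (congrArg Subtype.val e)⟩⟩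
  refine ⟨fun M hM => (R.simple' (M := M.map N.subtype) (map_subtype_le M) ?_).imp (fun e => ?_) fun e => ?_⟩
  · rintro g hg _ ⟨x, hx, rfl⟩
    exact ⟨_, hM.conj_mem x hx ⟨g, hg⟩, rfl⟩
  · exact (map_eq_bot_iff_of_injective _ N.subtype_injective).1 e
  · exact map_injective N.subtype_injective (by rw [e, ← MonoidHom.range_eq_map, range_subtype])

theorem card_N_one (h : i = 1) : Nat.card N = (2 ^ m + 1) * (2 ^ m * (2 ^ m - 1)) := by
  rw [R.card_N, R.card_T (by omega), h, pow_one]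

end R0

namespace Cfg

variable {Ω : Type*} [MulAction G Ω] (C : Cfg G Ω F K m i)
include C

theorem cj_eq (g : G) (x : Ω) : cj g (C.N x) = C.N (g • x) := Subgroup.ext fun n => by
  rw [mem_cj]
  exact ⟨fun h => by simpa [mul_assoc] using C.eqv g x _ h, fun h => by simpa using C.eqv g⁻¹ _ _ h⟩

theorem eqv_iff {g n : G} {x : Ω} : g * n * g⁻¹ ∈ C.N (g • x) ↔ n ∈ C.N x := by rw [← C.cj_eq, conj_mem_cj]

theorem eqv' {g n : G} {x y : Ω} (h : g • x = y) (hn : n ∈ C.N x) : g * n * g⁻¹ ∈ C.N y := h ▸ C.eqv g x n hn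

theorem nm {g : G} {x : Ω} (h : g • x = x) : g ∈ Nm (C.N x) := cj_eq_iff.1 (by rw [C.cj_eq, h])

theorem iv_conj {g t : G} {x y : Ω} (h : g • x = y) (ht : Iv (C.N x) t) : Iv (C.N y) (g * t * g⁻¹) :=
  ht.conj (C.eqv' h ht.1)

theorem cn_conj {g c : G} {x y : Ω} (h : g • x = y) (hc : c ∈ Cn (C.N x)) : g * c * g⁻¹ ∈ Cn (C.N y) :=
  mem_Cn'.2 fun n hn => by
    have := Cn_conj hc (C.eqv' (inv_smul_eq_iff.2 h.symm) hn)
    calc _ = g * (c * (g⁻¹ * n * g⁻¹⁻¹) * c⁻¹) * g⁻¹ := by group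
      _ = n := by rw [this]; group

theorem exists_iv (x : Ω) : ∃ t, Iv (C.N x) t := ⟨_, (C.loc x).some.iv_ζ one_ne_zero⟩

theorem exists_move {g : G} (h : g ≠ 1) : ∃ x : Ω, g • x ≠ x := not_forall.1 (mt (C.faith g) h)

theorem exists_ne (a : Ω) : ∃ b, a ≠ b := by
  obtain ⟨t, ht⟩ := C.exists_iv a
  obtain ⟨x, hx⟩ := C.exists_move ht.2.1
  exact ⟨x, fun e => hx (e ▸ C.fix a t ht.1)⟩

theorem trans (a b : Ω) : ∃ g : G, g • a = b := by
  obtain ⟨a', ha⟩ := C.exists_ne a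
  obtain ⟨b', hb⟩ := C.exists_ne b
  obtain ⟨g, h, -⟩ := C.two a a' b b' ha hb
  exact ⟨g, h⟩

/-- `N a` moves every other point. -/
theorem exists_move' {a b : Ω} (h : a ≠ b) : ∃ n ∈ C.N a, n • b ≠ b := by
  by_contra k
  push Not at k
  obtain ⟨t, ht⟩ := C.exists_iv a
  refine ht.2.1 (C.faith t fun x => ?_)
  by_cases e : a = x
  · exact e ▸ C.fix a t ht.1
  obtain ⟨g, h1, rfl⟩ := C.two a b a x h e
  have := k _ (Nm_conj' (C.nm h1) ht.1)
  rwa [mul_smul, mul_smul, inv_smul_eq_iff] at this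

theorem N_inj {a b : Ω} (h : C.N a = C.N b) : a = b := by
  by_contra k
  obtain ⟨n, hn, e⟩ := C.exists_move' k
  exact e (C.fix b n (h ▸ hn))

theorem mem_nm {g : G} {x : Ω} : g ∈ Nm (C.N x) ↔ g • x = x :=
  ⟨fun h => C.N_inj (by rw [← C.cj_eq, cj_eq_iff.2 h]), C.nm⟩

theorem cn_fix {c : G} {x : Ω} (h : c ∈ Cn (C.N x)) : c • x = x := C.mem_nm.1 (Cn_le_Nm h)

variable [Finite G]

theorem exists_at {a : Ω} {t : G} (ht : Iv (C.N a) t) : ∃ R : R0 (C.N a) F K m i, R.ζ 1 = t :=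
  (C.loc a).some.exists_at ht

/-- All the involutions of all the `N x` are conjugate. -/
theorem iv_isConj {a b : Ω} {t u : G} (ht : Iv (C.N a) t) (hu : Iv (C.N b) u) : ∃ g : G, g • a = b ∧ g * t * g⁻¹ = u := by
  obtain ⟨g, hg⟩ := C.trans a b
  obtain ⟨n, hn, e⟩ := (C.loc b).some.iv_conj (C.iv_conj hg ht) hu
  exact ⟨n * g, by rw [mul_smul, hg, C.fix b n hn], by rw [← e]; group⟩

end Cfg

end Cfsg.Agent.H5.TA
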