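import Cfsg.Agent.H5.TA4

/-! S2208, case I: the involutions of `N a` fix no other point. -/

set_option autoImplicit false
set_option linter.unusedSectionVars false

namespace Cfsg.Agent.H5.TA

open Subgroup MulAction

variable {G : Type*} [Group G] {F K : Type} [Field F] [Field K] {m i : ℕ}

theorem inv_prod {t u : G} (ht : t * t = 1) (hu : u * u = 1) :
    t * (t * u) * t⁻¹ = (t * u)⁻¹ ∧ u * (t * u) * u⁻¹ = (t * u)⁻¹ := by
  rw [mul_inv_rev, inv_eq_of_mul_eq_one_right ht, inv_eq_of_mul_eq_one_right hu]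
  exact ⟨by rw [← mul_assoc, ht, one_mul], by rw [mul_assoc, mul_assoc, hu, mul_one]⟩

theorem dih_even {x c : G} (h : x * c * x⁻¹ = c⁻¹) (j : ℕ) : x * c ^ (j + j) = (c ^ j)⁻¹ * x * (c ^ j)⁻¹⁻¹ := by
  have : x * c ^ j * x⁻¹ = (c ^ j)⁻¹ := by rw [← conj_pow, h, inv_pow]
  rw [inv_inv, ← this, pow_add]
  simp only [mul_assoc, inv_mul_cancel_left]

/-- The reflections of a dihedral group. -/
theorem dih {t u : G} (ht : t * t = 1) (hu : u * u = 1) (n : ℕ) :
    ∃ g, t * (t * u) ^ n = g * t * g⁻¹ ∨ t * (t * u) ^ n = g * u * g⁻¹ := by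
  obtain ⟨j, rfl | rfl⟩ := Nat.even_or_odd' n
  · exact ⟨_, Or.inl (by rw [two_mul, dih_even (inv_prod ht hu).1])⟩
  · exact ⟨((t * u) ^ j)⁻¹, Or.inr (by
      rw [pow_succ', ← mul_assoc, ← mul_assoc, ht, one_mul, two_mul]; exact dih_even (inv_prod ht hu).2 j)⟩

theorem dih_odd {t u : G} (ht : t * t = 1) (hu : u * u = 1) (h : Odd (orderOf (t * u))) :
    ∃ j : ℕ, t = ((t * u) ^ j)⁻¹ * u * (t * u) ^ j := by
  obtain ⟨j, hj⟩ := h
  refine ⟨j, ?_⟩
  have := dih_even (inv_prod ht hu).2 j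
  rw [inv_inv] at this
  rw [← this, ← two_mul]
  conv_lhs => rw [← mul_one t, ← pow_orderOf_eq_one (t * u), hj, pow_succ', ← mul_assoc, ← mul_assoc, ht, one_mul]

/-- An element inverted by `d` and centralised by `u`, with `d u` of odd order, is an involution. -/
theorem dih_P4 {d u c : G} (hd : d * d = 1) (hu : u * u = 1) (h : Odd (orderOf (d * u))) (h1 : d * c * d⁻¹ = c⁻¹)
    (h2 : Commute c u) : c * c = 1 := by
  obtain ⟨j, e⟩ := dih_odd hd hu h
  have k0 : d * u * c * (d * u)⁻¹ = c⁻¹ := by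
    rw [← h1, mul_assoc d, ← h2.eq]; group
  have key : ∀ n : ℕ, (d * u) ^ n * c * ((d * u) ^ n)⁻¹ = c ∨ (d * u) ^ n * c * ((d * u) ^ n)⁻¹ = c⁻¹ := fun n => by
    induction n with
    | zero => simp
    | succ n ih =>
      rw [show (d * u) ^ (n + 1) * c * ((d * u) ^ (n + 1))⁻¹ =
        d * u * ((d * u) ^ n * c * ((d * u) ^ n)⁻¹) * (d * u)⁻¹ by rw [pow_succ', mul_inv_rev]; simp only [mul_assoc]]
      rcases ih with k | k <;> rw [k]
      · exact Or.inr k0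
      · exact Or.inl (by rw [← conj_inv, k0, inv_inv])
  have k1 : Commute ((d * u) ^ j * c * ((d * u) ^ j)⁻¹) u := by
    rcases key j with k | k <;> rw [k]
    exacts [h2, h2.inv_left]
  generalize (d * u) ^ j = g at e k1
  have : d * c * d⁻¹ = c := by
    calc d * c * d⁻¹ = g⁻¹ * (u * (g * c * g⁻¹)) * u⁻¹ * g := by rw [e]; group
      _ = c := by rw [← k1.eq]; group
  exact mul_eq_one_iff_eq_inv.2 (this.symm.trans h1)

/-- A semilinear map of prime order without fixed vectors is a scalar. -/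
theorem dedekind {c : F} (hc : c ≠ 0) (τ : F ≃+* F) {r : ℕ} (hr : r.Prime) (h : ∀ x, (fun x => c * τ x)^[r] x = x)
    (hf : ∀ x, c * τ x = x → x = 0) : ∀ x, τ x = x := by
  have e : ∀ j : ℕ, ∃ γ, γ ≠ 0 ∧ ∀ x, (fun x => c * τ x)^[j] x = γ * (τ ^ j) x := fun j => by
    induction j with
    | zero => exact ⟨1, one_ne_zero, fun x => by simp⟩
    | succ j ih =>
      obtain ⟨γ, h0, ih⟩ := ih
      exact ⟨c * τ γ, mul_ne_zero hc ((map_ne_zero _).2 h0), fun x => by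
        rw [Function.iterate_succ_apply', ih, pow_succ', map_mul, mul_assoc]; rfl⟩
  choose γ h0 e using e
  by_contra k
  have h1 : τ ^ r = 1 := RingEquiv.ext fun x => by
    have e1 := e r 1
    have e2 := e r x
    rw [h] at e1 e2
    rw [map_one, mul_one] at e1
    rw [← e1, one_mul] at e2
    exact e2.symm
  haveI := Fact.mk hr
  have h2 : orderOf τ = r := orderOf_eq_prime h1 fun e => k fun x => by rw [e]; rfl
  have inj : Function.Injective fun j : Fin r => ((τ ^ (j : ℕ) : F ≃+* F) : F →* F) := fun j j' e =>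
    Fin.ext (pow_injOn_Iio_orderOf (x := τ) (by rw [h2]; exact j.2) (by rw [h2]; exact j'.2)
      (RingEquiv.ext fun x => DFunLike.congr_fun e x))
  refine h0 0 (Fintype.linearIndependent_iff.1 ((linearIndependent_monoidHom F F).comp _ inj) (fun j => γ j)
    (funext fun x => ?_) ⟨0, hr.pos⟩)
  have h3 : ∑ j ∈ Finset.range r, (fun x => c * τ x)^[j] x = 0 := hf _ (by
    rw [map_sum, Finset.mul_sum]
    have := Finset.sum_range_succ' (fun j => (fun x => c * τ x)^[j] x) r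
    rw [Finset.sum_range_succ, h] at this
    simp only [Function.iterate_succ_apply', Function.iterate_zero, id] at this
    exact (add_right_cancel this).symm)
  rw [Finset.sum_apply, Pi.zero_apply, ← h3, Finset.sum_range]
  exact Finset.sum_congr rfl fun j _ => (e j x).symm

variable [Finite G] {Ω : Type*} [Finite Ω] [MulAction G Ω] (C : Cfg G Ω F K m i)
  (h : ∀ a b t, a ≠ b → Iv (C.N a) t → t • b ≠ b)
include h

theorem fixI {x y : Ω} {t : G} (ht : Iv (C.N x) t) (hy : t • y = y) : x = y := by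
  by_contra k
  exact h x y t k ht hy

theorem commI {x : Ω} {t g : G} (ht : Iv (C.N x) t) (hg : Commute g t) : g • x = x :=
  (fixI C h ht (by rw [← mul_smul, ← hg.eq, mul_smul, C.fix x t ht.1])).symm

theorem oddI {x y : Ω} {t u : G} (ht : Iv (C.N x) t) (hu : Iv (C.N y) u) (hne : x ≠ y) : Odd (orderOf (t * u)) := by
  by_contra k
  obtain ⟨n, hn⟩ := Nat.not_odd_iff_even.1 k
  have h0 := orderOf_pos (t * u)
  have h1 : (t * u) ^ n * (t * u) ^ n = 1 := by rw [← pow_add, ← hn, pow_orderOf_eq_one]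
  have h2 : (t * u) ^ n ≠ 1 := fun e => absurd (Nat.le_of_dvd (by omega) (orderOf_dvd_of_pow_eq_one e)) (by omega)
  have key : ∀ x, x * (t * u) * x⁻¹ = (t * u)⁻¹ → Commute x ((t * u) ^ n) := fun x e =>
    mul_inv_eq_iff_eq_mul.1 (by rw [← conj_pow, e, inv_pow, inv_eq_of_mul_eq_one_right h1])
  have k2 : ∀ k, ∃ z, Iv (C.N z) (t * (t * u) ^ k) := fun k => by
    obtain ⟨g, e | e⟩ := dih ht.2.2 hu.2.2 k <;> rw [e]
    exacts [⟨_, C.iv_conj rfl ht⟩, ⟨_, C.iv_conj rfl hu⟩]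
  have k3 : ∀ {x : Ω} {s : G}, Iv (C.N x) s → Commute s ((t * u) ^ n) → (∃ z, Iv (C.N z) (s * (t * u) ^ n)) →
      (t * u) ^ n ∈ C.N x := fun hs hc ⟨z, hz⟩ => by
    obtain rfl := fixI C h hs (commI C h hz ((Commute.refl _).mul_right hc))
    exact (mul_mem_cancel_left hs.1).1 hz.1
  have m1 := k3 ht (key t (inv_prod ht.2.2 hu.2.2).1) (k2 n)
  have m2 := k3 hu (key u (inv_prod ht.2.2 hu.2.2).2) (by
    have := k2 (n + 1)
    rwa [pow_succ', ← mul_assoc, ← mul_assoc, ht.2.2, one_mul] at this)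
  exact hne (fixI C h ⟨m1, h2, h1⟩ (C.fix y _ m2))

omit h in
/-- The involutions interchanging two points. -/
def Sw (a b : Ω) (d : G) : Prop := (∃ x, Iv (C.N x) d) ∧ d • a = b

variable {a b : Ω} (hab : a ≠ b)
include hab

omit h hab in
theorem Sw.sq {d : G} (hd : Sw C a b d) : d * d = 1 := hd.1.choose_spec.2.2

omit h hab in
theorem Sw.symm {d : G} (hd : Sw C a b d) : Sw C b a d := ⟨hd.1, by rw [← hd.2, ← mul_smul, hd.sq, one_smul]⟩

omit h hab in
theorem Sw.fix {d d' : G} (hd : Sw C a b d) (hd' : Sw C a b d') : (d * d') • a = a := by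
  rw [mul_smul, hd'.2, hd.symm.2]

theorem Sw.odd {d d' : G} (hd : Sw C a b d) (hd' : Sw C a b d') : Odd (orderOf (d * d')) := by
  obtain ⟨x, hx⟩ := hd.1
  obtain ⟨y, hy⟩ := hd'.1
  by_cases e : x = y
  · subst e
    by_cases k : Commute d d'
    · by_cases e1 : d * d' = 1
      · simp [e1]
      obtain rfl := fixI C h ⟨mul_mem hx.1 hy.1, e1, by
        rw [mul_assoc, ← mul_assoc d', ← k.eq, mul_assoc, hy.2.2, mul_one, hx.2.2]⟩ (hd.fix C hd')
      exact (hab ((C.fix x d hx.1).symm.trans hd.2)).elim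
    · exact (C.loc x).some.odd_prod hx hy k
  · exact oddI C h hx hy e

theorem Sw.cen {d d' u : G} (hd : Sw C a b d) (hd' : Sw C a b d') (hu : Iv (C.N a) u) (hc : Commute (d * d') u) :
    d * d' = 1 := by
  obtain ⟨x, hx⟩ := hd.1
  have hne : x ≠ a := fun e => hab ((C.fix a d (e ▸ hx.1)).symm.trans hd.2)
  exact eq_one_of_odd_two (hd.odd C h hab hd') (k := 1)
    (by rw [pow_one, pow_two]; exact dih_P4 hd.sq hu.2.2 (oddI C h hx hu hne) (inv_prod hd.sq hd'.sq).1 hc)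

omit h hab in
theorem Sw.conj {d g : G} {a' b' : Ω} (hd : Sw C a b d) (ha : g • a = a') (hb : g • b = b') :
    Sw C a' b' (g * d * g⁻¹) :=
  ⟨⟨_, C.iv_conj rfl hd.1.choose_spec⟩, by rw [mul_smul, mul_smul, inv_smul_eq_iff.2 ha.symm, hd.2, hb]⟩

theorem card_Sw : Nat.card {d // Sw C a b d} = Nat.card {t // Iv (C.N a) t} := by
  classical
  haveI := Fintype.ofFinite Ω
  have e1 : ∀ b' : {x // a ≠ x}, Nat.card {d // Sw C a b' d} = Nat.card {d // Sw C a b d} := fun b' => by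
    obtain ⟨g, h1, h2⟩ := C.two a b a b' hab b'.2
    exact Nat.card_congr ((MulAut.conj g).toEquiv.subtypeEquiv fun d => ⟨fun k => k.conj C h1 h2, fun k => by
      simpa [mul_assoc] using k.conj C (inv_smul_eq_iff.2 h1.symm) (inv_smul_eq_iff.2 h2.symm)⟩).symm
  have e2 : ∀ b' : {x // a ≠ x}, Nat.card {t // Iv (C.N b') t} = Nat.card {t // Iv (C.N a) t} := fun b' => by
    rw [(C.loc a).some.card_iv, (C.loc b').some.card_iv]
  have e3 : Nat.card (Σ b' : {x // a ≠ x}, {d // Sw C a b' d}) = Nat.card (Σ b' : {x // a ≠ x}, {t // Iv (C.N b') t}) := by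
    symm
    refine Nat.card_congr (Equiv.ofBijective
      (fun t => ⟨⟨t.2.1 • a, (h _ a _ t.1.2.symm t.2.2).symm⟩, t.2.1, ⟨_, t.2.2⟩, rfl⟩) ⟨?_, ?_⟩)
    · rintro ⟨⟨x, hx⟩, t, ht⟩ ⟨⟨y, hy⟩, u, hu⟩ e
      obtain rfl : t = u := congrArg (fun z => z.2.1) e
      obtain rfl : x = y := fixI C h ht (C.fix y t hu.1)
      rfl
    · rintro ⟨⟨b', hb⟩, d, ⟨x, hx⟩, e⟩
      obtain rfl : d • a = b' := e
      exact ⟨⟨⟨x, fun e => hb (C.fix a d (e ▸ hx.1)).symm⟩, d, hx⟩, rfl⟩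
  rw [Nat.card_sigma, Nat.card_sigma] at e3
  simp only [e1, e2, Finset.sum_const, smul_eq_mul] at e3
  exact Nat.eq_of_mul_eq_mul_left (Finset.card_pos.2 ⟨⟨b, hab⟩, Finset.mem_univ _⟩) e3

variable {d : G} (hd : Sw C a b d)
include hd

omit h hab in
theorem X_fix {c : G} (hc : Sw C a b (c * d)) : c • a = a ∧ c • b = b := by
  have h1 := hc.fix C hd
  have h2 := hc.symm.fix C hd.symm
  rw [mul_assoc, hd.sq, mul_one] at h1 h2
  exact ⟨h1, h2⟩

omit h hab in
theorem X_inv {c : G} (hc : Sw C a b (c * d)) : d * c * d⁻¹ = c⁻¹ := by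
  rw [inv_eq_of_mul_eq_one_right hd.sq, eq_inv_iff_mul_eq_one, ← mul_left_inj d, one_mul]
  calc _ = d * (c * d * (c * d)) := by group
    _ = d := by rw [hc.sq, mul_one]

omit h hab in
theorem X_pow {c : G} (hc : Sw C a b (c * d)) : ∀ n : ℕ, Sw C a b (c ^ n * d)
  | 0 => by simpa using hd
  | 1 => by simpa using hc
  | n + 2 => by
    have := (X_pow hc n).conj C (X_fix C hd hc).1 (X_fix C hd hc).2
    rw [← X_inv C hd hc, inv_eq_of_mul_eq_one_right hd.sq] at this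
    convert this using 1
    simp only [mul_assoc, ← mul_assoc d d, hd.sq, one_mul, pow_succ' c (n + 1), pow_succ c n]

theorem X_inj {c c' u : G} (hc : Sw C a b (c * d)) (hc' : Sw C a b (c' * d)) (hu : Iv (C.N a) u)
    (e : c * u * c⁻¹ = c' * u * c'⁻¹) : c = c' := by
  have := hc'.symm.cen C h hab.symm hc.symm (C.iv_conj hd.2 hu) (by
    have k : c'⁻¹ * c * u = u * (c'⁻¹ * c) := by
      calc c'⁻¹ * c * u = c'⁻¹ * (c * u * c⁻¹) * c := by group
        _ = _ := by rw [e]; group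
    have k2 : c' * d * (c * d) = d * (c'⁻¹ * c) * d⁻¹ := by
      rw [← X_inv C hd hc', inv_eq_of_mul_eq_one_right hd.sq]
      simp only [mul_assoc, ← mul_assoc d d, hd.sq, one_mul]
    rw [k2, Commute, SemiconjBy, conj_mul, conj_mul, k])
  exact mul_right_cancel ((eq_inv_of_mul_eq_one_right this).trans (inv_eq_of_mul_eq_one_right hc'.sq))

theorem X_cen {c u : G} (hc : Sw C a b (c * d)) (hu : Iv (C.N a) u) (e : c * u * c⁻¹ = u) : c = 1 :=
  X_inj C h hab hd hc (by simpa using hd) hu (by simpa using e)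

theorem X_surj {u u' : G} (hu : Iv (C.N a) u) (hu' : Iv (C.N a) u') : ∃ c, Sw C a b (c * d) ∧ c * u * c⁻¹ = u' := by
  have e : ∀ x : G, x * d * d = x := fun x => by rw [mul_assoc, hd.sq, mul_one]
  have : Function.Injective fun x : {d // Sw C a b d} =>
      (⟨_, C.iv_conj (x.2.fix C hd) hu⟩ : {t // Iv (C.N a) t}) := fun x y k =>
    Subtype.ext (mul_right_cancel (X_inj C h hab hd ((e _).symm ▸ x.2) ((e _).symm ▸ y.2) hu (congrArg Subtype.val k)))
  obtain ⟨x, k⟩ := (this.bijective_of_nat_card_le (card_Sw C h hab).ge).2 ⟨u', hu'⟩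
  exact ⟨x * d, (e _).symm ▸ x.2, congrArg Subtype.val k⟩

theorem X_odd {c : G} (hc : Sw C a b (c * d)) : Odd (orderOf c) := by
  have := hc.odd C h hab hd
  rwa [mul_assoc, hd.sq, mul_one] at this

theorem X_scal (R : R0 (C.N a) F K m i) {c : G} (hc : Sw C a b (c * d)) (hB : c ∈ Nm R.S) (hr : (orderOf c).Prime) :
    ∃ γ, orderOf γ = orderOf c ∧ ∀ x, c * R.ζ x * c⁻¹ = R.ζ (γ * x) := by
  obtain ⟨γ, τ, h0, e⟩ := R.SL (C.nm (X_fix C hd hc).1) hB
  have h1 : c ≠ 1 := fun e => by simpa [e] using hr.ne_one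
  have it : ∀ n x, c ^ n * R.ζ x * (c ^ n)⁻¹ = R.ζ ((fun x => γ * τ x)^[n] x) := fun n x => by
    induction n with
    | zero => simp
    | succ n ih => rw [Function.iterate_succ_apply', ← e, ← ih, pow_succ']; group
  have nf : ∀ x, γ * τ x = x → x = 0 := fun x hx => by
    by_contra k
    exact h1 (X_cen C h hab hd hc (R.iv_ζ k) (by rw [e, hx]))
  have it1 : ∀ x, (fun x => γ * τ x)^[orderOf c] x = x := fun x => R.ζ_inj (by rw [← it, pow_orderOf_eq_one]; simp)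
  have := dedekind h0 τ hr it1 nf
  simp only [this] at e it1 nf
  haveI := Fact.mk hr
  refine ⟨γ, orderOf_eq_prime ?_ fun k => one_ne_zero (nf 1 (by rw [k, one_mul])), e⟩
  simpa using it1 1

theorem X_comm (R : R0 (C.N a) F K m i) {c c' : G} (hc : Sw C a b (c * d)) (hB : c ∈ Nm R.S) (hr : (orderOf c).Prime)
    (hc' : Sw C a b (c' * d)) (hB' : c' ∈ Nm R.S) (hr' : (orderOf c').Prime) : Commute c c' := by
  obtain ⟨γ, o, e⟩ := X_scal C h hab hd R hc hB hr
  obtain ⟨γ', o', e'⟩ := X_scal C h hab hd R hc' hB' hr'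
  have hu := R.iv_ζ (one_ne_zero (α := F))
  by_cases k : orderOf c = orderOf c'
  · haveI : NeZero (orderOf γ) := ⟨o ▸ hr.ne_zero⟩
    obtain ⟨j, -, hj⟩ := (IsPrimitiveRoot.orderOf γ).eq_pow_of_pow_eq_one
      (ξ := γ') (by rw [o, k, ← o', pow_orderOf_eq_one])
    have it : ∀ n x, c ^ n * R.ζ x * (c ^ n)⁻¹ = R.ζ (γ ^ n * x) := fun n x => by
      induction n with
      | zero => simp
      | succ n ih => rw [pow_succ' γ, mul_assoc γ, ← e, ← ih, pow_succ']; group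
    rw [← X_inj C h hab hd (X_pow C hd hc j) hc' hu (by rw [it, e', hj])]
    exact (Commute.refl c).pow_right j
  have c1 : ∀ x, c * c' * R.ζ x * (c * c')⁻¹ = c' * c * R.ζ x * (c' * c)⁻¹ := fun x => by
    calc _ = c * (c' * R.ζ x * c'⁻¹) * c⁻¹ := by group
      _ = c' * (c * R.ζ x * c⁻¹) * c'⁻¹ := by rw [e, e', e, e', mul_left_comm]
      _ = _ := by group
  have fa := X_fix C hd hc
  have fa' := X_fix C hd hc'
  obtain ⟨y, hy⟩ : ∃ y, y = c * c' * c⁻¹ * c'⁻¹ := ⟨_, rfl⟩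
  have ya : y • a = a := by
    rw [hy, mul_smul, mul_smul, mul_smul, inv_smul_eq_iff.2 fa'.1.symm, inv_smul_eq_iff.2 fa.1.symm, fa'.1, fa.1]
  have yb : y • b = b := by
    rw [hy, mul_smul, mul_smul, mul_smul, inv_smul_eq_iff.2 fa'.2.symm, inv_smul_eq_iff.2 fa.2.symm, fa'.2, fa.2]
  have y1 : ∀ x, y * R.ζ x * y⁻¹ = R.ζ x := fun x => by
    obtain ⟨x', hx⟩ := R.Z_norm (inv_mem (mul_mem hB' hB)) (R.ζ_mem_Z x)
    calc _ = c * c' * ((c' * c)⁻¹ * R.ζ x * (c' * c)⁻¹⁻¹) * (c * c')⁻¹ := by rw [hy]; group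
      _ = _ := by rw [← hx, c1, hx]; group
  have y2 : ∀ x, d * y * d⁻¹ * R.ζ x * (d * y * d⁻¹)⁻¹ = R.ζ x := fun x => by
    have : d * y * d⁻¹ = (c' * c)⁻¹ * (c * c') := by
      rw [hy, ← conj_mul, ← conj_mul, ← conj_mul, ← conj_inv, ← conj_inv, X_inv C hd hc, X_inv C hd hc']; group
    rw [this]
    calc _ = (c' * c)⁻¹ * (c * c' * R.ζ x * (c * c')⁻¹) * (c' * c) := by group
      _ = _ := by rw [c1]; group
  have key : ∀ x ∈ Nm R.S, Sw C a b (x * d) → y * (x * d) * y⁻¹ = x * d := fun x hx hs => by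
    have := X_cen C h hab hs (c := y * (x * d) * y⁻¹ * (x * d)) (by
      rw [mul_assoc _ (x * d), hs.sq, mul_one]; exact hs.conj C ya yb) hu (by
      obtain ⟨x', hx'⟩ := R.Z_norm (inv_mem hx) (R.ζ_mem_Z 1)
      have k : x * d * y * (x * d)⁻¹ * R.ζ 1 * (x * d * y * (x * d)⁻¹)⁻¹ = R.ζ 1 := by
        calc _ = x * (d * y * d⁻¹ * (x⁻¹ * R.ζ 1 * x⁻¹⁻¹) * (d * y * d⁻¹)⁻¹) * x⁻¹ := by group
          _ = _ := by rw [← hx', y2, hx']; group
      have i1 := inv_eq_of_mul_eq_one_right hs.sq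
      generalize x * d = z at k i1
      calc _ = y * ((z * y * z⁻¹)⁻¹ * R.ζ 1 * (z * y * z⁻¹)) * y⁻¹ := by
            simp only [mul_inv_rev, inv_inv, i1, mul_assoc]
        _ = y * ((z * y * z⁻¹)⁻¹ * (z * y * z⁻¹ * R.ζ 1 * (z * y * z⁻¹)⁻¹) * (z * y * z⁻¹)) * y⁻¹ := by rw [k]
        _ = y * R.ζ 1 * y⁻¹ := by group
        _ = _ := y1 1)
    exact (eq_inv_of_mul_eq_one_left this).trans (inv_eq_of_mul_eq_one_right hs.sq)
  have k0 := key 1 (one_mem _) (by simpa using hd)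
  rw [one_mul] at k0
  have k2 : ∀ x ∈ Nm R.S, Sw C a b (x * d) → Commute y x := fun x hx hs => by
    have := key x hx hs
    rw [← conj_mul, k0] at this
    exact mul_inv_eq_iff_eq_mul.1 (mul_right_cancel this)
  have p1 : y ^ orderOf c' = 1 := by
    have e1 : c * c' * c⁻¹ = y * c' := by rw [hy]; group
    have := congrArg (· ^ orderOf c') e1
    simp only [conj_pow, (k2 c' hB' hc').mul_pow, pow_orderOf_eq_one] at this
    simpa using this.symm
  have p2 : y ^ orderOf c = 1 := by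
    have e1 : c' * c⁻¹ * c'⁻¹ = c⁻¹ * y := by rw [hy]; group
    have := congrArg (· ^ orderOf c) e1
    simp only [conj_pow, (k2 c hB hc).symm.inv_left.mul_pow, inv_pow, pow_orderOf_eq_one] at this
    simpa using this.symm
  have : y = 1 := orderOf_eq_one_iff.1 (Nat.eq_one_of_dvd_coprimes ((Nat.coprime_primes hr hr').2 k)
    (orderOf_dvd_of_pow_eq_one p2) (orderOf_dvd_of_pow_eq_one p1))
  exact commutatorElement_eq_one_iff_commute.1 (hy.symm.trans this)

theorem X_two {c : G} (hc : Sw C a b (c * d)) (h1 : c ≠ 1) (hN : c ∈ Nm (C.N a)) {p p' p'' : Pt (C.N a) F K m i}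
    (k : (⟨c, hN⟩ : Nm (C.N a)) • p = p) (k' : (⟨c, hN⟩ : Nm (C.N a)) • p' = p')
    (k'' : (⟨c, hN⟩ : Nm (C.N a)) • p'' = p'') (e' : p' ≠ p) (e'' : p'' ≠ p) : p'' = p' := by
  obtain ⟨R, rfl, rfl⟩ := (C.loc a).some.exists_pair e'
  obtain ⟨s, hs, rfl⟩ := R.exists_S e''
  have := (R.fix_iff k k' hs).1 k''
  by_cases e : s = 1
  · subst e; exact one_smul (Nm (C.N a)) _
  refine (h1 ?_).elim
  by_cases e2 : s * s = 1
  · exact X_cen C h hab hd hc ⟨R.S_le hs, e, e2⟩ this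
  · exact X_cen C h hab hd hc ⟨R.S_le (mul_mem hs hs), e2, R.Z_sq (R.sq_mem hs)⟩
      (by rw [← conj_mul]; exact congrArg₂ _ this this)

theorem X_ex (p : Pt (C.N a) F K m i) : ∃ p', p' ≠ p ∧ ∃ c, ∃ hN : c ∈ Nm (C.N a), Sw C a b (c * d) ∧
    (orderOf c).Prime ∧ (⟨c, hN⟩ : Nm (C.N a)) • p = p ∧ (⟨c, hN⟩ : Nm (C.N a)) • p' = p' := by
  classical
  obtain ⟨_, R, rfl⟩ := p
  obtain ⟨x, h0, h1⟩ := R.exists_F
  obtain ⟨c, hc, e⟩ := X_surj C h hab hd (R.iv_ζ one_ne_zero) (R.iv_ζ h0)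
  have hN := C.nm (X_fix C hd hc).1
  have hB := R.Nm_of_mem hN (R.ζ_mem 1) (R.iv_ζ one_ne_zero).2.1 (e ▸ R.ζ_mem x)
  have h2 : orderOf c ≠ 1 := fun k => h1 (R.ζ_inj (by rw [← e, orderOf_eq_one_iff.1 k]; simp))
  have h3 := Nat.minFac_prime h2
  have h4 : orderOf (c ^ (orderOf c / (orderOf c).minFac)) = (orderOf c).minFac :=
    orderOf_pow_orderOf_div (orderOf_pos c).ne' (Nat.minFac_dvd _)
  have hc' := X_pow C hd hc (orderOf c / (orderOf c).minFac)
  have hB' := pow_mem hB (orderOf c / (orderOf c).minFac)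
  have hN' := pow_mem hN (orderOf c / (orderOf c).minFac)
  rw [← h4] at h3
  generalize c ^ (orderOf c / (orderOf c).minFac) = g at hc' hB' hN' h3
  have k : (⟨g, hN'⟩ : Nm (C.N a)) • R.pt = R.pt := R.fix_pt.2 hB'
  haveI := Fact.mk h3
  haveI := Fintype.ofFinite {p : Pt (C.N a) F K m i // p ≠ R.pt}
  obtain ⟨p', k'⟩ := Equiv.Perm.exists_fixed_point_of_prime (p := orderOf g) (n := 1)
    (α := {p : Pt (C.N a) F K m i // p ≠ R.pt}) (by
      have : Fintype.card {p : Pt (C.N a) F K m i // p ≠ R.pt} = (2 ^ m) ^ i := by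
        haveI := Fintype.ofFinite (Pt (C.N a) F K m i)
        rw [Fintype.card_subtype_compl, Fintype.card_subtype_eq, ← Nat.card_eq_fintype_card, R.card_Pt,
          Nat.add_sub_cancel]
      rw [this]
      exact fun k => (X_odd C h hab hd hc').not_two_dvd_nat (((Nat.prime_dvd_prime_iff_eq h3 Nat.prime_two).1
        (h3.dvd_of_dvd_pow (h3.dvd_of_dvd_pow k))) ▸ dvd_rfl))
    (σ := (toPerm (⟨g, hN'⟩ : Nm (C.N a))).subtypePerm fun p => by
      rw [toPerm_apply, ← k, ne_eq, ne_eq, smul_left_cancel_iff, k]) (by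
      rw [Equiv.Perm.subtypePerm_pow]
      ext p
      change (toPermHom _ _ (⟨g, hN'⟩ : Nm (C.N a)) ^ orderOf g ^ 1) p.1 = p.1
      rw [← map_pow, pow_one,
        show (⟨g, hN'⟩ : Nm (C.N a)) ^ orderOf g = 1 from Subtype.ext (pow_orderOf_eq_one g), map_one]
      rfl)
  exact ⟨p', p'.2, g, hN', hc', h3, k, congrArg Subtype.val k'⟩

omit hab hd in
theorem pieceI [hΩ : Nonempty Ω] : False := by
  obtain ⟨a⟩ := hΩ
  obtain ⟨b, hab⟩ := C.exists_ne a
  obtain ⟨d, hd⟩ : Nonempty {d // Sw C a b d} := by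
    obtain ⟨t, ht⟩ := C.exists_iv a
    haveI : Nonempty {t // Iv (C.N a) t} := ⟨⟨t, ht⟩⟩
    exact (Nat.card_pos_iff.1 (card_Sw C h hab ▸ Nat.card_pos)).1
  choose f f0 c hN hc hr k k' using X_ex C h hab hd
  have ne : ∀ p, c p ≠ 1 := fun p e => by simpa [e] using (hr p).ne_one
  refine (odd_fix f (fun p => ?_) (C.loc a).some.odd_Pt).elim f0
  obtain ⟨R, e⟩ := (f p).2
  have cm : Commute (c p) (c (f p)) := X_comm C h hab hd R (hc _) (e ▸ smul_eq_iff.1 (k' p)) (hr _) (hc _)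
    (e ▸ smul_eq_iff.1 (k _)) (hr _)
  have h1 : (⟨c (f p), hN _⟩ : Nm (C.N a)) • p = p := X_two C h hab hd (hc p) (ne p) (hN p) (k' p) (k p) (by
    rw [← mul_smul, show (⟨c p, hN p⟩ : Nm (C.N a)) * ⟨c (f p), hN _⟩ = ⟨c (f p), hN _⟩ * ⟨c p, hN p⟩ from
      Subtype.ext cm.eq, mul_smul, k p]) (f0 p).symm fun e => f0 p (smul_left_cancel _ ((k _).trans e.symm))
  exact X_two C h hab hd (hc _) (ne _) (hN _) (k _) h1 (k' _) (f0 p).symm (f0 _)

end Cfsg.Agent.H5.TA
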