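import Cfsg.Agent.H5.TB2

/-! S2208: construction of the configuration and the case division. -/

set_option autoImplicit false
set_option linter.unusedSectionVars false

namespace Cfsg.Agent.H5.TA

open Subgroup MulAction

variable {G : Type*} [Group G] {F K : Type} [Field F] [Field K] {m i : ℕ}
  [Finite G] {Ω : Type*} [Finite Ω] [MulAction G Ω]

theorem exists_cfg [FaithfulSMul G Ω] (h2 : IsMultiplyPretransitive G Ω 2) (a : Ω) (N : Subgroup G)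
    (hle : N ≤ stabilizer G a) (hn : ∀ g ∈ stabilizer G a, ∀ n ∈ N, g * n * g⁻¹ ∈ N) (R : R0 N F K m i) :
    ∃ C : Cfg G Ω F K m i, C.N a = N := by
  have two : ∀ a b c d : Ω, a ≠ b → c ≠ d → ∃ g : G, g • a = c ∧ g • b = d := fun a b c d h h' =>
    is_two_pretransitive_iff.1 h2 h h'
  have faith : ∀ g : G, (∀ x : Ω, g • x = x) → g = 1 := fun g h =>
    FaithfulSMul.eq_of_smul_eq_smul fun x : Ω => by rw [h, one_smul]
  have tr : ∀ x, ∃ g : G, g • a = x := fun x => by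
    by_cases e : a = x
    · exact ⟨1, by rw [one_smul, e]⟩
    obtain ⟨g, h, -⟩ := two a x x a e (Ne.symm e)
    exact ⟨g, h⟩
  choose f hf using tr
  have key : ∀ g x, g • a = x → cj g N = cj (f x) N := fun g x h => by
    have : cj ((f x)⁻¹ * g) N = N := cj_eq_iff.2 (mem_Nm.2 (hn _ (by rw [mem_stabilizer_iff, mul_smul, h, inv_smul_eq_iff, hf])))
    conv_rhs => rw [← this, ← cj_mul, mul_inv_cancel_left]
  refine ⟨⟨fun x => cj (f x) N, two, faith, fun x n h => ?_, fun g x n h => ?_, fun x => ⟨R.cj _ rfl⟩⟩, ?_⟩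
  · have := hle (mem_cj.1 h)
    rwa [mem_stabilizer_iff, mul_smul, mul_smul, hf, inv_smul_eq_iff, hf] at this
  · rw [← key (g * f x) _ (by rw [mul_smul, hf]), cj_mul, conj_mem_cj]
    exact h
  · exact (key 1 a (one_smul _ _)).symm.trans (cj_one N)

theorem core [Nonempty Ω] (C : Cfg G Ω F K m i)
    (pII : (∀ a b, a ≠ b → ∃ t, Iv (C.N a) t ∧ t • b = b) → (∀ a b t, a ≠ b → Iv (C.N a) t → t ∉ C.N b) → False)
    (pIII : (∀ a b, a ≠ b → ∃ t, Iv (C.N a) t ∧ t ∈ C.N b) → ∀ a b t, Iv (C.N a) t → t • b = b → t ∈ C.N b)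
    (pIV2 : (∀ a b, a ≠ b → ∃ t, Iv (C.N a) t ∧ t ∈ C.N b) → (∀ a b t, Iv (C.N a) t → t • b = b → t ∈ C.N b) →
      ∀ a b t, a ≠ b → Iv (C.N a) t → t ∈ C.N b → (∀ u, Iv (C.N a) u → Commute u t → u • b = b) →
      (∀ u, Iv (C.N a) u → u ∈ C.N b → Commute t u) → (Nat.card Ω = 6 ∧ m = 2 ∧ i = 1) ∨ HasReg G Ω)
    (pIV3 : (∀ a b, a ≠ b → ∃ t, Iv (C.N a) t ∧ t ∈ C.N b) → (∀ a b t, Iv (C.N a) t → t • b = b → t ∈ C.N b) →
      (∀ a b t, a ≠ b → Iv (C.N a) t → t ∈ C.N b → ∃ u, Iv (C.N a) u ∧ Commute u t ∧ u • b ≠ b) →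
      Nat.card Ω = 11 ∧ Nat.card G = 660 ∧ m = 2 ∧ i = 1) :
    (Nat.card Ω = 6 ∧ m = 2 ∧ i = 1) ∨ (Nat.card Ω = 11 ∧ Nat.card G = 660 ∧ m = 2 ∧ i = 1) ∨ HasReg G Ω := by
  by_cases c1 : ∀ a b t, a ≠ b → Iv (C.N a) t → t • b ≠ b
  · exact (pieceI C c1).elim
  push Not at c1
  by_cases c2 : ∀ a b t, a ≠ b → Iv (C.N a) t → t ∉ C.N b
  · refine (pII (fun x y h => ?_) c2).elim
    obtain ⟨a, b, t, hab, ht, e⟩ := c1
    obtain ⟨g, rfl, rfl⟩ := C.two a b x y hab h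
    exact ⟨_, C.iv_conj rfl ht, by rw [mul_smul, mul_smul, inv_smul_smul, e]⟩
  push Not at c2
  have h1 : ∀ a b, a ≠ b → ∃ t, Iv (C.N a) t ∧ t ∈ C.N b := fun x y h => by
    obtain ⟨a, b, t, hab, ht, e⟩ := c2
    obtain ⟨g, rfl, rfl⟩ := C.two a b x y hab h
    exact ⟨_, C.iv_conj rfl ht, C.eqv _ _ _ e⟩
  have hF := pIII h1
  by_cases c3 : ∀ a b t, a ≠ b → Iv (C.N a) t → t ∈ C.N b → ∃ u, Iv (C.N a) u ∧ Commute u t ∧ u • b ≠ b
  · exact Or.inr (Or.inl (pIV3 h1 hF c3))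
  push Not at c3
  obtain ⟨a, b, t, hab, ht, htb, hZ⟩ := c3
  by_cases c4 : ∃ u, Iv (C.N a) u ∧ u ∈ C.N b ∧ ¬ Commute t u
  · exact (pieceIV1 C hF hab ht htb hZ c4).elim
  push Not at c4
  exact (pIV2 h1 hF a b t hab ht htb hZ c4).imp_right Or.inr

theorem Cfg.card_ge (C : Cfg G Ω F K m i) (a : Ω) : Nat.card Ω * Nat.card (C.N a) ≤ Nat.card G := by
  haveI : IsPretransitive G Ω := ⟨C.trans⟩
  rw [← (stabilizer G a).index_mul_card, index_stabilizer_of_transitive]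
  exact Nat.mul_le_mul_left _ (card_le_of_le fun n hn => C.fix a n hn)

end Cfsg.Agent.H5.TA
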