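import Cfsg.Agent.H5.TB3
import Cfsg.Agent.H4.RI
import Cfsg.Agent.H1.TU1
import Cfsg.Agent.L0.RC.R6
import Cfsg.Agent.L0.RC.R660

/-! S2208 from the statement about configurations. -/

set_option autoImplicit false

namespace Cfsg.Agent.H5.TA

open Subgroup MulAction

theorem final {G Ω : Type*} [Group G] [Finite G] [Fintype Ω] [MulAction G Ω] [FaithfulSMul G Ω]
    (h2 : IsMultiplyPretransitive G Ω 2) (a : Ω) (N : Subgroup G) (hNle : N ≤ stabilizer G a)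
    (hNnormal : ∀ g ∈ stabilizer G a, ∀ n ∈ N, g * n * g⁻¹ ∈ N)
    (hN : ∃ (F : Type) (_ : Field F) (_ : Fintype F) (m : ℕ), Fintype.card F = 2 ^ m ∧ 2 ≤ m ∧
      (Nonempty (↥N ≃* Matrix.ProjectiveSpecialLinearGroup (Fin 2) F) ∨
        (Odd m ∧ Nonempty (↥N ≃* ↥(Cfsg.Lie.Sz F (2 ^ ((m + 1) / 2))))) ∨
       (∃ (K : Type) (_ : Field K) (_ : Fintype K), Fintype.card K = (2 ^ m) ^ 2 ∧ Nonempty (↥N ≃* Cfsg.PSU 3 K (2 ^ m)))))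
    (H : ∀ (F K : Type) [Field F] [Field K] (m i : ℕ), Cfg G Ω F K m i →
      (Nat.card Ω = 6 ∧ m = 2 ∧ i = 1) ∨ (Nat.card Ω = 11 ∧ Nat.card G = 660 ∧ m = 2 ∧ i = 1) ∨ HasReg G Ω) :
    (Fintype.card Ω = 6 ∧ (Nonempty (G ≃* ↥(alternatingGroup (Fin 6))) ∨ Nonempty (G ≃* Equiv.Perm (Fin 6))) ∧
      ∃ (F : Type) (_ : Field F) (_ : Fintype F), Fintype.card F = 4 ∧
        Nonempty (↥N ≃* Matrix.ProjectiveSpecialLinearGroup (Fin 2) F)) ∨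
    (Fintype.card Ω = 11 ∧ (∃ (F : Type) (_ : Field F) (_ : Fintype F), Fintype.card F = 11 ∧
      Nonempty (G ≃* Matrix.ProjectiveSpecialLinearGroup (Fin 2) F)) ∧
      ∃ (F : Type) (_ : Field F) (_ : Fintype F), Fintype.card F = 4 ∧
        Nonempty (↥N ≃* Matrix.ProjectiveSpecialLinearGroup (Fin 2) F)) ∨
    (∃ R : Subgroup G, R.Normal ∧ (∀ x y : Ω, ∃ r ∈ R, r • x = y) ∧ ∀ x : Ω, ∀ r ∈ R, r • x = x → r = 1) := by
  obtain ⟨F, _, _, m, hF, hm, ⟨⟨e⟩⟩ | ⟨ho, ⟨e⟩⟩ | ⟨K, _, _, hK, ⟨e⟩⟩⟩ := hN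
  · obtain ⟨F', K', _, _, ⟨R⟩⟩ := H4.RI.instL2 hF hm
    obtain ⟨R⟩ := R.of_equiv e
    obtain ⟨C, rfl⟩ := exists_cfg h2 a N hNle hNnormal R
    rcases H _ _ _ _ C with ⟨h, rfl, -⟩ | ⟨h, h', rfl, -⟩ | h
    · refine Or.inl ⟨by rwa [← Nat.card_eq_fintype_card], L0.R660.rec6 h ?_, F, _, _, hF, ⟨e⟩⟩
      have := C.card_ge a
      rwa [h, R.card_N_one rfl] at this
    · rw [Nat.card_eq_fintype_card] at h
      haveI : Fact (Nat.Prime 11) := ⟨by norm_num⟩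
      exact Or.inr (Or.inl ⟨h, ⟨ZMod 11, _, _, ZMod.card 11, L0.R660.rec660 h2 h h'⟩, F, _, _, hF, ⟨e⟩⟩)
    · exact Or.inr (Or.inr h)
  · obtain ⟨F', K', _, _, ⟨R⟩⟩ := H4.RI.instSz hF hm ho
    obtain ⟨R⟩ := R.of_equiv e
    obtain ⟨C, rfl⟩ := exists_cfg h2 a N hNle hNnormal R
    rcases H _ _ _ _ C with h | h | h
    · omega
    · omega
    · exact Or.inr (Or.inr h)
  · obtain ⟨F', K', _, _, ⟨R⟩⟩ := H1.TU.instU3 hK hm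
    obtain ⟨R⟩ := R.of_equiv e
    obtain ⟨C, rfl⟩ := exists_cfg h2 a N hNle hNnormal R
    rcases H _ _ _ _ C with h | h | h
    · omega
    · omega
    · exact Or.inr (Or.inr h)

end Cfsg.Agent.H5.TA
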