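import Cfsg.Agent.H5.TB2
import Cfsg.Agent.L0.T3.C

/-! S2208, case IV.3 with non-commuting involutions fixing two points: counting. -/

set_option autoImplicit false
set_option linter.unusedSectionVars false

open scoped Classical

namespace Cfsg.Agent.H5.TC

open Subgroup MulAction Finset TA L0.T3

variable {G Om : Type*} [Group G] [Fintype G] [Fintype Om] [MulAction G Om] {F K : Type} [Field F] [Field K]
  {m i : ℕ} {C : Cfg G Om F K m i}

/-- Commuting involutions fixing the same two points are equal. -/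
structure Hs (C : Cfg G Om F K m i) : Prop where
  H : Hy C
  hs : ∀ {a b : Om} {t u : G}, a ≠ b → t ∈ Dab C a b → u ∈ Dab C a b → Commute u t → u = t

/-- The involutions fixing `a`, `b` and commuting with `d`. -/
noncomputable abbrev Ph (C : Cfg G Om F K m i) (a b : Om) (d : G) : Finset G := (Dab C a b).filter fun t => Commute t d

theorem sw_symm {a b : Om} {d : G} (hd : d ∈ L0.T3.Sw C a b) : d • b = a := by
  rw [← (mem_DP.1 hd).2, (mem_DP.1 hd).1.ss]

theorem conj_Dab {a b : Om} {d t : G} (hd : d ∈ L0.T3.Sw C a b) (ht : t ∈ Dab C a b) : d * t * d⁻¹ ∈ Dab C a b := by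
  obtain ⟨h1, h2, h3⟩ := mem_DP.1 ht
  refine mem_DP.2 ⟨h1.conj d, ?_, ?_⟩
  · rw [← sw_symm hd, conj_smul_iff, h3]
  · rw [← (mem_DP.1 hd).2, conj_smul_iff, h2]

theorem conj_Dab' {a b : Om} {g t : G} (ha : g • a = a) (hb : g • b = b) (ht : t ∈ Dab C a b) :
    g * t * g⁻¹ ∈ Dab C a b := by
  obtain ⟨h1, h2, h3⟩ := mem_DP.1 ht
  exact mem_DP.2 ⟨h1.conj g, by rw [← ha, conj_smul_iff, h2], by rw [← hb, conj_smul_iff, h3]⟩

theorem sq_conj {d : G} (hd : d * d = 1) (x : G) : d * (d * x * d⁻¹) * d⁻¹ = x := by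
  rw [inv_eq_of_mul_eq_one_right hd]; simp only [mul_assoc, hd, mul_one]; rw [← mul_assoc, hd, one_mul]

theorem conj_mul_aux (l g t : G) : l * g * t * (l * g)⁻¹ = l * (g * t * g⁻¹) * l⁻¹ := by group

namespace Hs

variable (P : Hs C)
include P

theorem Ys_eq {a b : Om} (h : a ≠ b) {t : G} (ht : t ∈ Dab C a b) : Ys C a b t = {t} := by
  ext u
  rw [mem_singleton, mem_DP]
  exact ⟨fun k => P.hs h ht (mem_DP.2 ⟨k.1, k.2.1, k.2.2.1⟩) k.2.2.2, fun e => by
    rw [e]; exact ⟨(mem_DP.1 ht).1, (mem_DP.1 ht).2.1, (mem_DP.1 ht).2.2, Commute.refl _⟩⟩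

theorem mx {a b : Om} (h : a ≠ b) {t : G} (ht : t ∈ Dab C a b) : Mx C a b t :=
  ⟨P.H, h, (mem_DP.1 ht).1, (mem_DP.1 ht).2.1, (mem_DP.1 ht).2.2, fun a' b' t' h' h1 h2 h3 => by
    rw [P.Ys_eq h ht, P.Ys_eq h' (mem_DP.2 ⟨h1, h2, h3⟩), card_singleton, card_singleton]⟩

omit P in
theorem FY_single (t : G) : FY Om {t} = Fx Om t := by
  ext x; simp [mem_FY]

theorem odd_Fx {t : G} (ht : D C t) : Odd (Fx Om t).card := by
  obtain ⟨a, -⟩ := ht.exists_fix
  obtain ⟨b, h⟩ := C.exists_ne a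
  obtain ⟨u, hu⟩ := P.H.exists_Dab h
  have := (P.mx h (mem_DP.2 hu)).odd
  rwa [P.Ys_eq h (mem_DP.2 hu), FY_single, card_Fx hu.1 ht] at this

theorem common {t d : G} (ht : D C t) (hd : D C d) (h : Commute d t) : ∃ x : Om, t • x = x ∧ d • x = x := by
  obtain ⟨x, h1, h2⟩ := odd_fix' (P.odd_Fx ht) hd.sq fun x hx => mem_Fx.2 (comm_smul h (mem_Fx.1 hx))
  exact ⟨x, mem_Fx.1 h1, h2⟩

variable {a b : Om} (hab : a ≠ b)
include hab

theorem mul_sw {t d : G} (ht : t ∈ Dab C a b) (hd : d ∈ L0.T3.Sw C a b) (h : Commute t d) : d * t ∈ L0.T3.Sw C a b := by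
  obtain ⟨h1, h2, h3⟩ := mem_DP.1 ht
  obtain ⟨h4, h5⟩ := mem_DP.1 hd
  obtain ⟨x, k1, k2⟩ := P.common h1 h4 h.symm
  exact mem_DP.2 ⟨P.H.mul_D h1 h4 k1 k2 h.symm fun e => hab (by rw [← h5, e, h2]), by rw [mul_smul, h2, h5]⟩

theorem odd_prod {t u : G} (ht : t ∈ Dab C a b) (hu : u ∈ Dab C a b) : Odd (orderOf (t * u)) := by
  by_cases e : t = u
  · rw [e, (mem_DP.1 hu).1.sq]; simp
  exact (C.loc a).some.odd_prod (P.H.iv (mem_DP.1 ht).1 (mem_DP.1 ht).2.1) (P.H.iv (mem_DP.1 hu).1 (mem_DP.1 hu).2.1)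
    fun k => e (P.hs hab hu ht k)

theorem odd_Dab : Odd (Dab C a b).card := by
  obtain ⟨t, ht⟩ := P.H.exists_Dab hab
  have ht' : t ∈ Dab C a b := mem_DP.2 ht
  rw [← Nat.card_eq_finsetCard]
  exact odd_of_one_fix (α := Dab C a b) (fun u => ⟨_, conj_Dab' ht.2.1 ht.2.2 u.2⟩)
    (fun u => Subtype.ext (sq_conj ht.1.sq _)) ⟨t, ht'⟩ fun u =>
      ⟨fun e => Subtype.ext (P.hs hab ht' u.2 (mul_inv_eq_iff_eq_mul.1 (congrArg Subtype.val e)).symm),
        fun e => by rw [e]; exact Subtype.ext (by simp)⟩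

theorem Ph_ne {d : G} (hd : d ∈ L0.T3.Sw C a b) : (Ph C a b d).Nonempty := by
  obtain ⟨u, e⟩ := odd_fix (α := Dab C a b) (fun u => ⟨_, conj_Dab hd u.2⟩)
    (fun u => Subtype.ext (sq_conj (mem_DP.1 hd).1.sq _)) (by rw [Nat.card_eq_finsetCard]; exact P.odd_Dab hab)
  exact ⟨u, mem_filter.2 ⟨u.2, (mul_inv_eq_iff_eq_mul.1 (congrArg Subtype.val e)).symm⟩⟩

theorem card_sw {t : G} (ht : t ∈ Dab C a b) :
    ((L0.T3.Sw C a b).filter fun d => Commute t d).card + 2 = 2 ^ m := by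
  have h1 := (P.mx hab ht).cnt (s := ((L0.T3.Sw C a b).filter fun d => Commute t d).card) fun x hx hne => by
    rw [P.Ys_eq hab ht, FY_single, mem_Fx] at hx
    rw [P.Ys_eq hab ht]
    obtain ⟨g, h1, h2, h3⟩ : ∃ g : G, g • a = a ∧ g • x = b ∧ g * t * g⁻¹ = t := by
      obtain ⟨g, h1, h2⟩ := C.two a x a b hne.symm hab
      have k : g * t * g⁻¹ ∈ Dab C a b := mem_DP.2 ⟨(mem_DP.1 ht).1.conj g,
        by rw [← h1, conj_smul_iff, (mem_DP.1 ht).2.1], by rw [← h2, conj_smul_iff, hx]⟩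
      by_cases e : Commute (g * t * g⁻¹) t
      · exact ⟨g, h1, h2, P.hs hab ht k e⟩
      obtain ⟨l, l1, l2, l3⟩ := P.H.conj2 k ht e
      exact ⟨l * g, by rw [mul_smul, h1, C.fix a l l1], by rw [mul_smul, h2, C.fix b l l2],
        (conj_mul_aux l g t).trans l3⟩
    rw [card_conj g (P' := fun d => d • a = b ∧ Commute t d) fun d hd => ?_]
    · congr 1
      ext d
      simp only [mem_DP, mem_filter, and_assoc]
    · conv_lhs => rw [← h1, ← h2, ← h3, conj_smul_iff, conj_comm_iff]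
      simp only [E, mem_CY, mem_singleton, forall_eq]
      exact ⟨fun k => ⟨⟨hd, k.2.symm, fun e => hne (by rw [← k.1, e, (mem_DP.1 ht).2.1])⟩, k.1⟩,
        fun k => ⟨k.2, k.1.2.1.symm⟩⟩
  rw [P.Ys_eq hab ht, card_singleton] at h1
  have := (C.loc a).some.four_le
  omega

theorem part {d u : G} (hd : d ∈ L0.T3.Sw C a b) (hu : u ∈ Dab C a b) :
    ((Ph C a b d).filter fun t => Commute u (d * t)).card = 1 := by
  obtain ⟨h1, h2, h3⟩ := mem_DP.1 hu
  obtain ⟨h4, h5⟩ := mem_DP.1 hd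
  rw [card_eq_one_iff_existsUnique]
  refine existsUnique_of_exists_of_unique ?_ fun t t' k k' => ?_
  · obtain ⟨j, hj⟩ := P.odd_prod hab (conj_Dab hd hu) hu
    have e : d * u * d⁻¹ * u = (d * u) ^ 2 := by rw [h4.inv, pow_two, mul_assoc]
    have sq : (d * u) ^ (2 * j + 1) * (d * u) ^ (2 * j + 1) = 1 := by
      rw [← pow_add, ← two_mul, pow_mul, ← e, ← hj, pow_orderOf_eq_one]
    have key : ∀ x, x * (d * u) * x⁻¹ = (d * u)⁻¹ → Commute x ((d * u) ^ (2 * j + 1)) := fun x e =>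
      mul_inv_eq_iff_eq_mul.1 (by rw [← conj_pow, e, inv_pow, inv_eq_of_mul_eq_one_right sq])
    have fx : ∀ n : ℕ, ((d * u) ^ 2) ^ n • a = a ∧ ((d * u) ^ 2) ^ n • b = b := fun n => by
      have k := mem_DP.1 (conj_Dab hd hu)
      exact ⟨pow_mem (show _ ∈ stabilizer G a by rw [mem_stabilizer_iff, ← e, mul_smul, h2, k.2.1]) n,
        pow_mem (show _ ∈ stabilizer G b by rw [mem_stabilizer_iff, ← e, mul_smul, h3, k.2.2]) n⟩
    have e2 : d * (d * u) ^ (2 * j + 1) = u * ((d * u) ^ 2) ^ j := by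
      rw [pow_succ', ← mul_assoc, ← mul_assoc, h4.sq, one_mul, pow_mul]
    refine ⟨d * (d * u) ^ (2 * j + 1), mem_filter.2 ⟨mem_filter.2 ⟨mem_DP.2 ⟨?_, ?_, ?_⟩, ?_⟩, ?_⟩⟩
    · obtain ⟨g, k | k⟩ := TA.dih h4.sq h1.sq (2 * j + 1) <;> rw [k]
      exacts [h4.conj g, h1.conj g]
    · rw [e2, mul_smul, (fx j).1, h2]
    · rw [e2, mul_smul, (fx j).2, h3]
    · exact ((Commute.refl d).mul_right (key d (inv_prod h4.sq h1.sq).1)).symm
    · rw [← mul_assoc, h4.sq, one_mul]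
      exact key u (inv_prod h4.sq h1.sq).2
  · simp only [mem_filter] at k k'
    have t1 := mem_DP.1 k.1.1
    have t2 := mem_DP.1 k'.1.1
    have e : d * t * (d * t') = t * t' := by rw [← k.1.2.eq, mul_assoc, ← mul_assoc d, h4.sq, one_mul]
    have := (C.loc a).some.P4 (mul_mem (P.H.iv t1.1 t1.2.1).1 (P.H.iv t2.1 t2.2.1).1) (P.odd_prod hab k.1.1 k'.1.1)
      (P.H.iv t1.1 t1.2.1) (inv_prod t1.1.sq t2.1.sq).1 (P.H.iv h1 h2) (e ▸ (k.2.mul_right k'.2).symm)
    exact (eq_inv_of_mul_eq_one_left this).trans t2.1.inv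

theorem mul_Ph {d t : G} (hd : d ∈ L0.T3.Sw C a b) (ht : t ∈ Ph C a b d) :
    (Ph C a b d).card * (Ph C a b (d * t)).card = (Dab C a b).card := by
  rw [← mul_one (Dab C a b).card]
  refine card_mul_eq_card_mul (fun t u => Commute u (d * t)) (fun t' ht' => ?_) fun u hu => P.part hab hd hu
  rw [mem_filter] at ht ht'
  have t1 := mem_DP.1 ht.1
  have t2 := mem_DP.1 ht'.1
  obtain ⟨k, e⟩ := dih_conj t2.1.sq t1.1.sq (P.odd_prod hab ht'.1 ht.1)
  have c : Commute ((t' * t) ^ k) d := (ht'.2.mul_left ht.2).pow_left k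
  have ga : (t' * t) ^ k • a = a := pow_mem (show _ ∈ stabilizer G a by rw [mem_stabilizer_iff, mul_smul, t1.2.1, t2.2.1]) k
  have gb : (t' * t) ^ k • b = b := pow_mem (show _ ∈ stabilizer G b by rw [mem_stabilizer_iff, mul_smul, t1.2.2, t2.2.2]) k
  generalize (t' * t) ^ k = g at e c ga gb
  have e2 : g * (d * t') * g⁻¹ = d * t := by rw [← e, ← mul_assoc, c.eq]; group
  refine card_bij (fun u _ => g * u * g⁻¹) (fun u hu => ?_) (fun u _ u' _ e => by simpa using e) fun u hu => ?_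
  · rw [bipartiteAbove, mem_filter] at hu
    exact mem_filter.2 ⟨conj_Dab' ga gb hu.1, by rw [← e2, conj_comm_iff]; exact hu.2⟩
  · rw [mem_filter] at hu
    refine ⟨g⁻¹ * u * g⁻¹⁻¹, mem_filter.2 ⟨conj_Dab' (inv_smul_eq_iff.2 ga.symm) (inv_smul_eq_iff.2 gb.symm) hu.1, ?_⟩,
      by group⟩
    change Commute _ _
    rw [← conj_comm_iff (g := g), e2]
    simpa [mul_assoc] using hu.2

theorem sum_Ph : ∑ x ∈ (Dab C a b).sigma fun t => (L0.T3.Sw C a b).filter fun d => Commute t d,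
    ((Ph C a b x.2).card + (Ph C a b (x.2 * x.1)).card) = 2 * ((L0.T3.Sw C a b).card * (Dab C a b).card) := by
  have h1 : ∑ t ∈ Dab C a b, ∑ d ∈ (L0.T3.Sw C a b).filter fun d => Commute t d, (Ph C a b (d * t)).card =
      (L0.T3.Sw C a b).card * (Dab C a b).card := by
    rw [sum_comm' (t' := L0.T3.Sw C a b) (s' := fun d => Ph C a b d) (by simp only [mem_filter]; tauto),
      ← smul_eq_mul, ← sum_const]
    refine sum_congr rfl fun d hd => Nat.eq_of_mul_eq_mul_left (P.Ph_ne hab hd).card_pos ?_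
    rw [mul_sum, sum_congr rfl fun t ht => P.mul_Ph hab hd ht, sum_const, smul_eq_mul]
  rw [← sum_sigma' _ _ fun t d => (Ph C a b d).card + (Ph C a b (d * t)).card]
  simp only [sum_add_distrib]
  rw [h1, two_mul, ← h1]
  congr 1
  refine sum_congr rfl fun t ht => ?_
  have e : ∀ x : G, x * t * t = x := fun x => by rw [mul_assoc, (mem_DP.1 ht).1.sq, mul_one]
  have mem : ∀ d ∈ (L0.T3.Sw C a b).filter fun d => Commute t d,
      d * t ∈ (L0.T3.Sw C a b).filter fun d => Commute t d := fun d hd =>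
    mem_filter.2 ⟨P.mul_sw hab ht (mem_filter.1 hd).1 (mem_filter.1 hd).2,
      (mem_filter.1 hd).2.mul_right (Commute.refl t)⟩
  exact sum_bij' (fun d _ => d * t) (fun d _ => d * t) mem mem (fun d _ => e d) (fun d _ => e d)
    fun d _ => by rw [e]

theorem bounds : (∃ x y, x * y = (Dab C a b).card ∧ (2 ^ m - 2) * (x + y) ≤ 2 * (L0.T3.Sw C a b).card) ∧
    2 * (L0.T3.Sw C a b).card ≤ (2 ^ m - 2) * ((Dab C a b).card + 1) := by
  have h4 := (C.loc a).some.four_le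
  have hc : ((Dab C a b).sigma fun t => (L0.T3.Sw C a b).filter fun d => Commute t d).card =
      (Dab C a b).card * (2 ^ m - 2) := by
    rw [card_sigma, ← smul_eq_mul, ← sum_const]
    exact sum_congr rfl fun t ht => by have := P.card_sw hab ht; omega
  have h0 : 0 < (Dab C a b).card := (P.odd_Dab hab).pos
  have hm : ∀ x ∈ (Dab C a b).sigma fun t => (L0.T3.Sw C a b).filter fun d => Commute t d,
      (Ph C a b x.2).card * (Ph C a b (x.2 * x.1)).card = (Dab C a b).card := fun x hx => by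
    rw [mem_sigma, mem_filter] at hx
    exact P.mul_Ph hab hx.2.1 (mem_filter.2 ⟨hx.1, hx.2.2⟩)
  constructor
  · obtain ⟨x, hx, k⟩ := exists_le_of_sum_le (card_pos.1 (by rw [hc]; exact Nat.mul_pos h0 (by omega)))
      (f := fun x : (Σ _ : G, G) => (2 ^ m - 2) * ((Ph C a b x.2).card + (Ph C a b (x.2 * x.1)).card))
      (g := fun _ => 2 * (L0.T3.Sw C a b).card) (by
        rw [← mul_sum, P.sum_Ph hab, sum_const, hc, smul_eq_mul]; exact le_of_eq (by ring))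
    exact ⟨_, _, hm x hx, k⟩
  · refine Nat.le_of_mul_le_mul_right ?_ h0
    rw [mul_assoc, ← P.sum_Ph hab]
    refine (sum_le_card_nsmul _ _ ((Dab C a b).card + 1) fun x hx => ?_).trans (by rw [hc, smul_eq_mul]; exact le_of_eq (by ring))
    rw [← hm x hx] at h0 ⊢
    have h1 := Nat.pos_of_mul_pos_left h0
    have h2 := Nat.pos_of_mul_pos_right h0
    nlinarith [Nat.zero_le ((#(Ph C a b x.2) - 1) * (#(Ph C a b (x.2 * x.1)) - 1)), Nat.sub_add_cancel h1,
      Nat.sub_add_cancel h2]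

end Hs

end Cfsg.Agent.H5.TC
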