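import Cfsg.Agent.H5.TC0
import Cfsg.Agent.H5.TC1
import Cfsg.Agent.H5.TB3

/-! S2208, case IV.3 with non-commuting involutions fixing two points: the end. -/

set_option autoImplicit false
set_option linter.unusedSectionVars false

open scoped Classical

namespace Cfsg.Agent.H5.TC

open Subgroup MulAction Finset TA L0.T3

variable {G Om : Type*} [Group G] [Fintype G] [Fintype Om] [MulAction G Om] {F K : Type} [Field F] [Field K]
  {m i : ℕ} {C : Cfg G Om F K m i}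

theorem dvd_card_orb {H X : Type*} [Group H] [Finite X] [MulAction H X] {n : ℕ}
    (h : ∀ x : X, n ∣ (stabilizer H x).index) : n ∣ Nat.card X := by
  haveI := Fintype.ofFinite (orbitRel.Quotient H X)
  rw [Nat.card_congr (selfEquivSigmaOrbits H X), Nat.card_sigma]
  exact dvd_sum fun x _ => by have := h x.out; rwa [index_stabilizer] at this

section loc
variable {N : Subgroup G} (R : R0 N F K m i)

theorem card_le_of_inf {A : Subgroup G} (hA : A ≤ R.S) (h : ∀ x, R.ζ x ∈ A → x = 0 ∨ x = 1) : Nat.card A ≤ 2 ^ i := by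
  have n1 : ∀ s ∈ A, R.ω s ≠ 0 → R.ω s * R.θ (R.ω s) = 1 := fun s hs h0 => by
    rw [← R.hν, (h _ (R.sq s (hA hs) ▸ mul_mem hs hs)).resolve_left (mt R.ν_eq_zero.1 h0), map_one]
  obtain ⟨V, hV, hc⟩ : ∃ V : Finset K, (∀ s ∈ A, R.ω s ∈ V) ∧ 2 * V.card ≤ 2 ^ i := by
    rcases R.i_cases with k | k | k
    · exact ⟨{0}, fun s hs => mem_singleton.2 ((R.ω_eq_zero (hA hs)).2 (R.S_eq_Z k ▸ hA hs)), by simp [k]⟩
    · refine ⟨{0, 1}, fun s hs => ?_, by rw [k]; exact Nat.mul_le_mul_left 2 card_le_two⟩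
      by_cases e : R.ω s = 0
      · simp [e]
      · simp [R.ν_inj (by omega) (R.ι.injective (by rw [R.hν, n1 s hs e, R.ν_one, map_one]) : R.ν (R.ω s) = R.ν 1)]
    subst k
    by_cases c1 : ∀ s ∈ A, R.ω s = 0
    · exact ⟨{0}, fun s hs => mem_singleton.2 (c1 s hs), by simp⟩
    push Not at c1
    obtain ⟨s0, h0, e0⟩ := c1
    by_cases c2 : ∀ s ∈ A, R.ω s = 0 ∨ R.ω s = R.ω s0
    · exact ⟨{0, R.ω s0}, fun s hs => by simpa using c2 s hs, by have := card_le_two (a := 0) (b := R.ω s0); omega⟩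
    push Not at c2
    obtain ⟨s1, h1, e1, e1'⟩ := c2
    have q : ∀ s ∈ A, R.ω s ≠ 0 → R.ω s ≠ R.ω s0 → R.ω s0 + R.ω s ^ 2 * R.θ (R.ω s0) = R.ω s := fun s hs e e' => by
      have := n1 _ (mul_mem hs h0) (by
        rw [R.ω_mul _ (hA hs) _ (hA h0)]
        exact fun k => e' (by linear_combination k - R.addK (R.ω s0)))
      rw [R.ω_mul _ (hA hs) _ (hA h0), map_add] at this
      linear_combination R.ω s * this - (R.ω s + R.ω s0) * n1 s hs e - R.ω s * n1 s0 h0 e0 - R.addK (R.ω s)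
    refine ⟨{0, R.ω s0, R.ω s1, R.ω s0 + R.ω s1}, fun s hs => ?_, Nat.mul_le_mul_left 2 card_le_four⟩
    simp only [mem_insert, mem_singleton]
    by_contra c
    push Not at c
    have : (R.ω s - R.ω s1) * (R.ω s - (R.ω s0 + R.ω s1)) = 0 := by
      linear_combination R.ω s0 * (q s hs c.1 c.2.1 - q s1 h1 e1 e1') - (R.ω s ^ 2 - R.ω s1 ^ 2) * n1 s0 h0 e0 +
        (R.ω s1 - R.ω s) * R.addK (R.ω s1)
    exact (mul_ne_zero (sub_ne_zero.2 c.2.2.1) (sub_ne_zero.2 c.2.2.2)) this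
  refine le_trans ?_ hc
  rw [Nat.card_eq_fintype_card, ← card_univ]
  refine card_le_mul_card_image_of_maps_to (f := fun s : A => R.ω s) (fun s _ => hV s s.2) 2 fun a _ => ?_
  by_cases e : ∃ s : A, R.ω s = a
  · obtain ⟨s, rfl⟩ := e
    refine (card_le_card_of_injOn (t := {(s : G), R.ζ 1 * s}) (fun s : A => (s : G)) (fun s' hs' => ?_)
      Subtype.val_injective.injOn).trans card_le_two
    obtain ⟨x, hx⟩ := (R.ω_eq_iff (hA s'.2) (hA s.2)).1 (mem_filter.1 hs').2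
    rcases h x ((mul_mem_cancel_right s.2).1 (hx ▸ s'.2)) with rfl | rfl
    · simp [hx, R.ζ_zero]
    · simp [hx]
  · rw [filter_eq_empty_iff.2 fun s _ k => e ⟨s, k⟩]; simp

theorem mem_S_of_comm (hi : i ≠ 3) {g : G} (hg : g ∈ N) (h : Commute g (R.ζ 1)) : g ∈ R.S := by
  obtain ⟨s, hs, t, ht, rfl⟩ := (R.mem_B hg).1 (R.mem_B_of_comm hg (R.ζ_mem 1) (R.iv_ζ one_ne_zero).2.1 h)
  have h2 : Commute t (R.ζ 1) := by
    have := (Commute.inv_left (R.ζ_comm 1 s hs).symm).mul_left h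
    rwa [inv_mul_cancel_left] at this
  rw [R.ψ_inj t ht (R.ν_inj hi ((R.T_cent ht (R.ζ_mem 1) (R.iv_ζ one_ne_zero).2.1
    (by rw [h2.eq, mul_inv_cancel_right])).trans R.ν_one.symm)), mul_one]
  exact hs

end loc

namespace Hs

variable (P : Hs C)
include P

theorem dvd_Fx {t : G} (ht : D C t) : (2 ^ (m - 1)) ^ i ∣ (Fx Om t).card - 1 := by
  obtain ⟨a, ha⟩ := ht.exists_fix
  obtain ⟨R, rfl⟩ := C.exists_at (P.H.iv ht ha)
  letI : MulAction R.S ((Fx Om (R.ζ 1)).erase a) :=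
    { smul := fun s x => ⟨(s : G) • x.1, mem_erase.2 ⟨fun e => (mem_erase.1 x.2).1
        (smul_left_cancel (s : G) (e.trans (C.fix a _ (R.S_le s.2)).symm)),
        mem_Fx.2 (comm_smul (R.ζ_comm 1 s s.2).symm (mem_Fx.1 (mem_erase.1 x.2).2))⟩⟩
      one_smul := fun x => Subtype.ext (one_smul G x.1)
      mul_smul := fun s s' x => Subtype.ext (mul_smul (s : G) s' x.1) }
  rw [← card_erase_of_mem (mem_Fx.2 ha), ← Nat.card_eq_finsetCard]
  refine dvd_card_orb (H := R.S) fun x => ?_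
  have hx := mem_erase.1 x.2
  have h1 := card_le_of_inf R (map_subtype_le (stabilizer R.S x)) fun y ⟨s, hs, e⟩ => by
    by_cases h0 : y = 0
    · exact Or.inl h0
    exact Or.inr (R.ζ_inj (P.hs hx.1.symm (mem_DP.2 ⟨ht, ha, mem_Fx.1 hx.2⟩)
      (mem_DP.2 ⟨.of (R.iv_ζ h0), C.fix a _ (R.iv_ζ h0).1, e ▸ congrArg Subtype.val hs⟩) (R.ζ_comm _ _ (R.ζ_mem 1))))
  rw [card_map_of_injective R.S.subtype_injective] at h1
  have h2 := (stabilizer R.S x).index_mul_card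
  rw [R.card_S, ← pow_mul] at h2
  obtain ⟨k, -, hk⟩ := (Nat.dvd_prime_pow Nat.prime_two).1 (Dvd.intro_left _ h2)
  obtain ⟨j, -, hj⟩ := (Nat.dvd_prime_pow Nat.prime_two).1 (Dvd.intro _ h2)
  rw [hk, hj, ← pow_add] at h2
  rw [hk] at h1
  have h3 := Nat.pow_right_injective le_rfl h2
  have h4 := (Nat.pow_le_pow_iff_right one_lt_two).1 h1
  rw [hj, ← pow_mul, Nat.sub_mul]
  exact pow_dvd_pow 2 (by omega)

variable {a b : Om} (hab : a ≠ b)
include hab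

theorem numerics (hm : m = 2 ∨ m = 3) (hu : 1 < (Dab C a b).card) {t : G} (ht : D C t) :
    (Dab C a b).card = 3 ∧ i = 1 ∧ (m = 2 ∧ (Fx Om t).card = 3 ∨ (Fx Om t).card = 5) := by
  obtain ⟨⟨x, y, e, h4⟩, h5⟩ := P.bounds hab
  have h1 := P.H.cnt3 hab ht
  have h6 := P.H.cnt1 hab ht
  have h2 := P.dvd_Fx ht
  have h7 := P.odd_Dab hab
  have h3 : 1 < (Fx Om t).card := by
    obtain ⟨u, h⟩ := P.H.exists_Dab hab
    rw [card_Fx ht h.1]
    exact one_lt_card.2 ⟨a, mem_Fx.2 h.2.1, b, mem_Fx.2 h.2.2, hab⟩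
  rw [P.H.card_Da] at h1 h6
  rw [← e] at h1 h5 h6 h7 hu ⊢
  have hi := (C.loc a).some.typ
  have hp : (((2 ^ m) ^ i + 1) * (2 ^ m - 1), (2 ^ (m - 1)) ^ i, 2 ^ m - 2) ∈
      [(15, 2, 2), (195, 8, 2), (63, 4, 6), (455, 16, 6), (3591, 64, 6)] ∧
      (((2 ^ m) ^ i + 1) * (2 ^ m - 1) = 15 → i = 1 ∧ m = 2) ∧ (((2 ^ m) ^ i + 1) * (2 ^ m - 1) = 63 → i = 1) := by
    rcases hm with rfl | rfl <;> rcases hi with ⟨rfl, -⟩ | ⟨rfl, h, -⟩ | ⟨rfl, -⟩ <;> first | decide | (revert h; decide)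
  obtain ⟨k1, k | k⟩ := num hp.1 h1 h2 h3 h4 h5 (Dvd.intro_left _ h6.symm) h7 hu
  · exact ⟨k1, (hp.2.1 k.1).1, Or.inl ⟨(hp.2.1 k.1).2, k.2⟩⟩
  · exact ⟨k1, hp.2.2 k.1, Or.inr k.2⟩

theorem exists_d (h3 : (Dab C a b).card = 3) : ∃ d ∈ L0.T3.Sw C a b, ∀ t ∈ Dab C a b, Commute t d := by
  obtain ⟨d, hd⟩ := C.exists_sw hab
  have hd : d ∈ L0.T3.Sw C a b := mem_DP.2 hd
  obtain ⟨t, ht⟩ := P.Ph_ne hab hd
  have := P.mul_Ph hab hd ht
  rw [h3] at this
  have key : ∀ d, (Ph C a b d).card = 3 → ∀ t ∈ Dab C a b, Commute t d := fun d e =>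
    filter_eq_self.1 (eq_of_subset_of_card_le (filter_subset _ _) (by rw [h3, e]))
  rcases (Nat.dvd_prime Nat.prime_three).1 (Dvd.intro _ this) with e | e
  · exact ⟨_, P.mul_sw hab (mem_filter.1 ht).1 hd (mem_filter.1 ht).2, key _ (by rwa [e, one_mul] at this)⟩
  · exact ⟨d, hd, key _ e⟩

theorem third (h3 : (Dab C a b).card = 3) {t u : G} (ht : t ∈ Dab C a b) (hu : u ∈ Dab C a b) (h : t ≠ u) :
    Dab C a b = {t, u, t * u * t⁻¹} := by
  have k := conj_Dab' (mem_DP.1 ht).2.1 (mem_DP.1 ht).2.2 hu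
  symm
  refine eq_of_subset_of_card_le (by simp [insert_subset_iff, ht, hu, -mem_DP, k])
    (h3.trans (card_eq_three.2 ⟨_, _, _, h, fun e => h ?_, fun e => h ?_, rfl⟩).symm).le
  · exact mul_left_cancel (eq_mul_inv_iff_mul_eq.1 e)
  · exact P.hs hab hu ht (mul_inv_eq_iff_eq_mul.1 e.symm)

theorem not_five (h3 : (Dab C a b).card = 3) (hi : i = 1) {t : G} (ht : D C t) : (Fx Om t).card ≠ 5 := by
  intro h5
  obtain ⟨d, hd, hc⟩ := P.exists_d hab h3
  obtain ⟨t, ht', u, hu, ne⟩ := one_lt_card.1 (h3 ▸ by norm_num : 1 < (Dab C a b).card)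
  have t1 := mem_DP.1 ht'
  have u1 := mem_DP.1 hu
  have d1 := mem_DP.1 hd
  have w3 : (t * u) ^ 3 = 1 := by
    have := conj_Dab' u1.2.1 u1.2.2 ht'
    rw [P.third hab h3 ht' hu ne] at this
    simp only [mem_insert, mem_singleton] at this
    rcases this with e | e | e
    · exact (ne (P.hs hab ht' hu (mul_inv_eq_iff_eq_mul.1 e)).symm).elim
    · exact (ne (mul_left_cancel (mul_inv_eq_iff_eq_mul.1 e))).elim
    · rw [u1.1.inv, t1.1.inv] at e
      calc (t * u) ^ 3 = t * u * t * (u * t * u) := by simp only [pow_succ, pow_zero, one_mul, mul_assoc]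
        _ = t * u * (t * t) * u * t := by rw [e]; simp only [mul_assoc]
        _ = 1 := by rw [t1.1.sq, mul_one, mul_assoc t, u1.1.sq, mul_one, t1.1.sq]
  have w1 : t * u ≠ 1 := fun e => ne ((eq_inv_of_mul_eq_one_left e).trans u1.1.inv)
  have cw : Commute (t * u) d := (hc t ht').mul_left (hc u hu)
  have wN : t * u ∈ C.N a := mul_mem (P.H.iv t1.1 t1.2.1).1 (P.H.iv u1.1 u1.2.1).1
  have odd := P.odd_prod hab ht' hu
  have inv := (inv_prod t1.1.sq u1.1.sq).1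
  generalize t * u = w at w3 w1 cw wN odd inv
  haveI : Fact (Nat.Prime 3) := ⟨Nat.prime_three⟩
  obtain ⟨⟨x, hx⟩, e⟩ := Equiv.Perm.exists_fixed_point_of_prime (p := 3) (n := 1) (α := Fx Om d)
    (by rw [Fintype.card_coe, card_Fx d1.1 ht, h5]; norm_num)
    (σ := (toPerm w).subtypePerm fun x => by
      rw [toPerm_apply, mem_Fx, mem_Fx, ← mul_smul, ← cw.eq, mul_smul, smul_left_cancel_iff]) (by
      rw [Equiv.Perm.subtypePerm_pow]
      ext p
      change (toPermHom _ _ w ^ 3 ^ 1) p.1 = p.1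
      rw [← map_pow, pow_one, w3, map_one]
      rfl)
  have e : w • x = x := congrArg Subtype.val e
  have hx := mem_Fx.1 hx
  have ax : a ≠ x := fun k => hab (by rw [← d1.2, k, hx])
  obtain ⟨s, hs⟩ := P.H.exists_Dab ax
  have hs' : s ∈ Dab C a x := mem_DP.2 hs
  have k1 := conj_Dab' (C.fix a w wN) e hs'
  have sa := P.H.iv hs.1 hs.2.1
  obtain ⟨g, g1, g2, g3⟩ := P.H.conj2 k1 hs' fun k => w1 ((C.loc a).some.P4 wN odd (P.H.iv t1.1 t1.2.1) inv sa
    (mul_inv_eq_iff_eq_mul.1 (P.hs ax hs' k1 k)))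
  have wx : w ∈ C.N x := by
    obtain ⟨R, rfl⟩ := C.exists_at sa
    have := mem_S_of_comm R (by omega) (mul_mem g1 wN) (mul_inv_eq_iff_eq_mul.1 ((conj_mul_aux _ _ _).trans g3))
    rw [R.S_eq_Z hi] at this
    refine (mul_mem_cancel_left g2).1 ?_
    by_cases e1 : g * w = 1
    · exact e1 ▸ one_mem _
    · exact P.H.hF a x _ ⟨mul_mem g1 wN, e1, R.Z_sq this⟩ (by rw [mul_smul, e, C.fix x g g2])
  obtain ⟨R, rfl⟩ := C.exists_at (P.H.iv d1.1 hx)
  exact w1 (eq_one_of_odd_two odd (R.pow_four (mem_S_of_comm R (by omega) wx cw)))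

theorem third_pt {t d : G} (h3 : (Fx Om t).card = 3) (ht : t ∈ Dab C a b) (hd : d ∈ L0.T3.Sw C a b) (h : Commute t d) :
    ∃ x : Om, x ≠ a ∧ x ≠ b ∧ t • x = x ∧ d • x = x ∧ ∀ y : Om, t • y = y → y ≠ a → y ≠ b → y = x := by
  obtain ⟨x, h1, h2⟩ := P.common (mem_DP.1 ht).1 (mem_DP.1 hd).1 h.symm
  have xa : x ≠ a := fun e => hab (by rw [← (mem_DP.1 hd).2, ← e, h2])
  have xb : x ≠ b := fun e => hab (by rw [← sw_symm hd, ← e, h2])
  refine ⟨x, xa, xb, h1, h2, fun y hy ya yb => ?_⟩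
  have : ({a, b, x} : Finset Om) = Fx Om t := eq_of_subset_of_card_le
    (by simp [insert_subset_iff, h1, (mem_DP.1 ht).2.1, (mem_DP.1 ht).2.2])
    (h3.trans (card_eq_three.2 ⟨_, _, _, hab, xa.symm, xb.symm, rfl⟩).symm).le
  simpa [ya, yb] using (this ▸ mem_Fx.2 hy : y ∈ ({a, b, x} : Finset Om))

omit hab in
theorem cn_one (h3 : ∀ a b : Om, a ≠ b → (Dab C a b).card = 3) (hf : ∀ t, D C t → (Fx Om t).card = 3) {a : Om} {c : G}
    (hc : c ∈ Cn (C.N a)) : c = 1 := by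
  refine C.faith c fun b => ?_
  by_cases hab : a = b
  · exact hab ▸ C.cn_fix hc
  obtain ⟨d, hd, k⟩ := P.exists_d hab (h3 a b hab)
  obtain ⟨t, ht, u, hu, ne⟩ := one_lt_card.1 (h3 a b hab ▸ by norm_num : 1 < (Dab C a b).card)
  obtain ⟨x, -, -, h1, h2, h4⟩ := P.third_pt hab (hf t (mem_DP.1 ht).1) ht hd (k t ht)
  have key : ∀ t ∈ Dab C a b, t • c • b = c • b := fun t ht =>
    comm_smul (mem_Cn.1 hc t (P.H.iv (mem_DP.1 ht).1 (mem_DP.1 ht).2.1).1).symm (mem_DP.1 ht).2.2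
  by_contra e
  have := h4 _ (key t ht) (fun e => hab (smul_left_cancel c ((C.cn_fix hc).trans e.symm))) e
  exact ne (P.hs hab hu ht (P.H.ctrans (mem_DP.1 ht).1 (mem_DP.1 hd).1 (mem_DP.1 hu).1 h1 h2 (this ▸ key u hu)
    (k t ht) (k u hu).symm))

theorem cen_one (h3 : ∀ a b : Om, a ≠ b → (Dab C a b).card = 3) (hf : ∀ t, D C t → (Fx Om t).card = 3) (hi : i = 1)
    (hm : m = 2) {t u k : G} (ht : t ∈ Dab C a b) (hu : u ∈ Dab C a b) (ne : t ≠ u) (ka : k • a = a) (kb : k • b = b)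
    (kt : Commute k t) (ku : Commute k u) : k = 1 := by
  obtain ⟨d, hd, hc⟩ := P.exists_d hab (h3 a b hab)
  have t1 := mem_DP.1 ht
  have d1 := mem_DP.1 hd
  have nc : ¬ Commute t u := fun e => ne (P.hs hab hu ht e)
  obtain ⟨x, xa, xb, h1, h2, h4⟩ := P.third_pt hab (hf t t1.1) ht hd (hc t ht)
  have kx : k • x = x := h4 _ (comm_smul kt h1) (fun e => xa (smul_left_cancel k (e.trans ka.symm)))
    fun e => xb (smul_left_cancel k (e.trans kb.symm))
  obtain ⟨R, rfl⟩ := C.exists_at (P.H.iv t1.1 h1)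
  obtain ⟨c, c0, rfl⟩ := (P.H.mem_Z R rfl).1 ⟨d1.1, h2, (hc _ ht).symm⟩
  have c1 : c ≠ 1 := fun e => hab (by rw [← d1.2, e, t1.2.1])
  have all : ∀ y : F, y = 0 ∨ y = 1 ∨ y = c ∨ y = c + 1 := fun y => by
    haveI := R.finF
    haveI := Fintype.ofFinite F
    have : ({0, 1, c, c + 1} : Finset F) = univ := eq_univ_of_card _ (by
      rw [← Nat.card_eq_fintype_card, R.cardF, hm]
      exact card_eq_four.2 ⟨_, _, _, _, zero_ne_one, c0.symm, fun e => c1 (by linear_combination -e - R.twoF),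
        c1.symm, fun e => c0 (by linear_combination -e), by simp, rfl⟩)
    simpa using (this ▸ mem_univ y : y ∈ ({0, 1, c, c + 1} : Finset F))
  have e1 : k * R.ζ 1 * k⁻¹ = R.ζ 1 := by rw [kt.eq, mul_inv_cancel_right]
  have e2 : k * R.ζ c * k⁻¹ = R.ζ c := by
    obtain ⟨y, hy⟩ := R.Z_norm (R.Nm_of_comm (C.nm kx) (R.ζ_mem 1) t1.1.ne kt) (R.ζ_mem_Z c)
    rcases all y with rfl | rfl | rfl | rfl
    · exact (d1.1.ne (conj_eq_one_iff.1 (hy.symm.trans R.ζ_zero))).elim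
    · exact (c1 (R.ζ_inj (mul_left_cancel (mul_right_cancel (hy.symm.trans e1.symm))))).elim
    · exact hy.symm
    · have : Commute (R.ζ c * R.ζ 1) u := by
        rw [← R.ζ_add, hy, ← (mul_inv_eq_iff_eq_mul.2 ku.eq : k * u * k⁻¹ = u), conj_comm_iff]
        exact (hc u hu).symm
      have := (hc u hu).symm.inv_left.mul_left this
      rw [inv_mul_cancel_left] at this
      exact (nc this).elim
  obtain ⟨s, hs, e⟩ := R.FA' (by omega) (C.nm kx) fun y => by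
    rcases all y with rfl | rfl | rfl | rfl
    · simp [R.ζ_zero]
    · exact e1
    · exact e2
    · rw [R.ζ_add, ← conj_mul, e1, e2]
  obtain rfl := eq_inv_of_mul_eq_one_right (P.cn_one h3 hf e)
  by_contra k1
  have hz : s⁻¹ ∈ R.Z := R.S_eq_Z hi ▸ inv_mem hs
  exact nc (P.hs xa (mem_DP.2 ⟨t1.1, h1, t1.2.1⟩)
    (mem_DP.2 ⟨.of ⟨R.S_le (inv_mem hs), k1, R.Z_sq hz⟩, kx, ka⟩) kt ▸ ku)

theorem main (hm : m = 2 ∨ m = 3) (hu : 1 < (Dab C a b).card) :
    Nat.card Om = 11 ∧ Nat.card G = 660 ∧ m = 2 ∧ i = 1 := by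
  obtain ⟨t, ht, u, hu', ne⟩ := one_lt_card.1 hu
  have t1 := mem_DP.1 ht
  obtain ⟨h3, hi, h⟩ := P.numerics hab hm hu t1.1
  obtain ⟨hm, hf⟩ := h.resolve_right (P.not_five hab h3 hi t1.1)
  have h1 := P.H.cnt1 hab t1.1
  rw [P.H.card_Da, h3, hf] at h1
  subst hm hi
  have h11 : Fintype.card Om = 11 := by norm_num at h1; omega
  refine ⟨by rw [Nat.card_eq_fintype_card, h11], le_antisymm ?_ ?_, rfl, rfl⟩
  · have h6 : (Dab C a b).offDiag.card = 6 := by rw [offDiag_card, h3]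
    have h110 : (univ : Finset Om).offDiag.card = 110 := by rw [offDiag_card, card_univ, h11]
    rw [Nat.card_eq_fintype_card, ← card_univ]
    refine (card_le_mul_card_image_of_maps_to (f := fun g : G => (g • a, g • b)) (t := univ.offDiag)
      (fun g _ => by simpa using hab) 6 fun p _ => ?_).trans (by rw [h110])
    by_cases e : ∃ g : G, (g • a, g • b) = p
    · obtain ⟨g, rfl⟩ := e
      have fx : ∀ g' ∈ (univ : Finset G).filter fun g' => (g' • a, g' • b) = (g • a, g • b),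
          (g⁻¹ * g') • a = a ∧ (g⁻¹ * g') • b = b := fun g' hg => by
        have := Prod.ext_iff.1 (mem_filter.1 hg).2
        exact ⟨by rw [mul_smul, inv_smul_eq_iff]; exact this.1, by rw [mul_smul, inv_smul_eq_iff]; exact this.2⟩
      rw [← h6]
      refine card_le_card_of_injOn (fun g' => (g⁻¹ * g' * t * (g⁻¹ * g')⁻¹, g⁻¹ * g' * u * (g⁻¹ * g')⁻¹))
        (fun g' hg => mem_coe.2 (mem_offDiag.2 ⟨conj_Dab' (fx g' hg).1 (fx g' hg).2 ht,
          conj_Dab' (fx g' hg).1 (fx g' hg).2 hu', fun e => ne (mul_left_cancel (mul_right_cancel e))⟩))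
        fun x hx y hy e => ?_
      have e := Prod.ext_iff.1 e
      have k : ∀ s, g⁻¹ * x * s * (g⁻¹ * x)⁻¹ = g⁻¹ * y * s * (g⁻¹ * y)⁻¹ → Commute ((g⁻¹ * y)⁻¹ * (g⁻¹ * x)) s :=
        fun s e => mul_inv_eq_iff_eq_mul.1 (by rw [conj_mul_aux, e]; group)
      have := P.cen_one hab (fun x y h => (card_Dab h hab).trans h3) (fun s hs => (card_Fx hs t1.1).trans hf) rfl rfl
        ht hu' ne (by rw [mul_smul, (fx x hx).1, inv_smul_eq_iff, (fx y hy).1])
        (by rw [mul_smul, (fx x hx).2, inv_smul_eq_iff, (fx y hy).2]) (k t e.1) (k u e.2)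
      exact (mul_left_cancel (inv_mul_eq_one.1 this)).symm
    · rw [filter_eq_empty_iff.2 fun s _ k => e ⟨s, k⟩]; simp
  · have := C.card_ge a
    rwa [Nat.card_eq_fintype_card, h11, (C.loc a).some.card_N_one rfl] at this

end Hs

theorem nc (H : Hy C)
    (hs : ∀ a b t u, a ≠ b → Iv (C.N a) t → t ∈ C.N b → Iv (C.N a) u → Commute u t → u • b = b → u = t)
    (hm : m = 2 ∨ m = 3) {a b : Om} (hab : a ≠ b) (hu : 1 < (Dab C a b).card) :
    Nat.card Om = 11 ∧ Nat.card G = 660 ∧ m = 2 ∧ i = 1 :=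
  Hs.main ⟨H, fun {a b t u} h ht hu k => hs a b t u h (H.iv (mem_DP.1 ht).1 (mem_DP.1 ht).2.1)
    (H.iv (mem_DP.1 ht).1 (mem_DP.1 ht).2.2).1 (H.iv (mem_DP.1 hu).1 (mem_DP.1 hu).2.1) k (mem_DP.1 hu).2.2⟩ hab hm hu

end Cfsg.Agent.H5.TC
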