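import Cfsg.Agent.H5.TB4
import Cfsg.Agent.H5.TC2
import Cfsg.Agent.L0.T3.E
import Cfsg.Agent.H4.PB
import Cfsg.Agent.H4.PD

/-! S2208: everything except case IV.2. -/

set_option autoImplicit false

namespace Cfsg.Agent.H5.TA

variable {G : Type*} [Group G] {F K : Type} [Field F] [Field K] {m i : ℕ}
  [Finite G] {Ω : Type*} [Finite Ω] [MulAction G Ω] [hΩ : Nonempty Ω] (C : Cfg G Ω F K m i)

theorem pieceIV3 (h1 : ∀ a b, a ≠ b → ∃ t, Iv (C.N a) t ∧ t ∈ C.N b)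
    (hF : ∀ a b t, Iv (C.N a) t → t • b = b → t ∈ C.N b)
    (hZ : ∀ a b t, a ≠ b → Iv (C.N a) t → t ∈ C.N b → ∃ u, Iv (C.N a) u ∧ Commute u t ∧ u • b ≠ b) :
    Nat.card Ω = 11 ∧ Nat.card G = 660 ∧ m = 2 ∧ i = 1 := by
  haveI := Fintype.ofFinite G
  haveI := Fintype.ofFinite Ω
  have B := (⟨h1, hF, hZ⟩ : L0.T3.Hy C).nc
  obtain ⟨a⟩ := hΩ
  obtain ⟨b, hab⟩ := C.exists_ne a
  exact TC.Hs.main ⟨B.H, fun h => B.hs _ _ _ _ h⟩ hab B.hm (B.hu a b hab)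

theorem core'
    (pIV2 : (∀ a b, a ≠ b → ∃ t, Iv (C.N a) t ∧ t ∈ C.N b) → (∀ a b t, Iv (C.N a) t → t • b = b → t ∈ C.N b) →
      ∀ a b t, a ≠ b → Iv (C.N a) t → t ∈ C.N b → (∀ u, Iv (C.N a) u → Commute u t → u • b = b) →
      (∀ u, Iv (C.N a) u → u ∈ C.N b → Commute t u) → (Nat.card Ω = 6 ∧ m = 2 ∧ i = 1) ∨ HasReg G Ω) :
    (Nat.card Ω = 6 ∧ m = 2 ∧ i = 1) ∨ (Nat.card Ω = 11 ∧ Nat.card G = 660 ∧ m = 2 ∧ i = 1) ∨ HasReg G Ω :=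
  core C (H4.PA.pieceII C) (H4.PA.pieceIII C) pIV2 (pieceIV3 C)

end Cfsg.Agent.H5.TA
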