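import Mathlib

/-! Arithmetic for S2208. -/

set_option autoImplicit false

namespace Cfsg.Agent.H5.TC

/-- The arithmetic conditions. -/
def Num (M c e x y l : ℕ) : Prop :=
  let u := x * y
  let f := (M - u) / l
  l * f + u = M → c ∣ f - 1 → 1 < f → e * (x + y) ≤ 2 * l → 2 * l ≤ e * (u + 1) → u ∣ M * (f - 1) → Odd u → 1 < u →
    u = 3 ∧ (M = 15 ∧ f = 3 ∨ M = 63 ∧ f = 5)

instance (M c e x y l : ℕ) : Decidable (Num M c e x y l) := by unfold Num; infer_instance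

theorem num0 : ∀ p ∈ [(15, 2, 2, 6, 6), (195, 8, 2, 22, 22), (63, 4, 6, 5, 13), (455, 16, 6, 9, 27), (3591, 64, 6, 19, 56)],
    ∀ x < p.2.2.2.1, ∀ y < p.2.2.2.1, ∀ l < p.2.2.2.2, Num p.1 p.2.1 p.2.2.1 x y l := by decide +kernel

theorem num {M c e x y l f : ℕ} (hp : (M, c, e) ∈ [(15, 2, 2), (195, 8, 2), (63, 4, 6), (455, 16, 6), (3591, 64, 6)])
    (h1 : l * f + x * y = M) (h2 : c ∣ f - 1) (h3 : 1 < f) (h4 : e * (x + y) ≤ 2 * l) (h5 : 2 * l ≤ e * (x * y + 1))
    (h6 : x * y ∣ M * (f - 1)) (h7 : Odd (x * y)) (h8 : 1 < x * y) :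
    x * y = 3 ∧ (M = 15 ∧ f = 3 ∨ M = 63 ∧ f = 5) := by
  have k1 := Nat.le_of_dvd (by omega) h2
  have k2 : l * (c + 1) ≤ M := le_trans (Nat.mul_le_mul_left l (by omega)) (by omega : l * f ≤ M)
  have k3 : 0 < l ∧ Num M c e x y l := by
    simp only [List.mem_cons, Prod.mk.injEq, List.not_mem_nil, or_false] at hp
    have hx : 0 < x := Nat.pos_of_mul_pos_right (by omega : 0 < x * y)
    rcases hp with ⟨rfl, rfl, rfl⟩ | ⟨rfl, rfl, rfl⟩ | ⟨rfl, rfl, rfl⟩ | ⟨rfl, rfl, rfl⟩ | ⟨rfl, rfl, rfl⟩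
    · exact ⟨by omega, num0 (15, 2, 2, 6, 6) (by simp) x (by simp only; omega) y (by simp only; omega) l (by simp only; omega)⟩
    · exact ⟨by omega, num0 (195, 8, 2, 22, 22) (by simp) x (by simp only; omega) y (by simp only; omega) l (by simp only; omega)⟩
    · exact ⟨by omega, num0 (63, 4, 6, 5, 13) (by simp) x (by simp only; omega) y (by simp only; omega) l (by simp only; omega)⟩
    · exact ⟨by omega, num0 (455, 16, 6, 9, 27) (by simp) x (by simp only; omega) y (by simp only; omega) l (by simp only; omega)⟩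
    · exact ⟨by omega, num0 (3591, 64, 6, 19, 56) (by simp) x (by simp only; omega) y (by simp only; omega) l (by simp only; omega)⟩
  simp only [Num, show (M - x * y) / l = f from Nat.div_eq_of_eq_mul_right k3.1 (by omega)] at k3
  exact k3.2 h1 h2 h3 h4 h5 h6 h7 h8

end Cfsg.Agent.H5.TC
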