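import Cfsg.Agent.H7.TT6
import Cfsg.Agent.H2.ReeSyl
import Cfsg.Agent.H2.R3a

/-! Two-transitive actions of the small Ree groups. -/

set_option autoImplicit false

namespace Cfsg.Agent.H5

open MulAction H2 H2.Ree

theorem card_le_of_fib {G : Type*} [Group G] [Finite G] (D N : Subgroup G) {A : Type*} [Finite A] (r : G → A → Prop)
    (h1 : ∀ x ∈ D, ∃ a, r x a) (h2 : ∀ x y a, r x a → r y a → x⁻¹ * y ∈ N) :
    Nat.card D ≤ Nat.card A * Nat.card (N ⊓ D : Subgroup G) := by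
  classical
  choose f hf using fun x : D => h1 x x.2
  have : ∀ a, ∃ s : D, ∀ x : D, f x = a → f s = a := fun a => by
    by_cases h : ∃ x, f x = a
    · exact ⟨h.choose, fun _ _ => h.choose_spec⟩
    · exact ⟨1, fun x hx => absurd ⟨x, hx⟩ h⟩
  choose s hs using this
  rw [← Nat.card_prod]
  refine Nat.card_le_card_of_injective (fun x : D => (f x, (⟨(s (f x) : G)⁻¹ * x, h2 _ _ (f x)
    (by simpa only [hs _ x rfl] using hf (s (f x))) (hf x), D.mul_mem (D.inv_mem (s (f x)).2) x.2⟩ :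
      (N ⊓ D : Subgroup G)))) fun x y e => ?_
  have e1 : f x = f y := congrArg Prod.fst e
  have e2 := congrArg (fun p => (p.2 : G)) e
  simp only [e1, mul_right_inj] at e2
  exact Subtype.ext e2

theorem ree_num {q c e n f d ε r : ℕ} (h1 : c * (e * n - 1) = (q ^ 3 + 1) * (ε - 1)) (h2 : e * f = q ^ 3)
    (h3 : ε * d = q) (h4 : 2 ≤ ε) (h5 : f ≤ q * d) (h6 : r ∣ d - 1) (h7 : r ∣ q - 1) (h8 : q - 1 ≤ n * r)
    (hq : 3 ≤ q) (hn : 1 ≤ n) : d = 1 ∧ n = 1 ∧ 1 < f := by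
  have d1 : 1 ≤ d := Nat.pos_of_ne_zero (by rintro rfl; omega)
  have e1 : q * ε ≤ e := by
    refine Nat.le_of_mul_le_mul_right (c := q * d) ?_ (by positivity)
    calc q * ε * (q * d) = q * q * (ε * d) := by ring
      _ = e * f := by rw [h3, h2]; ring
      _ ≤ _ := Nat.mul_le_mul_left _ h5
  have e0 : 1 ≤ e * n := Nat.mul_pos (by nlinarith) hn
  obtain ⟨ε, rfl⟩ := Nat.exists_eq_add_of_le' (show 1 ≤ ε by omega)
  obtain ⟨N, hN⟩ := Nat.exists_eq_add_of_le' e0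
  rw [hN, Nat.add_sub_cancel, Nat.add_sub_cancel, ← h2] at h1
  obtain ⟨i, hi⟩ : e ∣ c + ε := by
    refine (Nat.dvd_add_right (Dvd.intro (f * ε) rfl)).1 ⟨c * n, ?_⟩
    nlinarith
  have i1 : 1 ≤ i := Nat.pos_of_ne_zero (by rintro rfl; omega)
  have h9 : i * N = ε * (f + n) := Nat.eq_of_mul_eq_mul_left (show 0 < e by nlinarith) (by nlinarith)
  have h10 : N ≤ ε * (f + n) := h9 ▸ Nat.le_mul_of_pos_left _ i1
  have h11 : q * (ε + 1) * n ≤ N + 1 := hN ▸ Nat.mul_le_mul_right _ e1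
  obtain ⟨d, rfl⟩ := Nat.exists_eq_add_of_le' d1
  rw [Nat.add_sub_cancel] at h6
  have h12 : q - 1 = ε + (ε + 1) * d := by rw [← h3]; ring_nf; omega
  have h13 : r ≤ ε := Nat.le_of_dvd (by omega) ((Nat.dvd_add_left (h6.mul_left _)).1 (h12 ▸ h7))
  have h14 : ε + (ε + 1) * d ≤ n * ε := h12 ▸ h8.trans (Nat.mul_le_mul_left _ h13)
  have h15 := Nat.mul_le_mul_left ε h5
  have d0 : d = 0 := by
    by_contra hd
    have : d + 2 ≤ n := by
      by_contra hn'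
      have := Nat.mul_le_mul_right ε (show n ≤ d + 1 by omega)
      have := Nat.pos_of_ne_zero hd
      nlinarith
    obtain ⟨n, rfl⟩ := Nat.exists_eq_add_of_le' this
    obtain ⟨q, rfl⟩ := Nat.exists_eq_add_of_le' hq
    nlinarith [Nat.zero_le (q * ε * n), Nat.zero_le (q * ε), Nat.zero_le (ε * n), Nat.zero_le (q * n),
      Nat.zero_le (q * d)]
  subst d0
  obtain rfl : q = ε + 1 := by omega
  have n1 : n = 1 := by
    by_contra hn'
    obtain ⟨n, rfl⟩ := Nat.exists_eq_add_of_le' (show 2 ≤ n by omega)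
    nlinarith [Nat.zero_le (ε * ε * n), Nat.zero_le (ε * n), Nat.zero_le (ε * ε)]
  subst n1
  refine ⟨rfl, rfl, ?_⟩
  by_contra hf
  have := Nat.mul_le_mul_left ε (show f + 1 ≤ 2 by omega)
  nlinarith

variable {K : Type*} [Field K] {m : ℕ} [hK : ReeF K m]

variable (K) in
/-- the centre of the Sylow subgroup -/
def reeZ : Subgroup (ReeG K m) where
  carrier := {g | ∃ c, g = u 0 0 c}
  one_mem' := ⟨0, u_zero.symm⟩
  mul_mem' := by
    rintro _ _ ⟨c, rfl⟩ ⟨d, rfl⟩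
    exact ⟨c + d, by rw [u0_mul, add_zero]⟩
  inv_mem' := by
    rintro _ ⟨c, rfl⟩
    exact ⟨-c, by rw [u0_inv, neg_zero]⟩

variable (K) in
/-- the derived subgroup of the Sylow subgroup -/
def reeD : Subgroup (ReeG K m) where
  carrier := {g | ∃ b c, g = u 0 b c}
  one_mem' := ⟨0, 0, u_zero.symm⟩
  mul_mem' := by
    rintro _ _ ⟨c, c', rfl⟩ ⟨d, d', rfl⟩
    exact ⟨_, _, u0_mul _ _ _ _⟩
  inv_mem' := by
    rintro _ ⟨c, d, rfl⟩
    exact ⟨_, _, u0_inv _ _⟩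

theorem ree_conj_z (a b c d : K) (k : Kˣ) :
    u a b c * h k * u 0 0 d * (u a b c * h k)⁻¹ = u 0 0 ((k : K) ^ 2 * sg (k : K) * d) := by
  have := h_conj_u k 0 0 d
  rw [mul_zero, mul_zero] at this
  rw [mul_inv_rev, ← mul_assoc, mul_assoc (u a b c), mul_assoc (u a b c), this, ← z_comm, mul_inv_cancel_right]

theorem card_reeZ (M : Subgroup (ReeG K m)) :
    Nat.card (reeZ K ⊓ M : Subgroup (ReeG K m)) = Nat.card {c : K // u 0 0 c ∈ M} :=
  (Nat.card_congr (Equiv.ofBijective (fun c : {c : K // u 0 0 c ∈ M} => (⟨u 0 0 c.1, ⟨c.1, rfl⟩, c.2⟩ :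
    (reeZ K ⊓ M : Subgroup (ReeG K m)))) ⟨fun a b e => Subtype.ext (u_inj
      (show u 0 0 a.1 = u 0 0 b.1 from congrArg Subtype.val e)).2.2, by
      rintro ⟨_, ⟨c, rfl⟩, hc⟩
      exact ⟨⟨c, hc⟩, rfl⟩⟩)).symm

theorem ree_pair {M : Subgroup (ReeG K m)} (hz : ¬ reeZ K ≤ M) :
    Nat.card (Uo K ⊓ M : Subgroup (ReeG K m)) ≤ Nat.card K * Nat.card (reeZ K ⊓ M : Subgroup (ReeG K m)) := by
  have := finite K
  have := finite_G K
  have h0 : u (0 : K) 0 0 ∈ M := by rw [u_zero]; exact M.one_mem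
  let A : AddSubgroup K := ⟨⟨⟨{a | ∃ b c, u a b c ∈ M}, fun ⟨_, _, h1⟩ ⟨_, _, h2⟩ =>
    ⟨_, _, by have := M.mul_mem h1 h2; rwa [u_mul] at this⟩⟩, ⟨0, 0, h0⟩⟩,
    fun ⟨_, _, h1⟩ => ⟨_, _, by have := M.inv_mem h1; rwa [u_inv] at this⟩⟩
  let A' : AddSubgroup K := ⟨⟨⟨{b | ∃ c, u 0 b c ∈ M}, fun ⟨_, h1⟩ ⟨_, h2⟩ =>
    ⟨_, by have := M.mul_mem h1 h2; rwa [u0_mul] at this⟩⟩, ⟨0, h0⟩⟩,
    fun ⟨_, h1⟩ => ⟨_, by have := M.inv_mem h1; rwa [u0_inv] at this⟩⟩
  let C : AddSubgroup K := ⟨⟨⟨{c | u 0 0 c ∈ M}, fun h1 h2 => by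
    have := M.mul_mem h1 h2; rwa [u0_mul, add_zero] at this⟩, h0⟩, fun h1 => by
    have := M.inv_mem h1; rwa [u0_inv, neg_zero] at this⟩
  have h1 := H7.pair_le (AddMonoidHom.mul : K →+ K →+ K) A A' (C0 := C) (fun e => hz (by
    rintro _ ⟨c, rfl⟩
    have : c ∈ C := by rw [e]; trivial
    exact this)) (by
      rintro a ⟨b, c, h1⟩ b' ⟨c', h2⟩
      have := mul_mem (mul_mem (mul_mem h1 h2) (inv_mem h1)) (inv_mem h2)
      rw [u_conj, u0_inv] at this
      simp only [map_zero, zero_mul, sub_zero, mul_zero, add_zero, ne_eq, OfNat.ofNat_ne_zero, not_false_eq_true,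
        zero_pow, u0_mul] at this
      show u 0 0 (a * b') ∈ M
      convert this using 2 <;> ring) {0} fun a _ h c => ⟨a⁻¹ * c, by simp [show a ≠ 0 from h]⟩
  have h2 : Nat.card {a : A // a.1 ∈ ({0} : Set K)} ≤ 1 := Finite.card_le_one_iff_subsingleton.2
    ⟨fun a b => Subtype.ext (Subtype.ext (a.2.trans b.2.symm))⟩
  have h3 := card_le_of_fib (Uo K ⊓ M) (reeD K) (fun g (a : A) => ∃ b c, g = u a.1 b c) (by
    rintro _ ⟨⟨a, b, c, rfl⟩, h⟩
    exact ⟨⟨a, b, c, h⟩, b, c, rfl⟩) (by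
    rintro _ _ a ⟨b, c, rfl⟩ ⟨b', c', rfl⟩
    rw [u_inv, u_mul, neg_add_cancel]
    exact ⟨_, _, rfl⟩)
  have h4 := card_le_of_fib (reeD K ⊓ (Uo K ⊓ M)) (reeZ K) (fun g (a : A') => ∃ c, g = u 0 a.1 c) (by
    rintro _ ⟨⟨b, c, rfl⟩, -, h⟩
    exact ⟨⟨b, c, h⟩, c, rfl⟩) (by
    rintro _ _ a ⟨c, rfl⟩ ⟨c', rfl⟩
    rw [u0_inv, u0_mul, neg_add_cancel]
    exact ⟨_, rfl⟩)
  have h5 := Subgroup.card_le_of_le (show reeZ K ⊓ (reeD K ⊓ (Uo K ⊓ M)) ≤ reeZ K ⊓ M from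
    fun _ h => ⟨h.1, h.2.2.2⟩)
  calc _ ≤ _ := h3
    _ ≤ Nat.card A * (Nat.card A' * Nat.card (reeZ K ⊓ M : Subgroup (ReeG K m))) :=
      Nat.mul_le_mul_left _ (h4.trans (Nat.mul_le_mul_left _ h5))
    _ ≤ _ := by
      rw [← mul_assoc]
      exact Nat.mul_le_mul_right _ (h1.trans (by simpa using Nat.mul_le_mul_left _ h2))

/-- the final contradiction -/
theorem ree_final {M : Subgroup (ReeG K m)} (tr : ∀ x y : Pt K, ∃ g ∈ M, g • x = y) (hh : ∀ k, h k ∈ M)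
    (hz : ∀ c, u 0 0 c ∈ M → c = 0) (hb : ∀ b, u 0 b 0 ∈ M) : False := by
  have := finite K
  have := finite_G K
  have := finite_Pt K
  have ht : t K ∈ M := hh _
  have hu : ∀ a b c, u a b c ∈ M → a = 0 ∧ c = 0 := fun a b c h => by
    have h1 := pow_mem h 3
    rw [u_cube] at h1
    obtain rfl : a = 0 := by simpa using hz _ h1
    have h2 := mul_mem h (inv_mem (hb b))
    rw [u0_inv, u0_mul, add_neg_cancel, neg_zero, add_zero] at h2
    exact ⟨rfl, hz _ h2⟩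
  have uniq : ∀ s ∈ M, s * s = 1 → s ≠ 1 → s • inf K = inf K → s = t K := fun s hs h1 h2 h3 => by
    obtain ⟨a, b, c, k, rfl⟩ := fix_inf_iff.1 h3
    obtain ⟨rfl, rfl⟩ := hu a b c (by simpa using mul_mem hs (inv_mem (hh k)))
    rw [mul_assoc, ← mul_assoc (h k), h_mul_u, mul_zero, mul_zero, ← mul_assoc, ← mul_assoc, u0_mul, mul_assoc,
      ← map_mul] at h1
    obtain ⟨-, h4, -, h5⟩ := uh_inj (h1.trans (show 1 = u 0 0 0 * h 1 by rw [u_zero, map_one, mul_one]))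
    rcases mul_self_eq_one_iff.1 (show (k : K) * k = 1 by rw [← Units.val_mul, h5, Units.val_one]) with e | e
    · obtain rfl : k = 1 := Units.ext e
      obtain rfl : b = 0 := eq_zero_of_eq_neg (by simpa [add_eq_zero_iff_eq_neg] using h4)
      exact absurd (by rw [u_zero, map_one, mul_one]) h2
    · obtain rfl : k = -1 := Units.ext e
      obtain rfl : b = 0 := eq_zero_of_eq_neg (by simpa [add_eq_zero_iff_eq_neg] using h4)
      rw [u_zero, one_mul, t]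
  have cj : ∀ s ∈ M, s * s = 1 → s ≠ 1 → ∀ g ∈ M, s • g • inf K = g • inf K → s = g * t K * g⁻¹ :=
    fun s hs h1 h2 g hg h3 => by
      rw [← uniq (g⁻¹ * s * g) (mul_mem (mul_mem (inv_mem hg) hs) hg) (by
        rw [show g⁻¹ * s * g * (g⁻¹ * s * g) = g⁻¹ * (s * s) * g by group, h1]; simp)
        (fun e => h2 (by simpa [mul_eq_one_iff_eq_inv, inv_mul_eq_iff_eq_mul] using e))
        (by rw [mul_smul, mul_smul, h3, inv_smul_smul])]
      group
  have hw : w K ∈ M := by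
    obtain ⟨g, hg, e⟩ := tr (inf K) (pt 0 0 0)
    have h1 := cj _ ht t_mul_t t_ne_one g hg (by rw [e]; exact h_smul_zero _)
    obtain ⟨a, b, c, k, h2⟩ := fix_inf_iff.1 (show (w K * g) • inf K = inf K by rw [mul_smul, e, w_smul_zero])
    have h3 : t K * (w K * g) = w K * g * t K := by
      rw [← mul_assoc, t_mul_w, mul_assoc, mul_assoc]
      conv_lhs => rw [h1]
      rw [inv_mul_cancel_right]
    rw [h2, ← mul_assoc, t_mul_u, mul_assoc, t_mul_h, ← mul_assoc, mul_left_inj, mul_left_inj] at h3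
    obtain ⟨h4, -, h5⟩ := u_inj h3
    obtain rfl := eq_zero_of_eq_neg h4.symm
    obtain rfl := eq_zero_of_eq_neg h5.symm
    rw [eq_mul_inv_of_mul_eq h2]
    exact mul_mem (mul_mem (hb b) (hh k)) (inv_mem hg)
  let I := {s : ReeG K m // s ∈ M ∧ s * s = 1 ∧ s ≠ 1}
  have fx : ∀ s : I, ∃ x, s.1 = x * t K * x⁻¹ := fun s => exists_conj_t (by rw [sq, s.2.2.1]) s.2.2.2
  choose x hx using fx
  have c1 : Nat.card I * (Nat.card K + 1) ≤ Nat.card K ^ 3 + 1 := by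
    rw [← card_Pt K, ← Finite.card_option, ← Nat.card_prod]
    have fix : ∀ (s : I) (o : Option K), s.1 • x s • o.elim (inf K) (fun b => pt 0 b 0) =
        x s • o.elim (inf K) fun b => pt 0 b 0 := fun s o => by
      rw [hx, mul_smul, mul_smul, inv_smul_smul]
      rcases o with _ | b
      exacts [congrArg _ (h_smul_inf _), congrArg _ (t_fix_pt.2 ⟨rfl, rfl⟩)]
    refine Nat.card_le_card_of_injective (fun p => x p.1 • p.2.elim (inf K) fun b => pt 0 b 0) ?_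
    rintro ⟨s, o⟩ ⟨s', o'⟩ e
    obtain ⟨g, hg, e'⟩ := tr (inf K) (x s • o.elim (inf K) fun b => pt 0 b 0)
    obtain rfl : s = s' := Subtype.ext ((cj _ s.2.1 s.2.2.1 s.2.2.2 g hg (by rw [e', fix])).trans
      (cj _ s'.2.1 s'.2.2.1 s'.2.2.2 g hg (by rw [e', show x s • _ = _ from e, fix])).symm)
    have e2 := MulAction.injective _ e
    rcases o with _ | b <;> rcases o' with _ | b'
    · rfl
    · exact absurd e2.symm (pt_ne_inf _ _ _)
    · exact absurd e2 (pt_ne_inf _ _ _)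
    · rw [(pt_inj e2).2.1]
  have mv : ∀ b k, (u 0 b 0 * (h k * w K) * (u 0 b 0)⁻¹) • inf K = pt 0 b 0 := fun b k => by
    rw [mul_smul, u0_inv, u_smul_inf, mul_smul, mul_smul, w_smul_inf, h_smul_zero, u_smul_zero]
  let J : Option (K × Kˣ) → I := fun o => o.elim ⟨t K, ht, t_mul_t, t_ne_one⟩ fun p =>
    ⟨u 0 p.1 0 * (h p.2 * w K) * (u 0 p.1 0)⁻¹, mul_mem (mul_mem (hb _) (mul_mem (hh _) hw)) (inv_mem (hb _)),
      by rw [conj_mul, hw_sq]; simp, fun e => pt_ne_inf _ _ _ ((mv _ _).symm.trans (by rw [e, one_smul]))⟩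
  have hJ : Function.Injective J := by
    rintro (_ | ⟨b, k⟩) (_ | ⟨b', k'⟩) e <;> have e1 := congrArg (fun s : I => s.1 • inf K) e
    · rfl
    · exact absurd ((mv _ _).symm.trans (e1.symm.trans (h_smul_inf _))) (pt_ne_inf _ _ _)
    · exact absurd ((mv _ _).symm.trans (e1.trans (h_smul_inf _))) (pt_ne_inf _ _ _)
    · obtain rfl := (pt_inj ((mv _ _).symm.trans (e1.trans (mv _ _)))).2.1
      rw [show k = k' from
        h_inj (mul_right_cancel (mul_left_cancel (mul_right_cancel (congrArg Subtype.val e))))]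
  have hs : Function.Surjective J := ((Nat.bijective_iff_injective_and_card J).2 ⟨hJ, le_antisymm
    (Nat.card_le_card_of_injective J hJ) (by
      rw [Finite.card_option, Nat.card_prod, Nat.card_units]
      obtain ⟨q, hq⟩ := Nat.exists_eq_add_of_le' (Nat.card_pos (α := K))
      rw [hq] at c1 ⊢
      refine Nat.le_of_mul_le_mul_right (c1.trans_eq ?_) (by omega)
      rw [Nat.add_sub_cancel]; ring)⟩).2
  have com : ∀ s : I, t K * s.1 = s.1 * t K := fun s => by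
    obtain ⟨_ | ⟨b, k⟩, rfl⟩ := hs s
    · rfl
    · have e : Commute (t K) (u 0 b 0) := by
        have := t_mul_u (K := K) 0 b 0
        rwa [neg_zero] at this
      exact (e.mul_right ((show Commute (t K) (h k) from t_mul_h k).mul_right t_mul_w)).mul_right e.inv_right
  obtain ⟨y, hy⟩ := exists_conj_t (s := w K) (by rw [sq, w_mul_w]) w_ne_one
  obtain ⟨g, hg, e⟩ := tr (inf K) (y • inf K)
  have h1 := cj _ hw w_mul_w w_ne_one g hg (by
    rw [e, hy, mul_smul, inv_smul_smul, mul_smul]; exact congrArg _ (h_smul_inf _))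
  obtain ⟨k, k1, k2⟩ := exists_sq_ne_one K
  have h2 := com ⟨g⁻¹ * (J (some (0, k))).1 * g, mul_mem (mul_mem (inv_mem hg) (J _).2.1) hg, by
    rw [show ∀ s : ReeG K m, g⁻¹ * s * g * (g⁻¹ * s * g) = g⁻¹ * (s * s) * g from fun s => by group, (J _).2.2.1]
    simp, fun e => (J (some (0, k))).2.2.2 (by simpa [mul_eq_one_iff_eq_inv, inv_mul_eq_iff_eq_mul] using e)⟩
  have h3 : w K * (h k * w K) = h k * w K * w K := by
    have : (J (some (0, k))).1 = h k * w K := by simp [J]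
    simp only [this] at h2
    generalize h k * w K = s at h2 ⊢
    rw [h1]
    calc _ = g * (t K * (g⁻¹ * s * g)) * g⁻¹ := by group
      _ = _ := by rw [h2]; group
  rw [← mul_assoc, w_h_w, mul_assoc, w_mul_w, mul_one] at h3
  rcases mul_self_eq_one_iff.1 (show (k : K) * k = 1 by
    rw [← Units.val_mul, mul_eq_one_iff_inv_eq.2 (h_inj h3), Units.val_one]) with e | e
  exacts [k1 e, k2 e]

theorem ree_not_trans {Ω : Type*} [Finite Ω] [MulAction (ReeG K m) Ω] (hT : H7.TT (ReeG K m) Ω)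
    (tr : ∀ (ω : Ω) (x y : Pt K), ∃ g : ReeG K m, g • ω = ω ∧ g • x = y) : False := by
  classical
  have := finite K
  have := finite_G K
  have := finite_Pt K
  have := Fintype.ofFinite K
  have := Fintype.ofFinite Ω
  have hq := le_card K
  have trB : ∀ x y : Ω, ∃ g ∈ Bo K, g • x = y := fun x y => by
    obtain ⟨g, rfl⟩ := hT.trans x y
    obtain ⟨k, h1, h2⟩ := tr (g • x) (g • inf K) (inf K)
    exact ⟨k * g, fix_inf_iff.1 (by rw [mul_smul, h2]), by rw [mul_smul, h1]⟩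
  have nZ : ∀ g ∈ Bo K, ∀ z ∈ reeZ K, g * z * g⁻¹ ∈ reeZ K := by
    rintro _ ⟨a, b, c, k, rfl⟩ _ ⟨d, rfl⟩
    exact ⟨_, ree_conj_z ..⟩
  have nU : ∀ g ∈ Bo K, ∀ z ∈ Uo K, g * z * g⁻¹ ∈ Uo K := fun g hg z hz =>
    mem_Qp_inf.1 (by simpa only [fix_inf_iff.2 hg] using conj_mem_Qp_smul g (mem_Qp_inf.2 hz))
  have nt : ∀ Q : Subgroup (ReeG K m), (∀ g ∈ Bo K, ∀ z ∈ Q, g * z * g⁻¹ ∈ Q) → H7.NT Q Ω := fun Q hQ x y => by
    obtain ⟨g, h1, h2⟩ := trB x y
    exact ⟨g, h2, hQ g h1⟩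
  have cU : Nat.card (Uo K) = Nat.card K ^ 3 := by
    rw [← card_Qp (inf K)]
    congr 2
    ext g
    exact mem_Qp_inf.symm
  have cZ : Nat.card (reeZ K) = Nat.card K := by
    rw [← inf_top_eq (reeZ K), card_reeZ]
    exact Nat.card_congr (Equiv.subtypeUnivEquiv fun _ => trivial)
  have key : ∀ ω : Ω, (∀ c, u 0 0 c ∈ stabilizer (ReeG K m) ω → c = 0) ∧
      (∀ k, ∃ a b c, u a b c * h k ∈ stabilizer (ReeG K m) ω) ∧
      ∃ g ∈ Uo K ⊓ stabilizer (ReeG K m) ω, g ≠ 1 := fun ω => by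
    set M := stabilizer (ReeG K m) ω
    have e2 : H7.ob (reeZ K) ω ≠ 1 := fun e => by
      have := eq_top_of_normal (M := (toPermHom (ReeG K m) Ω).ker) inferInstance fun e' => by
        have : u (0 : K) 0 1 ∈ (toPermHom (ReeG K m) Ω).ker := Equiv.ext fun y =>
          H7.ob_eq_one (((nt _ nZ).ob_eq y ω).trans e) ⟨1, rfl⟩
        rw [e', Subgroup.mem_bot, u_eq_one] at this
        exact one_ne_zero this.2.2
      obtain ⟨g, hg⟩ := hT.exists_ne_smul ω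
      have h1 : g ∈ (toPermHom (ReeG K m) Ω).ker := by rw [this]; trivial
      exact hg (congrArg (fun s : Equiv.Perm Ω => s ω) h1)
    have hz : ¬ reeZ K ≤ M := fun e => e2 (Nat.eq_of_mul_eq_mul_right (Nat.card_pos (α := reeZ K)) (by
      rw [one_mul]
      conv_rhs => rw [← H7.ob_mul (reeZ K) ω, inf_of_le_left e]))
    let T : Subgroup Kˣ := ⟨⟨⟨{k | ∃ a b c, u a b c * h k ∈ M}, fun {k l} ⟨a, b, c, h1⟩ ⟨d, e, f, h2⟩ => by
      have := M.mul_mem h1 h2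
      rw [mul_assoc, ← mul_assoc (h k), h_mul_u, ← mul_assoc, ← mul_assoc, u_mul, mul_assoc, ← map_mul] at this
      exact ⟨_, _, _, this⟩⟩, ⟨0, 0, 0, by simp⟩⟩, fun {k} ⟨a, b, c, h1⟩ => by
      have := M.inv_mem h1
      rw [mul_inv_rev, u_inv, ← map_inv, h_mul_u] at this
      exact ⟨_, _, _, this⟩⟩
    let φ : Kˣ →* Kˣ := (powMonoidHom 2) * Units.map (sg : K →+* K).toMonoidHom
    have hφ : ∀ k : Kˣ, (φ k : K) = (k : K) ^ 2 * sg (k : K) := fun k => by simp [φ]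
    have d1 := dvd_card_of_semireg (T.map φ) ((Finset.univ.filter fun c : K => u 0 0 c ∈ M).erase 0) (by
      rintro _ ⟨k, ⟨a, b, c, hk⟩, rfl⟩ d hd
      simp only [Finset.mem_erase, Finset.mem_filter, Finset.mem_univ, true_and] at hd ⊢
      refine ⟨by simpa [Units.smul_def] using hd.1, ?_⟩
      rw [Units.smul_def, smul_eq_mul, hφ, ← ree_conj_z a b c]
      exact M.mul_mem (M.mul_mem hk hd.2) (M.inv_mem hk)) fun g _ d hd e =>
        Units.ext (mul_right_cancel₀ (Finset.mem_erase.1 hd).1 (e.trans (one_mul d).symm))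
    rw [Subgroup.card_map_of_injective fun k l e => Units.ext (sq_mul_sg_inj (by rw [← hφ, e, hφ])),
      Finset.card_erase_of_mem (by simp), ← Fintype.card_subtype, ← Nat.card_eq_fintype_card, ← card_reeZ] at d1
    have d2 := Subgroup.card_subgroup_dvd_card T
    rw [Nat.card_units] at d2
    have d3 := card_le_of_fib (Bo K ⊓ M) (Uo K) (fun g (k : T) => ∃ a b c, g = u a b c * h k.1) (by
      rintro _ ⟨⟨a, b, c, k, rfl⟩, h1⟩
      exact ⟨⟨k, a, b, c, h1⟩, a, b, c, rfl⟩) (by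
      rintro _ _ k ⟨a, b, c, rfl⟩ ⟨d, e, f, rfl⟩
      have := nU _ ((Bo K).inv_mem (h_mem_Bo k.1)) _ ((Uo K).mul_mem ((Uo K).inv_mem (u_mem_Uo a b c))
        (u_mem_Uo d e f))
      simpa [mul_assoc] using this)
    replace d3 := d3.trans (Nat.mul_le_mul_left _ (Subgroup.card_le_of_le
      (show Uo K ⊓ (Bo K ⊓ M) ≤ Uo K ⊓ M from fun _ h => ⟨h.1, h.2.2⟩)))
    have d4 := orb_stab (Bo K) ω Finset.univ fun y => by simpa using trB _ y
    obtain ⟨c, -, d5⟩ := hT.count_sub nZ (nt _ nZ) ω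
    have d6 := H7.ob_mul (Uo K) ω
    have d7 := H7.ob_mul (reeZ K) ω
    have d8 := (nt _ nU).card_eq ω
    rw [cU] at d6
    rw [cZ] at d7
    rw [Finset.card_univ, ← Nat.card_eq_fintype_card, card_Bo, ← d8, ← d6] at d4
    rw [index_Bo, ← d8, mul_comm _ (H7.ob _ _)] at d5
    have d9 : Nat.card K - 1 ≤ Nat.card (orbitRel.Quotient (Uo K) Ω) * Nat.card T := by
      refine Nat.le_of_mul_le_mul_left (c := Nat.card K ^ 3) ?_ (by positivity)
      rw [← d6, ← d4]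
      calc _ ≤ _ := Nat.mul_le_mul_left _ d3
        _ = _ := by ring
    obtain ⟨f1, f2, f3⟩ := ree_num d5 d6 d7 (by have := H7.ob_pos (reeZ K) ω; omega) (ree_pair hz) d1 d2 d9
      (by omega) (Nat.pos_of_ne_zero fun e => by rw [e] at d9; omega)
    refine ⟨fun c hc => ?_, fun k => ?_, ?_⟩
    · have : u 0 0 c ∈ reeZ K ⊓ M := ⟨⟨c, rfl⟩, hc⟩
      rw [Subgroup.card_eq_one.1 f1, Subgroup.mem_bot, u_eq_one] at this
      exact this.2.2
    · have : T = ⊤ := Subgroup.eq_top_of_le_card _ (by rwa [f2, one_mul, ← Nat.card_units] at d9)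
      exact (this ▸ Subgroup.mem_top k : k ∈ T)
    · exact (Subgroup.nontrivial_iff_exists_ne_one _).1 (Finite.one_lt_card_iff_nontrivial.1 f3)
  obtain ⟨ω, -⟩ := hT.nt
  obtain ⟨k, hk⟩ := IsCyclic.exists_generator (α := Kˣ)
  have k1 : k ≠ 1 ∧ k ≠ -1 := by
    have : k ^ 2 ≠ 1 := fun e => by
      have := orderOf_le_of_pow_eq_one two_pos e
      rw [orderOf_eq_card_of_forall_mem_zpowers hk, Nat.card_units] at this
      omega
    constructor <;> rintro rfl <;> simp at this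
  obtain ⟨a, b, c, h1⟩ := (key ω).2.1 k
  obtain ⟨d, e, f, h2⟩ := uh_conj k1.1 k1.2 a b c
  set ω' := (u d e f)⁻¹ • ω
  have h3 : ∀ l, h l ∈ stabilizer (ReeG K m) ω' := fun l => by
    obtain ⟨n, rfl⟩ := hk l
    rw [map_zpow]
    refine zpow_mem (show h k • (u d e f)⁻¹ • ω = _ from ?_) n
    rw [eq_inv_smul_iff, ← mul_smul, ← mul_smul, ← h2, h1]
  obtain ⟨h4, -, _, ⟨⟨a, b, c, rfl⟩, h5⟩, h6⟩ := key ω'
  have h7 := pow_mem h5 3
  rw [u_cube] at h7
  obtain rfl : a = 0 := by simpa using h4 _ h7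
  have h8 := Subgroup.mul_mem _ h5 (Subgroup.inv_mem _ (Subgroup.mul_mem _ (mul_mem (h3 (-1)) h5) (h3 (-1))))
  rw [show h (-1) = t K from rfl, t_u_t, neg_zero, u0_inv, u0_mul, add_neg_cancel, neg_neg] at h8
  obtain rfl := eq_zero_of_eq_neg (eq_neg_of_add_eq_zero_left (h4 _ h8))
  exact ree_final (tr ω') h3 h4 (x_mem_of (fun l g hg => mul_mem (mul_mem (h3 l) hg) (inv_mem (h3 l)))
    (fun e => h6 (by rw [e, u_zero])) h5)

/-- Two-transitive actions of the small Ree groups. -/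
theorem pieceR_ree {K : Type} [Field K] [Fintype K] {m : ℕ} (hm : 1 ≤ m) (hK : Fintype.card K = 3 ^ (2 * m + 1))
    {Ω : Type*} [Finite Ω] [MulAction (Lie.twistedG2 K (3 ^ m)) Ω] (h : H7.TT (Lie.twistedG2 K (3 ^ m)) Ω) :
    H7.TTConcl (Lie.twistedG2 K (3 ^ m)) (Nat.card Ω) := by
  have := ReeF.of_fintype hm hK
  have := finite_G K
  have := finite_Pt K
  have hX : H7.TT (ReeG K m) (Pt K) := ⟨⟨_, _, pt_ne_inf 0 0 0⟩, fun a b c d h1 h2 => by
    obtain ⟨g, rfl, rfl⟩ := exists_smul_pair h1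
    obtain ⟨g', rfl, rfl⟩ := exists_smul_pair h2
    exact ⟨g' * g⁻¹, by simp [mul_smul], by simp [mul_smul]⟩⟩
  rcases h.compare hX with tr | ⟨e, -⟩
  · exact (ree_not_trans h tr).elim
  · exact .inr <| .inr <| .inr <| .inr <| .inl ⟨K, _, _, m, hm, hK, ⟨MulEquiv.refl _⟩, by
      rw [e, card_Pt, Nat.card_eq_fintype_card]⟩

end Cfsg.Agent.H5
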