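import Cfsg.Agent.H1.URe

/-! Rank 3 actions of unitary groups: the symplectic subgroup has rank at least four. -/

set_option autoImplicit false
set_option linter.unusedSectionVars false

namespace Cfsg.Agent.H5.UT

open Cfsg.Agent.H1 Cfsg.Agent.H1.UR
open Module H5 Matrix
open scoped Classical

variable {F : Type*} [Field F] {σ : F →+* F} {E : Type*} [AddCommGroup E] [Module F E]
  [FiniteDimensional F E] {B : Sesq σ E} (hB : IsEps B 1) [Fintype F] [Fintype E] {q : ℕ} (hU : UF σ q)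
variable {X : Type*} [MulAction (SUb B) X] [Fintype X] {adj : X → X → Prop} {ω : X}

/-- centres of full transvection groups -/
def SS (x : X) (v : E) : Prop := v ≠ 0 ∧ B v v = 0 ∧ XX hB x v

theorem SS_conj {x : X} {v : E} (g : SUb B) : SS hB (g • x) (suAct B g v) ↔ SS hB x v :=
  ⟨fun h => have hv : B v v = 0 := (suAct_pres g v v).symm.trans h.2.1
    ⟨fun e => h.1 (by rw [e, map_zero]), hv, (XX_conj hB hv g).1 h.2.2⟩,
    fun h => ⟨UR.sa_ne_zero g h.1, UR.sa_iso g h.2.1, (XX_conj hB h.2.1 g).2 h.2.2⟩⟩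

variable {hB} in
theorem SS.map {x : X} {v : E} (h : SS hB x v) {g : SUb B} (hg : g • x = x) : SS hB x (suAct B g v) :=
  hg ▸ (SS_conj hB g).2 h

variable {hB} in
theorem SS.smul {x : X} {v : E} (h : SS hB x v) {c : F} (hc : c ≠ 0) : SS hB x (c • v) :=
  ⟨smul_ne_zero hc h.1, by simp [h.2.1], h.2.2.smul hB h.2.1 c⟩

/-- a form over the fixed field -/
structure SubF (B : Sesq σ E) (V : AddSubgroup E) : Prop where
  real : ∀ r, σ r = r → ∀ x ∈ V, r • x ∈ V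
  alt : ∀ x ∈ V, B x x = 0
  span : ∀ w, (∀ x ∈ V, B x w = 0) → w = 0

/-- projection -/
def pr (B : Sesq σ E) (e f x : E) : E := x - (B x f / B e f) • e - (B x e / B f e) • f

theorem pr_perp {e f x w : E} (h1 : B e w = 0) (h2 : B f w = 0) : B (pr B e f x) w = B x w := by
  simp [pr, h1, h2]

theorem pr_e {e f : E} (x : E) (he : B e e = 0) (h : B f e ≠ 0) : B (pr B e f x) e = 0 := by
  simp [pr, he, h]

theorem pr_f {e f : E} (x : E) (hf : B f f = 0) (h : B e f ≠ 0) : B (pr B e f x) f = 0 := by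
  simp [pr, hf, h]

theorem kill (hσ : ∀ x, σ (σ x) = x) {c κ P R : F} (h1 : P = σ κ * R) (h2 : P = c * κ * R)
    (hc : c * σ c ≠ 1) : P = 0 := by
  by_contra h
  have r0 : R ≠ 0 := fun e => h (by rw [h1, e, mul_zero])
  have k0 : κ ≠ 0 := fun e => h (by rw [h2, e, mul_zero, zero_mul])
  have e1 : σ κ = c * κ := mul_right_cancel₀ r0 (h1.symm.trans h2)
  have e2 := congrArg σ e1
  rw [hσ, map_mul, e1] at e2
  exact hc (mul_right_cancel₀ k0 (by linear_combination -e2))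

theorem two (hσ : ∀ x, σ (σ x) = x) {p p' o : F} (ho : σ o ≠ o) (hp : σ p = -p) (hp' : σ p' = -p')
    (h : p + σ o * p' = 0) : p = 0 ∧ p' = 0 := by
  have e := congrArg σ h
  rw [map_add, map_mul, hσ, hp, hp', map_zero] at e
  have : p' = 0 := mul_left_cancel₀ (sub_ne_zero.2 ho) (by linear_combination h + e)
  exact ⟨by simpa [this] using h, this⟩

variable {V : AddSubgroup E} (hV : SubF B V)

include hB hV in
theorem SubF.skew {x y : E} (hx : x ∈ V) (hy : y ∈ V) : σ (B x y) = -B x y := by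
  have := hV.alt _ (V.add_mem hx hy)
  simp only [map_add, LinearMap.add_apply, hV.alt x hx, hV.alt y hy, hB.herm x y] at this
  linear_combination this

include hB hV in
theorem SubF.pr_mem {e f x : E} (he : e ∈ V) (hf : f ∈ V) (hx : x ∈ V) : pr B e f x ∈ V :=
  V.sub_mem (V.sub_mem hx (hV.real _ (by rw [map_div₀, hV.skew hB hx hf, hV.skew hB he hf, neg_div_neg_eq]) e he))
    (hV.real _ (by rw [map_div₀, hV.skew hB hx he, hV.skew hB hf he, neg_div_neg_eq]) f hf)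

include hV in
theorem SubF.ex {w : E} (hw : w ≠ 0) : ∃ x ∈ V, B x w ≠ 0 := by
  by_contra h
  push Not at h
  exact hw (hV.span w h)

include hB hV in
theorem SubF.partner {e : E} (he : e ∈ V) (e0 : e ≠ 0) {δ : F} (hδ : σ δ = -δ) : ∃ f ∈ V, B f e = δ := by
  obtain ⟨x, hx, h⟩ := hV.ex e0
  exact ⟨_, hV.real (δ / B x e) (by rw [map_div₀, hδ, hV.skew hB hx he, neg_div_neg_eq]) x hx, by simp [h]⟩

include hB hV in
theorem SubF.frame (hn : 3 ≤ finrank F E) {δ : F} (hδ : σ δ = -δ) (δ0 : δ ≠ 0) :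
    ∃ e₁ ∈ V, ∃ f₁ ∈ V, ∃ e₂ ∈ V, ∃ f₂ ∈ V, B f₁ e₁ = δ ∧ B f₂ e₂ = δ ∧ B e₂ e₁ = 0 ∧ B e₂ f₁ = 0 ∧
      B f₂ e₁ = 0 ∧ B f₂ f₁ = 0 := by
  haveI : Nontrivial E := Module.nontrivial_of_finrank_pos (R := F) (by omega)
  obtain ⟨w, w0⟩ := exists_ne (0 : E)
  obtain ⟨e₁, he₁, h1⟩ := hV.ex w0
  obtain ⟨f₁, hf₁, h2⟩ := hV.partner hB he₁ (by rintro rfl; simp at h1) hδ
  have h2' : B f₁ e₁ ≠ 0 := h2 ▸ δ0
  have h3 : B e₁ f₁ ≠ 0 := fun e => h2' (hB.refl e)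
  have d1 := hB.finrank_perp ((F ∙ e₁) ⊔ (F ∙ f₁))
  have d2 := finrank_two_le (F := F) e₁ f₁
  obtain ⟨z, hz, z0⟩ := Submodule.exists_mem_ne_zero_of_ne_bot (p := perp B ((F ∙ e₁) ⊔ (F ∙ f₁)))
    (fun e => by rw [e, finrank_bot] at d1; omega)
  rw [mem_perp_two] at hz
  obtain ⟨x, hx, h4⟩ := hV.ex z0
  rw [← pr_perp (hB.refl hz.1) (hB.refl hz.2)] at h4
  have m := hV.pr_mem hB he₁ hf₁ hx
  have a1 := pr_e x (hV.alt _ he₁) h2'
  have a2 := pr_f x (hV.alt _ hf₁) h3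
  obtain ⟨y, hy, h5⟩ := hV.partner hB m (fun e => by simp [e] at h4) hδ
  exact ⟨e₁, he₁, f₁, hf₁, _, m, _, hV.pr_mem hB he₁ hf₁ hy, h2,
    (pr_perp (hB.refl a1) (hB.refl a2)).trans h5, a1, a2, pr_e y (hV.alt _ he₁) h2', pr_f y (hV.alt _ hf₁) h3⟩

include hU in
theorem exists_three (hq : 3 ≤ q) : ∃ c : F, σ c = c ∧ c ≠ 0 ∧ c ≠ 1 := by
  have cf := hU.card_fixed
  rw [Nat.card_eq_fintype_card] at cf
  obtain ⟨c₁, c₂, c₃, n1, n2, n3⟩ := (Fintype.two_lt_card_iff (α := {x : F // σ x = x})).1 (by omega)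
  by_contra h
  push Not at h
  have k : ∀ c : {x : F // σ x = x}, c.1 = 0 ∨ c.1 = 1 := fun c => or_iff_not_imp_left.2 (h c.1 c.2)
  rw [Ne, Subtype.ext_iff] at n1 n2 n3
  rcases k c₁ with a | a <;> rcases k c₂ with b | b <;> rcases k c₃ with c | c <;> simp_all

include hU hV in
theorem SubF.false (hs : UR.Sit B adj ω) (hn : 6 ≤ finrank F E) (hq : 3 ≤ q)
    (hS : ∀ v, SS hB ω v ↔ v ≠ 0 ∧ ∃ κ : F, ∃ x ∈ V, v = κ • x) : False := by
  have hσ := hB.invol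
  obtain ⟨o, ho⟩ := hU.exists_ne
  have ho' : σ o - o ≠ 0 := sub_ne_zero.2 ho
  obtain ⟨δ, dδ⟩ : ∃ δ, δ * (σ o - o) = 1 := ⟨_, inv_mul_cancel₀ ho'⟩
  have δ0 : δ ≠ 0 := left_ne_zero_of_mul_eq_one dδ
  have hδ : σ δ = -δ := by
    have := congrArg σ dδ
    rw [map_mul, map_sub, hσ, map_one] at this
    exact mul_right_cancel₀ ho' (by linear_combination dδ - this)
  obtain ⟨e₁, he₁, f₁, hf₁, e₂, he₂, f₂, hf₂, b1, b2, b3, b4, b5, b6⟩ := hV.frame hB (by omega) hδ δ0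
  have b1' : B e₁ f₁ = -δ := by rw [hB.herm, b1, hδ]
  have b2' : B e₂ f₂ = -δ := by rw [hB.herm, b2, hδ]
  have b3' := hB.refl b3
  have b4' := hB.refl b4
  have b5' := hB.refl b5
  have b6' := hB.refl b6
  have a1 := hV.alt _ he₁
  have a2 := hV.alt _ hf₁
  have a3 := hV.alt _ he₂
  have a4 := hV.alt _ hf₂
  have mem : ∀ {x}, x ∈ V → x ≠ 0 → SS hB ω x := fun hx x0 => (hS _).2 ⟨x0, 1, _, hx, (one_smul _ _).symm⟩
  have red : ∀ {g : SUb B} {s : E}, SS hB ω s → SS hB (g⁻¹ • ω) s →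
      ∃ κ₀ : F, ∃ s₀ ∈ V, s = κ₀ • s₀ ∧ ∃ κ : F, ∃ x ∈ V, suAct B g s₀ = κ • x := fun {g s} h1 h2 => by
    rw [← SS_conj hB g, smul_inv_smul] at h2
    obtain ⟨s0, κ₀, s₀, m, rfl⟩ := (hS _).1 h1
    obtain ⟨-, κ, x, hx, e⟩ := (hS _).1 h2
    refine ⟨κ₀, s₀, m, rfl, κ₀⁻¹ * κ, x, hx, ?_⟩
    rw [mul_smul, ← e, map_smul, inv_smul_smul₀ (left_ne_zero_of_smul s0)]
  have back : ∀ {g : SUb B} {s : E}, SS hB ω (suAct B g s) → SS hB (g⁻¹ • ω) s := fun {g s} h => by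
    rwa [← SS_conj hB g, smul_inv_smul]
  -- the first element
  obtain ⟨c, c0, hc⟩ := hU.exists_trace_zero
  have vi : B (e₁ + o • e₂) (e₁ + o • e₂) = 0 := by simp [a1, a3, b3, b3']
  have t1 : ∀ s, SS hB ω s → SS hB ((ut hB (e₁ + o • e₂) c)⁻¹ • ω) s → B s e₁ = 0 := fun s h1 h2 => by
    obtain ⟨κ₀, s, m, rfl, κ, x, hx, e⟩ := red h1 h2
    suffices B s e₁ = 0 by simp [this]
    by_contra hp
    rw [ut_apply hB vi hc] at e
    have k0 : B s (e₁ + o • e₂) ≠ 0 := fun e' =>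
      hp (two hσ ho (hV.skew hB m he₁) (hV.skew hB m he₂) (by simpa using e')).1
    generalize B s (e₁ + o • e₂) = k at e k0
    have p1 := congrArg (fun z => B z e₁) e
    have p2 := congrArg (fun z => B z f₁) e
    have p3 := congrArg (fun z => B z f₂) e
    simp only [map_add, map_smul, LinearMap.add_apply, LinearMap.smul_apply, smul_eq_mul, a1, b3, b1', b4,
      b5', b2', mul_zero, add_zero, zero_add] at p1 p2 p3
    have q1 := congrArg σ p1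
    have q2 := congrArg σ p2
    have q3 := congrArg σ p3
    simp only [map_add, map_mul, map_neg, hδ, hc, hV.skew hB m he₁, hV.skew hB m hf₁, hV.skew hB m hf₂,
      hV.skew hB hx he₁, hV.skew hB hx hf₁, hV.skew hB hx hf₂] at q1 q2 q3
    have x0 : B x e₁ ≠ 0 := fun e' => hp (by rw [p1, e', mul_zero])
    have kr : σ κ = κ := mul_right_cancel₀ x0 (by linear_combination q1 + p1)
    rw [kr] at q2 q3
    have k1 : σ k = -k := mul_left_cancel₀ (mul_ne_zero c0 δ0) (by linear_combination -q2 - p2)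
    rw [k1] at q3
    exact k0 (mul_left_cancel₀ c0 (by linear_combination q3 + p3 - c * k * dδ))
  -- the second element
  obtain ⟨d1, d2⟩ := disjoint_sup_hyp hB (W := ⊥) (by simp) (e := e₁) (f := f₁) (by simp [perp])
    (by simp [perp]) a1 a2 (b1 ▸ δ0)
  obtain ⟨d3, d4⟩ := disjoint_sup_hyp hB d1 (e := e₂) (f := f₂) (by simp [mem_perp_two, b3, b4])
    (by simp [mem_perp_two, b5, b6]) a3 a4 (b2 ▸ δ0)
  have d5 := hB.finrank_perp (((⊥ ⊔ F ∙ e₁) ⊔ F ∙ f₁) ⊔ (F ∙ e₂) ⊔ F ∙ f₂)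
  rw [finrank_bot] at d2
  obtain ⟨y, hy, y0, yi⟩ := exists_iso_vec hB hU (perp B (((⊥ ⊔ F ∙ e₁) ⊔ F ∙ f₁) ⊔ (F ∙ e₂) ⊔ F ∙ f₂))
    (by omega)
  obtain ⟨y', hy', yi', yy⟩ := H1.exists_hyp hB hU d3 hy y0 yi
  simp only [bot_sup_eq, perp_sup, Submodule.mem_inf, mem_perp_one] at hy hy'
  obtain ⟨r, hr, r0, r1⟩ := exists_three hU hq
  obtain ⟨a, ha⟩ := hU.norm_surj hr
  have a0 : a ≠ 0 := by rintro rfl; exact r0 (by simpa using ha.symm)
  have sa : σ a ≠ 0 := (map_ne_zero σ).2 a0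
  obtain ⟨g₂, hg₂⟩ := exists_hy2 hB (e := e₁ + o • e₂) (f := f₂ - o • f₁) vi (by simp [a2, a4, b6, b6'])
    (by simp [b1, b2, b4', b5]; linear_combination dδ) yi yi' yy (by simp [hy]) (by simp [hy]) (by simp [hy'])
    (by simp [hy']) a0 (inv_ne_zero a0) (by rw [map_inv₀]; field_simp)
  have t2 : ∀ s, SS hB ω s → SS hB (g₂⁻¹ • ω) s → B s e₁ = 0 ∧ B s e₂ = 0 ∧ B s f₁ = 0 := fun s h1 h2 => by
    obtain ⟨κ₀, s, m, rfl, κ, x, hx, e⟩ := red h1 h2
    suffices B s e₁ = 0 ∧ B s e₂ = 0 ∧ B s f₁ = 0 by simp [this]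
    rw [hg₂] at e
    have p1 := congrArg (fun z => B z e₁) e
    have p2 := congrArg (fun z => B z e₂) e
    have p3 := congrArg (fun z => B z f₁) e
    have p4 := congrArg (fun z => B z f₂) e
    simp only [map_add, map_sub, map_smul, LinearMap.map_smulₛₗ, LinearMap.add_apply, LinearMap.sub_apply,
      LinearMap.smul_apply, smul_eq_mul, a1, a2, a3, a4, b1, b2, b3, b4, b5, b6, b1', b2', b3', b4', b5', b6',
      hy, hy', mul_zero, add_zero, zero_add, sub_zero, zero_sub] at p1 p2 p3 p4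
    have q1 := congrArg σ (show B s e₁ + o * B s e₂ = κ * (B x e₁ + o * B x e₂) by
      linear_combination p1 + o * p2)
    have q2 := congrArg σ (show B s f₂ - o * B s f₁ = κ * (B x f₂ - o * B x f₁) by
      linear_combination p4 - o * p3)
    simp only [map_add, map_sub, map_mul, hV.skew hB m he₁, hV.skew hB m hf₁, hV.skew hB m hf₂,
      hV.skew hB m he₂, hV.skew hB hx he₁, hV.skew hB hx hf₁, hV.skew hB hx hf₂, hV.skew hB hx he₂] at q1 q2
    have r1' := kill hσ (c := σ a) (κ := κ) (P := B s e₁ + σ o * B s e₂) (R := B x e₁ + σ o * B x e₂)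
      (by linear_combination -q1) (by
        have : (σ a)⁻¹ * (B s e₁ + σ o * B s e₂) = κ * (B x e₁ + σ o * B x e₂) := by
          linear_combination p1 + σ o * p2 - ((σ a)⁻¹ - 1) * (B s e₁ + σ o * B s e₂) * dδ
        rw [mul_assoc, ← this, mul_inv_cancel_left₀ sa]) (by rw [hσ, mul_comm, ha]; exact r1)
    have r2 := kill hσ (c := a⁻¹) (κ := κ) (P := B s f₂ - σ o * B s f₁) (R := B x f₂ - σ o * B x f₁)
      (by linear_combination -q2) (by
        have : a * (B s f₂ - σ o * B s f₁) = κ * (B x f₂ - σ o * B x f₁) := by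
          linear_combination p4 - σ o * p3 - (a - 1) * (B s f₂ - σ o * B s f₁) * dδ
        rw [mul_assoc, ← this, inv_mul_cancel_left₀ a0])
      (by rw [map_inv₀, ← mul_inv, ha]; exact fun e => r1 (inv_eq_one.1 e))
    have r3 := two hσ ho (hV.skew hB m he₁) (hV.skew hB m he₂) r1'
    have r4 := two hσ ho (hV.skew hB m hf₂) (p' := -B s f₁) (by rw [map_neg, hV.skew hB m hf₁])
      (by linear_combination r2)
    exact ⟨r3.1, r3.2, neg_eq_zero.1 r4.2⟩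
  -- the third element
  obtain ⟨ζ, hζ⟩ := hU.exists_prim
  obtain ⟨l, l0, hl⟩ := hU.hilbert90 (b := ζ) (by rw [hU.norm_eq, hζ.pow_eq_one])
  have sl : σ l ≠ 0 := (map_ne_zero σ).2 l0
  obtain ⟨g₃, hg₃⟩ := exists_hy2 hB (e := e₁) (f := δ⁻¹ • f₁) (y := e₂) (y' := δ⁻¹ • f₂) a1 (by simp [a2])
    (by simp [b1, δ0]) a3 (by simp [a4]) (by simp [b2, δ0]) b3 (by simp [b4]) (by simp [b5]) (by simp [b6])
    l0 (inv_ne_zero l0) (by rw [map_inv₀]; field_simp)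
  have e0 : e₁ ≠ 0 := by rintro rfl; exact δ0 (by simpa using b1.symm)
  have f0 : f₁ ≠ 0 := by rintro rfl; exact δ0 (by simpa using b1.symm)
  have e0' : e₂ ≠ 0 := by rintro rfl; exact δ0 (by simpa using b2.symm)
  have f0' : f₂ ≠ 0 := by rintro rfl; exact δ0 (by simpa using b2.symm)
  have t3 : ∀ w, (∀ s, SS hB ω s → SS hB (g₃⁻¹ • ω) s → B s w = 0) → w = 0 := fun w hw => by
    have u : ∀ s ∈ V, s ≠ 0 → ∀ k : F, k ≠ 0 → suAct B g₃ s = k • s → B s w = 0 := fun s hs s0 k k0 e =>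
      hw s (mem hs s0) (back (e ▸ (mem hs s0).smul k0))
    have u1 := u _ he₁ e0 l l0 (by rw [hg₃]; simp [a1, b1', b3', b5', hδ, δ0]; module)
    have u2 := u _ hf₁ f0 _ (inv_ne_zero sl) (by
      rw [hg₃]; simp only [LinearMap.map_smulₛₗ, a2, b1, b4', b6', smul_eq_mul, smul_smul, mul_zero, zero_mul,
        zero_smul, add_zero]
      match_scalars; field_simp; ring)
    have u3 := u _ he₂ e0' _ (inv_ne_zero l0) (by rw [hg₃]; simp [a3, b2', b3, b4, hδ, δ0]; module)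
    have u4 := u _ hf₂ f0' _ sl (by
      rw [hg₃]; simp only [LinearMap.map_smulₛₗ, a4, b2, b5, b6, smul_eq_mul, smul_smul, map_inv₀, inv_inv,
        mul_zero, zero_mul, zero_smul, add_zero]
      match_scalars; field_simp; ring)
    refine hV.span w fun x hx => ?_
    rw [← pr_perp u1 u2, ← pr_perp u3 u4]
    by_cases z : pr B e₂ f₂ (pr B e₁ f₁ x) = 0
    · simp [z]
    refine u _ (hV.pr_mem hB he₂ hf₂ (hV.pr_mem hB he₁ hf₁ hx)) z 1 one_ne_zero ?_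
    rw [hg₃]
    simp [pr_perp b3 b5, pr_perp b4 b6, pr_e _ a1 (b1 ▸ δ0), pr_f _ a2 (b1' ▸ neg_ne_zero.2 δ0),
      pr_e _ a3 (b2 ▸ δ0), pr_f _ a4 (b2' ▸ neg_ne_zero.2 δ0)]
  have n3 : ω ≠ g₃⁻¹ • ω := fun e => by
    have h1 : SS hB ω (e₁ + e₂) := mem (V.add_mem he₁ he₂) fun e => δ0 (by
      simpa [b1', b4] using congrArg (fun z => B z f₁) e)
    obtain ⟨-, κ, x, hx, e'⟩ := (hS _).1 (h1.map (inv_smul_eq_iff.1 e.symm).symm)
    rw [hg₃] at e'
    have p1 := congrArg (fun z => B z f₁) e'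
    have p2 := congrArg (fun z => B z f₂) e'
    simp [a1, a3, b1', b2', b3, b4, b3', b5', hδ, δ0] at p1 p2
    have q1 : l * l * B x f₂ = B x f₁ := by
      apply mul_left_cancel₀ δ0
      have := mul_inv_cancel₀ l0
      linear_combination -l * B x f₂ * p1 + l * B x f₁ * p2 + δ * B x f₁ * this
    have q2 := congrArg σ q1
    simp only [map_mul, hV.skew hB hx hf₁, hV.skew hB hx hf₂] at q2
    have x0 : B x f₂ ≠ 0 := fun e => mul_ne_zero (inv_ne_zero l0) δ0 (by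
      rw [e] at p2; linear_combination -p2)
    have q3 : l * l = σ l * σ l := mul_right_cancel₀ x0 (by linear_combination q1 + q2)
    have q4 : ζ ^ 2 = 1 := mul_left_cancel₀ (mul_ne_zero sl sl) (by
      linear_combination q3 - (l + σ l * ζ) * hl)
    have := Nat.le_of_dvd two_pos (hζ.dvd_of_pow_eq_one 2 q4)
    omega
  have n1 : ω ≠ (ut hB (e₁ + o • e₂) c)⁻¹ • ω := fun e => δ0 (b1 ▸ t1 _ (mem hf₁ f0) (e ▸ mem hf₁ f0))
  have n2 : ω ≠ g₂⁻¹ • ω := fun e => δ0 (b1 ▸ (t2 _ (mem hf₁ f0) (e ▸ mem hf₁ f0)).1)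
  have fin : ∀ (a : SUb B) (x : X), a • ω = ω → a • x = g₃⁻¹ • ω →
      (∀ s, SS hB ω s → SS hB x s → B s e₁ = 0) → False := fun a x e e' h =>
    UR.sa_ne_zero a e0 (t3 _ fun s h1 h2 => by
      rw [UR.sa_right]
      rw [← UR.sa_app_inv a s] at h1 h2
      exact h _ ((SS_conj hB a).1 (e.symm ▸ h1)) ((SS_conj hB a).1 (e'.symm ▸ h2)))
  rcases hs.rk.three ω n1 n2 n3 with ⟨a, e, e'⟩ | ⟨a, e, e'⟩ | ⟨a, e, e'⟩
  · have fx : ∀ s, B s e₁ = 0 → B s e₂ = 0 → SS hB ω s → SS hB ((ut hB (e₁ + o • e₂) c)⁻¹ • ω) s :=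
      fun s h1 h2 h3 => back (by rw [ut_apply hB vi hc]; simpa [h1, h2] using h3)
    have sub : (Finset.univ.filter fun s => SS hB ω s ∧ SS hB (g₂⁻¹ • ω) s) ⊆
        Finset.univ.filter fun s => SS hB ω s ∧ SS hB ((ut hB (e₁ + o • e₂) c)⁻¹ • ω) s := fun s h => by
      obtain ⟨h1, h2⟩ := (Finset.mem_filter.1 h).2
      exact Finset.mem_filter.2 ⟨Finset.mem_univ _, h1, fx s (t2 s h1 h2).1 (t2 s h1 h2).2.1 h1⟩
    have eq := Finset.eq_of_subset_of_card_le sub (Finset.card_le_card_of_injOn (suAct B a)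
      (fun s h => by
        obtain ⟨h1, h2⟩ := (Finset.mem_filter.1 h).2
        exact Finset.mem_filter.2 ⟨Finset.mem_univ _, h1.map e, e' ▸ (SS_conj hB a).2 h2⟩)
      (UR.sa_inj a).injOn)
    have m : e₁ ∈ Finset.univ.filter fun s => SS hB ω s ∧ SS hB (g₂⁻¹ • ω) s :=
      eq ▸ Finset.mem_filter.2 ⟨Finset.mem_univ _, mem he₁ e0, fx _ a1 b3' (mem he₁ e0)⟩
    obtain ⟨h1, h2⟩ := (Finset.mem_filter.1 m).2
    exact δ0 (neg_eq_zero.1 (b1' ▸ (t2 _ h1 h2).2.2))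
  · exact fin a _ e e' t1
  · exact fin a _ e e' fun s h1 h2 => (t2 s h1 h2).1

end Cfsg.Agent.H5.UT
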