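import Cfsg.Agent.H1.URe

/-! Rank 3 actions of unitary groups: reduction of the statement to the abstract situation. -/

set_option autoImplicit false
set_option linter.unusedSectionVars false

namespace Cfsg.Agent.H5.UZ

open Cfsg.Agent.H1 Cfsg.Agent.H1.UR
open Module H5
open scoped Classical

variable {F : Type*} [Field F] {σ : F →+* F} {E : Type*} [AddCommGroup E] [Module F E]
  [FiniteDimensional F E] {B : Sesq σ E} (hB : IsEps B 1) [Fintype F] {q : ℕ} (hU : UF σ q)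

include hB hU in
theorem scalar_of_center (h4 : 4 ≤ finrank F E) {g : SUb B} (hg : g ∈ Subgroup.center (SUb B)) :
    ∃ c : F, ∀ v, suAct B g v = c • v := by
  obtain ⟨c, hc⟩ := LinearMap.exists_eq_smul_id_of_forall_notLinearIndependent (f := suAct B g) fun v h => by
    obtain ⟨d, hd⟩ := Submodule.mem_span_singleton.1 (center_mem_span hB hU h4 hg (v := v) (h.ne_zero 0))
    exact one_ne_zero ((LinearIndependent.pair_iff.1 h) (-d) 1 (by rw [neg_smul, hd, one_smul, neg_add_cancel])).2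
  exact ⟨c, fun v => by rw [hc]; rfl⟩

include hB hU in
theorem exists_invol (h4 : 4 ≤ finrank F E) :
    ∃ t : SUb B, t * t = 1 ∧ ∀ c : F, ¬ ∀ v, suAct B t v = c • v := by
  obtain ⟨e, -, e0, he⟩ := exists_iso_vec hB hU ⊤ (by rw [finrank_top]; omega)
  obtain ⟨f, -, hf, hfe⟩ := H1.exists_hyp hB hU (W := ⊥) (by simp) (e := e) (by simp [perp]) e0 he
  have hef : B e f = 1 := by rw [hB.herm, hfe, map_one]
  by_cases h2 : (2 : F) = 0
  · obtain ⟨c, c0, hc⟩ := hU.exists_trace_zero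
    refine ⟨ut hB e c, by rw [ut_mul hB he hc hc, ← two_mul, h2, zero_mul, ut_zero hB he], fun d h => ?_⟩
    have h1 := congrArg (fun z => B z f) (h f)
    simp [ut_apply hB he hc, hf, hfe, hef, c0] at h1
  · obtain ⟨d1, d2⟩ := disjoint_sup_hyp hB (W := ⊥) (by simp) (e := e) (f := f) (by simp [perp])
      (by simp [perp]) he hf (by simp [hfe])
    have d3 := hB.finrank_perp ((⊥ ⊔ F ∙ e) ⊔ F ∙ f)
    rw [finrank_bot] at d2
    obtain ⟨y, hy, y0, yi⟩ := exists_iso_vec hB hU (perp B ((⊥ ⊔ F ∙ e) ⊔ F ∙ f)) (by omega)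
    obtain ⟨y', hy', yi', yy⟩ := H1.exists_hyp hB hU d1 hy y0 yi
    simp only [bot_sup_eq, mem_perp_two] at hy hy'
    obtain ⟨g, hg⟩ := exists_hy2 hB he hf hfe yi yi' yy hy.1 hy.2 hy'.1 hy'.2 (a := -1) (b := 1) (by simp)
      one_ne_zero (by simp)
    simp only [map_neg, map_one, inv_neg, inv_one, sub_self, zero_mul, zero_smul, add_zero] at hg
    refine ⟨g, su_ext fun z => ?_, fun d h => ?_⟩
    · rw [UR.sa_mul, UR.sa_one, hg, hg]
      simp only [map_add, map_smul, LinearMap.add_apply, LinearMap.smul_apply, smul_eq_mul, he, hf, hfe, hef]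
      module
    · have h1 := congrArg (fun z => B z f) (h e)
      have h3 := congrArg (fun z => B z y') (h y)
      have : B y y' = 1 := by rw [hB.herm, yy, map_one]
      simp [hg, he, hef, hy.1, hy.2, this] at h1 h3
      exact h2 (by linear_combination -h1 + h3)

theorem conv {N n q k : ℕ} (hq : 1 ≤ q) (hn : n = k + 6)
    (h : (N : ℝ) * ((-(q : ℝ)) ^ 2 - 1) = -((-(q : ℝ)) ^ (k + 6) - 1) * ((-(q : ℝ)) ^ (k + 5) - 1)) :
    (Even n → N * (q ^ 2 - 1) = (q ^ n - 1) * (q ^ (n - 1) + 1)) ∧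
    (Odd n → N * (q ^ 2 - 1) = (q ^ n + 1) * (q ^ (n - 1) - 1)) := by
  subst hn
  have h1 : ∀ j, 1 ≤ q ^ j := fun j => Nat.one_le_pow j q hq
  refine ⟨fun he => ?_, fun ho => ?_⟩
  · have ho : Odd (k + 5) := by simpa [parity_simps] using he
    rw [he.neg_pow, ho.neg_pow, neg_sq] at h
    have : ((N * (q ^ 2 - 1) : ℕ) : ℝ) = ((q ^ (k + 6) - 1) * (q ^ (k + 5) + 1) : ℕ) := by
      push_cast [h1]; linear_combination h
    exact_mod_cast this
  · have he : Even (k + 5) := by simpa [parity_simps] using ho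
    rw [he.neg_pow, ho.neg_pow, neg_sq] at h
    have : ((N * (q ^ 2 - 1) : ℕ) : ℝ) = ((q ^ (k + 6) + 1) * (q ^ (k + 5) - 1) : ℕ) := by
      push_cast [h1]; linear_combination h
    exact_mod_cast this

theorem top {G X : Type*} [Group G] [Finite G] [MulAction G X] [FaithfulSMul G X] [Fintype X] (n q : ℕ)
    (hn : 6 ≤ n) (hq : 3 ≤ q) (hF : Fintype.card F = q ^ 2) (e : G ≃* Cfsg.PSU n F q)
    (hprim : MulAction.IsPreprimitive G X) (x : X)
    (h3 : Nat.card (MulAction.orbitRel.Quotient ↥(MulAction.stabilizer G x) X) = 3)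
    (main : ∀ {σ : F →+* F} (_ : UF σ q) (_ : IsEps (stdU (Fin n) σ) 1) [MulAction (SUb (stdU (Fin n) σ)) X]
      {adj : X → X → Prop}, UR.Sit (stdU (Fin n) σ) adj x → ∀ k, finrank F (Fin n → F) = k + 6 →
      (Fintype.card X : ℝ) * ((-(q : ℝ)) ^ 2 - 1) = -((-(q : ℝ)) ^ (k + 6) - 1) * ((-(q : ℝ)) ^ (k + 5) - 1)) :
    (Even n → Fintype.card X * (q ^ 2 - 1) = (q ^ n - 1) * (q ^ (n - 1) + 1)) ∧
    (Odd n → Fintype.card X * (q ^ 2 - 1) = (q ^ n + 1) * (q ^ (n - 1) - 1)) := by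
  have hU := uf_frob hF
  obtain ⟨ε⟩ := exists_su_equiv hU n
  have hB := hU.isEps_std (Fin n)
  have hd : finrank F (Fin n → F) = n := by simp
  let φ : SUb (stdU (Fin n) (frob hF)) →* G := e.symm.toMonoidHom.comp
    ((QuotientGroup.mk' _).comp ε.toMonoidHom)
  have hφ : Function.Surjective φ :=
    e.symm.surjective.comp ((QuotientGroup.mk'_surjective _).comp ε.surjective)
  have ker : ∀ g, φ g = 1 ↔ g ∈ Subgroup.center _ := fun g => by
    refine (map_eq_one_iff _ e.symm.injective).trans ((QuotientGroup.eq_one_iff _).trans ?_)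
    rw [Subgroup.mem_center_iff, Subgroup.mem_center_iff]
    refine ⟨fun h a => ε.injective (by rw [map_mul, map_mul]; exact h _), fun h a => ?_⟩
    obtain ⟨a, rfl⟩ := ε.surjective a
    exact (map_mul ε a g).symm.trans ((congrArg ε (h a)).trans (map_mul ε g a))
  obtain ⟨t, tt, ht⟩ := exists_invol hB hU (by omega)
  obtain ⟨y, hy⟩ : ∃ y : X, φ t • y ≠ y := by
    by_contra hc
    push Not at hc
    obtain ⟨c, h⟩ := scalar_of_center hB hU (by omega)
      ((ker t).1 (eq_of_smul_eq_smul (α := X) fun y => by rw [hc, one_smul]))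
    exact ht c h
  obtain ⟨adj, h⟩ := exists_rk3 hprim x h3 (t := φ t) (by rw [← map_mul, tt, map_one]) hy
  letI := MulAction.compHom X φ
  refine conv (k := n - 6) (by omega) (by omega) (main hU hB (adj := adj) ⟨⟨h.symm, h.irrefl,
    fun g => h.inv (φ g), fun a b => ?_, fun a b c d => ?_, fun a b => ?_, h.conn, h.coconn⟩,
    fun g c hc z => ?_, fun g hg => scalar_of_center hB hU (by omega) ((ker g).1 ?_)⟩ _ (by omega))
  · obtain ⟨g, hg⟩ := h.tE a b
    obtain ⟨g, rfl⟩ := hφ g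
    exact ⟨g, hg⟩
  · obtain ⟨g, hg⟩ := h.tN a b c d
    obtain ⟨g, rfl⟩ := hφ g
    exact ⟨g, hg⟩
  · obtain ⟨g, hg⟩ := h.tr a b
    obtain ⟨g, rfl⟩ := hφ g
    exact ⟨g, hg⟩
  · change φ g • z = z
    rw [(ker g).2 (Subgroup.mem_center_iff.2 fun a => su_ext fun v => by
      rw [UR.sa_mul, UR.sa_mul, hc, hc, map_smul]), one_smul]
  · exact eq_of_smul_eq_smul (α := X) fun y => by rw [one_smul]; exact hg y

end Cfsg.Agent.H5.UZ
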